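import Mathlib
import Cfsg.Agent.KSG.AutOrth15
import Cfsg.Agent.KSG.SimMatrix
import Cfsg.Agent.Class.Wall.Adj

/-!
Centralisers of semisimple isometries of odd order cover the diagonal part of the outer
automorphism group.
-/

set_option autoImplicit false

namespace Cfsg.Agent.KSG

open Cfsg.Agent.Class.Orth QuadraticMap Module SS

variable {F V : Type*} [Field F] [AddCommGroup V] [Module F V] {Q : QuadraticForm F V}

theorem isUnit_idem_comb {R : Type*} [CommRing R] {e a a' b : R} (he : IsIdempotentElem e)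
    (ha : e * (a * a') = e) (hb : IsUnit b) : IsUnit (e * a + (1 - e) * b) := by
  obtain ⟨b', hb'⟩ := hb.exists_right_inv
  refine IsUnit.of_mul_eq_one (e * a' + (1 - e) * b') ?_
  have h := he.eq
  linear_combination e * ha + (1 - e) * (1 - e) * hb' + (2 - a * b' - b * a') * h

theorem exists_unit_add_conj {R : Type*} [CommRing R] [Finite R] (σ : R →+* R)
    (hσ : ∀ a, σ (σ a) = a) {y g : R} (hy : IsUnit y) (hg : g * σ g = 1) (h1 : IsUnit (g - σ g))
    (h2 : IsUnit (g + σ g)) (h3 : IsUnit (2 : R)) :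
    ∃ v, IsUnit v ∧ IsUnit (v + σ v) ∧ IsUnit (y * v + σ (y * v)) := by
  obtain ⟨n, hn, he⟩ := Class.Wall.exists_pow_isIdempotentElem (y + σ y)
  obtain ⟨n, rfl⟩ := Nat.exists_eq_add_one_of_ne_zero hn.ne'
  set s := y + σ y with hs
  set e := s ^ (n + 1) with he'
  have h4 : σ e = e := by rw [he', map_pow, hs, map_add, hσ, add_comm]
  obtain ⟨t, ht⟩ := h3.exists_right_inv
  refine ⟨e * 1 + (1 - e) * g, isUnit_idem_comb he (a' := 1) (by simp)
    (IsUnit.of_mul_eq_one _ hg), ?_, ?_⟩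
  · convert isUnit_idem_comb he (a := 2) (a' := t) (by rw [ht, mul_one]) h2 using 1
    simp only [map_add, map_mul, map_sub, map_one, h4]; ring
  · have h5 : IsNilpotent ((1 - e) * s * σ g) := ⟨n + 1, by
      rw [mul_pow, mul_pow, ← he', pow_succ, mul_assoc _ (1 - e), sub_mul, one_mul, he.eq, sub_self,
        mul_zero, zero_mul]⟩
    convert h5.isUnit_add_left_of_commute (isUnit_idem_comb he (a := s) (a' := s ^ n)
      (by rw [← pow_succ', ← he', he.eq]) (hy.mul h1)) (Commute.all _ _) using 1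
    simp only [map_add, map_mul, map_sub, map_one, h4, hs]; ring

theorem exists_commute_det [Finite F] [FiniteDimensional F V] [Nontrivial V] {g : End F V}
    {P : Polynomial F} (hP : Squarefree P) (hg : Polynomial.aeval g P = 0) (d : F) :
    ∃ t, Commute g t ∧ LinearMap.det t = d := by
  classical
  obtain ⟨k, c, hc, ⟨e, he⟩, h⟩ := exists_sim_cycEnd_elemDiv g
  have : Nonempty (Fin k) := by
    by_contra h0
    rw [not_nonempty_iff] at h0
    exact not_subsingleton V e.toEquiv.subsingleton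
  obtain ⟨i⟩ := this
  have := Fact.mk ((hc i).irreducible_of_dvd_squarefree hP
    ((aeval_eq_zero_iff_elemDiv g P).1 hg _ (h ▸ Multiset.mem_map_of_mem _ (Finset.mem_univ i))))
  have := (hc i).monic.finite_adjoinRoot
  have : Finite (AdjoinRoot (c i)) := Module.finite_of_finite F
  obtain ⟨x, hx⟩ := FiniteField.norm_surjective F (AdjoinRoot (c i)) d
  refine ⟨e.symm.conj (cycMul c (Pi.mulSingle i x)), LinearMap.ext fun v => e.injective ?_, ?_⟩
  · simp only [End.mul_apply, LinearMap.comp_apply, LinearEquiv.conj_apply, LinearEquiv.coe_coe,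
      LinearEquiv.symm_symm, LinearEquiv.apply_symm_apply, he]
    exact (LinearMap.congr_fun (cycMul_commute c _).eq (e v)).symm
  · rw [LinearEquiv.conj_apply, LinearMap.comp_assoc, LinearMap.det_conj,
      det_cycMul c fun i => (hc i).monic, Finset.prod_eq_single i]
    · simp [hx]
    · intro j _ hj
      simp [Pi.mulSingle_eq_of_ne hj]
    · simp

variable (Q) in
/-- the endomorphism underlying an isometry -/
def oE : OG Q →* End F V where
  toFun g := g.1.toLinearMap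
  map_one' := rfl
  map_mul' _ _ := rfl

theorem oE_apply (g : OG Q) (v : V) : oE Q g v = g.1 v := rfl

theorem oE_injective : Function.Injective (oE Q) := fun _ _ h => OG.ext (LinearMap.congr_fun h)

section Semi

variable [FiniteDimensional F V] (hQ : ND Q)
include hQ

omit [FiniteDimensional F V] in
theorem ND.herm : Class.Wall.Herm (RingHom.id F) 1 (polarBilin Q) :=
  ⟨⟨fun _ => rfl, hQ, fun y h => hQ y fun x => by rw [polar_comm]; exact h x⟩,
    fun x y => by simp [polar_comm Q x y]⟩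

omit [FiniteDimensional F V] in
theorem det_polar_ne_zero {ι : Type*} [Fintype ι] [DecidableEq ι] (b : Basis ι F V) :
    (LinearMap.BilinForm.toMatrix b (polarBilin Q)).det ≠ 0 :=
  (LinearMap.BilinForm.nondegenerate_iff_det_ne_zero b).1 ((nd_iff Q).1 hQ)

theorem det_adj (f : End F V) : LinearMap.det ((ND.herm hQ).adj f) = LinearMap.det f := by
  classical
  let b := Module.finBasis F V
  have h1 : LinearMap.BilinForm.compLeft (polarBilin Q) ((ND.herm hQ).adj f) =
      LinearMap.BilinForm.compRight (polarBilin Q) f := by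
    ext v w
    exact (ND.herm hQ).adj_apply f v w
  have h2 := congrArg (fun B => (LinearMap.BilinForm.toMatrix b B).det) h1
  simp only [LinearMap.BilinForm.toMatrix_compLeft, LinearMap.BilinForm.toMatrix_compRight,
    Matrix.det_mul, Matrix.det_transpose, LinearMap.det_toMatrix] at h2
  exact mul_left_cancel₀ (det_polar_ne_zero hQ b) ((mul_comm _ _).trans h2)

theorem spinor_eq_det_sub (hR : ReflGen Q) {ι : Type*} [Fintype ι] [DecidableEq ι] (b : Basis ι F V)
    {g : OG Q} {f : End F V} (hf : ∀ v, f v = v - g.1 v) (hu : LinearMap.det f ≠ 0) :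
    spinor hQ hR g =
      sqClass ((LinearMap.BilinForm.toMatrix b (polarBilin Q)).det * LinearMap.det f) := by
  have hi := (End.isUnit_iff _).1 ((LinearMap.isUnit_iff_isUnit_det f).2 hu.isUnit)
  have li : LinearIndependent F fun i => b i - g.1 (b i) := by
    simp only [← hf]
    exact b.linearIndependent.map' f (LinearMap.ker_eq_bot.2 hi.1)
  have := (isWallDisc_of_family g b li fun x => by
    rw [li.span_eq_top_of_card_eq_finrank' (finrank_eq_card_basis b).symm]; trivial).2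
  rw [this.spinor_eq hQ hR, ← LinearMap.det_toMatrix b, ← Matrix.det_mul,
    ← LinearMap.BilinForm.toMatrix_compRight]
  congr 2
  ext i j
  simp [hf, LinearMap.BilinForm.toMatrix_apply]

theorem spinor_eq_det_add (hR : ReflGen Q) (h2 : (2 : F) ≠ 0) (he : Even (finrank F V))
    {g : OG Q} {f : End F V} (hf : ∀ v, f v = v + g.1 v) (hu : LinearMap.det f ≠ 0) :
    spinor hQ hR g = sqClass (LinearMap.det f) := by
  classical
  let b := Module.finBasis F V
  have h0 := det_polar_ne_zero hQ b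
  have e : LinearMap.det ((2 : F) • (1 : End F V)) = 2 ^ finrank F V := by
    rw [LinearMap.det_smul, map_one, mul_one]
  have h1 := spinor_eq_det_sub hQ hR b (g := negOne Q) (f := (2 : F) • 1)
    (fun v => by simp [negOne_apply, two_smul]) (e ▸ pow_ne_zero _ h2)
  have h3 := spinor_eq_det_sub hQ hR b (g := negOne Q * g)
    (fun v => by rw [OG.mul_apply, negOne_apply, hf, sub_neg_eq_add]) hu
  rwa [map_mul, h1, e, sqClass_mul h0 (pow_ne_zero _ h2), sqClass_mul h0 hu, mul_assoc,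
    mul_right_inj, (sqClass_eq_one_iff (pow_ne_zero _ h2)).2 (he.isSquare_pow _), one_mul] at h3

theorem adj_oE (g : OG Q) : (ND.herm hQ).adj (oE Q g) = oE Q g⁻¹ :=
  (ND.herm hQ).adj_eq fun x y => OG.polar_inv_apply_left g x y

theorem exists_SS_of_adj (h2 : (2 : F) ≠ 0) {y : End F V} {c : F} (hc : c ≠ 0)
    (h : (ND.herm hQ).adj y * y = algebraMap F _ c) :
    ∃ x : SS Q, x.σ = 1 ∧ x.c = c ∧ ∀ v, x.T v = y v := by
  have h1 := (ND.herm hQ).adj_mul_eq_iff.1 h
  exact ⟨ofLin (LinearEquiv.ofInjectiveEndo y ((ND.herm hQ).injective_of_mult hc h1)) hc fun v =>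
    mul_left_cancel₀ h2 (by
      have := h1 v v
      simp only [polarBilin_apply_apply, polar_self, nsmul_eq_mul, Nat.cast_ofNat] at this
      rw [mul_left_comm, ← this]; rfl), rfl, rfl, fun _ => rfl⟩

theorem exists_oE_of_adj (h2 : (2 : F) ≠ 0) {y : End F V} (h : (ND.herm hQ).adj y * y = 1) :
    ∃ k, oE Q k = y := by
  obtain ⟨x, h1, h3, h4⟩ := exists_SS_of_adj hQ h2 one_ne_zero (by rwa [map_one])
  obtain ⟨k, rfl⟩ := exists_oO h1 h3
  exact ⟨k, LinearMap.ext h4⟩

variable [Finite F] (h2 : (2 : F) ≠ 0) {g : OG Q} (hu : IsUnit (oE Q g - oE Q g⁻¹))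
include h2 hu

omit [Finite F] in
theorem mem_GOp_of_commute {y : SS Q} (hy : y.σ = 1) (h : Commute y (oO Q g)) : y ∈ GOp Q :=
  mem_GOp_of_skew hQ h2 (A := oE Q g - oE Q g⁻¹) (fun v w => by
    rw [LinearMap.sub_apply, LinearMap.sub_apply, polar_sub_left, polar_sub_right, neg_sub, oE_apply,
      oE_apply, oE_apply, oE_apply, OG.polar_inv_apply_left, ← OG.polar_inv_apply_left g⁻¹, inv_inv])
    ((End.isUnit_iff _).1 hu).1 hy fun v => by
      rw [LinearMap.sub_apply, LinearMap.sub_apply, y.sub]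
      exact congrArg₂ _ (congrArg (fun x : SS Q => x.T v) h.eq)
        (congrArg (fun x : SS Q => x.T v) h.inv_right.eq)

omit [Finite F] in
theorem det_eq_one_of_commute {k : OG Q} (h : Commute (oE Q k) (oE Q g)) : detO Q k = 1 := by
  have := ((mem_GOp_odd h2).1 (mem_GOp_of_commute hQ h2 hu (y := oO Q k) rfl
    (Commute.map (oE_injective (by simpa using h.eq) : k * g = g * k) _))).2
  rwa [det_oO, oO_c, one_pow, Units.val_eq_one] at this

omit h2 in
theorem exists_norm_commute {s : End F V} (hs : IsUnit s) (hs' : (ND.herm hQ).adj s = s)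
    (hc : Commute s (oE Q g)) : ∃ y ∈ Class.Wall.cc {s, oE Q g, oE Q g⁻¹},
      IsUnit y ∧ (ND.herm hQ).adj y * y = s := by
  have := Class.Wall.finite_end (F := F) (V := V)
  have h := (ND.herm hQ).isAnti_adj.exists_norm (ND.herm hQ).adj_adj (ω := oE Q g)
    (by rwa [adj_oE hQ]) (by rw [adj_oE hQ]; exact (Commute.refl g).inv_right.map _) hc hs hs'
  rwa [adj_oE hQ] at h

theorem exists_sim_commute_of_isUnit {μ : F} (hμ : μ ≠ 0) :
    ∃ y ∈ GOp Q, y.c = μ ∧ Commute y (oO Q g) := by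
  obtain ⟨y, hy, -, h⟩ := exists_norm_commute hQ hu (s := algebraMap F _ μ) (hμ.isUnit.map _)
    ((ND.herm hQ).adj_algebraMap μ) (Algebra.commutes _ _)
  obtain ⟨x, h1, h3, h4⟩ := exists_SS_of_adj hQ h2 hμ h
  have h5 : Commute (oE Q g) y := hy _ (by
    rintro s (rfl | rfl | rfl)
    exacts [Algebra.commutes _ _, Commute.refl _, (Commute.refl g).inv_left.map _])
  have h6 : Commute x (oO Q g) := SS.ext (Equiv.ext fun v => by
    simpa [mul_apply, h4, oE_apply] using (LinearMap.congr_fun h5.eq v).symm) (by simp)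
    (by simp [mul_c])
  exact ⟨x, mem_GOp_of_commute hQ h2 hu h1 h6, h3, h6⟩

omit h2 hu [Finite F] in
theorem commute_adj {t : End F V} (h : Commute t (oE Q g)) :
    Commute ((ND.herm hQ).adj t) (oE Q g) := by
  have h1 : Commute t (oE Q g⁻¹) := by
    rw [← MonoidHom.coe_toHomUnits] at h ⊢
    rw [map_inv]; exact h.units_inv_right
  simpa only [adj_oE hQ, inv_inv] using (ND.herm hQ).isAnti_adj.commute h1

theorem spinor_eq_of_mul_adj (he : Even (finrank F V)) {v : End F V} (hv : IsUnit v)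
    (hc : Commute v (oE Q g)) (hs : IsUnit (v + (ND.herm hQ).adj v)) {k : OG Q}
    (hk : oE Q k * (ND.herm hQ).adj v = v) :
    spinor hQ (hQ.reflGen_odd h2) k = sqClass (LinearMap.det v) := by
  have τ := (ND.herm hQ).isAnti_adj
  obtain ⟨y, -, -, h⟩ := exists_norm_commute hQ hu hs
    (by rw [τ.add, (ND.herm hQ).adj_adj, add_comm]) (hc.add_left (commute_adj hQ hc))
  have h1 : LinearMap.det (1 + oE Q k) * LinearMap.det v = LinearMap.det y * LinearMap.det y := by
    rw [← det_adj hQ v, ← map_mul, add_mul, one_mul, hk, add_comm, ← h, map_mul, det_adj hQ]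
  have h3 : LinearMap.det (1 + oE Q k) ≠ 0 := by
    refine left_ne_zero_of_mul (b := LinearMap.det v) ?_
    rw [← det_adj hQ v, ← map_mul, add_mul, one_mul, hk, add_comm]
    exact (hs.map _).ne_zero
  rw [spinor_eq_det_add hQ _ h2 he (f := 1 + oE Q k) (fun _ => rfl) h3,
    sqClass_eq_iff_isSquare h3 (hv.map _).ne_zero, h1]
  exact ⟨_, rfl⟩

theorem exists_spinor_commute_of_isUnit [Nontrivial V] (he : Even (finrank F V))
    (hu' : IsUnit (oE Q g + oE Q g⁻¹)) {P : Polynomial F} (hP : Squarefree P)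
    (hg : Polynomial.aeval (oE Q g) P = 0) :
    ∃ k, Commute k g ∧ detO Q k = 1 ∧ spinor hQ (hQ.reflGen_odd h2) k ≠ 1 := by
  have H := ND.herm hQ
  have τ := H.isAnti_adj
  have := Class.Wall.finite_end (F := F) (V := V)
  obtain ⟨d, hd⟩ := exists_not_isSquare h2
  obtain ⟨t, ht, rfl⟩ := exists_commute_det hP hg d
  have h0 : IsUnit t := (LinearMap.isUnit_iff_isUnit_det t).2
    (Ne.isUnit fun h => hd (h ▸ IsSquare.zero))
  have h1 := (commute_adj hQ ht.symm).mul_left ht.symm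
  obtain ⟨y, hy, ⟨y, rfl⟩, h3⟩ := exists_norm_commute hQ hu ((τ.isUnit h0).mul h0)
    (by rw [τ.mul, H.adj_adj]) h1
  set S : Set (End F V) := {H.adj t * t, oE Q g, oE Q g⁻¹} with hS
  have h4 : ∀ s ∈ S, H.adj s ∈ S := by
    rintro s (rfl | rfl | rfl) <;> simp [hS, τ.mul, H.adj_adj, adj_oE hQ]
  have h5 : ∀ s ∈ S, Commute s (oE Q g) := by
    rintro s (rfl | rfl | rfl)
    exacts [h1, Commute.refl _, (Commute.refl g).inv_left.map _]
  have h6 : ∀ s ∈ S, ∀ t ∈ S, Commute s t := by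
    rintro s hs t' (rfl | rfl | rfl)
    · rcases hs with rfl | rfl | rfl
      exacts [Commute.refl _, h1.symm, by simpa [τ.mul, H.adj_adj, adj_oE hQ] using τ.commute h1.symm]
    · exact h5 s hs
    · simpa [H.adj_adj, adj_oE hQ] using τ.commute (h5 _ (h4 s hs))
  have h7 : ∀ x ∈ Class.Wall.cc S, Commute x (oE Q g) := fun x hx => (hx _ h5).symm
  let _ : CommRing (Class.Wall.cc S) :=
    { (inferInstance : Ring (Class.Wall.cc S)) with
      mul_comm := fun x y => Subtype.ext (Class.Wall.cc_comm h6 x.2 y.2) }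
  have hm : ∀ x : Class.Wall.cc S, H.adj x ∈ Class.Wall.cc S := fun x =>
    τ.map_mem_cc H.adj_bijective h4 x.2
  let σ : Class.Wall.cc S →+* Class.Wall.cc S :=
    { toFun := fun x => ⟨H.adj x, hm x⟩
      map_one' := Subtype.ext τ.one
      map_zero' := Subtype.ext τ.zero
      map_add' := fun x y => Subtype.ext (τ.add x y)
      map_mul' := fun x y => Subtype.ext ((τ.mul x y).trans (Class.Wall.cc_comm h6 (hm y) (hm x))) }
  have hσ : ∀ a, σ (σ a) = a := fun a => Subtype.ext (H.adj_adj a)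
  have key : ∀ v : Class.Wall.cc S, IsUnit v → IsUnit (v + σ v) → ¬ IsSquare (LinearMap.det v.1) →
      ∃ k, Commute k g ∧ detO Q k = 1 ∧ spinor hQ (hQ.reflGen_odd h2) k ≠ 1 := fun v hv hs hn => by
    obtain ⟨w, hw⟩ := hv.exists_right_inv
    have hw' := congrArg σ hw
    rw [map_mul, map_one] at hw'
    obtain ⟨k, hk⟩ := exists_oE_of_adj hQ h2 (y := (v * σ w).1) (congrArg Subtype.val (show
      σ (v * σ w) * (v * σ w) = 1 by
        rw [map_mul, hσ]; linear_combination σ v * σ w * hw + hw'))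
    have hc := hk ▸ h7 _ (v * σ w).2
    refine ⟨k, oE_injective (by simpa using hc.eq), det_eq_one_of_commute hQ h2 hu hc, ?_⟩
    have hv' := hv.map (Class.Wall.cc S).subtype
    rwa [spinor_eq_of_mul_adj hQ h2 hu he hv' (h7 _ v.2) (hs.map (Class.Wall.cc S).subtype)
      (hk ▸ congrArg Subtype.val (show v * σ w * σ v = v by linear_combination v * hw')), Ne,
      sqClass_eq_one_iff (hv'.map _).ne_zero]
  have hgS : oE Q g ∈ Class.Wall.cc S := Class.Wall.subset_cc (by simp [hS])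
  obtain ⟨v, a1, a2, a3⟩ := exists_unit_add_conj σ hσ (y := ⟨y, hy⟩) (g := ⟨_, hgS⟩)
    (Class.Wall.isUnit_subring _ y.isUnit)
    (Subtype.ext (show _ * H.adj _ = 1 by rw [adj_oE hQ, ← map_mul, mul_inv_cancel, map_one]))
    (Class.Wall.isUnit_subring _ (show IsUnit (_ - H.adj _) by rwa [adj_oE hQ]))
    (Class.Wall.isUnit_subring _ (show IsUnit (_ + H.adj _) by rwa [adj_oE hQ]))
    (Class.Wall.isUnit_subring _ (show IsUnit (2 : End F V) by
      simpa [map_ofNat] using h2.isUnit.map (algebraMap F (End F V))))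
  obtain ⟨u, hu1⟩ := exists_oE_of_adj hQ h2 (y := t * ↑y⁻¹) (by
    rw [τ.mul, mul_assoc, ← mul_assoc (H.adj t), ← h3, mul_assoc, Units.mul_inv, mul_one, ← τ.mul,
      Units.mul_inv, τ.one])
  have h8 := det_eq_one_of_commute hQ h2 hu (k := u)
    (hu1 ▸ ht.symm.mul_left (h7 _ hy).units_inv_left)
  have h9 : LinearMap.det (y : End F V) = LinearMap.det t := by
    rw [← y.inv_mul_cancel_right t, ← hu1, map_mul, show LinearMap.det (oE Q u) = detO Q u from
      (coe_detO _).symm, h8, Units.val_one, one_mul]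
  by_cases h : IsSquare (LinearMap.det v.1)
  · refine key _ ((Class.Wall.isUnit_subring _ y.isUnit).mul a1) a3 fun h' => hd ?_
    have h10 := ((a1.map (Class.Wall.cc S).subtype).map LinearMap.det).ne_zero
    simpa [h9, show LinearMap.det v.1 ≠ 0 from h10] using h'.div h
  · exact key v a1 a2 h

end Semi

theorem isUnit_sub_add [FiniteDimensional F V] {g : OG Q} {r : ℕ} (hr : Odd r)
    (hg : g ^ r = 1) (h : ∀ v, g.1 v = v → v = 0) :
    IsUnit (oE Q g - oE Q g⁻¹) ∧ IsUnit (oE Q g + oE Q g⁻¹) := by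
  have key : ∀ (k : ℕ) v, k.Coprime r → (g ^ k).1 v = v → v = 0 := fun k v hk hv => by
    obtain ⟨j, hj⟩ := exists_pow_eq_self_of_coprime (hk.of_dvd_right (orderOf_dvd_of_pow_eq_one hg))
    refine h v ?_
    rw [← hj]
    clear hj
    induction j with
    | zero => rfl
    | succ j ih => rw [pow_succ, OG.mul_apply, hv, ih]
  simp only [LinearMap.isUnit_iff_ker_eq_bot, LinearMap.ker_eq_bot']
  refine ⟨fun v hv => key 2 v (by simpa using hr) ?_, fun v hv => ?_⟩
  · rw [pow_two, OG.mul_apply, show g.1 v = (g⁻¹).1 v from sub_eq_zero.1 hv, OG.apply_inv_apply]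
  · have h1 : (g ^ 2).1 v = -v := by
      rw [pow_two, OG.mul_apply, show g.1 v = -(g⁻¹).1 v from eq_neg_of_add_eq_zero_left hv, map_neg,
        OG.apply_inv_apply]
    exact key (2 * 2) v (Nat.Coprime.mul_left (by simpa using hr) (by simpa using hr)) (by
      rw [pow_mul, pow_two, OG.mul_apply, h1, map_neg, h1, neg_neg])

theorem exists_fix_equiv [FiniteDimensional F V] {g : OG Q} {r : ℕ} (hr : (r : F) ≠ 0)
    (hg : g ^ r = 1) : ∃ (U W : Submodule F V) (e : V ≃ₗ[F] U × W)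
      (he : ∀ v, ((Q.comp U.subtype).prod (Q.comp W.subtype)) (e v) = Q v)
      (k : OG (Q.comp W.subtype)), congr e he (oO Q g) = oO _ (prodHom _ _ (1, k)) ∧
        ∀ w, k.1 w = w → w = 0 := by
  let U := LinearMap.ker (movMap g)
  have hU : ∀ v, v ∈ U ↔ g.1 v = v := fun v => sub_eq_zero.trans eq_comm
  have hd : Disjoint U (mov g) := Submodule.disjoint_def.2 (by
    rintro _ hv ⟨x, rfl⟩
    have h1 : ∀ n : ℕ, x - (g ^ n).1 x = (n : F) • movMap g x := fun n => by
      induction n with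
      | zero => simp
      | succ n ih =>
        rw [pow_succ', OG.mul_apply, Nat.cast_succ, add_smul, one_smul, ← (hU _).1 (U.smul_mem _ hv),
          ← ih, map_sub, movMap_apply]; abel
    have := h1 r
    rw [hg, OG.one_apply, sub_self] at this
    exact (smul_eq_zero.1 this.symm).resolve_left hr)
  obtain ⟨e, he, h⟩ := exists_prod_equiv (Q := Q) (W := U) (W' := mov g)
    ⟨hd, codisjoint_iff.2 (Submodule.eq_top_of_disjoint _ _ (by
      rw [add_comm]; exact (LinearMap.finrank_range_add_finrank_ker _).ge) hd)⟩ (by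
      rintro u hu _ ⟨x, rfl⟩
      rw [movMap_apply, polar_sub_right, ← OG.map_polar g u x, (hU u).1 hu, sub_self])
  have hW : ∀ w ∈ mov g, oE Q g w ∈ mov g := by
    rintro _ ⟨x, rfl⟩
    exact ⟨g.1 x, by simp [movMap_apply, oE_apply]⟩
  refine ⟨U, mov g, e, he, ⟨LinearEquiv.ofInjectiveEndo ((oE Q g).restrict hW) fun a b hab =>
    Subtype.ext (g.1.injective (congrArg Subtype.val hab)), fun v => OG.map_Q g v⟩,
    SS.ext (Equiv.ext fun x => e.symm.injective ?_) rfl rfl, fun w hw => Subtype.ext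
      (Submodule.disjoint_def.1 hd _ ((hU _).2 (congrArg Subtype.val hw)) w.2)⟩
  obtain ⟨v, rfl⟩ := e.surjective x
  rw [congr_T, e.symm_apply_apply, oO_T, oO_T, h]
  conv_lhs => rw [← e.symm_apply_apply v, h, map_add, (hU _).1 (e v).1.2]
  rfl

theorem exists_GOp_c [Finite F] [FiniteDimensional F V] (hQ : ND Q) (h2 : (2 : F) ≠ 0)
    (he : Even (finrank F V)) {μ : F} (hμ : μ ≠ 0) : ∃ y ∈ GOp Q, y.c = μ := by
  obtain ⟨e, h⟩ := Class.QF.exists_equiv_of_isPlus_iff (Q := μ • Q) (Q' := Q)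
    ((nd_iff _).1 (hQ.of_sim (LinearEquiv.refl F V) μ hμ fun _ => rfl)) ((nd_iff _).1 hQ) rfl he
    ⟨fun ⟨U, h1, h3⟩ => ⟨U, fun v hv => by simpa [hμ] using h1 v hv, h3⟩,
      fun ⟨U, h1, h3⟩ => ⟨U, fun v hv => by simp [h1 v hv], h3⟩⟩
  cases subsingleton_or_nontrivial V
  · exact ⟨ofLin e hμ h, (mem_GOp_odd h2).2 ⟨rfl, by
      rw [det_eq_lin rfl, LinearMap.det_eq_one_of_subsingleton, finrank_zero_of_subsingleton]; simp⟩,
      rfl⟩
  obtain ⟨v, hv⟩ := hQ.exists_Q_ne_zero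
  rcases mem_GOp_or hQ (hQ.reflGen_odd h2) he hv (x := ofLin e hμ h) rfl with h1 | h1
  exacts [⟨_, h1, rfl⟩, ⟨_, h1, mul_one μ⟩]

theorem prod_mem_GOp {V' : Type*} [AddCommGroup V'] [Module F V'] {Q' : QuadraticForm F V'}
    [FiniteDimensional F V] [FiniteDimensional F V'] (h2 : (2 : F) ≠ 0) (he : Even (finrank F V))
    {x : SS Q} {y : SS Q'} (hx : x ∈ GOp Q) (hy : y ∈ GOp Q') (hc : y.c = x.c) :
    SS.prod x y (hy.1.trans hx.1.symm) hc ∈ GOp (Q.prod Q') := by
  obtain ⟨a1, a2, -⟩ := hx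
  obtain ⟨b1, b2, -⟩ := hy
  refine (mem_GOp_odd h2).2 ⟨a1, ?_⟩
  rw [det_eq (x := SS.prod x y _ hc) (g := (x.lin a1).toLinearMap.prodMap (y.lin b1).toLinearMap) a1
    fun _ => rfl, LinearMap.det_prodMap, ← det_eq_lin, ← det_eq_lin, finrank_prod,
    Nat.add_div_of_dvd_right he.two_dvd, pow_add]
  exact congrArg₂ _ a2 (b2.trans (congrArg (· ^ _) hc))

theorem exists_commute_diag [Finite F] [FiniteDimensional F V] (hQ : ND Q) (h2 : (2 : F) ≠ 0)
    (he : Even (finrank F V)) {g : OG Q} {r : ℕ} (hr : Odd r) (hr' : (r : F) ≠ 0) (hg : g ^ r = 1)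
    (h1 : g ≠ 1) : (∃ k, Commute k g ∧ detO Q k = 1 ∧ k ∉ commutator (OG Q)) ∧
      ∀ μ ≠ 0, ∃ y ∈ GOp Q, y.c = μ ∧ Commute y (oO Q g) := by
  obtain ⟨U, W, e, hQe, k, h3, h4⟩ := exists_fix_equiv hr' hg
  have hP := hQ.of_sim e 1 one_ne_zero (by simpa only [one_mul] using hQe)
  obtain ⟨hU, hW⟩ := ND.of_prod hP
  have h5 : OG.congr e hQe g = prodHom _ _ (1, k) := oO_injective h3
  have h6 : k ^ r = 1 := congrArg Prod.snd (prodHom_injective (show prodHom _ _
    ((1, k) ^ r : OG (Q.comp U.subtype) × _) = prodHom _ _ 1 by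
      rw [map_pow, ← h5, ← map_pow, hg, map_one, map_one]))
  obtain ⟨u1, u2⟩ := isUnit_sub_add hr h6 h4
  have h7 : Even (finrank F W) := by
    by_contra h
    obtain ⟨μ, hμ⟩ := exists_unit_not_isSquare h2
    obtain ⟨y, hy, h8, -⟩ := exists_sim_commute_of_isUnit hW h2 u1 μ.ne_zero
    exact hμ (h8 ▸ isSquare_c_of_odd hW (Nat.not_even_iff_odd.1 h) hy.1)
  have h8 : Even (finrank F U) := by
    rw [e.finrank_eq, finrank_prod, Nat.even_add] at he
    exact he.2 h7
  have hs : ∀ v, Q (e.symm v) = _ := fun v => by rw [← hQe, e.apply_symm_apply]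
  constructor
  · have : Nontrivial W := not_subsingleton_iff_nontrivial.1 fun _ => h1 ((OG.congr e hQe).injective
      (by rw [h5, show k = 1 from OG.ext fun _ => Subsingleton.elim _ _, map_one]; exact map_one _))
    obtain ⟨z, a1, a2, a3⟩ := exists_spinor_commute_of_isUnit hW h2 u1 h7 u2
      (Polynomial.separable_X_pow_sub_C 1 hr' one_ne_zero).squarefree
      (by rw [map_sub, map_pow, Polynomial.aeval_X, ← map_pow, h6]; simp)
    obtain ⟨w, hw⟩ := (OG.congr e hQe).surjective (prodHom _ _ (1, z))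
    refine ⟨w, (OG.congr e hQe).injective (by
      rw [map_mul, map_mul, hw, h5, ← map_mul, ← map_mul, Prod.mk_mul_mk, Prod.mk_mul_mk, a1.eq]),
      ?_, fun h => a3 ?_⟩
    · have h9 : oO _ (prodHom (Q.comp U.subtype) _ (1, z)) ∈ GOp _ := prod_mem_GOp h2 h8
        (one_mem _) ((mem_GOp_odd h2 (x := oO _ z)).2 ⟨rfl, by simp [det_oO, a2]⟩) rfl
      rw [← hw] at h9
      simpa [det_oO] using ((congr_mem_GOp_iff h2 e hQe (oO Q w)).1 h9).2.1
    · rw [← mem_commutator_equiv (OG.congr e hQe), hw,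
        mem_commutator_iff_det (hU.prod' hW) (hP.reflGen_odd h2) h2,
        spinor_prodHom hU hW (hU.reflGen_odd h2) (hW.reflGen_odd h2), map_one, one_mul] at h
      exact h.2
  · intro μ hμ
    obtain ⟨x, a1, a2⟩ := exists_GOp_c hU h2 h8 hμ
    obtain ⟨y, b1, b2, b3⟩ := exists_sim_commute_of_isUnit hW h2 u1 hμ
    refine ⟨_, (congr_mem_GOp_iff h2 e.symm hs _).2 (prod_mem_GOp h2 h8 a1 b1 (b2.trans a2.symm)),
      a2, ?_⟩
    rw [show oO Q g = congr e.symm hs (oO _ (prodHom _ _ (1, k))) from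
      h3 ▸ SS.ext (Equiv.ext fun v => by simp [SS.congr]) rfl rfl]
    refine Commute.map (SS.ext (Equiv.ext fun v => ?_) (by simp) (by simp [mul_c])) _
    exact Prod.ext rfl (congrArg (fun x : SS _ => x.T v.2) b3.eq)

theorem le_sup_centralizer [Finite F] [FiniteDimensional F V] (hQ : ND Q) (h2 : (2 : F) ≠ 0)
    (he : Even (finrank F V)) {g : OG Q} {r : ℕ} (hr : Odd r) (hr' : (r : F) ≠ 0) (hg : g ^ r = 1)
    (h1 : g ≠ 1) : GOp Q ≤ ZO Q ⊔ Subgroup.centralizer {oO Q g} ∧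
      GOs Q ≤ ZOG Q ⊔ Subgroup.centralizer {oO Q g} := by
  obtain ⟨⟨k, k1, k2, k3⟩, h⟩ := exists_commute_diag hQ h2 he hr hr' hg h1
  obtain ⟨μ, hμ⟩ := exists_unit_not_isSquare h2
  obtain ⟨y, y1, y2, y3⟩ := h μ μ.ne_zero
  have h3 : ZSO Q ≤ ZO Q ⊔ Subgroup.centralizer {oO Q g} := by
    rintro _ ⟨a, s, hs, rfl⟩
    refine mul_mem (Subgroup.mem_sup_left (sO_mem_ZO a)) ?_
    by_cases h4 : s ∈ commutator (OG Q)
    · exact Subgroup.mem_sup_left (oO_mem_ZO_iff.2 (Or.inl h4))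
    rw [← Subgroup.mul_mem_cancel_right _ (Subgroup.mem_sup_right
      (Subgroup.mem_centralizer_singleton_iff.2 (k1.map (oO Q)).eq)), ← map_mul]
    refine Subgroup.mem_sup_left (oO_mem_ZO_iff.2 (Or.inl ?_))
    rw [mem_commutator_iff_det hQ (hQ.reflGen_odd h2) h2] at h4 k3 ⊢
    exact ⟨by rw [map_mul, hs, k2, mul_one], by
      rw [map_mul]; exact sqClass_mul_eq_one_of_ne (fun h => h4 ⟨hs, h⟩) fun h => k3 ⟨k2, h⟩⟩
  have h4 := Subgroup.mem_centralizer_singleton_iff.2 y3.eq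
  refine ⟨fun x hx => ?_, fun x hx => ?_⟩ <;> by_cases h5 : IsSquare x.c
  · exact h3 ((mem_ZSO_iff he h2).2 ⟨hx, h5⟩)
  · exact (Subgroup.mul_mem_cancel_right _ (Subgroup.mem_sup_right (inv_mem h4))).1 (h3
      ((mem_ZSO_iff he h2).2 ⟨mul_mem hx (inv_mem y1), (mul_inv_mem_ZOG hx.1 y1.1 h5 (y2 ▸ hμ)).2⟩))
  · exact Subgroup.mem_sup_left ⟨hx, h5⟩
  · exact (Subgroup.mul_mem_cancel_right _ (Subgroup.mem_sup_right (inv_mem h4))).1
      (Subgroup.mem_sup_left (mul_inv_mem_ZOG hx y1.1 h5 (y2 ▸ hμ)))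

theorem isConjUnder_map_iff {A B : Type*} [Group A] [Group B] (φ : A →* B) {K H : Subgroup A}
    [K.Normal] {x : A} (h1 : K ≤ H) (h2 : H ≤ K ⊔ Subgroup.centralizer {x}) (y : B) :
    IsConjUnder (K.map φ) (φ x) y ↔ IsConjUnder (H.map φ) (φ x) y := by
  refine ⟨fun ⟨a, ha, h⟩ => ⟨a, Subgroup.map_mono h1 ha, h⟩, ?_⟩
  rintro ⟨_, ⟨a, ha, rfl⟩, rfl⟩
  obtain ⟨k, hk, c, hc, rfl⟩ := Subgroup.mem_sup_of_normal_left.1 (h2 ha)
  refine ⟨φ k, ⟨k, hk, rfl⟩, ?_⟩
  rw [← map_mul, mul_assoc k, Subgroup.mem_centralizer_singleton_iff.1 hc]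
  simp [mul_assoc]

namespace OmegaRep

variable {G : Type*} [Group G] (D : OmegaRep Q G) [Finite F] [FiniteDimensional F V] (hQ : ND Q)
  (h5 : 5 ≤ finrank F V)
include hQ h5

theorem exists_oO_of_odd {t : SS Q} (ht : t ∈ GOs Q) {r : ℕ} (hr : Odd r) (h : D.psi t ^ r = 1) :
    ∃ g ∈ commutator (OG Q), g ^ r = 1 ∧ D.psi t = D.psi (oO Q g) := by
  have : Nontrivial V := Module.nontrivial_of_finrank_pos (R := F) (by omega)
  obtain ⟨a, s, hs, h1⟩ := pow_four_mem_ZO hQ h5 ht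
  obtain ⟨j, hj⟩ := exists_pow_eq_self_of_coprime (x := D.psi t) (n := 2 ^ 2)
    (((Nat.coprime_two_left.2 hr).pow_left 2).of_dvd_right (orderOf_dvd_of_pow_eq_one h))
  have h3 : D.psi t = D.psi (oO Q (s ^ j)) := by
    rw [← hj, ← map_pow, show t ^ 2 ^ 2 = _ from h1, map_mul, D.psi_sO, one_mul, map_pow, map_pow]
  obtain ⟨b, hb⟩ := (D.psi_eq_one_iff hQ h5 (oO Q ((s ^ j) ^ r))).1 (by
    rw [map_pow, map_pow, ← h3, h])
  obtain ⟨i, hi⟩ := hr.add_one
  refine ⟨(s ^ j) ^ (r + 1), pow_mem (pow_mem hs _) _, oO_injective ?_, by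
    rw [map_pow, map_pow, ← h3, pow_succ, h, one_mul]⟩
  have h4 : b * b = 1 := Units.ext ((pow_two (b : F)).symm.trans (congrArg SS.c hb).symm)
  rw [← pow_mul, mul_comm, pow_mul, map_pow, hb, ← map_pow, hi, ← two_mul, pow_mul, pow_two, h4,
    one_pow, map_one, map_one]

theorem fusion_semisimple (h2 : (2 : F) ≠ 0) (he : Even (finrank F V))
    {x : MulAut (G ⧸ Subgroup.center G)} {S₁ S₂ S₃ S₄ : Subgroup (MulAut (G ⧸ Subgroup.center G))}
    (h₁ : S₁ = (GOp Q).map D.psi) (h₂ : S₂ = (ZSO Q).map D.psi) (h₃ : S₃ = (ZOG Q).map D.psi)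
    (h₄ : S₄ = (GOs Q).map D.psi) (hx : x ∈ S₄) {r : ℕ} (hr : r.Prime) (ho : Odd r)
    (hr' : (r : F) ≠ 0) (hxr : orderOf x = r) :
    (∀ y, (IsConjUnder (Inn _) x y ↔ IsConjUnder S₁ x y) ∧
      (IsConjUnder S₂ x y ↔ IsConjUnder S₁ x y)) ∧
      ∀ y, IsConjUnder S₃ x y ↔ IsConjUnder S₄ x y := by
  subst h₁ h₂ h₃ h₄
  obtain ⟨t, ht, rfl⟩ := hx
  obtain ⟨g, -, h1, h3⟩ := D.exists_oO_of_odd hQ h5 ht ho (hxr ▸ pow_orderOf_eq_one _)
  obtain ⟨a1, a2⟩ := le_sup_centralizer hQ h2 he ho hr' h1 (by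
    rintro rfl
    rw [h3, map_one, map_one, orderOf_one] at hxr
    exact hr.one_lt.ne hxr)
  rw [h3, D.inn_eq hQ h5]
  exact ⟨fun y => ⟨isConjUnder_map_iff _ (ZO_le_GOp he) a1 y, isConjUnder_map_iff _
    (fun z hz => ((mem_ZSO_iff he h2).1 hz).1) (a1.trans (sup_le_sup_right ZO_le_ZSO _)) y⟩,
    isConjUnder_map_iff _ ZOG_le_GOs a2⟩

end OmegaRep

end Cfsg.Agent.KSG
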