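import Cfsg.Agent.HallSym.Basic
import Cfsg.Agent.PLocal.Amb
import Cfsg.Prelude.Def_TwoFusion

/-!
# Direct decompositions of Sylow 2-subgroups of alternating groups
-/

set_option autoImplicit false

namespace Cfsg.Agent.AltS2

open Equiv Equiv.Perm Finset

variable {α : Type*} [Fintype α] [DecidableEq α] (Q : Sylow 2 (Perm α))

/-- `r` is the restriction of `g` to `U`. -/
def Res (U : α → Prop) (g r : Perm α) : Prop := (∀ x, U x → r x = g x) ∧ ∀ x, ¬ U x → r x = x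

/-- Invariant sets. -/
def Inv (U : α → Prop) : Prop := ∀ q ∈ Q.1, ∀ x, U (q x) ↔ U x

/-- The orbit relation. -/
def O (x y : α) : Prop := ∃ q ∈ Q.1, q x = y

/-- The even part. -/
abbrev Ev : Subgroup (Perm α) := Q.1 ⊓ alternatingGroup α

/-- Permutations supported on `U`. -/
def Sp (U : α → Prop) : Subgroup (Perm α) where
  carrier := {g | ∀ x, ¬ U x → g x = x}
  one_mem' := fun _ _ => rfl
  mul_mem' := fun {a b} ha hb x hx => by rw [mul_apply, hb x hx, ha x hx]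
  inv_mem' := fun {a} ha x hx => by rw [inv_eq_iff_eq, ha x hx]

/-- Central elements of the even part. -/
def Z (c : Perm α) : Prop := c ∈ Ev Q ∧ ∀ p ∈ Ev Q, p * c = c * p

variable {Q}

theorem O.refl (x : α) : O Q x x := ⟨1, one_mem _, rfl⟩
theorem O.symm {x y : α} : O Q x y → O Q y x := fun ⟨q, h, e⟩ => ⟨q⁻¹, inv_mem h, by simp [← e]⟩
theorem O.trans {x y w : α} : O Q x y → O Q y w → O Q x w := fun ⟨q, h, e⟩ ⟨r, k, f⟩ =>
  ⟨r * q, mul_mem k h, by rw [mul_apply, e, f]⟩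
theorem inv_O (x : α) : Inv Q (O Q x) := fun q hq _ =>
  ⟨fun h => h.trans (O.symm ⟨q, hq, rfl⟩), fun h => h.trans ⟨q, hq, rfl⟩⟩
theorem Inv.not {U : α → Prop} (h : Inv Q U) : Inv Q fun x => ¬ U x := fun q hq x =>
  (h q hq x).not

theorem exists_res {U : α → Prop} (hU : Inv Q U) {g : Perm α} (hg : g ∈ Q.1) :
    ∃ r ∈ Q.1, Res U g r := by
  classical
  let T : ∀ V, Inv Q V → Subgroup (Perm α) := fun V hV =>
    { carrier := {g | ∃ q ∈ Q.1, ∀ x, V x → g x = q x}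
      one_mem' := ⟨1, one_mem _, fun _ _ => rfl⟩
      mul_mem' := fun ⟨q, a, b⟩ ⟨r, c, d⟩ => ⟨q * r, mul_mem a c, fun x hx => by
        rw [mul_apply, d x hx, b _ ((hV r c x).2 hx), mul_apply]⟩
      inv_mem' := fun ⟨q, a, b⟩ => ⟨q⁻¹, inv_mem a, fun x hx => by
        rw [inv_eq_iff_eq, b _ ((hV _ (inv_mem a) x).2 hx)]; simp⟩ }
  obtain ⟨k, hk⟩ := Q.isPGroup'.exists_card_eq
  have h1 : ∀ V hV, ∀ g ∈ T V hV, ∀ x, V x → (g ^ 2 ^ k) x = x := fun V hV g ⟨q, a, b⟩ x hx => by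
    have : ∀ n, (g ^ n) x = (q ^ n) x := fun n => by
      induction n with
      | zero => rfl
      | succ n ih => rw [pow_succ', pow_succ', mul_apply, ih, b _ ((hV _ (pow_mem a n) x).2 hx), mul_apply]
    rw [this, ← hk, show q ^ Nat.card Q.1 = 1 from congrArg Subtype.val (pow_card_eq_one' (x := (⟨q, a⟩ : Q.1)))]
    rfl
  have h2 := Q.is_maximal' (Q := T U hU ⊓ T _ hU.not) (fun g => ⟨k, Subtype.ext (Equiv.ext fun x =>
    (em (U x)).elim (h1 _ hU _ g.2.1 x) (h1 _ hU.not _ g.2.2 x))⟩)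
    fun q hq => ⟨⟨q, hq, fun _ _ => rfl⟩, q, hq, fun _ _ => rfl⟩
  have h3 : Res U g (ofSubtype (g.subtypePerm (hU g hg))) :=
    ⟨fun x hx => ofSubtype_subtypePerm_of_mem _ hx, fun x hx => ofSubtype_apply_of_not_mem _ hx⟩
  exact ⟨_, h2.le ⟨⟨g, hg, h3.1⟩, 1, one_mem _, h3.2⟩, h3⟩

omit [Fintype α] [DecidableEq α] in
theorem Res.unique {U : α → Prop} {g r s : Perm α} (h : Res U g r) (k : Res U g s) : r = s :=
  Equiv.ext fun x => (em (U x)).elim (fun e => (h.1 x e).trans (k.1 x e).symm)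
    fun e => (h.2 x e).trans (k.2 x e).symm

theorem Res.mul {U : α → Prop} (hU : Inv Q U) {g r g' r' : Perm α} (h : Res U g r) (hg : g' ∈ Q.1)
    (k : Res U g' r') : Res U (g * g') (r * r') :=
  ⟨fun x hx => by rw [mul_apply, k.1 x hx, h.1 _ ((hU _ hg x).2 hx), mul_apply],
    fun x hx => by rw [mul_apply, k.2 x hx, h.2 x hx]⟩

theorem Res.split {U : α → Prop} (hU : Inv Q U) {g r s : Perm α} (hg : g ∈ Q.1) (h : Res U g r)
    (k : Res (fun x => ¬ U x) g s) : g = r * s := Equiv.ext fun x => by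
  by_cases e : U x
  · rw [mul_apply, k.2 x (not_not.2 e), h.1 x e]
  · rw [mul_apply, k.1 x e, h.2 _ ((hU g hg x).not.2 e)]

theorem mem_of_res (K : Subgroup (Perm α)) (g : Perm α) (hg : g ∈ Q.1)
    (h : ∀ x r, Res (O Q x) g r → r ∈ K) : g ∈ K := by
  induction hn : #g.support using Nat.strong_induction_on generalizing g with
  | _ n ih =>
  by_cases h1 : g = 1
  · exact h1 ▸ one_mem K
  obtain ⟨x, hx⟩ : ∃ x, g x ≠ x := not_forall.1 fun e => h1 (Equiv.ext e)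
  obtain ⟨r, -, hr⟩ := exists_res (inv_O x) hg
  obtain ⟨s, hs, hs'⟩ := exists_res (inv_O x).not hg
  rw [hr.split (inv_O x) hg hs']
  subst hn
  refine mul_mem (h x r hr) (ih _ (card_lt_card ⟨fun y hy => ?_, fun e => ?_⟩) s hs
    (fun y t ht => ?_) rfl)
  · rw [mem_support] at hy ⊢
    rwa [← hs'.1 y fun e => hy (hs'.2 y (not_not.2 e))]
  · exact mem_support.1 (e (mem_support.2 hx)) (hs'.2 x (not_not.2 (O.refl x)))
  by_cases e : O Q x y
  · rw [ht.unique (s := 1) ⟨fun w hw => (hs'.2 w (not_not.2 (e.trans hw))).symm, fun _ _ => rfl⟩]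
    exact one_mem K
  · exact h y t ⟨fun w hw => (ht.1 w hw).trans (hs'.1 w fun f => e (f.trans hw.symm)), ht.2⟩

theorem uniq {x y w : α} (h : swap x y ∈ Q.1) (k : swap x w ∈ Q.1) (a : x ≠ y) (b : x ≠ w) :
    y = w := by
  by_contra e
  obtain ⟨n, hn⟩ := Q.isPGroup' ⟨_, mul_mem h k⟩
  have := orderOf_dvd_of_pow_eq_one (congrArg Subtype.val hn)
  rw [(isThreeCycle_swap_mul_swap_same a b e).orderOf] at this
  exact absurd (Nat.Prime.dvd_of_dvd_pow Nat.prime_three this) (by norm_num)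

theorem swap_conj {x y : α} (h : swap x y ∈ Q.1) {q : Perm α} (hq : q ∈ Q.1) :
    swap (q x) (q y) ∈ Q.1 := by rw [swap_apply_apply]; exact mul_mem (mul_mem hq h) (inv_mem hq)

theorem O_swap {x y : α} (h : swap x y ∈ Q.1) : O Q x y := ⟨_, h, swap_apply_left _ _⟩

theorem swap_mem {x y x' y' : α} (h : swap x x' ∈ Q.1) (k : swap y y' ∈ Q.1) (a : x ≠ x')
    (b : y ≠ y') : swap x x' * swap y y' ∈ Ev Q :=
  ⟨mul_mem h k, by simp [sign_swap a, sign_swap b]⟩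

variable (Q) in
theorem exists_pairs : ∃ f : Fin (Fintype.card α / 2) → α × α,
    (∀ i, (f i).1 ≠ (f i).2 ∧ swap (f i).1 (f i).2 ∈ Q.1) ∧
    (∀ i j x, (x = (f i).1 ∨ x = (f i).2) → (x = (f j).1 ∨ x = (f j).2) → i = j) ∧
    ∀ x y, (∀ i, x ≠ (f i).1 ∧ x ≠ (f i).2) → (∀ i, y ≠ (f i).1 ∧ y ≠ (f i).2) → x = y := by
  obtain ⟨f, h1, h2⟩ := HallSym.exists_fam (H := Q.1) Nat.prime_two ℤˣ (e := 1) (by simp) (L := ⊤)
    (by rw [Subgroup.relIndex_top_right]; exact Q.not_dvd_index) fun _ _ => trivial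
  have e : ∀ i x, (∀ t, f (i, t) ≠ x) ↔ x ≠ f (i, 1) ∧ x ≠ f (i, -1) := fun i x =>
    ⟨fun h => ⟨(h _).symm, (h _).symm⟩, fun h t => by
      rcases Int.units_eq_one_or t with rfl | rfl
      exacts [h.1.symm, h.2.symm]⟩
  refine ⟨fun i => (f (i, 1), f (i, -1)), fun i => ⟨by simp, ?_⟩, fun i j x a b => ?_,
    fun x y a b => card_le_one.1 (Nat.le_of_lt_succ h2) x ?_ y ?_⟩
  · obtain ⟨g, a, b, c⟩ := h1 i (-1)
    convert a
    ext x
    rw [swap_apply_def]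
    split_ifs with p q
    · rw [p, b]; simp
    · rw [q, b]; simp
    · exact (c x ((e i x).2 ⟨p, q⟩)).symm
  · rcases a with rfl | rfl <;> rcases b with b | b <;> exact congrArg Prod.fst (f.injective b)
  · simpa using fun i => (e i x).2 (a i)
  · simpa using fun i => (e i y).2 (b i)

theorem unpaired {x y : α} (a : ∀ w, swap x w ∈ Q.1 → x = w) (b : ∀ w, swap y w ∈ Q.1 → y = w) :
    x = y := by
  obtain ⟨f, h1, -, h3⟩ := exists_pairs Q
  have : ∀ x, (∀ w, swap x w ∈ Q.1 → x = w) → ∀ i, x ≠ (f i).1 ∧ x ≠ (f i).2 := fun x a i =>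
    ⟨fun e => (h1 i).1 (e ▸ a _ (e ▸ (h1 i).2)),
      fun e => (h1 i).1 (e ▸ a _ (by rw [e, swap_comm]; exact (h1 i).2)).symm⟩
  exact h3 x y (this x a) (this y b)

theorem paired {x : α} {q : Perm α} (hq : q ∈ Q.1) (h : q x ≠ x) : ∃ w, x ≠ w ∧ swap x w ∈ Q.1 := by
  by_contra! a
  have a : ∀ w, swap x w ∈ Q.1 → x = w := fun w hw => by_contra fun e => a w e hw
  refine h (unpaired (fun w hw => ?_) a)
  rw [a (q⁻¹ w) (by simpa using swap_conj hw (inv_mem hq))]; simp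

theorem Z.swap (h6 : 6 ≤ Fintype.card α) {c : Perm α} (h : Z Q c) (x : α) : swap x (c x) ∈ Q.1 := by
  by_cases e : c x = x
  · rw [e, swap_self]; exact one_mem _
  obtain ⟨x', a, b⟩ := paired h.1.1 e
  obtain ⟨f, h1, h2, -⟩ := exists_pairs Q
  obtain ⟨i, hi⟩ : ∃ i, ∀ y ∈ [x, c x], ¬ (y = (f i).1 ∨ y = (f i).2) := by
    by_contra! k
    choose g hg using k
    have := Fintype.card_le_of_injective (fun i => (⟨g i, by simpa using (hg i).1⟩ : ({x, c x} : Finset α)))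
      fun i j e => h2 i j _ (hg i).2 (by rw [show g i = g j from Subtype.ext_iff.1 e]; exact (hg j).2)
    rw [Fintype.card_fin, Fintype.card_coe] at this
    have := card_le_two (a := x) (b := c x)
    omega
  simp only [List.forall_mem_cons, not_or] at hi
  by_cases e' : c x = x'
  · exact e' ▸ b
  have := congrArg (· x) (h.2 _ (swap_mem b (h1 i).2 a (h1 i).1))
  simp only [mul_apply, swap_apply_of_ne_of_ne hi.1.1 hi.1.2, swap_apply_left,
    swap_apply_of_ne_of_ne hi.2.1.1 hi.2.1.2, swap_apply_of_ne_of_ne e e'] at this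
  exact absurd (c.injective this) a

theorem comm_swap {c : Perm α} (h : ∀ x, swap x (c x) ∈ Q.1) {x y : α} (k : swap x y ∈ Q.1)
    (a : x ≠ y) : swap x y * c = c * swap x y := by
  rw [mul_swap_eq_swap_mul]
  by_cases e : c x = x
  · rw [e, by_contra fun e' : ¬ c y = y =>
      a (c.injective (e.trans (uniq (h y) (swap_comm x y ▸ k) (Ne.symm e') a.symm).symm))]
  · have e1 := uniq (h x) k (Ne.symm e) a
    have e2 : c y ≠ y := fun f => a (c.injective (e1.trans f.symm))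
    rw [e1, uniq (h y) (swap_comm x y ▸ k) e2.symm a.symm, swap_comm]

theorem Z.comm (h6 : 6 ≤ Fintype.card α) {c : Perm α} (h : Z Q c) {q : Perm α} (hq : q ∈ Q.1) :
    q * c = c * q := by
  rcases Int.units_eq_one_or (sign q) with e | e
  · exact h.2 q ⟨hq, e⟩
  obtain ⟨x, hx⟩ : ∃ x, q x ≠ x := not_forall.1 fun f => by simp [show q = 1 from Equiv.ext f] at e
  obtain ⟨y, a, b⟩ := paired hq hx
  have := h.2 (q * Equiv.swap x y) ⟨mul_mem hq b, by simp [e, sign_swap a]⟩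
  rwa [mul_assoc, comm_swap (h.swap h6) b a, ← mul_assoc, ← mul_assoc, mul_left_inj] at this

theorem eq_on {c d : Perm α} (hc : ∀ q ∈ Q.1, q * c = c * q) (hd : ∀ q ∈ Q.1, q * d = d * q)
    {x y : α} (e : c x = d x) (h : O Q x y) : c y = d y := by
  obtain ⟨q, hq, rfl⟩ := h
  rw [← mul_apply, ← hc q hq, ← mul_apply, ← hd q hq, mul_apply, e, mul_apply]

/-- Elements supported on an orbit, commuting with `Q` and preserving the blocks. -/
theorem eq_of_sp {c d : Perm α} (hc : ∀ q ∈ Q.1, q * c = c * q) (hd : ∀ q ∈ Q.1, q * d = d * q)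
    {x : α} (sc : ∀ y, swap y (c y) ∈ Q.1) (sd : ∀ y, swap y (d y) ∈ Q.1) (pc : c ∈ Sp (O Q x))
    (pd : d ∈ Sp (O Q x)) (nc : c ≠ 1) (nd : d ≠ 1) : c = d := by
  have : ∀ c : Perm α, (∀ q ∈ Q.1, q * c = c * q) → c ∈ Sp (O Q x) → c ≠ 1 → x ≠ c x :=
    fun c hc pc nc e => nc (Equiv.ext fun y => (em (O Q x y)).elim
      (eq_on (d := 1) hc (by simp) e.symm) (pc y))
  exact Equiv.ext fun y => (em (O Q x y)).elim
    (eq_on hc hd (uniq (sc x) (sd x) (this c hc pc nc) (this d hd pd nd)))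
    fun e => (pc y e).trans (pd y e).symm

theorem exists_Z {N : Subgroup (Perm α)} (h : N ≤ Ev Q)
    (hn : ∀ p ∈ Ev Q, ∀ n ∈ N, p * n * p⁻¹ ∈ N) {g : Perm α} (hg : g ∈ N) (h1 : g ≠ 1) :
    ∃ c ∈ N, c ≠ 1 ∧ Z Q c := by
  have hP : IsPGroup 2 (Ev Q) := Q.isPGroup'.to_inf_left
  obtain ⟨⟨c, a, b⟩, hc⟩ := Subgroup.ne_bot_iff_exists_ne_one.1 (PLocal.Amb.inf_centralizer_ne_bot hP
    (hP.to_le h) (fun p hp => Subgroup.mem_normalizer_fintype (hn p hp))
    fun e => h1 (Subgroup.mem_bot.1 (e ▸ hg)))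
  exact ⟨c, a, fun e => hc (Subtype.ext e), h a, b⟩

theorem conj_sp {U : α → Prop} (hU : Inv Q U) {p n : Perm α} (hp : p ∈ Q.1) (hn : n ∈ Sp U) :
    p * n * p⁻¹ ∈ Sp U := fun x hx => by
  rw [mul_apply, mul_apply, hn _ ((hU _ (inv_mem hp) x).not.2 hx)]; simp

section Dec

variable {A B : Subgroup (Perm α)} (h : IsInternalDirectProduct A B (Ev Q))
include h

theorem symm_dp : IsInternalDirectProduct B A (Ev Q) :=
  ⟨h.2.1, h.1, fun b hb a ha => (h.2.2.1 a ha b hb).symm, inf_comm A B ▸ h.2.2.2.1,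
    sup_comm A B ▸ h.2.2.2.2⟩

theorem dec {p : Perm α} (hp : p ∈ Ev Q) : ∃ a ∈ A, ∃ b ∈ B, a * b = p := by
  rw [← h.2.2.2.2, ← SetLike.mem_coe, Subgroup.coe_mul_of_right_le_normalizer_left _ _
    fun b hb => Subgroup.mem_normalizer_fintype fun a ha => by
      rwa [← h.2.2.1 a ha b hb, mul_inv_cancel_right]] at hp
  exact hp

theorem norm_left {p a : Perm α} (hp : p ∈ Ev Q) (ha : a ∈ A) : p * a * p⁻¹ ∈ A := by
  obtain ⟨x, hx, y, hy, rfl⟩ := dec h hp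
  rw [mul_assoc x, ← h.2.2.1 a ha y hy, mul_inv_rev, mul_assoc, mul_assoc, mul_inv_cancel_left]
  exact mul_mem hx (mul_mem ha (inv_mem hx))

theorem exists_ZA {x : α} (k : ¬ ∀ a ∈ A, ∀ n ∈ Ev Q ⊓ Sp (O Q x), a * n = n * a) :
    ∃ c ∈ A ⊓ Sp (O Q x), c ≠ 1 ∧ Z Q c := by
  push Not at k
  obtain ⟨a, ha, n, hn, e⟩ := k
  refine exists_Z (inf_le_left.trans h.1) (fun p hp n hn => ⟨norm_left h hp hn.1,
    conj_sp (inv_O x) hp.1 hn.2⟩) (g := a * n * a⁻¹ * n⁻¹) ⟨?_, mul_mem (conj_sp (inv_O x)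
      (h.1 ha).1 hn.2) ((Sp _).inv_mem hn.2)⟩ fun f => e (by rw [mul_inv_eq_one, mul_inv_eq_iff_eq_mul] at f; exact f)
  simpa [mul_assoc] using mul_mem ha (norm_left h hn.1 (inv_mem ha))

theorem one_cent (h6 : 6 ≤ Fintype.card α) (x : α) :
    (∀ a ∈ A, ∀ n ∈ Ev Q ⊓ Sp (O Q x), a * n = n * a) ∨
      ∀ b ∈ B, ∀ n ∈ Ev Q ⊓ Sp (O Q x), b * n = n * b := by
  by_contra k
  obtain ⟨c, a, b, d⟩ := exists_ZA h (not_or.1 k).1
  obtain ⟨c', a', b', d'⟩ := exists_ZA (symm_dp h) (not_or.1 k).2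
  obtain rfl := eq_of_sp (fun _ => d.comm h6) (fun _ => d'.comm h6) (d.swap h6) (d'.swap h6) a.2 a'.2 b b'
  exact b (Subgroup.mem_bot.1 (h.2.2.2.1.le ⟨a.1, a'.1⟩))

variable (h6 : 6 ≤ Fintype.card α)
  (h4 : ∀ x y, x ≠ y → swap x y ∈ Q.1 → ∃ g ∈ Ev Q ⊓ Sp (O Q x), swap x (g x) ∉ Q.1)
include h6 h4

theorem not_both {x y : α} (a : x ≠ y) (b : swap x y ∈ Q.1)
    (c : ∀ a ∈ A, ∀ n ∈ Ev Q ⊓ Sp (O Q x), a * n = n * a)
    (d : ∀ b ∈ B, ∀ n ∈ Ev Q ⊓ Sp (O Q x), b * n = n * b) : False := by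
  obtain ⟨g, hg, e⟩ := h4 x y a b
  refine e (Z.swap h6 ⟨hg.1, fun p hp => ?_⟩ x)
  obtain ⟨u, hu, v, hv, rfl⟩ := dec h hp
  rw [mul_assoc, d v hv g hg, ← mul_assoc, c u hu g hg, mul_assoc]

omit h in
theorem res_even {x : α} {b r : Perm α} (hb : b ∈ Q.1)
    (d : ∀ n ∈ Ev Q ⊓ Sp (O Q x), b * n = n * b) (hr : Res (O Q x) b r) : sign r = 1 := by
  refine (Int.units_eq_one_or _).resolve_right fun e => ?_
  obtain ⟨r', hr', k⟩ := exists_res (inv_O x) hb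
  obtain rfl := hr.unique k
  have h1 : r ≠ 1 := fun f => by simp [f] at e
  have c1 : ∀ n ∈ Ev Q ⊓ Sp (O Q x), r * n = n * r := fun n hn => Equiv.ext fun y => by
    by_cases f : O Q x y
    · rw [mul_apply, hr.1 _ ((inv_O x n hn.1.1 y).2 f), mul_apply, hr.1 y f, ← mul_apply, d n hn,
        mul_apply]
    · rw [mul_apply, mul_apply, hn.2 y f, hr.2 y f, hn.2 y f]
  have c2 : ∀ q ∈ Q.1, q * r = r * q := fun q hq => by
    obtain ⟨s, hs, hs'⟩ := exists_res (inv_O x) hq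
    have : s * r = r * s := by
      rcases Int.units_eq_one_or (sign s) with f | f
      · exact (c1 s ⟨⟨hs, f⟩, hs'.2⟩).symm
      · have := c1 (s * r) ⟨⟨mul_mem hs hr', by simp [e, f]⟩, mul_mem hs'.2 hr.2⟩
        rw [← mul_assoc, mul_left_inj] at this
        exact this.symm
    ext y
    by_cases f : O Q x y
    · rw [mul_apply, ← hs'.1 _ ((inv_O x r hr' y).2 f), ← mul_apply, this, mul_apply, hs'.1 y f,
        mul_apply]
    · rw [mul_apply, mul_apply, hr.2 y f, hr.2 _ ((inv_O x q hq y).not.2 f)]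
  have c3 : ∀ y, swap y (r y) ∈ Q.1 := fun y => by
    by_cases f : r y = y
    · rw [f, swap_self]; exact one_mem _
    obtain ⟨y', a, b⟩ := paired hr' f
    by_cases f' : r y = y'
    · exact f' ▸ b
    have := congrArg (· y) (c2 _ b)
    simp only [mul_apply, swap_apply_left, swap_apply_of_ne_of_ne f f'] at this
    exact absurd (r.injective this) a
  have hx : r x ≠ x := fun f => h1 (Equiv.ext fun y => (em (O Q x y)).elim
    (eq_on (d := 1) c2 (by simp) f) (hr.2 y))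
  obtain ⟨g, hg, f⟩ := h4 x _ hx.symm (c3 x)
  obtain ⟨c, a, b, d⟩ := exists_Z inf_le_left (fun p hp n hn => ⟨(Ev Q).mul_mem (mul_mem hp hn.1)
    (inv_mem hp), conj_sp (inv_O x) hp.1 hn.2⟩) hg fun k => f (by
      rw [k, one_apply, swap_self]; exact one_mem _)
  rw [eq_of_sp c2 (fun _ => d.comm h6) c3 (d.swap h6) hr.2 a.2 h1 b, a.1.2] at e
  simp at e

theorem left_eq_bot (k : ∀ x, ∀ b ∈ B, ∀ n ∈ Ev Q ⊓ Sp (O Q x), b * n = n * b) : B = ⊥ := by
  by_contra hB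
  obtain ⟨⟨g, hg⟩, h1⟩ := Subgroup.ne_bot_iff_exists_ne_one.1 hB
  obtain ⟨c, a, b, d⟩ := exists_Z h.2.1 (fun p hp n hn => norm_left (symm_dp h) hp hn) hg
    fun e => h1 (Subtype.ext e)
  refine b (Subgroup.mem_bot.1 (h.2.2.2.1.le ⟨mem_of_res A c d.1.1 fun x r hr => ?_, a⟩))
  by_cases e : c x = x
  · rw [hr.unique (s := 1) ⟨fun y hy => (eq_on (d := 1) (fun _ => d.comm h6) (by simp) e hy).symm,
      fun _ _ => rfl⟩]
    exact one_mem A
  obtain ⟨c', a', b', d'⟩ := exists_ZA h fun f => not_both h h6 h4 (Ne.symm e) (d.swap h6 x) f (k x)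
  have hx : x ≠ c' x := fun f => b' (Equiv.ext fun y => (em (O Q x y)).elim
    (eq_on (d := 1) (fun _ => d'.comm h6) (by simp) f.symm) (a'.2 y))
  rw [hr.unique (s := c') ⟨fun y hy => eq_on (fun _ => d'.comm h6) (fun _ => d.comm h6)
    (uniq (d'.swap h6 x) (d.swap h6 x) hx (Ne.symm e)) hy, a'.2⟩]
  exact a'.1

theorem indec_big : A = ⊥ ∨ B = ⊥ := by
  by_contra k
  obtain ⟨x, hx⟩ := not_forall.1 fun f => (not_or.1 k).1 (left_eq_bot (symm_dp h) h6 h4 f)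
  obtain ⟨y, hy⟩ := not_forall.1 fun f => (not_or.1 k).2 (left_eq_bot h h6 h4 f)
  have pr : ∀ (x : α) (C : Subgroup (Perm α)), (¬ ∀ b ∈ C, ∀ n ∈ Ev Q ⊓ Sp (O Q x), b * n = n * b) →
      ∃ w, x ≠ w ∧ swap x w ∈ Q.1 := fun x C hC => by
    by_contra f
    refine hC fun b _ n hn => ?_
    rw [show n = 1 from Equiv.ext fun y => (em (O Q x y)).elim (fun ⟨q, hq, e⟩ => by
      rw [← e, not_not.1 fun e => f (paired hq e), not_not.1 fun e => f (paired hn.1.1 e)]; rfl)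
      (hn.2 y), mul_one, one_mul]
  obtain ⟨x', a1, a2⟩ := pr x A hx
  obtain ⟨y', b1, b2⟩ := pr y B hy
  let U : α → Prop := fun w => ∀ b ∈ B, ∀ n ∈ Ev Q ⊓ Sp (O Q w), b * n = n * b
  have hU : ∀ {w v}, O Q w v → (U v ↔ U w) := fun {w v} e => by
    simp only [U, show O Q v = O Q w from funext fun _ => propext ⟨e.trans, e.symm.trans⟩]
  have iU : Inv Q U := fun q hq w => hU ⟨q, hq, rfl⟩
  have key : ∀ (V : α → Prop) (g r : Perm α), Inv Q V → g ∈ Q.1 → r ∈ Q.1 → Res V g r →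
      (∀ w, V w → ∀ n ∈ Ev Q ⊓ Sp (O Q w), g * n = n * g) → sign r = 1 :=
    fun V g r iV hg hr' hr hV => mem_of_res (alternatingGroup α) r hr' fun w s hs => by
      have e : ∀ v, O Q w v → (V v ↔ V w) := by rintro _ ⟨q, hq, rfl⟩; exact iV q hq w
      by_cases f : V w
      · exact res_even h6 h4 hg (hV w f) ⟨fun v hv => (hs.1 v hv).trans (hr.1 v ((e v hv).2 f)), hs.2⟩
      · rw [hs.unique (s := 1) ⟨fun v hv => (hr.2 v ((e v hv).not.2 f)).symm, fun _ _ => rfl⟩]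
        exact one_mem _
  obtain ⟨a, ha, b, hb, e⟩ := dec h (swap_mem a2 b2 a1 b1)
  obtain ⟨r, r1, r2⟩ := exists_res iU (h.1 ha).1
  obtain ⟨s, s1, s2⟩ := exists_res iU.not (h.1 ha).1
  obtain ⟨t, t1, t2⟩ := exists_res iU (h.2.1 hb).1
  have e1 := key _ _ _ iU.not (h.1 ha).1 s1 s2 fun w hw => (one_cent h h6 w).resolve_right hw a ha
  have e2 := key _ _ _ iU (h.2.1 hb).1 t1 t2 fun w hw => hw b hb
  have e3 : sign a = 1 := (h.1 ha).2
  rw [r2.split iU (h.1 ha).1 s2, map_mul, e1, mul_one] at e3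
  have ux : U x := (one_cent h h6 x).resolve_left hx
  have ux' : U x' := (hU (O_swap a2)).2 ux
  have uy' : ¬ U y' := (hU (O_swap b2)).not.2 hy
  have := congrArg sign ((e ▸ r2.mul iU (h.2.1 hb).1 t2).unique (s := swap x x') ⟨fun w hw => by
    rw [mul_apply, swap_apply_of_ne_of_ne (a := y) (b := y') (x := w) (fun f => hy (f ▸ hw : U y))
      fun f => uy' (f ▸ hw)],
    fun w hw => swap_apply_of_ne_of_ne (fun f => hw (f ▸ ux)) fun f => hw (f ▸ ux')⟩)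
  simp [e2, e3, sign_swap a1] at this

end Dec

end Cfsg.Agent.AltS2
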