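import Cfsg.Agent.KSG.AltSyl2

/-!
# Direct decompositions of Sylow 2-subgroups of alternating groups, II
-/

set_option autoImplicit false

namespace Cfsg.Agent.AltS2

open Equiv Equiv.Perm Finset

variable {α : Type*} [Fintype α] [DecidableEq α] {Q : Sylow 2 (Perm α)}

theorem good_conj {x : α} {q : Perm α} (hq : q ∈ Q.1)
    (h : ∃ g ∈ Ev Q ⊓ Sp (O Q x), swap x (g x) ∉ Q.1) :
    ∃ g ∈ Ev Q ⊓ Sp (O Q (q x)), swap (q x) (g (q x)) ∉ Q.1 := by
  obtain ⟨g, hg, e⟩ := h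
  have e1 : O Q (q x) = O Q x :=
    funext fun _ => propext ⟨O.trans ⟨q, hq, rfl⟩, O.trans (O.symm ⟨q, hq, rfl⟩)⟩
  refine ⟨q * g * q⁻¹, ⟨⟨Q.1.mul_mem (mul_mem hq hg.1.1) (inv_mem hq),
    (alternatingGroup.normal (α := α)).conj_mem g hg.1.2 q⟩, e1 ▸ conj_sp (inv_O x) hq hg.2⟩,
    fun f => e ?_⟩
  simpa using swap_conj f (inv_mem hq)

theorem compl_card {ι : Type} [Fintype ι] (f : ι ↪ α) :
    #(univ.map f)ᶜ = Fintype.card α - Fintype.card ι := by
  rw [card_compl, card_map, card_univ]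

theorem h4_of (hE : ¬ 2 ∣ (Ev Q).relIndex (alternatingGroup α)) (hn : Fintype.card α % 4 ≤ 1)
    (x y : α) (a : x ≠ y) (b : swap x y ∈ Q.1) :
    ∃ g ∈ Ev Q ⊓ Sp (O Q x), swap x (g x) ∉ Q.1 := by
  obtain ⟨f, h1, -⟩ := HallSym.exists_fam (H := Ev Q) Nat.prime_two (ℤˣ × ℤˣ) (e := 2) (by simp) hE
    fun _ h => h (by decide)
  have key : ∀ x ∈ univ.map f, ∃ g ∈ Ev Q ⊓ Sp (O Q x), swap x (g x) ∉ Q.1 := fun x hx => by
    obtain ⟨⟨i, s⟩, -, rfl⟩ := mem_map.1 hx
    have : ∀ t, ∃ g ∈ Ev Q ⊓ Sp (O Q (f (i, s))), g (f (i, s)) = f (i, t * s) := fun t => by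
      obtain ⟨g, a, b, c⟩ := h1 i t
      refine ⟨g, ⟨a, fun y hy => c y fun w e => hy ?_⟩, b s⟩
      obtain ⟨k, a, b, -⟩ := h1 i (w * s⁻¹)
      exact ⟨k, a.1, by rw [b, inv_mul_cancel_right, e]⟩
    by_contra! k
    obtain ⟨g, a, b⟩ := this (1, -1)
    obtain ⟨g', a', b'⟩ := this (-1, 1)
    have := uniq (k g a) (k g' a') (by rw [b]; simp) (by rw [b']; simp)
    rw [b, b'] at this
    simp at this
  have h2 := compl_card f
  by_cases e : x ∈ univ.map f
  · exact key x e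
  have := good_conj b (key y (by
    by_contra e'
    refine a (card_le_one.1 (h2.trans_le ?_) x (mem_compl.2 e) y (mem_compl.2 e'))
    simp only [Fintype.card_prod, Fintype.card_fin, Fintype.card_units_int]
    omega))
  rwa [swap_apply_right] at this

theorem indec_pow {r : ℕ} (h6 : 6 ≤ Fintype.card α) (hr : 4 * (Fintype.card α / 4) = 2 ^ r)
    {A B : Subgroup (Perm α)} (h : IsInternalDirectProduct A B (Ev Q)) : A = ⊥ ∨ B = ⊥ := by
  by_contra k
  obtain ⟨⟨g, hg⟩, h1⟩ := Subgroup.ne_bot_iff_exists_ne_one.1 (not_or.1 k).1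
  obtain ⟨a, a1, a2, a3⟩ := exists_Z h.1 (fun p hp n hn => norm_left h hp hn) hg
    fun e => h1 (Subtype.ext e)
  obtain ⟨⟨g, hg⟩, h1⟩ := Subgroup.ne_bot_iff_exists_ne_one.1 (not_or.1 k).2
  obtain ⟨b, b1, b2, b3⟩ := exists_Z h.2.1 (fun p hp n hn => norm_left (symm_dp h) hp hn) hg
    fun e => h1 (Subtype.ext e)
  have : NeZero (2 ^ r) := ⟨by positivity⟩
  obtain ⟨f, h1, -⟩ := HallSym.exists_fam (H := Q.1) Nat.prime_two (Multiplicative (ZMod (2 ^ r)))
    (e := r) (by simp) (L := ⊤)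
    (by rw [Subgroup.relIndex_top_right]; exact Q.not_dvd_index) fun _ _ => trivial
  have e1 : Fintype.card α / 2 ^ r = 1 := by rw [← hr]; exact Nat.div_eq_of_lt_le (by omega) (by omega)
  have h2 := compl_card f
  simp only [Fintype.card_prod, Fintype.card_fin, Fintype.card_multiplicative, ZMod.card, e1] at h2
  let i : Fin (Fintype.card α / 2 ^ r) := ⟨0, by omega⟩
  have key : ∀ c, Z Q c → c (f (i, 1)) = f (i, 1) → c = 1 := fun c hc e => by
    by_contra c1
    have h3 : c.support ⊆ (univ.map f)ᶜ := fun y hy => mem_compl.2 fun m => by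
      obtain ⟨⟨j, s⟩, -, rfl⟩ := mem_map.1 m
      obtain rfl : j = i := Fin.ext (by have := j.2; simp only [i]; omega)
      obtain ⟨k, a, b, -⟩ := h1 i s
      exact mem_support.1 hy (eq_on (d := 1) (fun _ => hc.comm h6) (by simp) e ⟨k, a, by rw [b, mul_one]⟩)
    have h4 := card_le_card h3
    have h5 := two_le_card_support_of_ne_one c1
    obtain h6 | h6 : #c.support = 2 ∨ #c.support = 3 := by omega
    · have := (card_support_eq_two.1 h6).sign_eq
      rw [hc.1.2] at this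
      simp at this
    obtain ⟨n, hn⟩ := Q.isPGroup' ⟨_, hc.1.1⟩
    have := orderOf_dvd_of_pow_eq_one (congrArg Subtype.val hn)
    rw [(card_support_eq_three_iff.1 h6).orderOf] at this
    exact absurd (Nat.Prime.dvd_of_dvd_pow Nat.prime_three this) (by norm_num)
  have na := fun e => a2 (key a a3 e)
  have nb := fun e => b2 (key b b3 e)
  have e2 := uniq (a3.swap h6 _) (b3.swap h6 _) (Ne.symm na) (Ne.symm nb)
  have := key (a⁻¹ * b) ⟨mul_mem (inv_mem a3.1) b3.1, fun p hp => by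
    rw [← mul_assoc, ((show Commute p a from a3.2 p hp).inv_right).eq, mul_assoc, b3.2 p hp, mul_assoc]⟩
    (by rw [mul_apply, ← e2]; simp)
  rw [inv_mul_eq_one] at this
  exact a2 (Subgroup.mem_bot.1 (h.2.2.2.1.le ⟨a1, this ▸ b1⟩))

theorem exists_two (hn : Fintype.card α % 4 = 2 ∨ Fintype.card α % 4 = 3) :
    ∃ u v, u ≠ v ∧ swap u v ∈ Q.1 ∧ Inv Q fun x => x = u ∨ x = v := by
  obtain ⟨⟨T, hT⟩, h⟩ := Q.isPGroup'.nonempty_fixed_point_of_prime_not_dvd_card
    (Set.powersetCard α 2) (by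
      rw [Set.powersetCard.card, Nat.card_eq_fintype_card, Nat.choose_two_right]
      generalize Fintype.card α = n at hn
      obtain ⟨m, rfl | rfl⟩ : ∃ m, n = 4 * m + 2 ∨ n = 4 * m + 3 := ⟨n / 4, by omega⟩
      · rw [show (4 * m + 2) * (4 * m + 2 - 1) = 2 * (2 * (4 * m * m + 3 * m) + 1) by
          rw [show 4 * m + 2 - 1 = 4 * m + 1 by omega]; ring]
        omega
      · rw [show (4 * m + 3) * (4 * m + 3 - 1) = 2 * (2 * (4 * m * m + 5 * m + 1) + 1) by
          rw [show 4 * m + 3 - 1 = 4 * m + 2 by omega]; ring]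
        omega)
  obtain ⟨u, v, a, rfl⟩ := card_eq_two.1 hT
  have iv : Inv Q fun x => x = u ∨ x = v := fun q hq x => by
    have := congrArg (fun s : Set.powersetCard α 2 => q x ∈ s.1) (h ⟨q, hq⟩)
    simp only [Set.powersetCard.coe_smul, Subgroup.smul_def] at this
    simpa using (this.symm.trans (propext (smul_mem_smul_finset_iff (a := q) (b := x)))).to_iff
  refine ⟨u, v, a, by_contra fun k => a (unpaired (Q := Q) (fun w hw => ?_) fun w hw => ?_), iv⟩
  · rcases (iv _ hw u).2 (.inl rfl) with e | e <;> rw [swap_apply_left] at e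
    exacts [e.symm, absurd (e ▸ hw) k]
  · rcases (iv _ hw v).2 (.inr rfl) with e | e <;> rw [swap_apply_left] at e
    exacts [absurd (swap_comm v u ▸ e ▸ hw) k, e.symm]

theorem dec_of (h6 : 6 ≤ Fintype.card α) (hn : Fintype.card α % 4 = 2 ∨ Fintype.card α % 4 = 3)
    (hr : ∀ r, 4 * (Fintype.card α / 4) ≠ 2 ^ r) :
    ∃ A B : Subgroup (Perm α), A ≠ ⊥ ∧ B ≠ ⊥ ∧ IsInternalDirectProduct A B (Ev Q) := by
  classical
  obtain ⟨u, v, a, b, iv⟩ := exists_two (Q := Q) hn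
  have ex : ∀ S : Finset α, 1 < #Sᶜ → ∃ x ∉ S, ∃ y, x ≠ y ∧ swap x y ∈ Q.1 := fun S hS => by
    by_contra! k
    obtain ⟨x, hx, y, hy, e⟩ := one_lt_card.1 hS
    exact e (unpaired (fun w hw => by_contra fun e => k x (mem_compl.1 hx) w e hw)
      fun w hw => by_contra fun e => k y (mem_compl.1 hy) w e hw)
  obtain ⟨x, hx, x', a1, a2⟩ := ex {u, v} (by rw [card_compl, card_pair a]; omega)
  have dj : ∀ w, O Q x w → ¬ (w = u ∨ w = v) := by
    rintro _ ⟨q, hq, rfl⟩
    exact (iv q hq x).not.2 (by simpa using hx)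
  obtain ⟨y, hy, y', b1, b2⟩ := ex (univ.filter (O Q x) ∪ {u, v}) (by
    obtain ⟨k, hk⟩ := Q.isPGroup'.card_orbit x
    have : #(univ.filter (O Q x)) = 2 ^ k := by
      rw [← hk, ← Fintype.card_subtype, Nat.card_eq_fintype_card]
      exact Fintype.card_congr (Equiv.subtypeEquivRight fun w =>
        ⟨fun ⟨q, h, e⟩ => ⟨⟨q, h⟩, e⟩, fun ⟨q, e⟩ => ⟨q, q.2, e⟩⟩)
    have e := card_le_univ (univ.filter (O Q x) ∪ {u, v})
    rw [card_compl]
    rw [card_union_of_disjoint (disjoint_left.2 fun w hw => by simpa using dj w (mem_filter.1 hw).2),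
      card_pair a, this] at e ⊢
    have := hr k
    rcases k with _ | _ | k
    · omega
    · omega
    · rw [pow_succ, pow_succ] at this e ⊢
      omega)
  simp only [mem_union, mem_filter, mem_univ, true_and, mem_insert, mem_singleton, not_or] at hy
  have iU : Inv Q fun w => O Q x w ∨ w = u ∨ w = v := fun q hq w =>
    or_congr (inv_O x q hq w) (iv q hq w)
  have hy' : ¬ (O Q x y' ∨ y' = u ∨ y' = v) := by
    have := (iU _ b2 y).not.2 (by simpa [not_or] using hy)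
    rwa [swap_apply_left] at this
  have sw : ∀ w, O Q x w → swap u v w = w := fun w hw =>
    swap_apply_of_ne_of_ne (not_or.1 (dj w hw)).1 (not_or.1 (dj w hw)).2
  have two : ∀ q ∈ Q.1, (q u = u ∧ q v = v) ∨ (q u = v ∧ q v = u) := fun q hq => by
    have := q.injective.ne a
    rcases (iv q hq u).2 (.inl rfl) with e | e <;> rcases (iv q hq v).2 (.inr rfl) with f | f
    exacts [absurd (e.trans f.symm) this, .inl ⟨e, f⟩, .inr ⟨e, f⟩, absurd (e.trans f.symm) this]
  refine ⟨Ev Q ⊓ Sp fun w => O Q x w ∨ w = u ∨ w = v, Ev Q ⊓ Sp fun w => ¬ O Q x w,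
    Subgroup.ne_bot_iff_exists_ne_one.2 ⟨⟨_, swap_mem a2 b a1 a, fun w hw => ?_⟩, fun e => ?_⟩,
    Subgroup.ne_bot_iff_exists_ne_one.2 ⟨⟨_, swap_mem b2 b b1 a, fun w hw => ?_⟩, fun e => ?_⟩,
    inf_le_left, inf_le_left, fun c hc d hd => Equiv.ext fun w => ?_, eq_bot_iff.2 fun c hc => ?_,
    le_antisymm (sup_le inf_le_left inf_le_left) fun p hp => ?_⟩
  · rw [mul_apply, swap_apply_of_ne_of_ne (a := u) (fun e => hw (.inr (.inl e))) fun e => hw (.inr (.inr e)),
      swap_apply_of_ne_of_ne (fun e : w = x => hw (.inl ⟨1, one_mem _, e.symm⟩))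
        fun e : w = x' => hw (.inl (e ▸ O_swap a2))]
  · have := congrArg (· x) (congrArg Subtype.val e)
    simp only [mul_apply, sw x (O.refl x), swap_apply_left] at this
    exact a1 this.symm
  · rw [not_not] at hw
    rw [mul_apply, sw w hw, swap_apply_of_ne_of_ne (fun e : w = y => hy.1 (e ▸ hw))
      fun e : w = y' => hy' (.inl (e ▸ hw))]
  · have := congrArg (· y) (congrArg Subtype.val e)
    simp only [mul_apply, swap_apply_of_ne_of_ne hy.2.1 hy.2.2, swap_apply_left] at this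
    exact b1 this.symm
  · rw [mul_apply, mul_apply]
    by_cases e : O Q x w
    · rw [hd.2 w (not_not.2 e), hd.2 _ (not_not.2 ((inv_O x c hc.1.1 w).2 e))]
    by_cases f : w = u ∨ w = v
    · rcases two c hc.1.1 with ⟨c1, c2⟩ | ⟨c1, c2⟩ <;> rcases two d hd.1.1 with ⟨d1, d2⟩ | ⟨d1, d2⟩ <;>
        rcases f with rfl | rfl <;> simp only [c1, c2, d1, d2]
    · rw [hc.2 w (not_or.2 ⟨e, f⟩), hc.2 _ ((iU d hd.1.1 w).not.2 (not_or.2 ⟨e, f⟩))]
  · have h1 : ∀ w, w ≠ u → w ≠ v → c w = w := fun w p q => (em (O Q x w)).elim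
      (fun e => hc.2.2 w (not_not.2 e)) fun e => hc.1.2 w (not_or.2 ⟨e, not_or.2 ⟨p, q⟩⟩)
    rcases two c hc.1.1.1 with ⟨c1, c2⟩ | ⟨c1, c2⟩
    · exact Equiv.ext fun w => by_cases (fun e : w = u => e ▸ c1) fun e =>
        by_cases (fun f : w = v => f ▸ c2) (h1 w e)
    · have : c = swap u v := Equiv.ext fun w => by
        rw [swap_apply_def]
        split_ifs with p q
        exacts [p ▸ c1, q ▸ c2, h1 w p q]
      have e : sign c = 1 := hc.1.1.2
      simp [this, sign_swap a] at e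
  · obtain ⟨r, r1, r2⟩ := exists_res (inv_O x) hp.1
    obtain ⟨s, s1, s2, s3⟩ : ∃ s ∈ Ev Q, s ∈ Sp (fun w => O Q x w ∨ w = u ∨ w = v) ∧
        ∀ w, O Q x w → s w = p w := by
      rcases Int.units_eq_one_or (sign r) with e | e
      · exact ⟨r, ⟨r1, e⟩, fun w hw => r2.2 w fun f => hw (.inl f), r2.1⟩
      · refine ⟨r * swap u v, ⟨mul_mem r1 b, by simp [e, sign_swap a]⟩, fun w hw => ?_,
          fun w hw => by rw [mul_apply, sw w hw, r2.1 w hw]⟩
        rw [mul_apply, swap_apply_of_ne_of_ne (fun e => hw (.inr (.inl e))) fun e => hw (.inr (.inr e)),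
          r2.2 w fun f => hw (.inl f)]
    rw [← mul_inv_cancel_left s p]
    exact mul_mem (Subgroup.mem_sup_left ⟨s1, s2⟩) (Subgroup.mem_sup_right
      ⟨(Ev Q).mul_mem (inv_mem s1) hp, fun w hw => by rw [mul_apply, ← s3 w (not_not.1 hw)]; simp⟩)

theorem klein_dec {G : Type*} [Group G] (P : Subgroup G) (hc : Nat.card P = 4)
    (he : ∀ g ∈ P, g * g = 1) :
    ∃ A B : Subgroup G, A ≠ ⊥ ∧ B ≠ ⊥ ∧ IsInternalDirectProduct A B P := by
  have : Finite P := Nat.finite_of_card_ne_zero (by omega)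
  have : Nontrivial P := Finite.one_lt_card_iff_nontrivial.1 (by omega)
  have : IsKleinFour P := ⟨hc, Monoid.exponent_eq_prime_iff Nat.prime_two |>.2 fun g h =>
    orderOf_eq_prime (Subtype.ext (by rw [sq]; exact he g g.2)) h⟩
  obtain ⟨a, ha⟩ := exists_ne (1 : P)
  obtain ⟨b, b1, b2⟩ : ∃ b : P, b ≠ 1 ∧ b ≠ a := by
    by_contra! k
    have := Nat.card_le_card_of_surjective (fun t : Bool => if t then a else 1) fun g =>
      (em (g = 1)).elim (fun e => ⟨false, e.symm⟩) fun e => ⟨true, (k g e).symm⟩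
    simp [hc] at this
  have zp : ∀ c : P, ∀ g ∈ Subgroup.zpowers c.1, g = 1 ∨ g = c := fun c g ⟨n, e⟩ => by
    have h : c.1 ^ (2 : ℤ) = 1 := by rw [zpow_two]; exact he _ c.2
    obtain ⟨m, rfl | rfl⟩ := Int.even_or_odd' n
    · exact .inl (by rw [← e]; simp only; rw [zpow_mul, h, one_zpow])
    · exact .inr (by rw [← e]; simp only; rw [zpow_add, zpow_mul, h, one_zpow, one_mul, zpow_one])
  have l1 := (Subgroup.zpowers_le_of_mem a.2)
  have l2 := (Subgroup.zpowers_le_of_mem b.2)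
  refine ⟨.zpowers a, .zpowers b, by simpa using ha, by simpa using b1, l1, l2, fun x hx y hy => ?_,
    eq_bot_iff.2 fun g hg => ?_, le_antisymm (sup_le l1 l2) fun g hg => ?_⟩
  · have : ∀ g ∈ P, g⁻¹ = g := fun g hg => inv_eq_of_mul_eq_one_right (he g hg)
    rw [← this _ (mul_mem (l1 hx) (l2 hy)), mul_inv_rev, this x (l1 hx), this y (l2 hy)]
  · rcases zp a g hg.1 with e | e
    · exact e
    · exact (zp b g hg.2).resolve_right fun f => b2 (Subtype.ext (f.symm.trans e))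
  have m1 := Subgroup.mem_sup_left (T := .zpowers b.1) (Subgroup.mem_zpowers a.1)
  have m2 := Subgroup.mem_sup_right (S := .zpowers a.1) (Subgroup.mem_zpowers b.1)
  by_cases e1 : (⟨g, hg⟩ : P) = 1
  · exact (show g = 1 from congrArg Subtype.val e1) ▸ one_mem _
  by_cases e2 : (⟨g, hg⟩ : P) = a
  · exact (show g = a from congrArg Subtype.val e2) ▸ m1
  by_cases e3 : (⟨g, hg⟩ : P) = b
  · exact (show g = b from congrArg Subtype.val e3) ▸ m2
  · exact (show g = a * b from congrArg Subtype.val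
      (IsKleinFour.eq_mul_of_ne_all ha b1 b2.symm e1 e2 e3)) ▸ mul_mem m1 m2

theorem map_iff {G H : Type*} [Group G] [Group H] {f : G →* H} (hf : Function.Injective f)
    (P : Subgroup G) : (∃ A B : Subgroup G, A ≠ ⊥ ∧ B ≠ ⊥ ∧ IsInternalDirectProduct A B P) ↔
      ∃ A B : Subgroup H, A ≠ ⊥ ∧ B ≠ ⊥ ∧ IsInternalDirectProduct A B (P.map f) := by
  have key : ∀ A B : Subgroup G, (A ≠ ⊥ ∧ B ≠ ⊥ ∧ IsInternalDirectProduct A B P) ↔
      A.map f ≠ ⊥ ∧ B.map f ≠ ⊥ ∧ IsInternalDirectProduct (A.map f) (B.map f) (P.map f) :=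
    fun A B => by
      simp only [IsInternalDirectProduct, Ne, Subgroup.map_eq_bot_iff_of_injective _ hf,
        Subgroup.map_le_map_iff_of_injective hf, ← Subgroup.map_inf _ _ _ hf, ← Subgroup.map_sup,
        (Subgroup.map_injective hf).eq_iff, Subgroup.mem_map, forall_exists_index, and_imp,
        forall_apply_eq_imp_iff₂, ← map_mul, hf.eq_iff]
  refine ⟨fun ⟨A, B, h⟩ => ⟨_, _, (key A B).1 h⟩, fun ⟨A, B, h⟩ => ⟨A.comap f, B.comap f, (key _ _).2 ?_⟩⟩
  rwa [Subgroup.map_comap_eq_self (h.2.2.1.trans (P.map_le_range f)),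
    Subgroup.map_comap_eq_self (h.2.2.2.1.trans (P.map_le_range f))]

end Cfsg.Agent.AltS2
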