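import Mathlib
import Cfsg.Agent.KSG.PresSp2

/-!
The symplectic groups `Sp_{2m}(q)`, `(m, q) ≠ (2, 2)`, are generated by two elements.
-/

set_option autoImplicit false
set_option linter.unusedSectionVars false

namespace Cfsg.Agent.KSG.BN

open Matrix Equiv Subgroup

variable {F : Type*} [Field F]

theorem fill_root [Finite F] {G : Type*} [Group G] {H : Subgroup G} {x : F → G}
    (add : ∀ a b, x a * x b = x (a + b)) {k : Fˣ} (hk : ∀ u : Fˣ, u ∈ Submonoid.powers k) {h : G}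
    (hH : h ∈ H) {e : F} (he : e = k ∨ e = k ^ 2) (hh : ∀ s, h * x s * h⁻¹ = x (e * s)) {c : F}
    (hc : c ≠ 0) (hx : x c ∈ H) (t : F) : x t ∈ H := by
  have h1 : ∀ m : ℕ, x (e ^ m * c) ∈ H := fun m => by
    induction m with
    | zero => simpa using hx
    | succ m ih =>
      rw [pow_succ', mul_assoc, ← hh]
      exact mul_mem (mul_mem hH ih) (inv_mem hH)
  rw [← div_mul_cancel₀ t hc]
  induction t / c using add_induction_sq with
  | hadd a b ha hb => rw [add_mul, ← add]; exact mul_mem ha hb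
  | h0 =>
    have : x 0 = 1 := mul_eq_left.1 ((add 0 0).trans (by rw [add_zero]))
    rw [zero_mul, this]; exact one_mem _
  | hsq a ha =>
    obtain ⟨m, hm⟩ := hk (Units.mk0 a ha)
    obtain rfl : (k : F) ^ m = a := by simpa using congrArg Units.val hm
    rcases he with rfl | rfl
    · rw [← pow_mul]; exact h1 _
    · rw [← pow_mul, mul_comm m, pow_mul]; exact h1 _

theorem fill_small [Fintype F] (hF : Fintype.card F ≤ 3) {G : Type*} [Group G] {H : Subgroup G}
    {x : F → G} (add : ∀ a b, x a * x b = x (a + b)) {c : F} (hc : c ≠ 0) (hx : x c ∈ H) (t : F) :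
    x t ∈ H := by
  classical
  obtain ⟨k, hk⟩ := IsCyclic.exists_monoid_generator (α := Fˣ)
  refine fill_root add hk (one_mem H) (Or.inr rfl) (fun s => ?_) hc hx t
  have h1 : Fintype.card Fˣ ∣ 2 := by
    have := Fintype.one_lt_card (α := F)
    rw [Fintype.card_units]
    obtain h | h : Fintype.card F = 2 ∨ Fintype.card F = 3 := by omega
    all_goals simp [h]
  have h2 : k ^ 2 = 1 := orderOf_dvd_iff_pow_eq_one.1 (orderOf_dvd_card.trans h1)
  simp [← Units.val_pow_eq_pow_val, h2]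

variable {n : ℕ}

/-- A monomial matrix over the cyclic permutation. -/
def rot (F : Type*) [Field F] (n : ℕ) : SpecialLinearGroup (Fin (n + 1)) F :=
  ⟨mon (finRotate (n + 1)) fun j => if j = Fin.last n then
    ((Perm.sign (finRotate (n + 1)) : ℤ) : F) else 1, by
    obtain ⟨w, hw⟩ := exists_mon_SL (F := F) (finRotate (n + 1)) (Fin.last n)
    exact hw ▸ w.2⟩

theorem rot_coe : (rot F n).1 = mon (finRotate (n + 1)) fun j => if j = Fin.last n then
    ((Perm.sign (finRotate (n + 1)) : ℤ) : F) else 1 := rfl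

theorem finRotate_castSucc (i : Fin n) : finRotate (n + 1) i.castSucc = i.succ := by
  rw [finRotate_apply, Fin.coeSucc_eq_succ]

/-- A Coxeter element. -/
def spW (F : Type*) [Field F] (n : ℕ) : symplecticGroup (Fin (n + 1)) F :=
  spL (rot F n) * wS spK (Fin.last n)

theorem spW_conj (i : Fin n) (a : SpecialLinearGroup (Fin 2) F) :
    spW F n * spK i.castSucc a * (spW F n)⁻¹ = spK i.succ a := by
  rw [← finRotate_castSucc, ← spL_mon rot_coe (Or.inl (by simp)), spW, wS]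
  conv_rhs => rw [← conj_eq_of_commute (spK_commute (Fin.castSucc_ne_last i).symm (wE tvE 0 1 1) a)]
  group

theorem spW_conj_last (a : SpecialLinearGroup (Fin 2) F) :
    spW F n * spK (Fin.last n) a * (spW F n)⁻¹ =
      spK 0 (wE tvE 0 1 1 * a * (wE tvE 0 1 1)⁻¹) := by
  rw [← finRotate_last, ← spL_mon rot_coe (by
    rcases Int.units_eq_one_or (Perm.sign (finRotate (n + 1))) with h | h <;> simp [h]), spW, wS,
    map_mul, map_mul, map_inv]
  group

theorem spW_conj_tv {i j : Fin n} (h : i ≠ j) (t : F) :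
    spW F n * spL (tvE i.castSucc j.castSucc t) * (spW F n)⁻¹ = spL (tvE i.succ j.succ t) := by
  have h' := (Fin.castSucc_injective _).ne h
  have h1 := (act_map spL (rot_coe (F := F))).2 _ _ h' t
  simp only [finRotate_castSucc, Fin.castSucc_ne_last, if_false, one_mul, div_one] at h1
  rw [← h1]
  conv_rhs => rw [← conj_eq_of_commute (spK_commute_tvE h' (Fin.castSucc_ne_last i).symm
    (Fin.castSucc_ne_last j).symm (wE tvE 0 1 1) t)]
  rw [spW, wS]; group

theorem spK_mem_of [Finite F] {H : Subgroup (symplecticGroup (Fin (n + 1)) F)} (hw : spW F n ∈ H)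
    (hu : ∀ t, spK 0 (tvE 0 1 t) ∈ H) (i : Fin (n + 1)) (a : SpecialLinearGroup (Fin 2) F) :
    spK i a ∈ H := by
  have key : ∀ a, spK 0 a ∈ H → ∀ i, spK i a ∈ H := fun a h i => by
    induction i using Fin.induction with
    | zero => exact h
    | succ i ih => exact spW_conj i a ▸ mul_mem (mul_mem hw ih) (inv_mem hw)
  have := eq_top_of_tvE (H.comap (spK 0)) fun r s hrs t => by
    obtain ⟨rfl, rfl⟩ | ⟨rfl, rfl⟩ : (r = 0 ∧ s = 1) ∨ (r = 1 ∧ s = 0) := by revert r s; decide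
    · exact hu t
    · have h1 := mul_mem (mul_mem hw (key _ (hu (-t)) (Fin.last n))) (inv_mem hw)
      rw [spW_conj_last, (act_tvE (wE_tvE_coe zero_ne_one one_ne_zero)).2 0 1 zero_ne_one] at h1
      simpa [wC] using h1
  exact key a (this ▸ mem_top a : a ∈ comap _ _) i

theorem sp_eq_top_of [Finite F] {H : Subgroup (symplecticGroup (Fin (n + 1)) F)}
    (hw : spW F n ∈ H) (hu : ∀ t, spK 0 (tvE 0 1 t) ∈ H) {i : Fin n}
    (hx : ∀ t, spL (tvE i.castSucc i.succ t) ∈ H) : H = ⊤ := by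
  have h1 := spK_mem_of hw hu
  have h2 : rot F n ∈ H.comap spL := by
    have := mul_mem hw (inv_mem (h1 (Fin.last n) (wE tvE 0 1 1)))
    rwa [spW, wS, mul_inv_cancel_right] at this
  have := eq_top_of_cycle (inv_mon rot_coe) (inv_mem h2) (a := i.succ) (finRotate_inv_trans n) (by
    rw [show (finRotate (n + 1))⁻¹ i.succ = i.castSucc by
      rw [Perm.inv_eq_iff_eq, finRotate_castSucc]]
    exact fun h t => tvE_eq h t ▸ hx t)
  exact sp_eq_top H (fun g => (this ▸ mem_top g : g ∈ comap _ _)) h1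

theorem exists_pair_Sp_large [Fintype F] (hF : 3 < Fintype.card F) :
    ∃ a b : symplecticGroup (Fin (n + 2)) F, closure {a, b} = ⊤ := by
  obtain ⟨k, hk⟩ := IsCyclic.exists_monoid_generator (α := Fˣ)
  have hk2 := sq_ne_one_of_gen hF fun u => mem_powers_iff_mem_zpowers.1 (hk u)
  have hk1 : (k : F) ≠ 1 := fun e => hk2 (by rw [e, one_pow])
  have k0 := k.ne_zero
  refine ⟨spK 0 (hE tvE 0 1 k), spL (tvE 0 1 1) * (spK 0 (tvE 0 1 1) * spW F _), ?_⟩
  set H := closure {spK (0 : Fin (n + 2)) (hE tvE 0 1 (k : F)),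
    spL (tvE 0 1 1) * (spK 0 (tvE 0 1 1) * spW F _)}
  have hh : spK 0 (hE tvE 0 1 (k : F)) ∈ H := subset_closure (by simp)
  have hg : spL (tvE 0 1 1) * (spK 0 (tvE 0 1 1) * spW F _) ∈ H := subset_closure (by simp)
  clear_value H
  have add : ∀ a b : F, spL (tvE (0 : Fin (n + 2)) 1 a) * spL (tvE 0 1 b) = spL (tvE 0 1 (a + b)) :=
    fun a b => by rw [← map_mul, stSL_tvE.add _ _ zero_ne_one]
  have add' : ∀ a b : F, spK (0 : Fin (n + 2)) (tvE 0 1 a) * spK 0 (tvE 0 1 b) =
      spK 0 (tvE 0 1 (a + b)) := fun a b => by rw [← map_mul, stSL_tvE.add _ _ zero_ne_one]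
  have a0 : ∀ s : F, spK (0 : Fin (n + 2)) (hE tvE 0 1 (k : F)) * spL (tvE 0 1 s) *
      (spK 0 (hE tvE 0 1 (k : F)))⁻¹ = spL (tvE 0 1 (k * s)) := fun s => by
    simpa using (spK_act (0 : Fin (n + 2)) k0).2 0 1 zero_ne_one s
  have a1 : ∀ s : F, spK (1 : Fin (n + 2)) (hE tvE 0 1 (k : F)) * spL (tvE 0 1 s) *
      (spK 1 (hE tvE 0 1 (k : F)))⁻¹ = spL (tvE 0 1 (s / k)) := fun s => by
    simpa using (spK_act (1 : Fin (n + 2)) k0).2 0 1 zero_ne_one s
  have a2 : ∀ {c : F}, c ≠ 0 → ∀ s, spK (0 : Fin (n + 2)) (hE tvE 0 1 c) * spK 0 (tvE 0 1 s) *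
      (spK 0 (hE tvE 0 1 c))⁻¹ = spK 0 (tvE 0 1 (c ^ 2 * s)) := fun hc s => by
    rw [(act_map (spK 0) ((hE_tvE_coe zero_ne_one hc).trans (mon_one _).symm)).2 0 1 zero_ne_one]
    congr 2; simp; ring
  have b0 : ∀ (i : Fin (n + 1)) a, spK 0 (tvE 0 1 1) * spW F _ * spK i.castSucc a *
      (spK 0 (tvE 0 1 1) * spW F _)⁻¹ = spK i.succ a := fun i a => by
    rw [← conj_eq_of_commute (spK_commute (Fin.succ_ne_zero i).symm (tvE 0 1 1) a), ← spW_conj]
    group
  have b1 : spL (tvE 0 1 (1 - 1 / (k : F))) * spK 1 (hE tvE 0 1 (k : F)) ∈ H := by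
    convert mul_mem (mul_mem hg hh) (inv_mem hg) using 1
    have := b0 0 (hE tvE 0 1 (k : F))
    rw [Fin.castSucc_zero, Fin.succ_zero_eq_one] at this
    rw [sub_eq_add_neg, ← add, ← neg_div, ← a1, ← stSL_tvE.inv zero_ne_one, map_inv, ← this]
    group
  have b2 : spL (tvE 0 1 (k * (1 - 1 / (k : F)) + -(1 - 1 / (k : F)))) ∈ H := by
    convert mul_mem (mul_mem (mul_mem hh b1) (inv_mem hh)) (inv_mem b1) using 1
    rw [← add, ← a0, ← stSL_tvE.inv zero_ne_one, map_inv, ← conj_mul,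
      conj_eq_of_commute (spK_commute zero_ne_one _ _)]
    group
  have b3 := fill_root add hk hh (Or.inl rfl) a0 (by
    rw [show k * (1 - 1 / (k : F)) + -(1 - 1 / (k : F)) = (k - 1) ^ 2 / k by field_simp; ring]
    exact div_ne_zero (pow_ne_zero _ (sub_ne_zero.2 hk1)) k0) b2
  have b4 := (mul_mem_cancel_left (b3 1)).1 hg
  have b5 : ∀ i, spK i (hE tvE 0 1 (k : F)) ∈ H := fun i => by
    induction i using Fin.induction with
    | zero => exact hh
    | succ i ih => exact b0 i _ ▸ mul_mem (mul_mem b4 ih) (inv_mem b4)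
  have b6 : spK 0 (tvE 0 1 (1 + (k : F)⁻¹ ^ 2 * -1)) ∈ H := by
    have h1 := mul_mem (mul_mem (mul_mem b4 (b5 (Fin.last _))) (inv_mem b4)) hh
    have h2 : wE tvE 0 1 1 * hE tvE (0 : Fin 2) 1 (k : F) * (wE tvE 0 1 1)⁻¹ =
        hE tvE 0 1 (k : F)⁻¹ := by
      rw [mul_inv_eq_iff_eq_mul, wE_conj_hE zero_ne_one (inv_ne_zero k0), inv_inv]
    have h3 : (spK (0 : Fin (n + 2)) (hE tvE 0 1 (k : F)⁻¹))⁻¹ = spK 0 (hE tvE 0 1 (k : F)) := by
      rw [inv_eq_iff_mul_eq_one, ← map_mul, ← hE_tvE_mul zero_ne_one (inv_ne_zero k0) k0,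
        inv_mul_cancel₀ k0]
      simp [hE]
    convert h1 using 1
    rw [← add', ← a2 (inv_ne_zero k0), h3, ← h2, ← spW_conj_last, ← stSL_tvE.inv zero_ne_one,
      map_inv]
    group
  have b7 := fill_root add' hk hh (Or.inr rfl) (a2 k0) (by
    rw [show 1 + (k : F)⁻¹ ^ 2 * -1 = (k ^ 2 - 1) / k ^ 2 by field_simp; ring]
    exact div_ne_zero (sub_ne_zero.2 hk2) (pow_ne_zero _ k0)) b6
  exact sp_eq_top_of ((mul_mem_cancel_left (b7 1)).1 b4) b7 (i := 0) b3

theorem exists_pair_Sp_three [Fintype F] (hF : Fintype.card F ≤ 3) (h2 : (2 : F) ≠ 0) :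
    ∃ a b : symplecticGroup (Fin (n + 2)) F, closure {a, b} = ⊤ := by
  refine ⟨spL (tvE 0 1 1), spW F _, ?_⟩
  set H := closure {spL (tvE (0 : Fin (n + 2)) 1 (1 : F)), spW F _}
  have hx : spL (tvE 0 1 1) ∈ H := subset_closure (by simp)
  have hw : spW F _ ∈ H := subset_closure (by simp)
  clear_value H
  have b0 := fill_small hF (x := fun t => spL (tvE (0 : Fin (n + 2)) 1 t))
    (fun a b => by rw [← map_mul, stSL_tvE.add _ _ zero_ne_one]) one_ne_zero hx
  have b1 : ∀ (i : Fin (n + 1)) (t : F), spL (tvE i.castSucc i.succ t) ∈ H := fun i => by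
    induction i using Fin.induction with
    | zero => exact b0
    | succ i ih =>
      intro t
      have := mul_mem (mul_mem hw (ih t)) (inv_mem hw)
      rwa [Fin.succ_castSucc, spW_conj_tv Fin.castSucc_lt_succ.ne] at this
  have b2 : ∀ i, TvIn (H.comap spL) 0 i := fun i => by
    induction i using Fin.induction with
    | zero => exact fun h => absurd rfl h
    | succ i ih => exact ih.trans fun h t => tvE_eq h t ▸ b1 i t
  have h0 : (0 : Fin (n + 2)) ≠ Fin.last _ := Fin.last_pos.ne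
  have hl : (Fin.last n).castSucc ≠ Fin.last (n + 1) := Fin.castSucc_ne_last _
  have b3 : spL (tvE 0 (Fin.last _) 1) ∈ H := tvE_eq h0 (1 : F) ▸ b2 _ h0 1
  have b4 := mul_mem (mul_mem hw (b1 (Fin.last n) 1)) (inv_mem hw)
  obtain ⟨e, he, u1⟩ : ∃ e : F, e ≠ 0 ∧ IsU (spW F _ * spL (tvE (Fin.last n).castSucc
      (Fin.last n).succ 1) * (spW F _)⁻¹) (single (Fin.last _) 0 e + single 0 (Fin.last _) e) := by
    refine ⟨-((Perm.sign (finRotate (n + 2)) : ℤ) : F), by
      rcases Int.units_eq_one_or (Perm.sign (finRotate (n + 2))) with h | h <;> simp [h], ?_⟩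
    convert (isU_y hl 1).conj (rot F _) using 1
    · rw [spW, Fin.succ_last]; group
    · ext r s
      obtain ⟨r, rfl⟩ := (finRotate (n + 2)).surjective r
      obtain ⟨s, rfl⟩ := (finRotate (n + 2)).surjective s
      rw [← transpose_apply (_ * _ * _), transpose_mul, transpose_transpose, rot_coe, mon_mul_apply,
        transpose_apply, mon_mul_apply]
      rw [← finRotate_last (n := n + 1)]
      nth_rewrite 1 [← Fin.succ_last, ← finRotate_castSucc]
      nth_rewrite 3 [← Fin.succ_last]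
      rw [← finRotate_castSucc]
      simp only [Matrix.add_apply, single_apply, EmbeddingLike.apply_eq_iff_eq]
      by_cases a1 : (Fin.last n).castSucc = r <;> by_cases a2 : Fin.last (n + 1) = s <;>
        by_cases a3 : (Fin.last n).castSucc = s <;> by_cases a4 : Fin.last (n + 1) = r <;>
        simp_all [eq_comm]
  have b5 : spK 0 (tvE 0 1 (2 * e)) ∈ H := by
    convert mul_mem (mul_mem (mul_mem b3 b4) (inv_mem b3)) (inv_mem b4) using 1
    refine (isU_spK _ _).unique ((u1.conj _).mul u1.inv) ?_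
    simp [tvE_coe h0, mul_add, add_mul, h0, h0.symm, two_mul, single_add]
    abel
  exact sp_eq_top_of hw (fill_small hF (x := fun t => spK (0 : Fin (n + 2)) (tvE 0 1 t))
    (fun a b => by rw [← map_mul, stSL_tvE.add _ _ zero_ne_one]) (mul_ne_zero h2 he) b5) (b1 0)

theorem exists_pair_Sp_two [Fintype F] (hF : Fintype.card F ≤ 3) (h2 : (2 : F) = 0) :
    ∃ a b : symplecticGroup (Fin (n + 3)) F, closure {a, b} = ⊤ := by
  have h01 : (0 : Fin (n + 3)) ≠ 1 := zero_ne_one
  have h02 : (0 : Fin (n + 3)) ≠ 2 := by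
    simp [Fin.ext_iff, Nat.mod_eq_of_lt (show 2 < n + 3 by omega)]
  have h12 : (1 : Fin (n + 3)) ≠ 2 := by
    simp [Fin.ext_iff, Nat.mod_eq_of_lt (show 2 < n + 3 by omega)]
  have m1 : (-1 : F) = 1 := by linear_combination -h2
  refine ⟨spK 0 (tvE 0 1 1) * spL (tvE 2 1 1 * tvE 1 2 1), spW F _, ?_⟩
  set H := Subgroup.closure
    {spK (0 : Fin (n + 3)) (tvE 0 1 (1 : F)) * spL (tvE 2 1 1 * tvE 1 2 1), spW F _}
  have hx : spK 0 (tvE 0 1 1) * spL (tvE 2 1 1 * tvE 1 2 1) ∈ H := Subgroup.subset_closure (by simp)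
  have hw : spW F _ ∈ H := Subgroup.subset_closure (by simp)
  clear_value H
  have sq : ∀ {ι : Type} [Fintype ι] [DecidableEq ι] {i j : ι}, i ≠ j →
      tvE i j (1 : F) * tvE i j 1 = 1 := fun h => by
    rw [stSL_tvE.add _ _ h, one_add_one_eq_two, h2, stSL_tvE.zero h]
  have c3 : (tvE (2 : Fin (n + 3)) 1 (1 : F) * tvE 1 2 1) ^ 3 = 1 := by
    have e : wE tvE (1 : Fin (n + 3)) 2 (1 : F) = wE tvE 2 1 1 := Subtype.ext (by
      rw [wE_tvE_coe h12 one_ne_zero, wE_tvE_coe h12.symm one_ne_zero, Equiv.swap_comm]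
      congr 1
      funext k
      simp [wC, m1])
    simp only [wE, inv_one, m1] at e
    calc _ = tvE (2 : Fin (n + 3)) 1 (1 : F) * (tvE 1 2 1 * tvE 2 1 1 * tvE 1 2 1) * tvE 2 1 1 *
          tvE 1 2 1 := by simp only [pow_succ, pow_zero, one_mul, mul_assoc]
      _ = tvE 2 1 1 * tvE 2 1 1 * tvE 1 2 1 * (tvE 2 1 1 * tvE 2 1 1) * tvE 1 2 1 := by
          rw [e]; simp only [mul_assoc]
      _ = 1 := by rw [sq h12.symm, one_mul, mul_one, sq h12]
  have cm : Commute (spK (0 : Fin (n + 3)) (tvE 0 1 (1 : F))) (spL (tvE 2 1 1 * tvE 1 2 1)) := by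
    rw [map_mul]
    exact (spK_commute_tvE h12.symm h02 h01 _ _).mul_right (spK_commute_tvE h12 h01 h02 _ _)
  have b0 : spK 0 (tvE 0 1 1) ∈ H := by
    have := pow_mem hx 3
    rwa [cm.mul_pow, ← map_pow spL, c3, map_one, mul_one, pow_three, ← map_mul, sq zero_ne_one,
      map_one, mul_one] at this
  have b1 := (mul_mem_cancel_left b0).1 hx
  have b2 := fill_small hF (x := fun t => spK (0 : Fin (n + 3)) (tvE 0 1 t))
    (fun a b => by rw [← map_mul, stSL_tvE.add _ _ zero_ne_one]) one_ne_zero b0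
  have b3 := spK_mem_of hw b2
  have b4 : wS spK 2 * spL (tvE 1 2 (-1)) * (wS spK 2)⁻¹ ∈ H := by
    convert mul_mem (mul_mem (mul_mem (mul_mem b1 (b3 1 (tvE 0 1 1))) (inv_mem b1))
      (inv_mem (b3 1 (tvE 0 1 1)))) (inv_mem (b3 2 (tvE 0 1 1))) using 1
    refine (isU_y h12 _).unique ((((isU_spK _ _).conj _).mul (isU_spK _ _).inv).mul
      (isU_spK _ _).inv) ?_
    change _ = (tvE 2 1 1).1 * (tvE 1 2 1).1 * _ * ((tvE 2 1 1).1 * (tvE 1 2 1).1)ᵀ + _ + _
    simp [tvE_coe h12, tvE_coe h12.symm, mul_add, add_mul, h12, h12.symm]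
    abel
  have b5 : spL (tvE 1 2 (-1)) ∈ H := by
    have h := b3 2 (wE tvE 0 1 1)
    simpa [mul_assoc, wS] using mul_mem (mul_mem (inv_mem h) b4) h
  exact sp_eq_top_of hw b2 (i := 1) (fill_small hF (x := fun t => spL (tvE (1 : Fin (n + 3)) 2 t))
    (fun a b => by rw [← map_mul, stSL_tvE.add _ _ h12]) (by simp) b5)

theorem exists_pair_Sp [Fintype F] {m : ℕ} (hm : 2 ≤ m) (hF : m = 2 → 2 < Fintype.card F) :
    ∃ a b : symplecticGroup (Fin m) F, closure {a, b} = ⊤ := by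
  obtain ⟨n, rfl⟩ : ∃ n, m = n + 2 := ⟨m - 2, by omega⟩
  by_cases h : 3 < Fintype.card F
  · exact exists_pair_Sp_large h
  by_cases h2 : (2 : F) = 0
  · rcases n with _ | n
    · have h3 : Fintype.card F = 3 := by have := hF rfl; omega
      have h4 := FiniteField.cast_card_eq_zero F
      rw [h3] at h4
      exact absurd (by push_cast at h4; linear_combination h4 - h2) (one_ne_zero (α := F))
    · exact exists_pair_Sp_two (by omega) h2
  · exact exists_pair_Sp_three (by omega) h2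

theorem exists_pair_quotient {G : Type*} [Group G] (N : Subgroup G) [N.Normal]
    (h : ∃ a b : G, closure {a, b} = ⊤) : ∃ a b : G ⧸ N, closure {a, b} = ⊤ := by
  obtain ⟨a, b, h⟩ := h
  refine ⟨a, b, ?_⟩
  have := congrArg (map (QuotientGroup.mk' N)) h
  rwa [MonoidHom.map_closure, Set.image_pair, map_top_of_surjective _
    (QuotientGroup.mk'_surjective N)] at this

end Cfsg.Agent.KSG.BN
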