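import Mathlib
import Cfsg.Agent.KSG.GenSp
import Cfsg.Agent.Class.Orth.OmegaCrit
import Cfsg.Agent.Class.Orth.Simple

/-!
Two-element generation of the orthogonal groups of odd dimension and of minus type.
-/

set_option autoImplicit false
set_option linter.unusedSectionVars false

namespace Cfsg.Agent.KSG.GenO

open Equiv Subgroup Cfsg.Agent.Class Cfsg.Agent.Class.Orth QuadraticMap

/-- Steinberg's commutator trick. -/
theorem trick {K G : Type*} [Field K] [Finite K] [Group G] {M : Subgroup G} {X : K → G}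
    (hX : ∀ t u, X t * X u = X (t + u)) {h n : G} (hh : h ∈ M) (hb : X 1 * n ∈ M) {k : Kˣ}
    (hk : ∀ u : Kˣ, u ∈ Submonoid.powers k) {c c' : K} (he : c = k ∨ c = k ^ 2)
    (hc : ∀ t, h * X t * h⁻¹ = X (c * t))
    (hc' : ∀ t, n * h * n⁻¹ * X t * (n * h * n⁻¹)⁻¹ = X (c' * t))
    (hcomm : h * (n * h * n⁻¹) = n * h * n⁻¹ * h) (h1 : c ≠ 1) (h1' : c' ≠ 1) (t : K) :
    X t ∈ M := by
  have h0 : X 0 = 1 := mul_eq_left.1 ((hX 0 0).trans (by rw [add_zero]))
  have hn : ∀ t, (X t)⁻¹ = X (-t) := fun t => inv_eq_of_mul_eq_one_right (by simp [hX, h0])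
  have h2 := mul_mem (mul_mem hb hh) (inv_mem hb)
  have h3 := mul_mem (mul_mem (mul_mem hh h2) (inv_mem hh)) (inv_mem h2)
  have e : h * (X 1 * n * h * (X 1 * n)⁻¹) * h⁻¹ * (X 1 * n * h * (X 1 * n)⁻¹)⁻¹ =
      (h * X 1 * h⁻¹) * (n * h * n⁻¹ * ((h * X 1 * h⁻¹)⁻¹ * X 1) * (n * h * n⁻¹)⁻¹) * (X 1)⁻¹ := by
    have : h * (X 1 * n * h * (X 1 * n)⁻¹) * h⁻¹ =
        (h * X 1 * h⁻¹) * (h * (n * h * n⁻¹) * h⁻¹) * (h * X 1 * h⁻¹)⁻¹ := by group
    rw [this, hcomm]
    group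
  rw [e, hc, hn, hX, hc', hn, hX, hX] at h3
  refine BN.fill_root hX hk hh he hc ?_ h3 t
  rw [show c * 1 + c' * (-(c * 1) + 1) + -1 = (c - 1) * (1 - c') by ring]
  exact mul_ne_zero (sub_ne_zero.2 h1) (sub_ne_zero.2 h1'.symm)

variable {F V : Type*} [Field F] [AddCommGroup V] [Module F V] {Q : QuadraticForm F V}
  {ι : Type*} [Fintype ι] [DecidableEq ι] {e f : ι → V}

variable (e f) in
/-- `n` is monomial on the hyperbolic system. -/
def Mo (ρ : Perm (ι ⊕ ι)) (n : OG Q) : Prop :=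
  ∀ x, ∃ c : F, n.1 (Sum.elim e f x) = c • Sum.elim e f (ρ x)

variable {ρ ρ' : Perm (ι ⊕ ι)} {n n' : OG Q}

theorem Mo.mul (h : Mo e f ρ n) (h' : Mo e f ρ' n') : Mo e f (ρ * ρ') (n * n') := fun x => by
  obtain ⟨c, hc⟩ := h' x
  obtain ⟨d, hd⟩ := h (ρ' x)
  exact ⟨c * d, by rw [OG.mul_apply, hc, map_smul, hd, smul_smul]; rfl⟩

theorem perp_elim {a : V} (ha : a ∈ QF.hypPerp Q e f) (x : ι ⊕ ι) :
    polar Q (Sum.elim e f x) a = 0 := by
  rcases x with i | i
  exacts [(ha i).1, (ha i).2]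

theorem Mo.perp_inv (h : Mo e f ρ n) {a : V} (ha : a ∈ QF.hypPerp Q e f) :
    (n⁻¹).1 a ∈ QF.hypPerp Q e f := fun i => by
  have : ∀ x, polar Q (Sum.elim e f x) ((n⁻¹).1 a) = 0 := fun x => by
    obtain ⟨c, hc⟩ := h x
    rw [← OG.polar_apply_left, hc, polar_smul_left', perp_elim ha, mul_zero]
  exact ⟨this (.inl i), this (.inr i)⟩

variable (S : QF.IsHypSys Q e f)
include S

theorem Q_elim (x : ι ⊕ ι) : Q (Sum.elim e f x) = 0 := by
  rcases x with i | i
  exacts [S.qe i, S.qf i]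

theorem polar_elim (x y : ι ⊕ ι) :
    polar Q (Sum.elim e f x) (Sum.elim e f y) = if y = x.swap then 1 else 0 := by
  rcases x with i | i <;> rcases y with j | j <;> simp [S.ee, S.ff, S.ef, S.fe, eq_comm]

theorem Mo.ne (h : Mo e f ρ n) (x : ι ⊕ ι) :
    ∃ c : F, c ≠ 0 ∧ n.1 (Sum.elim e f x) = c • Sum.elim e f (ρ x) := by
  refine (h x).imp fun c hc => ⟨?_, hc⟩
  rintro rfl
  simpa [polar_elim S, hc] using OG.map_polar n (Sum.elim e f x) (Sum.elim e f x.swap)

theorem Mo.inv (h : Mo e f ρ n) : Mo e f ρ⁻¹ n⁻¹ := fun x => by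
  obtain ⟨c, h0, hc⟩ := h.ne S (ρ⁻¹ x)
  exact ⟨c⁻¹, by rw [OG.inv_apply_eq_iff, map_smul, hc, smul_smul, inv_mul_cancel₀ h0]; simp⟩

theorem Mo.perp (h : Mo e f ρ n) {a : V} (ha : a ∈ QF.hypPerp Q e f) :
    n.1 a ∈ QF.hypPerp Q e f := by simpa using (h.inv S).perp_inv ha

theorem decomp (v : V) : ∃ a ∈ QF.hypPerp Q e f,
    v = a + ∑ x : ι ⊕ ι, polar Q (Sum.elim e f x.swap) v • Sum.elim e f x :=
  ⟨_, S.sub_mem_perp v, by simp⟩

theorem ext (h1 : ∀ x, n.1 (Sum.elim e f x) = n'.1 (Sum.elim e f x))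
    (h2 : ∀ a ∈ QF.hypPerp Q e f, n.1 a = n'.1 a) : n = n' := OG.ext fun v => by
  obtain ⟨a, ha, e⟩ := decomp S v
  rw [e]
  simp only [map_add, map_sum, map_smul, h1, h2 a ha]

theorem isHyp (i : ι) : IsHyp Q (e i) (f i) := ⟨S.qe i, S.qf i, S.ef_self i⟩

variable [Finite F] [FiniteDimensional F V] (hQ : ND Q) (h5 : 5 ≤ Module.finrank F V)
include hQ h5

theorem le_of_short (i : ι) {M : Subgroup (OG Q)}
    (h : ∀ x, ∀ a ∈ QF.hypPerp Q e f, eichler Q (Sum.elim e f x) a ∈ M) {a b : V}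
    (ha : a ∈ QF.hypPerp Q e f) (hb : b ∈ QF.hypPerp Q e f) (hab : polar Q b a ≠ 0) :
    commutator (OG Q) ≤ M := by
  have h1 : ∀ x y, y ≠ x.swap → ∀ t : F, eichler Q (Sum.elim e f x) (t • Sum.elim e f y) ∈ M := by
    intro x y hxy t
    have hw := Submodule.smul_mem _ (t / polar Q b a) hb
    have := commutatorElement_eichler (g := eichler Q (Sum.elim e f y) a) (Q_elim S x)
      (perp_elim hw x) (eichler_apply_of_perp_perp (by simp [polar_elim S, hxy]) (perp_elim ha x))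
    rw [eichler_apply_of_perp (Q_elim S y) (perp_elim ha y) (by rw [polar_comm, perp_elim hw]),
      add_sub_cancel_left, polar_smul_left', div_mul_cancel₀ _ hab] at this
    rw [← this, commutatorElement_def]
    exact mul_mem (mul_mem (mul_mem (h _ _ ha) (h _ _ hw)) (inv_mem (h _ _ ha))) (inv_mem (h _ _ hw))
  have h2 : ∀ x v, polar Q (Sum.elim e f x) v = 0 → eichler Q (Sum.elim e f x) v ∈ M := by
    intro x v hv
    obtain ⟨c, hc, e1⟩ := decomp S v
    have := Finset.sum_induction (s := Finset.univ)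
      (fun y => polar Q (Sum.elim e f y.swap) v • Sum.elim e f y)
      (fun v => polar Q (Sum.elim e f x) v = 0 ∧ eichler Q (Sum.elim e f x) v ∈ M)
      (fun y z hy hz => ⟨by simp [hy.1, hz.1], by
        rw [eichler_add (Q_elim S x) hy.1 hz.1]; exact mul_mem hy.2 hz.2⟩)
      ⟨by simp, by rw [eichler_zero]; exact one_mem _⟩ fun y _ => by
        by_cases hy : y = x.swap
        · simp [hy, hv, eichler_zero]
        · exact ⟨by simp [polar_elim S, hy], h1 x y hy _⟩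
    rw [e1, eichler_add (Q_elim S x) (perp_elim hc x) this.1]
    exact mul_mem (h x c hc) this.2
  rw [hQ.commutator_eq_EG_of_five_le h5]
  exact hQ.EG_le_of_isHyp (isHyp S i) (by omega) M (fun v hv => h2 (.inl i) v (mem_perp2.1 hv).1)
    fun v hv => h2 (.inr i) v (mem_perp2.1 hv).2

theorem exists_perm (π : Perm ι) : ∃ n ∈ commutator (OG Q), Mo e f (π.sumCongr π) n ∧
    ∀ a ∈ QF.hypPerp Q e f, n.1 a = a := by
  induction π using Perm.swap_induction_on with
  | one => exact ⟨1, one_mem _, fun x => ⟨1, by simp⟩, fun _ _ => rfl⟩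
  | swap_mul π i j hij ih =>
    obtain ⟨n, h1, h2, h3⟩ := ih
    refine ⟨eichler Q (e i) (f j) * eichler Q (e j) (-f i) * eichler Q (e i) (f j) * n,
      mul_mem ?_ h1, ?_, fun a ha => ?_⟩
    · rw [hQ.commutator_eq_EG_of_five_le h5]
      exact mul_mem (mul_mem (eichler_mem_EG _ _) (eichler_mem_EG _ _)) (eichler_mem_EG _ _)
    · rw [← Perm.sumCongr_mul]
      refine Mo.mul (fun x => ?_) h2
      have a1 := eichler_apply (S.qe i) (S.ef_ne i j hij)
      have a2 := eichler_apply (v := -f i) (S.qe j) (by simp [S.ef_ne j i hij.symm])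
      simp only [OG.mul_apply, a1, a2]
      rcases x with l | l <;> by_cases e1 : l = i <;> by_cases e2 : l = j <;>
        simp [e1, e2, S.ee, S.ff, S.ef, S.fe, S.qf, hij, hij.symm, swap_apply_def]
      all_goals first | exact ⟨1, (one_smul _ _).symm⟩ | exact ⟨-1, (neg_one_smul _ _).symm⟩
    · simp only [OG.mul_apply, h3 a ha]
      have h4 := fun i => (polar_comm Q a (e i)).trans (ha i).1
      have h5 := fun i => (polar_comm Q a (f i)).trans (ha i).2
      rw [eichler_apply_of_perp_perp (h4 i) (h5 j), eichler_apply_of_perp_perp (h4 j) (by simp [h5]),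
        eichler_apply_of_perp_perp (h4 i) (h5 j)]

omit h5 in
theorem exists_short (i : ι) {a : V} (ha : a ∈ QF.hypPerp Q e f) (h0 : Q a ≠ 0) :
    ∃ t ∈ commutator (OG Q), t.1 (e i) = -Q a • f i ∧ t.1 (f i) = -(Q a)⁻¹ • e i ∧
      (∀ x, x ≠ .inl i → x ≠ .inr i → t.1 (Sum.elim e f x) = Sum.elim e f x) ∧
      Mo e f (swap (.inl i) (.inr i)) t ∧ ∀ b ∈ QF.hypPerp Q e f, t.1 b = (refl Q a).1 b := by
  have h1 := (isHyp S i).Q_add_smul (Q a)
  have h2 : ∀ x, (refl Q (e i + Q a • f i) * refl Q a).1 (Sum.elim e f x) = Sum.elim e f x -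
      ((Q a)⁻¹ * polar Q (Sum.elim e f x) (e i + Q a • f i)) • (e i + Q a • f i) := fun x => by
    rw [OG.mul_apply, refl_apply_of_polar_eq_zero (perp_elim ha x), Orth.refl_apply, h1]
  have h3 := (h2 (.inl i)).trans (show _ = -Q a • f i by simp [S.ee, S.ef, h0])
  have h4 := (h2 (.inr i)).trans (show _ = -(Q a)⁻¹ • e i by simp [S.ff, S.fe, h0, smul_smul])
  have h5 : ∀ x, x ≠ .inl i → x ≠ .inr i →
      (refl Q (e i + Q a • f i) * refl Q a).1 (Sum.elim e f x) = Sum.elim e f x := by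
    rintro (j | j) a1 a2 <;> rw [h2]
    · simp [S.ee, S.ef, show j ≠ i by simpa using a1]
    · simp [S.ff, S.fe, show j ≠ i by simpa using a2]
  refine ⟨_, refl_mul_refl_mem_commutator hQ (by rwa [h1]) h0 (by rw [h1]), h3, h4, h5, fun x => ?_,
    fun b hb => ?_⟩
  · rw [swap_apply_def]
    split_ifs with a1 a2
    exacts [⟨_, a1 ▸ h3⟩, ⟨_, a2 ▸ h4⟩, ⟨1, by rw [h5 x a1 a2, one_smul]⟩]
  · have hb' : (refl Q a).1 b ∈ QF.hypPerp Q e f := by
      rw [Orth.refl_apply]; exact sub_mem hb (Submodule.smul_mem _ _ ha)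
    rw [OG.mul_apply, refl_apply_of_polar_eq_zero]
    simp [polar_comm Q ((refl Q a).1 b), (hb' i).1, (hb' i).2]

end Cfsg.Agent.KSG.GenO

namespace Cfsg.Agent.KSG.GenO

open Equiv Subgroup Cfsg.Agent.Class Cfsg.Agent.Class.Orth QuadraticMap

variable {F V : Type*} [Field F] [AddCommGroup V] [Module F V] {Q : QuadraticForm F V} {k : ℕ}
  {e f : Fin (k + 1) → V} (S : QF.IsHypSys Q e f)
  [Finite F] [FiniteDimensional F V] (hQ : ND Q) (h5 : 5 ≤ Module.finrank F V)

/-- The signed cycle. -/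
def cyc (k : ℕ) : Perm (Fin (k + 1) ⊕ Fin (k + 1)) :=
  swap (.inl 0) (.inr 0) * (finRotate (k + 1)).sumCongr (finRotate (k + 1))

theorem cyc_induction {P : Fin (k + 1) ⊕ Fin (k + 1) → Prop} (h0 : P (.inl 0))
    (h : ∀ x, P x → P (cyc k x)) (x : Fin (k + 1) ⊕ Fin (k + 1)) : P x := by
  have h1 : ∀ i, P (.inl i) := fun i => by
    induction i using Fin.induction with
    | zero => exact h0
    | succ i ih => simpa [-finRotate_apply, cyc, BN.finRotate_castSucc, swap_apply_def] using h _ ih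
  rcases x with i | i
  · exact h1 i
  induction i using Fin.induction with
  | zero => simpa [cyc] using h _ (h1 (Fin.last k))
  | succ i ih => simpa [-finRotate_apply, cyc, BN.finRotate_castSucc, swap_apply_def] using h _ ih

include S hQ h5

theorem pair_of {K : Type*} [Field K] [Finite K] (j : K →+ V)
    (hj : ∀ a, a ∈ QF.hypPerp Q e f ↔ ∃ t, j t = a) {a b : K} (hab : polar Q (j b) (j a) ≠ 0)
    {h n : OG Q} (h1 : h ∈ commutator (OG Q)) (h2 : n ∈ commutator (OG Q)) (hh : Mo e f 1 h)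
    (hn : Mo e f (cyc k) n) {l l' : F} (h3 : h.1 (e 0) = l • e 0) (h4 : h.1 (f (Fin.last k)) =
      l' • f (Fin.last k)) {u : Kˣ} (hu : ∀ v : Kˣ, v ∈ Submonoid.powers u) {c c' : K}
    (he : c = u ∨ c = u ^ 2) (h6 : ∀ t, l • h.1 (j t) = j (c * t))
    (h7 : ∀ t, l' • (n * h * n⁻¹).1 (j t) = j (c' * t)) (c1 : c ≠ 1) (c2 : c' ≠ 1) :
    ∃ x y : commutator (OG Q), closure {x, y} = ⊤ := by
  have hp : ∀ t, polar Q (e 0) (j t) = 0 := fun t => ((hj _).2 ⟨t, rfl⟩ 0).1
  have h8 : (n * h * n⁻¹).1 (e 0) = l' • e 0 := by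
    obtain ⟨d, hd⟩ := (hn.inv S) (.inl 0)
    rw [show (cyc k)⁻¹ (.inl 0) = .inr (Fin.last k) from Perm.inv_eq_iff_eq.2 (by simp [cyc]),
      Sum.elim_inl, Sum.elim_inr] at hd
    rw [OG.mul_apply, OG.mul_apply, hd, map_smul, h4, smul_comm, map_smul, ← hd, OG.apply_inv_apply]
  have h9 : Mo e f 1 (n * h * n⁻¹) := by simpa using (hn.mul hh).mul (hn.inv S)
  have l0 : ∀ {g : OG Q} {l : F}, g.1 (e 0) = l • e 0 → l ≠ 0 := by
    rintro g _ hg rfl
    simpa [hg, S.ef] using OG.map_polar g (e 0) (f 0)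
  have cj : ∀ {g : OG Q} {l : F} {c : K}, g.1 (e 0) = l • e 0 → (∀ t, l • g.1 (j t) = j (c * t)) →
      ∀ t, g * eichler Q (e 0) (j t) * g⁻¹ = eichler Q (e 0) (j (c * t)) := fun {g l c} a1 a2 t => by
    rw [conj_eichler, a1, eichler_smul_left (S.qe 0), a2]
    have := OG.map_polar g (e 0) (j t)
    rwa [a1, hp, polar_smul_left', mul_eq_zero_iff_left (l0 a1)] at this
  have hb : eichler Q (e 0) (j 1) * n ∈ commutator (OG Q) :=
    mul_mem (hQ.commutator_eq_EG_of_five_le h5 ▸ eichler_mem_EG _ _) h2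
  refine ⟨⟨h, h1⟩, ⟨_, hb⟩, map_injective (commutator _).subtype_injective ?_⟩
  rw [MonoidHom.map_closure, Set.image_pair, ← MonoidHom.range_eq_map, range_subtype]
  refine le_antisymm ((closure_le _).2 (Set.pair_subset h1 hb)) ?_
  have a1 : h ∈ closure {h, eichler Q (e 0) (j 1) * n} := subset_closure (by simp)
  have a2 : eichler Q (e 0) (j 1) * n ∈ closure {h, eichler Q (e 0) (j 1) * n} :=
    subset_closure (by simp)
  have a3 := trick (X := fun t => eichler Q (e 0) (j t))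
    (fun t u => by rw [map_add, eichler_add (S.qe 0) (hp _) (hp _)]) a1 a2 hu he (cj h3 h6)
    (cj h8 h7) (ext S (fun x => ?_) fun a ha => ?_) c1 c2
  · have a4 := (mul_mem_cancel_left (a3 1)).1 a2
    refine le_of_short S hQ h5 0 (fun x => ?_) ((hj _).2 ⟨a, rfl⟩) ((hj _).2 ⟨b, rfl⟩) hab
    induction x using cyc_induction with
    | h0 => intro a ha; obtain ⟨t, rfl⟩ := (hj a).1 ha; exact a3 t
    | h x ih =>
      intro a ha
      obtain ⟨d, d0, hd⟩ := hn.ne S x
      have hb := Submodule.smul_mem _ d⁻¹ ha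
      have := mul_mem (mul_mem a4 (ih _ (hn.perp_inv hb))) (inv_mem a4)
      rwa [conj_eichler, hd, OG.apply_inv_apply, eichler_smul_left (Q_elim S _) (perp_elim hb _),
        smul_smul, mul_inv_cancel₀ d0, one_smul] at this
  · obtain ⟨d, hd⟩ := hh x
    obtain ⟨d', hd'⟩ := h9 x
    rw [Perm.one_apply] at hd hd'
    rw [OG.mul_apply, OG.mul_apply _ h, hd, hd', map_smul, map_smul, hd, hd', smul_comm]
  · obtain ⟨t, rfl⟩ := (hj a).1 ha
    refine smul_right_injective V (mul_ne_zero (l0 h3) (l0 h8)) ?_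
    dsimp only
    rw [OG.mul_apply, OG.mul_apply _ h, mul_smul, ← map_smul, h7, h6, mul_comm l, mul_smul,
      ← map_smul, h6, h7, mul_left_comm]

theorem exists_cyc {a : V} (ha : a ∈ QF.hypPerp Q e f) (h0 : Q a ≠ 0) :
    ∃ n ∈ commutator (OG Q), Mo e f (cyc k) n ∧ ∀ b ∈ QF.hypPerp Q e f, n.1 b = (refl Q a).1 b := by
  obtain ⟨n, h1, h2, h3⟩ := exists_perm S hQ h5 (finRotate (k + 1))
  obtain ⟨t, a1, -, -, -, a2, a3⟩ := exists_short S hQ 0 ha h0
  exact ⟨t * n, mul_mem a1 h1, a2.mul h2, fun b hb => by rw [OG.mul_apply, h3 b hb, a3 b hb]⟩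

theorem pair_odd (hk : k ≠ 0) (h2 : (2 : F) ≠ 0) {a : V} (h0 : Q a ≠ 0)
    (ha : ∀ b, b ∈ QF.hypPerp Q e f ↔ ∃ t : F, t • a = b) :
    ∃ x y : commutator (OG Q), closure {x, y} = ⊤ := by
  have ha' := (ha a).2 ⟨1, one_smul _ _⟩
  obtain ⟨u, hu⟩ := IsCyclic.exists_monoid_generator (α := Fˣ)
  have u1 : (u : F) ≠ 1 := fun h => by
    obtain ⟨i, hi⟩ := hu (-1)
    exact h2 (by linear_combination (by simpa [h] using congrArg Units.val hi : (1 : F) = -1))
  obtain ⟨n, n1, n2, n3⟩ := exists_cyc S hQ h5 ha' h0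
  obtain ⟨m, -, m2, m3⟩ := exists_perm S hQ h5 (swap 0 (Fin.last k))
  have hl : (0 : Fin (k + 1)) ≠ Fin.last k := by simpa [Fin.ext_iff] using hk.symm
  have x0 := (isHyp S 0).hypScale_apply u.ne_zero
  generalize hypScale Q (e 0) (f 0) u = x at x0
  have x1 : x.1 (e 0) = (u : F) • e 0 := by simp [x0, S.ee, S.ef, sub_smul]
  have x2 : x.1 (f 0) = (u : F)⁻¹ • f 0 := by simp [x0, S.ff, S.fe, sub_smul]
  have x3 : ∀ i, i ≠ 0 → x.1 (e i) = e i ∧ x.1 (f i) = f i := fun i hi => by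
    simp [x0, S.ee, S.ff, S.ef, S.fe, hi]
  have x4 : Mo e f 1 x := by
    rintro (i | i) <;> by_cases hi : i = 0
    exacts [⟨_, hi ▸ x1⟩, ⟨1, by simp [x3 i hi]⟩, ⟨_, hi ▸ x2⟩, ⟨1, by simp [x3 i hi]⟩]
  have x5 : ∀ b ∈ QF.hypPerp Q e f, (x * m * x⁻¹ * m⁻¹).1 b = b := fun b hb => by
    have : x.1 b = b := by simp [x0, polar_comm Q b, hb 0]
    rw [OG.mul_apply, OG.mul_apply, OG.mul_apply, (OG.inv_apply_eq_iff m).2 (m3 b hb).symm,
      (OG.inv_apply_eq_iff x).2 this.symm, m3 b hb, this]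
  refine pair_of S hQ h5 (LinearMap.toSpanSingleton F V a).toAddMonoidHom ha (a := 1) (b := 1)
    (by simp [h0, h2]) (h := x * m * x⁻¹ * m⁻¹) (commutator_mem_commutator (mem_top x) (mem_top m))
    n1 (by simpa using ((x4.mul m2).mul (x4.inv S)).mul (m2.inv S)) n2 (l := u) (l' := u) ?_ ?_ hu
    (.inl rfl) (fun t => ?_) (c' := u) (fun t => ?_) u1 u1
  · obtain ⟨d, hd⟩ := m2.inv S (.inl 0)
    simp only [Perm.sumCongr_inv, swap_inv, Perm.sumCongr_apply, Sum.map_inl, swap_apply_left,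
      Sum.elim_inl] at hd
    rw [OG.mul_apply, OG.mul_apply, OG.mul_apply, hd, map_smul,
      (OG.inv_apply_eq_iff x).2 (x3 _ hl.symm).1.symm, ← hd, OG.apply_inv_apply, x1]
  · obtain ⟨d, hd⟩ := m2.inv S (.inr (Fin.last k))
    simp only [Perm.sumCongr_inv, swap_inv, Perm.sumCongr_apply, Sum.map_inr, swap_apply_right,
      Sum.elim_inr] at hd
    rw [OG.mul_apply, OG.mul_apply, OG.mul_apply, hd, map_smul,
      (OG.inv_apply_eq_iff x).2 (show f 0 = x.1 ((u : F) • f 0) by simp [x2, smul_smul]), smul_comm,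
      ← hd, map_smul, OG.apply_inv_apply, map_smul, (x3 _ hl.symm).2]
  · rw [x5 _ ((ha _).2 ⟨t, by rfl⟩)]; simp [mul_smul]
  · rw [OG.mul_apply, OG.mul_apply, x5 _ (n2.perp_inv ((ha _).2 ⟨t, by rfl⟩)), OG.apply_inv_apply]
    simp [mul_smul]

theorem pair_minus (hk : k ≠ 0) {α β : F} [Fact (∀ r, r ^ 2 ≠ α + β * r)] (hd : β ^ 2 + 4 * α ≠ 0)
    (j : QuadraticAlgebra F α β →ₗ[F] V) (hj : ∀ a, a ∈ QF.hypPerp Q e f ↔ ∃ t, j t = a)
    (hN : ∀ t, Q (j t) = t.norm) : ∃ x y : commutator (OG Q), closure {x, y} = ⊤ := by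
  have : Finite (QuadraticAlgebra F α β) := Finite.of_equiv _ (QuadraticAlgebra.equivProd α β).symm
  have hB : ∀ s t, algebraMap F (QuadraticAlgebra F α β) (polar Q (j s) (j t)) =
      s * star t + star s * t := fun s t => by
    simp only [polar, ← map_add, hN, map_sub, QuadraticAlgebra.algebraMap_norm_eq_mul_star, star_add]
    ring
  have hr : ∀ a, a ≠ 0 → ∀ t, (refl Q (j a)).1 (j t) = j (-(a / star a) * star t) := fun a ha t => by
    rw [Orth.refl_apply, ← map_smul, ← map_sub, Algebra.smul_def, map_mul, map_inv₀, hB, hN,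
      QuadraticAlgebra.algebraMap_norm_eq_mul_star]
    congr 1
    have : star a ≠ 0 := by simpa using ha
    field_simp
    ring
  obtain ⟨u, hu⟩ := IsCyclic.exists_monoid_generator (α := (QuadraticAlgebra F α β)ˣ)
  have hw : star (QuadraticAlgebra.omega : QuadraticAlgebra F α β) ≠ QuadraticAlgebra.omega :=
    fun h => hd (by
      have h1 := congrArg QuadraticAlgebra.re h
      have h2 := congrArg QuadraticAlgebra.im h
      simp at h1 h2
      linear_combination β * h1 - 2 * α * h2)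
  have u1 : star (u : QuadraticAlgebra F α β) ≠ u := fun h => by
    obtain ⟨i, hi⟩ := hu (.mk0 QuadraticAlgebra.omega fun h => hw (by simp [h]))
    have := congrArg Units.val hi
    simp only [Units.val_pow_eq_pow_val, Units.val_mk0] at this
    exact hw (by rw [← this, star_pow, h])
  have u0 : star (u : QuadraticAlgebra F α β) ≠ 0 := by simp
  have N0 := QuadraticAlgebra.norm_eq_zero_iff_eq_zero.not.2 u0
  have p := fun t => (hj _).2 ⟨t, rfl⟩
  obtain ⟨n, n1, n2, n3⟩ := exists_cyc S hQ h5 (p 1) (by simp [hN])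
  obtain ⟨s, s1, -, s2, s3, s4, s5⟩ := exists_short S hQ 0 (p 1) (by simp [hN])
  obtain ⟨t, t1, t2, -, t3, t4, t5⟩ := exists_short S hQ 0 (p (star u.1)) (hN _ ▸ N0)
  have hl : Fin.last k ≠ 0 := by simpa [Fin.ext_iff] using hk
  have e1 : ∀ x, (s * t).1 (j x) = j (u / star u.1 * x) := fun x => by
    rw [OG.mul_apply, t5 _ (p _), hr _ u0, s5 _ (p _), hr _ one_ne_zero]; simp
  have e2 : ∀ x, n.1 (j x) = j (-star x) := fun x => by
    rw [n3 _ (p _), hr _ one_ne_zero]; simp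
  obtain ⟨b, hb⟩ : ∃ b, polar Q (j b) (j 1) ≠ 0 := by
    by_contra! h
    have h1 := (hB 1 1).symm.trans (congrArg _ (h 1))
    have h2 := (hB QuadraticAlgebra.omega 1).symm.trans (congrArg _ (h _))
    simp only [star_one, mul_one, map_zero] at h1 h2
    exact hw (by linear_combination h2 - QuadraticAlgebra.omega * h1)
  refine pair_of S hQ h5 j.toAddMonoidHom hj hb (mul_mem s1 t1) n1 (by simpa using s4.mul t4) n2
    (l := (star u.1).norm) (l' := 1) ?_ ?_ hu (.inr rfl) (fun x => ?_) (c' := star u.1 / u)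
    (fun x => ?_) (fun h => u1 ?_) (by simpa [div_eq_one_iff_eq] using u1)
  · rw [OG.mul_apply, t2, map_smul, s2, hN, hN, smul_smul]; simp
  · rw [OG.mul_apply, one_smul]
    exact (congrArg _ (t3 (.inr _) (by simp) (by simpa))).trans (s3 (.inr _) (by simp) (by simpa))
  · rw [LinearMap.toAddMonoidHom_coe, e1, ← map_smul, Algebra.smul_def,
      QuadraticAlgebra.algebraMap_norm_eq_mul_star, star_star]
    congr 1
    field_simp
  · rw [LinearMap.toAddMonoidHom_coe, one_smul, OG.mul_apply, OG.mul_apply,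
      (OG.inv_apply_eq_iff n).2 (show j x = n.1 (j (-star x)) by simp [e2]), e1, e2]
    simp
  · rcases sq_eq_one_iff.1 h with h | h <;> simp [h]

omit S hQ h5

theorem pair_equiv {G H : Type*} [Group G] [Group H] (e : G ≃* H)
    (h : ∃ a b : H, closure {a, b} = ⊤) : ∃ a b : G, closure {a, b} = ⊤ := by
  obtain ⟨a, b, h⟩ := h
  refine ⟨e.symm a, e.symm b, ?_⟩
  have := congrArg (map e.symm.toMonoidHom) h
  rwa [MonoidHom.map_closure, Set.image_pair, map_top_of_surjective _ e.symm.surjective] at this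

theorem pair_oddQF {m : ℕ} (hm : 2 ≤ m) (h2 : (2 : F) ≠ 0) :
    ∃ x y : commutator (OG (oddQF m F)), closure {x, y} = ⊤ := by
  obtain ⟨k, rfl⟩ : ∃ k, m = k + 1 := ⟨m - 1, by omega⟩
  refine pair_odd (e := fun i => Pi.single (.inr (.inl i)) 1)
    (f := fun i => Pi.single (.inr (.inr i)) 1) ?_ (nd_oddQF _ F h2) (by simp; omega) (by omega) h2
    (a := Pi.single (.inl ()) 1) (by simp [oddQF_apply, quadFormOdd]) fun b => ⟨fun h => ?_, ?_⟩
  · exact ⟨by simp [oddQF_apply, quadFormOdd], by simp [oddQF_apply, quadFormOdd],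
      by simp [polar_oddQF], by simp [polar_oddQF], by simp [polar_oddQF, Pi.single_apply],
      fun i j h => by simp [polar_oddQF, Pi.single_apply, h.symm]⟩
  · refine ⟨b (.inl ()), funext ?_⟩
    rintro (_ | i | i)
    · simp
    · simpa [polar_oddQF, Pi.single_apply, eq_comm] using (h i).2
    · simpa [polar_oddQF, Pi.single_apply, eq_comm] using (h i).1
  · rintro ⟨t, rfl⟩ i
    simp [polar_oddQF]

theorem pair_minusQF {m : ℕ} (hm : 2 ≤ m) {a b : F}
    (hab : ∀ z₁ z₂ : F, z₁ ^ 2 + a * z₁ * z₂ + b * z₂ ^ 2 = 0 → z₁ = 0 ∧ z₂ = 0) :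
    ∃ x y : commutator (OG (minusQF m F a b)), closure {x, y} = ⊤ := by
  obtain ⟨k, rfl⟩ : ∃ k, m = k + 1 := ⟨m - 1, by omega⟩
  have : Fact (∀ r, r ^ 2 ≠ -b + a * r) :=
    ⟨fun r h => one_ne_zero (hab (-r) 1 (by linear_combination h)).2⟩
  let j : QuadraticAlgebra F (-b) a →ₗ[F] ((Fin (k + 1) ⊕ Fin (k + 1)) ⊕ Fin 2 → F) :=
    { toFun := fun t => Sum.elim 0 ![t.re, t.im]
      map_add' := fun s t => by ext (i | i); simp; fin_cases i <;> simp
      map_smul' := fun s t => by ext (i | i); simp; fin_cases i <;> simp }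
  refine pair_minus (e := fun i => Pi.single (.inl (.inl i)) 1)
    (f := fun i => Pi.single (.inl (.inr i)) 1) ?_ (nd_minusQF _ hab) (by simp; omega) (by omega)
    (fun h => disc_ne_zero_of_aniso hab (by linear_combination h)) j
    (fun c => ⟨fun h => ?_, ?_⟩) fun t => ?_
  · exact ⟨by simp [minusQF_apply, quadFormMinus], by simp [minusQF_apply, quadFormMinus],
      by simp [polar_minusQF], by simp [polar_minusQF], by simp [polar_minusQF, Pi.single_apply],
      fun i j h => by simp [polar_minusQF, Pi.single_apply, h.symm]⟩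
  · refine ⟨⟨c (.inr 0), c (.inr 1)⟩, funext ?_⟩
    rintro ((i | i) | i)
    · simpa [j, polar_minusQF, Pi.single_apply, eq_comm] using (h i).2
    · simpa [j, polar_minusQF, Pi.single_apply, eq_comm] using (h i).1
    · fin_cases i <;> rfl
  · rintro ⟨t, rfl⟩ i
    simp [j, polar_minusQF]
  · simp [j, minusQF_apply, quadFormMinus, QuadraticAlgebra.norm_def]
    ring

end Cfsg.Agent.KSG.GenO
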