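import Mathlib
import Cfsg.Agent.KSG.NilSym

/-!
# Largest nilpotent subgroups of symmetric and alternating groups
-/

set_option autoImplicit false

namespace Cfsg.Agent.KSG.NilSym

open Nat Finset Equiv Equiv.Perm Cfsg.Agent.KSG.AbelSym

variable {α : Type*} [Fintype α] [DecidableEq α]

theorem exists_prod_hom {β : Type*} [Fintype β] [DecidableEq β]
    (h : Fintype.card β + 3 = Fintype.card α) :
    ∃ ψ : Perm β × Multiplicative (ZMod 3) →* Perm α, Function.Injective ψ ∧
      ∀ x, sign (ψ x) = sign x.1 := by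
  let q : β ⊕ Multiplicative (ZMod 3) ≃ α := Fintype.equivOfCardEq (by simpa using h)
  refine ⟨q.permCongrHom.toMonoidHom.comp ((sumCongrHom _ _).comp
    ((MonoidHom.id _).prodMap (MulAction.toPermHom (Multiplicative (ZMod 3)) _))), ?_, ?_⟩
  · exact q.permCongrHom.injective.comp (sumCongrHom_injective.comp
      (Function.injective_id.prodMap MulAction.toPerm_injective))
  · rintro ⟨x, y⟩
    have : ∀ g : Multiplicative (ZMod 3), sign (MulAction.toPermHom (Multiplicative (ZMod 3))
      (Multiplicative (ZMod 3)) g) = 1 := by decide +kernel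
    refine (sign_permCongr q _).trans ?_
    simp only [MonoidHom.comp_apply, sumCongrHom, MonoidHom.coe_mk, OneHom.coe_mk, sign_sumCongr,
      MonoidHom.coe_prodMap, Prod.map_fst, Prod.map_snd, this, mul_one, MonoidHom.id_apply]

theorem exists_nil_of_hom {G P : Type*} [Group G] [Group P] [Finite P] (hP : IsPGroup 2 P)
    (ψ : P × Multiplicative (ZMod 3) →* G) (hψ : Function.Injective ψ) :
    ∃ M : Subgroup G, Group.IsNilpotent M ∧ Nat.card M = 3 * Nat.card P ∧
      Nonempty (M ≃* (P × Multiplicative (ZMod 3))) := by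
  have := hP.isNilpotent
  refine ⟨ψ.range, Group.nilpotent_of_mulEquiv (MonoidHom.ofInjective hψ), ?_,
    ⟨(MonoidHom.ofInjective hψ).symm⟩⟩
  rw [← Nat.card_congr (MonoidHom.ofInjective hψ).toEquiv, Nat.card_prod, mul_comm]
  simp

theorem card_le_s2 {N : Subgroup (Perm α)} (hN : Group.IsNilpotent N)
    (hn : Fintype.card α % 4 ≠ 3) : Nat.card N ≤ s2 (Fintype.card α) := by
  obtain ⟨M, c, h1, h2, h3, -⟩ := exists_split hN
  have h4 := card_fixOn_le_s2 h3
  have hM : #M ≤ Fintype.card α := card_le_univ M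
  have h5 := s2_mul_le #M (Fintype.card α - #M)
  rw [Nat.add_sub_cancel' hM] at h5
  by_cases h : #M = 3
  · have h6 := h1.2 (by omega)
    rw [h] at h6 h4 hM
    have h7 := s2_add_three_of_mod_ne (n := Fintype.card α - 3) (by omega)
    rw [Nat.sub_add_cancel hM] at h7
    have h8 := Nat.mul_le_mul h6 h4
    have : utab 3 = 3 := rfl
    rw [this] at h8
    omega
  · exact h2.trans ((Nat.mul_le_mul (h1.le_s2 h) h4).trans h5)

theorem card_le_three_mul_s2 {N : Subgroup (Perm α)} (hN : Group.IsNilpotent N)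
    (hn : Fintype.card α % 4 = 3) : Nat.card N ≤ 3 * s2 (Fintype.card α - 3) ∧
      (Nat.card N = 3 * s2 (Fintype.card α - 3) → ∃ M, Ext ⊤ N M) := by
  obtain ⟨M, c, h1, h2, h3, ho, hb⟩ := exists_split hN
  have h4 := card_fixOn_le_s2 h3
  have hM : #M ≤ Fintype.card α := card_le_univ M
  have h5 := s2_mul_le #M (Fintype.card α - #M)
  rw [Nat.add_sub_cancel' hM] at h5
  by_cases h : #M = 3
  · have h6 := h1.2 (by omega)
    rw [h] at h6 h4 hM
    have h8 := Nat.mul_le_mul_right (Nat.card (fixOn N M)) h6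
    have : utab 3 = 3 := rfl
    rw [this] at h8
    refine ⟨by omega, fun e => ⟨M, ?_⟩⟩
    have e2 : 2 ^ (Nat.card (fixOn ⊤ M)).factorization 2 = s2 (Fintype.card α - 3) := by
      rw [card_fixOn_top, h]; rfl
    exact ⟨hN, le_top, h, h3, by rw [e2, e], by rw [e2]; omega, ho, hb⟩
  · have h6 := h2.trans ((Nat.mul_le_mul (h1.le_s2 h) h4).trans h5)
    have h7 := s2_add_three_of_mod (n := Fintype.card α - 3) (by omega)
    rw [Nat.sub_add_cancel (by omega)] at h7
    have := s2_pos (Fintype.card α - 3)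
    exact ⟨by omega, fun e => by omega⟩

theorem alt_cases {N : Subgroup (Perm α)} (hN : Group.IsNilpotent N)
    (hA : N ≤ alternatingGroup α) (h2 : 2 ≤ Fintype.card α) :
    2 * Nat.card N ≤ s2 (Fintype.card α) ∨ Fintype.card α = 3 ∨ Fintype.card α = 5 ∨
      Fintype.card α = 6 ∨ Fintype.card α = 9 ∨ (Fintype.card α = 7 ∧ Nat.card N ≤ 9) ∨
      (2 * Nat.card N ≤ 3 * s2 (Fintype.card α - 3) ∧
      (2 * Nat.card N = 3 * s2 (Fintype.card α - 3) → ∃ M, Ext (alternatingGroup α) N M)) ∧
        5 ≤ Fintype.card α := by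
  obtain ⟨M, c, h1, h2, h3, ho, hb⟩ := exists_split hN
  have hM : #M ≤ Fintype.card α := card_le_univ M
  have h5 := s2_mul_le #M (Fintype.card α - #M)
  rw [Nat.add_sub_cancel' hM] at h5
  by_cases hF : #M + 2 ≤ Fintype.card α
  · have h4 := two_mul_card_fixOn_le_s2 hA h3 hF
    by_cases h : #M = 3
    · have h6 := h1.2 (by omega)
      rw [h] at h6 h4 hM
      have h8 := Nat.mul_le_mul_right (Nat.card (fixOn N M)) h6
      have : utab 3 = 3 := rfl
      rw [this] at h8
      iterate 6 right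
      refine ⟨⟨by omega, fun e => ⟨M, ?_⟩⟩, by omega⟩
      have e2 := two_mul_two_pow_factorization (two_mul_card_fixOn_alt M hF)
      rw [h] at e2
      exact ⟨hN, hA, h, h3, by omega, by omega, ho, hb⟩
    · left
      have := Nat.mul_le_mul (h1.le_s2 h) h4
      nlinarith
  · rw [card_fixOn_eq_one N (by omega), mul_one] at h2
    have h6 := s2_pos (Fintype.card α - #M)
    have h7 : s2 #M ≤ s2 (Fintype.card α) := by nlinarith
    have h8 := s2_small
    rcases h1.cases with h | ⟨h, h'⟩ | ⟨h, h'⟩ | ⟨h, h'⟩ | ⟨h, h'⟩ | ⟨h, h'⟩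
    · omega
    · omega
    · obtain e | e : Fintype.card α = 3 ∨ Fintype.card α = 4 := by omega
      · omega
      · left; rw [e]; omega
    · omega
    · omega
    · obtain e | e : Fintype.card α = 9 ∨ Fintype.card α = 10 := by omega
      · omega
      · left; rw [e]; omega

end Cfsg.Agent.KSG.NilSym
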