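import Mathlib
import Cfsg.Agent.Class.Orth.OmegaCrit
import Cfsg.Agent.Class.Orth.Order
import Cfsg.Agent.Class.Orth.Simple

/-!
# Eichler transformations as elements of the group they generate: transitivity and counts
-/

set_option autoImplicit false

namespace Cfsg.Agent.KSG.OM

open Module QuadraticMap Class.Orth

variable {F N : Type*} [Field F] [AddCommGroup N] [Module F N] {Q : QuadraticForm F N}

local notation "B" => polar Q

/-- The Eichler transformation as an element of `EG Q`. -/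
noncomputable def El (Q : QuadraticForm F N) (u v : N) : EG Q := ⟨eichler Q u v, eichler_mem_EG u v⟩

theorem act_def (g : EG Q) (x : N) : g • x = g.1.1 x := rfl

theorem act_ext {g h : EG Q} (H : ∀ x : N, g • x = h • x) : g = h := Subtype.ext (OG.ext H)

@[simp] theorem Q_act (g : EG Q) (x : N) : Q (g • x) = Q x := OG.map_Q _ _

@[simp] theorem polar_act (g : EG Q) (x y : N) : B (g • x) (g • y) = B x y := OG.map_polar _ _ _

theorem act_smul (g : EG Q) (c : F) (x : N) : g • c • x = c • g • x := map_smul g.1.1 c x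

theorem polar_act_left (g : EG Q) (x y : N) : B (g • x) y = B x (g⁻¹ • y) := by
  rw [← polar_act g⁻¹, inv_smul_smul]

theorem polar_act_of_fix {g : EG Q} {x : N} (h : g • x = x) (y : N) : B x (g • y) = B x y := by
  rw [← polar_act g x y, h]

theorem El_act {u v : N} (hu : Q u = 0) (hv : B u v = 0) (x : N) :
    El Q u v • x = x + (B x v - Q v * B x u) • u - B x u • v := eichler_apply hu hv x

theorem El_act_perp {u v x : N} (hu : Q u = 0) (hv : B u v = 0) (hx : B u x = 0) :
    El Q u v • x = x + B v x • u := by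
  rw [polar_comm _ v]; exact eichler_apply_of_perp hu hv (by rwa [polar_comm])

theorem El_fix {u v x : N} (hx : B x u = 0) (hx' : B x v = 0) : El Q u v • x = x :=
  eichler_apply_of_perp_perp hx hx'

theorem El_of_not {u v : N} (h : ¬ (Q u = 0 ∧ B u v = 0)) : El Q u v = 1 :=
  Subtype.ext (eichler_of_not h)

theorem El_add {u v w : N} (hv : B u v = 0) (hw : B u w = 0) :
    El Q u (v + w) = El Q u v * El Q u w := by
  by_cases hu : Q u = 0
  · exact Subtype.ext (eichler_add hu hv hw)
  · simp [El_of_not, hu]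

@[simp] theorem El_zero (u : N) : El Q u 0 = 1 := Subtype.ext (eichler_zero u)

@[simp] theorem El_zero_left (u : N) : El Q 0 u = 1 := Subtype.ext (eichler_zero_left u)

theorem El_smul {u v : N} (hu : Q u = 0) (hv : B u v = 0) (c : F) :
    El Q (c • u) v = El Q u (c • v) := Subtype.ext (eichler_smul_left hu hv c)

theorem El_self {u : N} (hu : Q u = 0) (c : F) : El Q u (c • u) = 1 :=
  Subtype.ext (eichler_self_smul hu c)

theorem El_add_self {u v : N} (hu : Q u = 0) (hv : B u v = 0) (c : F) :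
    El Q u (v + c • u) = El Q u v := Subtype.ext (eichler_add_smul hu hv c)

theorem El_swap {u v : N} (hu : Q u = 0) (hv : Q v = 0) (h : B u v = 0) :
    El Q u v = El Q v (-u) := act_ext fun x => by
  rw [El_act hu h, El_act hv (by simp [polar_comm _ v, h])]
  simp [hu, hv]
  abel

theorem El_add_left {a b x : N} (ha : Q a = 0) (hb : Q b = 0) (h : B a b = 0) (hx : B a x = 0)
    (hx' : B b x = 0) : El Q (a + b) x = El Q a (x + Q x • b) * El Q b x := act_ext fun y => by
  have h' : B b a = 0 := by rwa [polar_comm]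
  have h1 : B x a = 0 := by rwa [polar_comm]
  have h2 : B x b = 0 := by rwa [polar_comm]
  rw [mul_smul, El_act (by simp [Q_add, *]) (by simp [*]), El_act hb hx',
    El_act ha (by simp [*])]
  simp only [polar_add_left, polar_add_right, polar_sub_left, polar_smul_left', polar_smul_right',
    Q_add, Q_smul, polar_self', *]
  module

theorem conj_El (g : EG Q) (u v : N) : g * El Q u v = El Q (g • u) (g • v) * g :=
  Subtype.ext (by simp only [Subgroup.coe_mul, El, act_def, ← conj_eichler]; simp)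

theorem eq_top_of_El {H : Subgroup (EG Q)} (h : ∀ u v, Q u = 0 → B u v = 0 → El Q u v ∈ H) :
    H = ⊤ := by
  rw [eq_top_iff]
  rintro ⟨g, hg⟩ -
  obtain ⟨k, hk, rfl⟩ := EG_le (H := H.map (EG Q).subtype) (fun u v hu hv => ⟨_, h u v hu hv, rfl⟩) hg
  exact hk

section Span
variable [FiniteDimensional F N]

theorem exists_perp (hQ : ND Q) {s : Set N} {z : N} (hz : z ∉ Submodule.span F s) (c : F) :
    ∃ x, (∀ a ∈ s, B a x = 0) ∧ B z x = c := by
  rw [← hQ.perp_perp (Submodule.span F s), mem_perp] at hz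
  push Not at hz
  obtain ⟨x, hx, h⟩ := hz
  refine ⟨(c / B x z) • x, fun a ha => ?_, ?_⟩
  · simp [hx a (Submodule.subset_span ha)]
  · simp [polar_comm _ z, h]

theorem ex1 (hQ : ND Q) {a z : N} (hz : ∀ s : F, z ≠ s • a) (c : F) : ∃ x, B a x = 0 ∧ B z x = c := by
  simpa using exists_perp hQ (s := {a}) (by simpa [Submodule.mem_span_singleton, eq_comm] using hz) c

theorem ex2 (hQ : ND Q) {a b z : N} (hz : ∀ s t : F, z ≠ s • a + t • b) (c : F) :
    ∃ x, B a x = 0 ∧ B b x = 0 ∧ B z x = c := by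
  simpa [and_assoc] using exists_perp hQ (s := {a, b})
    (by simpa [Submodule.mem_span_pair, eq_comm] using hz) c

theorem ex3 (hQ : ND Q) {a b d z : N} (hz : ∀ s t r : F, z ≠ s • a + t • b + r • d) (c : F) :
    ∃ x, B a x = 0 ∧ B b x = 0 ∧ B d x = 0 ∧ B z x = c := by
  simpa [and_assoc] using exists_perp hQ (s := {a, b, d})
    (by simpa [Submodule.mem_span_triple, eq_comm] using hz) c

theorem sp1 (hQ : ND Q) {a z : N} (h : ∀ x, B a x = 0 → B z x = 0) : ∃ s : F, z = s • a := by
  by_contra! H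
  obtain ⟨x, h1, h2⟩ := ex1 hQ H 1
  simp [h x h1] at h2

theorem sp2 (hQ : ND Q) {a b z : N} (h : ∀ x, B a x = 0 → B b x = 0 → B z x = 0) :
    ∃ s t : F, z = s • a + t • b := by
  by_contra! H
  obtain ⟨x, h1, h2, h3⟩ := ex2 hQ H 1
  simp [h x h1 h2] at h3

theorem sp3 (hQ : ND Q) {a b d z : N} (h : ∀ x, B a x = 0 → B b x = 0 → B d x = 0 → B z x = 0) :
    ∃ s t r : F, z = s • a + t • b + r • d := by
  by_contra! H
  obtain ⟨x, h1, h2, h3, h4⟩ := ex3 hQ H 1
  simp [h x h1 h2 h3] at h4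

omit [FiniteDimensional F N] in
theorem mem_perp_span {s : Set N} {x : N} : x ∈ perp Q (Submodule.span F s) ↔ ∀ a ∈ s, B a x = 0 :=
  ⟨fun h a ha => h a (Submodule.subset_span ha), fun h u hu => by
    induction hu using Submodule.span_induction with
    | mem a ha => exact h a ha
    | zero => simp
    | add a b _ _ ha hb => simp [ha, hb]
    | smul c a _ ha => simp [ha]⟩

/-- A singular vector orthogonal to given vectors. -/
theorem exists_sing [Finite F] (hQ : ND Q) (s : Finset N) (h : s.card + 3 ≤ finrank F N) :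
    ∃ x, x ≠ 0 ∧ Q x = 0 ∧ ∀ a ∈ s, B a x = 0 := by
  have h1 := hQ.finrank_perp (Submodule.span F (s : Set N))
  have h2 := finrank_span_finset_le_card (R := F) s
  obtain ⟨x, hx, h3, h4⟩ := exists_singular_mem Q (perp Q (Submodule.span F (s : Set N)))
    (by rw [Set.finrank] at h2; omega)
  exact ⟨x, h3, h4, mem_perp_span.1 hx⟩

/-- An isometry agrees on a set with an element of `EG Q`. -/
theorem exists_EG (hQ : ND Q) {e f : N} (hef : IsHyp Q e f) (hd : finrank F N ≠ 2) {s : Set N}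
    (hs : ∀ c : F, c ≠ 0 → ∃ v, (∀ a ∈ s, B a v = 0) ∧ Q v = c) (g : OG Q) :
    ∃ k : EG Q, ∀ a ∈ s, k • a = g.1 a := by
  have : EG Q ⊔ fixer Q (Submodule.span F s) = ⊤ := hQ.eq_top_of_refl_eichler _ (fun v hv => by
    obtain ⟨w, hw, hw'⟩ := hs _ hv
    have : refl Q v = refl Q v * refl Q w * refl Q w := by rw [mul_assoc, refl_mul_self, mul_one]
    rw [this]
    exact Subgroup.mul_mem_sup (hQ.refl_mul_refl_mem_EG hef hd hv hw'.symm)
      (refl_mem_fixer (mem_perp_span.2 hw))) fun u v _ _ => Subgroup.mem_sup_left (eichler_mem_EG u v)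
  obtain ⟨k, hk, l, hl, rfl⟩ := Subgroup.mem_sup_of_normal_left.1 (this ▸ Subgroup.mem_top g)
  exact ⟨⟨k, hk⟩, fun a ha => by rw [OG.mul_apply, hl a (Submodule.subset_span ha)]; rfl⟩

end Span

/-- A singular vector together with a weight. -/
structure Pr (Q : QuadraticForm F N) (e w : N) : Prop where
  sing : Q e = 0
  ne : e ≠ 0
  perp : polar Q e w = 0
  ind : ∀ c : F, w ≠ c • e

theorem Pr.of_hyp {e f w : N} (h : IsHyp Q e f) (hw : w ∈ perp2 Q e f) (h0 : w ≠ 0) : Pr Q e w :=
  ⟨h.left, h.left_ne_zero, (mem_perp2.1 hw).1, fun c hc => h0 (by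
    have := (mem_perp2.1 hw).2
    rw [hc, polar_smul_right', h.pol', mul_one] at this
    rw [hc, this, zero_smul])⟩

theorem Pr.symm {e w : N} (h : Pr Q e w) (hw : Q w = 0) : Pr Q w e :=
  ⟨hw, fun e' => h.ind 0 (by simp [e']), by rw [polar_comm, h.perp], fun c hc => by
    have : c ≠ 0 := by rintro rfl; exact h.ne (by simpa using hc)
    exact h.ind c⁻¹ (by simp [hc, this])⟩

theorem Pr.smul {e w : N} (h : Pr Q e w) {a b : F} (ha : a ≠ 0) (hb : b ≠ 0) (c : F) :
    Pr Q (a • e) (b • w + c • e) :=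
  ⟨by simp [Q_smul, h.sing], by simp [ha, h.ne], by simp [h.perp, polar_self', h.sing], fun t ht =>
    h.ind ((t * a - c) / b) (smul_right_injective N hb (by
      simp only [smul_smul, mul_div_cancel₀ _ hb, sub_smul] at ht ⊢
      rw [← ht]; abel))⟩

theorem Pr.linInd {e w : N} (h : Pr Q e w) : LinearIndependent F ![e, w] :=
  (LinearIndependent.pair_iff' h.ne).2 fun a ha => h.ind a ha.symm

theorem Pr.exists_Q [Finite F] [FiniteDimensional F N] (hQ : ND Q) (hd : 6 ≤ finrank F N) {e w : N}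
    (h : Pr Q e w) {c : F} (hc : c ≠ 0) : ∃ v, B e v = 0 ∧ B w v = 0 ∧ Q v = c := by
  classical
  obtain ⟨f, hf⟩ := hQ.exists_isHyp h.ne h.sing
  by_cases hw : Q w = 0
  · obtain ⟨y, h1, h2⟩ := ex1 hQ h.ind 1
    have hy := isHyp_of_polar_eq_one hw h2
    obtain ⟨x, h3, h4, h5⟩ := ex2 hQ (a := w) (b := y - Q y • w) (z := e) (fun s t hst => by
      have := congrArg (B w) hst
      simp only [polar_add_right, polar_smul_right', hy.pol, hy.ee, polar_comm _ w e, h.perp] at this
      exact (h.symm hw).ind s (by simpa [show t = 0 by simpa using this.symm] using hst)) 1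
    have hx := isHyp_of_polar_eq_one h.sing h5
    have m1 : e ∈ perp2 Q w (y - Q y • w) := mem_perp2'.2 ⟨h.perp, by simp [h1, h.perp]⟩
    have m2 : x - Q x • e ∈ perp2 Q w (y - Q y • w) :=
      sub_mem (mem_perp2.2 ⟨h3, h4⟩) (Submodule.smul_mem _ _ m1)
    have := hx.finrank_inf_perp2 m1 m2
    have := hy.finrank_perp2
    obtain ⟨v, hv, hv'⟩ := exists_mem_Q_eq _ ((hQ.ndon_perp2 hy).inf_perp2 m1 m2 hx) (by omega) hc
    exact ⟨v, (mem_perp2.1 hv.2).1, (mem_perp2.1 hv.1).1, hv'⟩
  · obtain ⟨a, h0, h1, h2⟩ := exists_sing hQ {e, f, w} (le_trans (by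
      have := Finset.card_le_three (a := e) (b := f) (c := w); omega) hd)
    simp only [Finset.mem_insert, Finset.mem_singleton, forall_eq_or_imp, forall_eq] at h2
    obtain ⟨b, h3, h4, h5⟩ := ex2 hQ (a := e) (b := w) (z := a) (fun s t hst => by
      have ht : t = 0 := by simpa [hst, Q_add, Q_smul, h.sing, h.perp, hw] using h1
      have hs : s = 0 := by simpa [hst, ht, hf.pol'] using h2.2.1
      simp [hs, ht, h0] at hst) 1
    exact ⟨b + (c - Q b) • a, by simp [h3, h2.1], by simp [h4, h2.2.2],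
      by simp [Q_add, Q_smul, h1, polar_comm _ b, h5]⟩

theorem Pr.trans [Finite F] [FiniteDimensional F N] (hQ : ND Q) (hd : 6 ≤ finrank F N)
    {e w e' w' : N} (h : Pr Q e w) (h' : Pr Q e' w') (hw : Q w' = Q w) :
    ∃ g : EG Q, g • e = e' ∧ g • w = w' := by
  obtain ⟨f, hf⟩ := hQ.exists_isHyp h.ne h.sing
  obtain ⟨g, hg⟩ := hQ.witt_family h.linInd h'.linInd (by
    simp [Fin.forall_fin_two, polar_self', h.sing, h'.sing, h.perp, h'.perp, hw, polar_comm _ w,
      polar_comm _ w']) (by simp [Fin.forall_fin_two, h.sing, h'.sing, hw])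
  obtain ⟨k, hk⟩ := exists_EG hQ hf (by omega) (s := {e, w})
    (fun c hc => by simpa [and_assoc] using h.exists_Q hQ hd hc) g
  exact ⟨k, (hk e (by simp)).trans (hg 0), (hk w (by simp)).trans (hg 1)⟩

theorem Pr.map {e w : N} (h : Pr Q e w) (g : EG Q) : Pr Q (g • e) (g • w) :=
  ⟨by simp [h.sing], OG.apply_ne_zero g.1 h.ne, by simp [h.perp], fun c hc =>
    h.ind c (MulAction.injective g (by simpa [act_smul] using hc))⟩

theorem Pr.eq_zero {e w : N} (h : Pr Q e w) {a b : F} (H : a • e + b • w = 0) : a = 0 ∧ b = 0 :=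
  LinearIndependent.pair_iff.1 h.linInd a b H

section Tor
variable [FiniteDimensional F N]

theorem exists_tor1 (hQ : ND Q) (hd : finrank F N ≠ 2) {e f : N} (h : IsHyp Q e f) {t : F}
    (ht : t ≠ 0) : ∃ g : EG Q, ∀ x,
      g • x = x + ((t ^ 2 - 1) * B x f) • e + (((t ^ 2)⁻¹ - 1) * B x e) • f := by
  refine ⟨⟨hypScale Q e f (t ^ 2), ?_⟩, h.hypScale_apply (pow_ne_zero 2 ht)⟩
  have := refl_comb (Q := Q) (e := e) (f := f) (inv_ne_zero ht) t
  rw [hypScale, show t ^ 2 = t / t⁻¹ by field_simp, ← this]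
  exact hQ.refl_mul_refl_mem_EG h hd (by simp [h.Q_add_smul, -one_smul])
    (by simp [h.Q_add_smul, h.Q_comb, ht, -one_smul])

theorem exists_tor2 (hQ : ND Q) (hd : finrank F N ≠ 2) {e f e' f' : N} (h : IsHyp Q e f)
    (h' : IsHyp Q e' f') (he : e' ∈ perp2 Q e f) (hf : f' ∈ perp2 Q e f) {c : F} (hc : c ≠ 0) :
    ∃ g : EG Q, ∀ x, g • x = x + ((c - 1) * B x f) • e + ((c⁻¹ - 1) * B x e) • f +
      ((c - 1) * B x f') • e' + ((c⁻¹ - 1) * B x e') • f' := by
  have h1 := hQ.refl_mul_refl_mem_EG h hd (x := e + (1 : F) • f) (y := e' + (1 : F) • f')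
    (by simp [h.Q_add_smul, -one_smul]) (by rw [h.Q_add_smul, h'.Q_add_smul])
  have h2 := hQ.refl_mul_refl_mem_EG h hd (x := e + c • f) (y := e' + c • f')
    (by simp [h.Q_add_smul, hc]) (by rw [h.Q_add_smul, h'.Q_add_smul])
  obtain ⟨a1, a2⟩ := mem_perp2'.1 he
  obtain ⟨a3, a4⟩ := mem_perp2'.1 hf
  have h3 := conj_refl (refl Q (e + c • f)) (e' + (1 : F) • f')
  rw [refl_apply_of_polar_eq_zero (by simp [*])] at h3
  refine ⟨⟨hypScale Q e f c * hypScale Q e' f' c, ?_⟩, fun x => ?_⟩
  · convert mul_mem h1 h2 using 1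
    rw [hypScale, hypScale]
    conv_rhs => rw [← h3]
    group
  · rw [act_def, OG.mul_apply, h'.hypScale_apply hc, h.hypScale_apply hc]
    simp only [polar_add_left, polar_smul_left', *]
    module

theorem mem_of_fix [Finite F] (hQ : ND Q) (hq : ∃ a : F, a ≠ 0 ∧ a ≠ 1) {W : Submodule F N}
    (hW : NDon Q W) (h3 : 3 ≤ finrank F W) {K : Subgroup (EG Q)}
    (hK : ∀ a ∈ W, ∀ x ∈ W, El Q a x ∈ K) {g : EG Q} (hg : ∀ x ∈ perp Q W, g • x = x) : g ∈ K := by
  have hc : IsCompl W (perp Q W) := (Submodule.isCompl_iff_disjoint _ _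
    (hQ.finrank_perp W).ge).2 (Submodule.disjoint_def.2 fun x h1 h2 =>
      hW x h1 fun y hy => by rw [polar_comm, h2 y hy])
  let p := W.projectionOnto _ hc
  have hp1 : ∀ w : W, p w = w := fun w => by simp [p]
  have hp0 : ∀ x, x - p x ∈ perp Q W := fun x => by
    rw [← W.ker_projectionOnto hc, LinearMap.mem_ker, map_sub]; exact sub_eq_zero.2 (hp1 _).symm
  have hp2 : ∀ (x : N) (w : W), B (x - p x) w = 0 := fun x w => by
    rw [polar_comm, hp0 x w w.2]
  obtain ⟨k, hk⟩ := (mem_range_extendHom hp1 hp2 hQ g.1).2 fun x => hg _ (hp0 x)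
  have r1 : ReflGen Q := hQ.eq_top_of_refl (Or.inl hq) _ fun v hv =>
    Subgroup.subset_closure ⟨v, hv, rfl⟩
  have r2 : ReflGen (Q.comp W.subtype) := hW.nd_comp.eq_top_of_refl (Or.inl hq) _ fun v hv =>
    Subgroup.subset_closure ⟨v, hv, rfl⟩
  have e1 : (dickson hQ r1).comp (extendHom W p hp1 hp2) = dickson hW.nd_comp r2 :=
    r2.hom_ext fun v hv => by
      rw [MonoidHom.comp_apply, extendHom_refl, dickson_refl _ _ hv, dickson_refl _ _ (by exact hv)]
  have e2 : (spinor hQ r1).comp (extendHom W p hp1 hp2) = spinor hW.nd_comp r2 :=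
    r2.hom_ext fun v hv => by
      rw [MonoidHom.comp_apply, extendHom_refl, spinor_refl _ _ hv, spinor_refl _ _ (by exact hv)]
      rfl
  obtain ⟨e, f, hef⟩ := hW.nd_comp.exists_isHyp_of_three_le h3
  have h1 := (mem_commutator_iff hQ r1 _).1 (hQ.EG_le_commutator (Or.inl hq) g.2)
  have h2 := hW.nd_comp.commutator_le_EG hef (by omega) ((mem_commutator_iff hW.nd_comp r2 k).2
    (by rwa [← e1, ← e2, MonoidHom.comp_apply, MonoidHom.comp_apply, hk]))
  obtain ⟨l, hl, e⟩ := EG_le (H := (K.map (EG Q).subtype).comap (extendHom W p hp1 hp2))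
    (fun u v hu hv => ⟨_, hK u u.2 v v.2, (extendHom_eichler hp1 hp2 hu
      (by rwa [polar_comp_subtype] at hv)).symm⟩) h2
  rwa [show g = l from Subtype.ext (hk.symm.trans e.symm)]

theorem exists_pair (hQ : ND Q) (s : Finset N) (h : 2 * s.card < finrank F N) :
    ∃ x z, (∀ a ∈ s, B a x = 0) ∧ (∀ a ∈ s, B a z = 0) ∧ B z x = 1 := by
  have h1 := hQ.finrank_perp (Submodule.span F (s : Set N))
  have h2 := finrank_span_finset_le_card (R := F) s
  obtain ⟨z, hz, hz'⟩ := SetLike.not_le_iff_exists.1 fun H : perp Q (Submodule.span F (s : Set N)) ≤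
    Submodule.span F (s : Set N) => by
      have := Submodule.finrank_mono H
      rw [Set.finrank] at h2; omega
  obtain ⟨x, hx, hx'⟩ := exists_perp hQ hz' 1
  exact ⟨x, z, hx, mem_perp_span.1 hz, hx'⟩

theorem exists_hyp [Finite F] (hQ : ND Q) (s : Finset N) (h : 2 * s.card + 3 ≤ finrank F N) :
    ∃ x y, IsHyp Q x y ∧ (∀ a ∈ s, B a x = 0) ∧ ∀ a ∈ s, B a y = 0 := by
  set U := Submodule.span F (s : Set N)
  have h1 := hQ.finrank_perp U
  have h2 : finrank F U ≤ s.card := finrank_span_finset_le_card (R := F) s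
  obtain ⟨C, hC⟩ := U.exists_isCompl
  have h3 := Submodule.finrank_add_eq_of_isCompl hC
  have h4 := Submodule.finrank_sup_add_finrank_inf_eq C (perp Q U)
  have h5 := (C ⊔ perp Q U).finrank_le
  obtain ⟨x, hx, h6, h7⟩ := exists_singular_mem Q (C ⊓ perp Q U) (by omega)
  obtain ⟨y, hy, hy'⟩ := exists_perp hQ (s := s)
    (fun H => h6 (Submodule.disjoint_def.1 hC.disjoint x H hx.1)) 1
  have := mem_perp_span.1 hx.2
  exact ⟨x, _, isHyp_of_polar_eq_one h7 hy', this, fun a ha => by simp [hy a ha, this a ha]⟩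

/-- Witt index at most three. -/
theorem mem_span_of_TS (h3 : ∀ U, TS Q U → finrank F U ≤ 3) {e w a z : N} (h : Pr Q e w)
    (hw : Q w = 0) (ha : Q a = 0) (h1 : B e a = 0) (h2 : B w a = 0)
    (hi : ∀ s t : F, a ≠ s • e + t • w) (hz : Q z = 0) (z1 : B e z = 0) (z2 : B w z = 0)
    (z3 : B a z = 0) : ∃ s t r : F, z = s • e + t • w + r • a := by
  by_contra! H
  have li : LinearIndependent F ![e, w, a, z] := Fintype.linearIndependent_iff.2 fun g hg => by
    simp only [Fin.sum_univ_four, Matrix.cons_val] at hg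
    have g3 : g 3 = 0 := by_contra fun g3 => H (-g 0 / g 3) (-g 1 / g 3) (-g 2 / g 3)
      (smul_right_injective N g3 (by
        simp only [smul_add, smul_smul, mul_div_cancel₀ _ g3]
        linear_combination (norm := module) hg))
    have g2 : g 2 = 0 := by_contra fun g2 => hi (-g 0 / g 2) (-g 1 / g 2)
      (smul_right_injective N g2 (by
        simp only [smul_add, smul_smul, mul_div_cancel₀ _ g2]
        linear_combination (norm := module) hg - g3 • z))
    have := h.eq_zero (a := g 0) (b := g 1) (by simpa [g2, g3] using hg)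
    intro i; fin_cases i <;> simp [*]
  have := h3 (Submodule.span F (Set.range ![e, w, a, z])) fun u hu => by
    obtain ⟨c, rfl⟩ := (Submodule.mem_span_range_iff_exists_fun F).1 hu
    simp [Fin.sum_univ_four, Q_add, Q_smul, h.sing, h.perp, *]
  simp [finrank_span_eq_card li] at this

end Tor

/-- The embedding of the group of the complement of a hyperbolic pair. -/
noncomputable def io {e f : N} (h : IsHyp Q e f) : EG (Q.comp (perp2 Q e f).subtype) →* EG Q :=
  (h.extend.domRestrict _).codRestrict _ fun g => EG_le (H := (EG Q).comap h.extend) (fun u v hu hv => by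
    rw [Subgroup.mem_comap, IsHyp.extend, extendHom_eichler _ _ hu (by rwa [polar_comp_subtype] at hv)]
    exact eichler_mem_EG _ _) g.2

theorem io_El {e f : N} (h : IsHyp Q e f) (u v : perp2 Q e f) :
    io h (El _ u v) = El Q u v := by
  by_cases H : Q u = 0 ∧ B u v = 0
  · exact Subtype.ext (extendHom_eichler h.proj_coe h.polar_sub_proj H.1 H.2)
  · rw [El_of_not H, El_of_not (by rwa [polar_comp_subtype]), map_one]

theorem io_act {e f : N} (h : IsHyp Q e f) (g) (x : perp2 Q e f) :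
    io h g • (x : N) = (g • x : perp2 Q e f) :=
  extendHom_apply_coe h.proj_coe h.polar_sub_proj g.1 x

theorem io_fix {e f : N} (h : IsHyp Q e f) (g) : io h g • e = e ∧ io h g • f = f := by
  have h1 : h.proj e = 0 := Subtype.ext (by simp [h.coe_proj, hproj, h.ee, h.pol])
  have h2 : h.proj f = 0 := Subtype.ext (by simp [h.coe_proj, hproj, h.ff, h.pol'])
  exact ⟨(extendHom_apply h.proj_coe h.polar_sub_proj g.1 e).trans (by simp [h1]),
    (extendHom_apply h.proj_coe h.polar_sub_proj g.1 f).trans (by simp [h2])⟩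

theorem exists_io [Finite F] [FiniteDimensional F N] (hQ : ND Q) (hq : ∃ a : F, a ≠ 0 ∧ a ≠ 1)
    (hd : 5 ≤ finrank F N) {e f : N} (h : IsHyp Q e f) {g : EG Q} (he : g • e = e)
    (hf : g • f = f) : ∃ k, io h k = g := by
  have := h.finrank_perp2
  refine mem_of_fix hQ hq (hQ.ndon_perp2 h) (by omega) (K := (io h).range)
    (fun a ha x hx => ⟨_, io_El h ⟨a, ha⟩ ⟨x, hx⟩⟩) fun x hx => ?_
  obtain ⟨s, t, rfl⟩ := sp2 hQ (a := e) (b := f) (z := x) fun y h1 h2 => by
    rw [polar_comm, hx y (mem_perp2.2 ⟨h1, h2⟩)]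
  simp [act_smul, he, hf]

section Count
variable [Fintype F] [Fintype N] [DecidableEq F] [DecidableEq N]

theorem sum_sing (hQ : ND Q) {ψ : AddChar F ℂ} (hψ : ψ ≠ 1) {x : N} (h0 : x ≠ 0) (hx : Q x = 0) :
    ∑ w with Q w = 0, ψ (B w x) =
      Nat.card {w // Q w = 0} - (Nat.card F : ℂ) * Nat.card F ^ (finrank F N - 2) := by
  obtain ⟨y, hy⟩ := hQ.exists_isHyp h0 hx
  have h1 : ∑ w with Q w = 0, (ψ (B w x) - 1) =
      ∑ t : F, (Nat.card F : ℂ) ^ (finrank F N - 2) * (ψ t - 1) := by
    rw [← Finset.sum_fiberwise _ fun w => B w x]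
    refine Finset.sum_congr rfl fun t _ => ?_
    rw [Finset.sum_congr rfl (g := fun _ => ψ t - 1) (by simp +contextual), Finset.sum_const,
      nsmul_eq_mul]
    by_cases ht : t = 0
    · simp [ht]
    congr 1
    rw [← Nat.cast_pow, ← card_perp2 hy, ← Nat.card_congr hy.partnerEquiv, Nat.cast_inj,
      ← Nat.card_eq_finsetCard]
    exact Nat.card_congr ⟨fun w => ⟨t⁻¹ • w.1, hx,
        by simp [Q_smul, (Finset.mem_filter.1 (Finset.mem_filter.1 w.2).1).2],
        by simp [polar_comm _ x, (Finset.mem_filter.1 w.2).2, ht]⟩,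
      fun w => ⟨t • w.1, by simp [Q_smul, w.2.right, w.2.pol']⟩, fun w => by simp [ht],
      fun w => by simp [ht]⟩
  rw [← Finset.mul_sum, Finset.sum_sub_distrib, Finset.sum_sub_distrib,
    AddChar.sum_eq_zero_iff_ne_zero.2 hψ] at h1
  simp only [Finset.sum_const, nsmul_eq_mul, mul_one, Finset.card_univ] at h1
  rw [Nat.card_eq_fintype_card, Fintype.card_subtype, Nat.card_eq_fintype_card] at *
  linear_combination h1

/-- Long root elements. -/
def IsLong (g : EG Q) : Prop := ∃ a x, Pr Q a x ∧ Q x = 0 ∧ g = El Q a x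

omit [Fintype F] [Fintype N] [DecidableEq F] [DecidableEq N] in
theorem El_sing {a x : N} (h : Pr Q a x) (hx : Q x = 0) (y : N) :
    El Q a x • y = y + B y x • a - B y a • x := by
  simp [El_act h.sing h.perp, hx]

open Classical in
theorem card_long [Fintype (EG Q)] (hQ : ND Q) {c : ℕ}
    (hc : ∀ e f, IsHyp Q e f → Nat.card {x : perp2 Q e f // x ≠ 0 ∧ Q x = 0} = c) :
    Nat.card {x // x ≠ 0 ∧ Q x = 0} * c =
      (Finset.univ.filter (IsLong (Q := Q))).card * (Nat.card F ^ 2 - 1) := by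
  rw [Nat.card_eq_fintype_card, Fintype.card_subtype]
  refine Finset.card_mul_eq_card_mul (fun a g => ∃ x, Pr Q a x ∧ Q x = 0 ∧ g = El Q a x)
    (fun a ha => ?_) fun g hg => ?_
  · obtain ⟨h0, ha⟩ := (Finset.mem_filter.1 ha).2
    obtain ⟨f, hf⟩ := hQ.exists_isHyp h0 ha
    rw [← hc a f hf, Nat.card_eq_fintype_card, Fintype.card_subtype]
    refine (Finset.card_bij (fun (x : perp2 Q a f) _ => El Q a x) ?_ ?_ ?_).symm
    · intro x hx
      simp only [Finset.mem_filter, Finset.mem_univ, true_and, Finset.mem_bipartiteAbove] at hx ⊢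
      have := Pr.of_hyp hf x.2 (by simpa using hx.1)
      exact ⟨⟨a, x, this, hx.2, rfl⟩, x, this, hx.2, rfl⟩
    · intro x hx y hy e
      have := congrArg (· • f) e
      simp only [Finset.mem_filter, Finset.mem_univ, true_and] at hx hy
      simpa [El_act ha, (mem_perp2.1 x.2).1, (mem_perp2.1 x.2).2, (mem_perp2.1 y.2).1,
        (mem_perp2.1 y.2).2, hx.2, hy.2, hf.pol'] using this
    · intro g hg
      obtain ⟨x, h1, h2, rfl⟩ := (Finset.mem_bipartiteAbove _).1 hg |>.2
      have e : hproj Q a f x = x + (-B x f) • a := by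
        simp [hproj, polar_comm _ x a, h1.perp, sub_eq_add_neg]
      refine ⟨⟨_, hf.hproj_mem x⟩, ?_, by simp only [e, El_add_self ha h1.perp]⟩
      simp only [Finset.mem_filter, Finset.mem_univ, true_and, ne_eq, Submodule.mk_eq_zero, e]
      exact ⟨fun e' => h1.ind (B x f) (by linear_combination (norm := module) e'),
        by simp [Q_add, Q_smul, h2, ha, polar_comm _ x a, h1.perp, -neg_smul]⟩
  · obtain ⟨a, x, h1, h2, rfl⟩ := (Finset.mem_filter.1 hg).2
    rw [Nat.card_eq_fintype_card, pow_two, ← Fintype.card_prod, ← Finset.card_univ,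
      ← Finset.card_erase_of_mem (Finset.mem_univ 0)]
    refine (Finset.card_bij (fun p _ => p.1 • a + p.2 • x) ?_ ?_ ?_).symm
    · rintro ⟨s, t⟩ hp
      have hp : ¬ (s = 0 ∧ t = 0) := by simpa using hp
      have h3 : B x a = 0 := by rw [polar_comm, h1.perp]
      have h4 : Q (s • a + t • x) = 0 := by simp [Q_add, Q_smul, h1.sing, h2, h1.perp]
      obtain ⟨u, v, huv⟩ : ∃ u v, s * v - t * u = 1 := by
        by_cases hs : s = 0
        · exact ⟨-t⁻¹, 0, by simp [show t ≠ 0 by tauto]⟩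
        · exact ⟨0, s⁻¹, by simp [hs]⟩
      have h5 : Pr Q (s • a + t • x) (u • a + v • x) := ⟨h4, fun e => hp (h1.eq_zero e),
        by simp [polar_self', h1.sing, h2, h1.perp, h3], fun c hc => by
          obtain ⟨e1, e2⟩ := h1.eq_zero (a := u - c * s) (b := v - c * t)
            (by linear_combination (norm := module) hc)
          exact one_ne_zero (α := F) (by linear_combination s * e2 - t * e1 - huv)⟩
      have h6 : Q (u • a + v • x) = 0 := by simp [Q_add, Q_smul, h1.sing, h2, h1.perp]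
      simp only [Finset.mem_bipartiteBelow, Finset.mem_filter, Finset.mem_univ, true_and]
      refine ⟨⟨h5.ne, h4⟩, _, h5, h6, act_ext fun y => ?_⟩
      rw [El_sing h1 h2, El_sing h5 h6]
      simp only [polar_add_right, polar_smul_right']
      linear_combination (norm := module) huv • (B y a • x - B y x • a)
    · rintro ⟨s, t⟩ - ⟨s', t'⟩ - e
      obtain ⟨e1, e2⟩ := h1.eq_zero (a := s - s') (b := t - t')
        (by linear_combination (norm := module) e)
      rw [sub_eq_zero.1 e1, sub_eq_zero.1 e2]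
    · intro b hb
      obtain ⟨y, h3, h4, e⟩ := (Finset.mem_bipartiteBelow _).1 hb |>.2
      obtain ⟨z, h5, h6⟩ := ex1 hQ h3.ind 1
      have := congrArg (· • z) e
      simp only [El_sing h1 h2, El_sing h3 h4, polar_comm _ z b, polar_comm _ z y, h5, h6] at this
      have e' : B z x • a + (-B z a) • x = b := by linear_combination (norm := module) this
      refine ⟨(B z x, -B z a), ?_, e'⟩
      simp only [Finset.mem_erase, Finset.mem_univ, and_true, ne_eq, Prod.mk_eq_zero]
      exact fun H => h3.ne (by rw [← e', H.1, H.2]; simp)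

end Count

end Cfsg.Agent.KSG.OM
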