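import Mathlib
import Cfsg.Agent.KSG.OrthGeo
import Cfsg.Agent.KSG.SLMin

/-!
# Weight spaces of the Eichler groups in complex representations of orthogonal groups
-/

set_option autoImplicit false

namespace Cfsg.Agent.KSG.OM

open Module QuadraticMap Class.Orth

section General

theorem wtP_conj {F A A' V : Type*} [Field F] [AddCommGroup A] [Module F A] [AddCommGroup A']
    [Module F A'] [AddCommGroup V] [Module ℂ V] [Fintype A] [Fintype A'] {ψ : AddChar F ℂ}
    {τ : AddChar A (Module.End ℂ V)} {τ' : AddChar A' (Module.End ℂ V)} {T : Module.End ℂ V}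
    (σ : A ≃ A') (h : ∀ a, T * τ a = τ' (σ a) * T) {f : Dual F A} {f' : Dual F A'}
    (hf : ∀ a, f' (σ a) = f a) : T * wtP ψ τ f = wtP ψ τ' f' * T := by
  simp only [wtP, wtProj, mul_smul_comm, smul_mul_assoc, Finset.mul_sum, Finset.sum_mul, h,
    Fintype.card_congr σ, ← σ.sum_comp, hf]

variable {G V : Type*} [Group G] [AddCommGroup V] [Module ℂ V]

/-- A vector fixed by an average of group elements is fixed by each of them. -/
theorem fix_of_sum [Finite G] (ρ : G →* Module.End ℂ V) {ι : Type*} [Fintype ι] (k : ι → G) {u : V}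
    (h : ∑ i, ρ (k i) u = (Fintype.card ι : ℂ) • u) (i : ι) : ρ (k i) u = u := by
  have := Fintype.ofFinite G
  have key : ∀ l : Dual ℂ V, (l (ρ (k i) u)).re = (l u).re := by
    intro l
    let φ : G → ℝ := fun g => (l (ρ g u)).re
    have h1 : ∀ g, ∑ i, φ (g * k i) = Fintype.card ι * φ g := fun g => by
      have := congrArg (fun v => (l (ρ g v)).re) h
      simpa [φ] using this
    have h2 : ∀ i, ∑ g, φ (g * k i) ^ 2 = ∑ g, φ g ^ 2 := fun i =>
      Equiv.sum_comp (Equiv.mulRight (k i)) fun g => φ g ^ 2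
    have h3 : ∑ g, ∑ i, (φ (g * k i) - φ g) ^ 2 = 0 := by
      simp only [sub_sq, Finset.sum_add_distrib, Finset.sum_sub_distrib, ← Finset.sum_mul,
        ← Finset.mul_sum, h1]
      rw [Finset.sum_comm]
      simp only [h2, Finset.sum_const, Finset.card_univ, nsmul_eq_mul, Finset.mul_sum,
        ← Finset.sum_sub_distrib, ← Finset.sum_add_distrib]
      exact Finset.sum_eq_zero fun g _ => by ring
    have h4 := (Finset.sum_eq_zero_iff_of_nonneg fun g _ => by positivity).1 h3 1 (Finset.mem_univ _)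
    have h5 := (Finset.sum_eq_zero_iff_of_nonneg fun g _ => by positivity).1 h4 i (Finset.mem_univ _)
    simpa [φ, sub_eq_zero] using h5
  rw [← sub_eq_zero, ← Module.forall_dual_apply_eq_zero_iff ℂ]
  intro l
  have h1 := key l
  have h2 := key (Complex.I • l)
  rw [map_sub, sub_eq_zero]
  exact Complex.ext h1 (by simpa using h2)

/-- Restriction to an invariant subspace. -/
def res (ρ : G →* Module.End ℂ V) {W : Submodule ℂ V} (hW : ∀ g, ∀ v ∈ W, ρ g v ∈ W) :
    G →* Module.End ℂ W where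
  toFun g := (ρ g).restrict (hW g)
  map_one' := by ext; simp
  map_mul' _ _ := by ext; simp

theorem exists_sub [Finite G] [FiniteDimensional ℂ V] (ρ : G →* Module.End ℂ V) {g0 : G}
    (h : ρ g0 ≠ 1) (X : Finset G) (hX : ∀ g, ∀ x ∈ X, g * x * g⁻¹ ∈ X) :
    ∃ W : Submodule ℂ V, (∀ g, ∀ v ∈ W, ρ g v ∈ W) ∧ W ≠ ⊥ ∧
      (∀ v ∈ W, (∀ g, ρ g v = v) → v = 0) ∧ ∃ ω : ℂ, ∀ v ∈ W, ∑ g ∈ X, ρ g v = ω • v := by
  have := Fintype.ofFinite G
  let S : Module.End ℂ V := ∑ g, ρ g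
  let T : Module.End ℂ V := ∑ g ∈ X, ρ g
  have h1 : ∀ g, ρ g * S = S := fun g => by
    simp only [S, Finset.mul_sum, ← map_mul]; exact Equiv.sum_comp (Equiv.mulLeft g) fun g => ρ g
  have h2 : ∀ g, S * ρ g = S := fun g => by
    simp only [S, Finset.sum_mul, ← map_mul]; exact Equiv.sum_comp (Equiv.mulRight g) fun g => ρ g
  have h3 : ∀ g, ρ g * T = T * ρ g := fun g => by
    simp only [T, Finset.mul_sum, Finset.sum_mul, ← map_mul]
    exact Finset.sum_nbij' (fun x => g * x * g⁻¹) (fun x => g⁻¹ * x * g⁻¹⁻¹) (hX g) (hX g⁻¹)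
      (by simp [mul_assoc]) (by simp [mul_assoc]) (by simp)
  have h4 : ∀ g, ∀ v ∈ LinearMap.ker S, ρ g v ∈ LinearMap.ker S := fun g v hv => by
    rw [LinearMap.mem_ker, ← Module.End.mul_apply, h2, LinearMap.mem_ker.1 hv]
  have h5 : ∀ v ∈ LinearMap.ker S, T v ∈ LinearMap.ker S := fun v hv => by
    simp only [T, LinearMap.sum_apply]; exact sum_mem fun g _ => h4 g v hv
  have : Nontrivial (LinearMap.ker S) := by
    obtain ⟨v, hv⟩ := DFunLike.ne_iff.1 h
    refine ⟨⟨ρ g0 v - v, ?_⟩, 0, fun e => hv (sub_eq_zero.1 (congrArg Subtype.val e))⟩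
    rw [LinearMap.mem_ker, map_sub, ← Module.End.mul_apply, h2, sub_self]
  obtain ⟨ω, hω⟩ := Module.End.exists_eigenvalue (T.restrict h5)
  obtain ⟨⟨v, hv⟩, h6, h7⟩ := hω.exists_hasEigenvector
  refine ⟨LinearMap.ker S ⊓ T.eigenspace ω, fun g v hv => ⟨h4 g v hv.1, ?_⟩, ?_, fun v hv H => ?_, ω,
    fun v hv => by simpa [T] using hv.2⟩
  · rw [SetLike.mem_coe, Module.End.mem_eigenspace_iff, ← Module.End.mul_apply, ← h3,
      Module.End.mul_apply, Module.End.mem_eigenspace_iff.1 hv.2, map_smul]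
  · refine (Submodule.ne_bot_iff _).2 ⟨v, ⟨hv, Module.End.mem_eigenspace_iff.2 ?_⟩, by simpa using h7⟩
    exact congrArg Subtype.val (Module.End.mem_eigenspace_iff.1 h6)
  · simpa [S, H, ← Nat.cast_smul_eq_nsmul ℂ] using hv.1

end General

variable {F N : Type*} [Field F] [AddCommGroup N] [Module F N] {Q : QuadraticForm F N}
  {V : Type*} [AddCommGroup V] [Module ℂ V] {ρ : EG Q →* Module.End ℂ V} {ψ : AddChar F ℂ}

local notation "B" => polar Q

theorem rho_mul (g h : EG Q) (v : V) : ρ (g * h) v = ρ g (ρ h v) := by rw [map_mul]; rfl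

theorem rho_El (g : EG Q) (a x : N) (v : V) :
    ρ g (ρ (El Q a x) v) = ρ (El Q (g • a) (g • x)) (ρ g v) := by
  rw [← rho_mul, conj_El, rho_mul]

/-- The Eichler group of a vector. -/
noncomputable def chi (ρ : EG Q →* Module.End ℂ V) (e : N) :
    AddChar (LinearMap.ker (polarBilin Q e)) (Module.End ℂ V) where
  toFun x := ρ (El Q e x)
  map_zero_eq_one' := by simp
  map_add_eq_mul' a b := by rw [← map_mul, ← El_add a.2 b.2]; rfl

/-- Weight spaces. -/
noncomputable def Wt (ρ : EG Q →* Module.End ℂ V) (ψ : AddChar F ℂ) (e w : N) : Submodule ℂ V :=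
  wtSpace ψ (chi ρ e) ((polarBilin Q w).domRestrict _)

theorem mem_Wt {e w : N} {v : V} :
    v ∈ Wt ρ ψ e w ↔ ∀ x, B e x = 0 → ρ (El Q e x) v = ψ (B w x) • v :=
  ⟨fun H x hx => H ⟨x, hx⟩, fun H x => H x x.2⟩

theorem mem_Wt_zero {e : N} {v : V} : v ∈ Wt ρ ψ e 0 ↔ ∀ x, B e x = 0 → ρ (El Q e x) v = v := by
  simp [mem_Wt]

theorem conj_El' {e e' : N} (he : Q e' = 0) {g : EG Q} {c : F} (hg : g • e = c • e') {x : N}
    (hx : B e' (g • x) = 0) : g * El Q e x = El Q e' (c • g • x) * g := by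
  rw [conj_El, hg, El_smul he hx]

theorem map_Wt {e w e' w' : N} (he : Q e' = 0) {g : EG Q} {c : F} (hc : c ≠ 0) (hg : g • e = c • e')
    (hw : ∀ x, B e' x = 0 → B (g • w) x = c * B w' x) {v : V} (hv : v ∈ Wt ρ ψ e w) :
    ρ g v ∈ Wt ρ ψ e' w' := mem_Wt.2 fun x hx => by
  have h1 := conj_El' he hg (x := c⁻¹ • g⁻¹ • x) (by simp [act_smul, hx])
  rw [act_smul, smul_inv_smul, smul_inv_smul₀ hc] at h1
  rw [← rho_mul, ← h1, rho_mul, mem_Wt.1 hv _ (by simp [← polar_act_left, hg, hx]), map_smul]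
  simp [← polar_act_left, hw x hx, hc]

theorem map_Wt' {e w : N} (he : Q e = 0) (g : EG Q) {v : V} (hv : v ∈ Wt ρ ψ e w) :
    ρ g v ∈ Wt ρ ψ (g • e) (g • w) :=
  map_Wt (by simp [he]) one_ne_zero (one_smul _ _).symm (by simp) hv

theorem Wt_congr {e w w' : N} (h : ∀ x, B e x = 0 → B w x = B w' x) : Wt ρ ψ e w = Wt ρ ψ e w' := by
  ext v; simp +contextual [mem_Wt, h]

theorem Wt_smul {e w : N} (he : Q e = 0) {c : F} (hc : c ≠ 0) :
    Wt ρ ψ (c • e) (c • w) = Wt ρ ψ e w := le_antisymm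
  (fun v hv => by simpa using map_Wt (g := 1) he hc (one_smul _ _) (by simp) hv) fun v hv => by
    simpa using map_Wt (g := 1) (e' := c • e) (w' := c • w) (by simp [Q_smul, he]) (inv_ne_zero hc)
      (by simp [hc]) (by simp [hc]) hv

variable [Finite N]

/-- The projections to the weight spaces. -/
noncomputable def Pj (ρ : EG Q →* Module.End ℂ V) (ψ : AddChar F ℂ) (e w : N) : Module.End ℂ V :=
  letI := Fintype.ofFinite (LinearMap.ker (polarBilin Q e))
  wtP ψ (chi ρ e) ((polarBilin Q w).domRestrict _)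

theorem Pj_mem (e w : N) (v : V) : Pj ρ ψ e w v ∈ Wt ρ ψ e w :=
  letI := Fintype.ofFinite (LinearMap.ker (polarBilin Q e))
  wtP_mem _ _

theorem Pj_of_mem (hψ : ψ ≠ 1) {e w : N} {v : V} (hv : v ∈ Wt ρ ψ e w) : Pj ρ ψ e w v = v :=
  letI := Fintype.ofFinite (LinearMap.ker (polarBilin Q e))
  wtP_of_mem hψ hv

theorem Pj_congr {e w w' : N} (h : ∀ x, B e x = 0 → B w x = B w' x) : Pj ρ ψ e w = Pj ρ ψ e w' := by
  unfold Pj; congr 1; ext x; exact h x x.2

theorem Pj_conj {e w e' w' : N} (he : Q e' = 0) {g : EG Q} {c : F} (hc : c ≠ 0) (hg : g • e = c • e')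
    (hw : ∀ x, B e' x = 0 → B (g • w) x = c * B w' x) (v : V) :
    ρ g (Pj ρ ψ e w v) = Pj ρ ψ e' w' (ρ g v) := by
  have h1 : ∀ x, B e x = 0 → B e' (g • x) = 0 := fun x hx => by
    rw [← polar_act g, hg, polar_smul_left'] at hx
    exact (mul_eq_zero.1 hx).resolve_left hc
  let := Fintype.ofFinite (LinearMap.ker (polarBilin Q e))
  let := Fintype.ofFinite (LinearMap.ker (polarBilin Q e'))
  let σ : LinearMap.ker (polarBilin Q e) ≃ LinearMap.ker (polarBilin Q e') :=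
    ⟨fun x => ⟨c • g • x.1, by simp [h1 x x.2]⟩, fun x => ⟨c⁻¹ • g⁻¹ • x.1, by
      simp [← polar_act_left, hg, show B e' x = 0 from x.2]⟩,
      fun x => by simp [act_smul, hc], fun x => by simp [act_smul, hc]⟩
  refine LinearMap.congr_fun (wtP_conj σ (fun x => ?_) fun x => ?_) v
  · exact (map_mul ρ _ _).symm.trans ((congrArg ρ (conj_El' he hg (h1 x x.2))).trans (map_mul ρ _ _))
  · simpa [σ] using (hw _ (h1 x x.2)).symm

theorem Pj_comm {e w : N} (he : Q e = 0) {g : EG Q} (hg : g • e = e) (hw : g • w = w) (v : V) :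
    ρ g (Pj ρ ψ e w v) = Pj ρ ψ e w (ρ g v) :=
  Pj_conj he one_ne_zero (by simp [hg]) (by simp [hw]) v

theorem Pj_eig (hψ : ψ ≠ 1) [Finite F] {e w x : N} {v : V} (h : Pj ρ ψ e w v ≠ 0) (hx : B e x = 0)
    {t : F} (H : ∀ c : F, ρ (El Q e (c • x)) v = ψ (c * t) • v) : B w x = t :=
  letI := Fintype.ofFinite (LinearMap.ker (polarBilin Q e))
  SLM.eq_of_wtP_ne_zero hψ h (a := ⟨x, hx⟩) H

variable [Finite F]

theorem exists_polar (hQ : ND Q) {W : Submodule F N} (φ : Dual F W) :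
    ∃ w, (polarBilin Q w).domRestrict W = φ := by
  have := Module.Finite.of_finite (R := F) (M := N)
  obtain ⟨g, rfl⟩ := LinearMap.exists_extend φ
  obtain ⟨w, rfl⟩ := (LinearMap.BilinForm.toDual _ ((nd_iff Q).1 hQ)).surjective g
  exact ⟨w, rfl⟩

theorem mem_of_Pj (hQ : ND Q) (hψ : ψ ≠ 1) {e : N} (he : Q e = 0) (U : Submodule ℂ V) {v : V}
    (h : ∀ w, B e w = 0 → Pj ρ ψ e w v ≠ 0 → Pj ρ ψ e w v ∈ U) : v ∈ U := by
  let := Fintype.ofFinite (LinearMap.ker (polarBilin Q e))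
  refine mem_of_wtP_mem (τ := chi ρ e) hψ U fun φ hφ => ?_
  obtain ⟨w, rfl⟩ := exists_polar hQ φ
  refine h w ?_ hφ
  rw [polar_comm]
  exact Pj_eig hψ hφ (polar_self_of_Q_eq_zero he) fun c => by simp [El_self he]

theorem fix_of_Pj (hQ : ND Q) (hψ : ψ ≠ 1) {e : N} (he : Q e = 0) {T : Module.End ℂ V} {v : V}
    (h : ∀ w, B e w = 0 → Pj ρ ψ e w v ≠ 0 → T (Pj ρ ψ e w v) = Pj ρ ψ e w v) : T v = v :=
  mem_of_Pj hQ hψ he (LinearMap.eqLocus T LinearMap.id) h

theorem eq_of_mem_Wt (hψ : ψ ≠ 1) {e w w' x : N} {v : V} (h0 : v ≠ 0) (h : v ∈ Wt ρ ψ e w)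
    (h' : v ∈ Wt ρ ψ e w') (hx : B e x = 0) : B w x = B w' x :=
  Pj_eig hψ (by rwa [Pj_of_mem hψ h]) hx fun c => by simpa using mem_Wt.1 h' (c • x) (by simp [hx])

omit [Finite N] [Finite F] in
theorem finrank_Wt_le [FiniteDimensional ℂ V] {e w : N} (he : Q e = 0) (g : EG Q) :
    finrank ℂ (Wt ρ ψ e w) ≤ finrank ℂ (Wt ρ ψ (g • e) (g • w)) :=
  LinearMap.finrank_le_finrank_of_injective (f := (ρ g).restrict fun _ hv => map_Wt' he g hv)
    fun _ _ e => Subtype.ext (rep_injective ρ g (congrArg Subtype.val e))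

theorem finrank_Wt_eq [FiniteDimensional ℂ V] (hQ : ND Q) (hd : 6 ≤ finrank F N) {e w e' w' : N}
    (h : Pr Q e w) (h' : Pr Q e' w') {c : F} (hc : c ≠ 0) (hw : Q w' = c ^ 2 * Q w) :
    finrank ℂ (Wt ρ ψ e w) = finrank ℂ (Wt ρ ψ e' w') := by
  have := Module.Finite.of_finite (R := F) (M := N)
  have h1 := h.smul hc hc 0
  rw [zero_smul, add_zero] at h1
  rw [← Wt_smul h.sing hc]
  obtain ⟨g, rfl, rfl⟩ := h1.trans hQ hd h' (by rw [hw, Q_smul])
  have := finrank_Wt_le (ρ := ρ) (ψ := ψ) (w := g • c • w) h'.sing g⁻¹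
  rw [inv_smul_smul, inv_smul_smul] at this
  exact le_antisymm (finrank_Wt_le h1.sing g) this

section Sum
variable {e f : N} (h : IsHyp Q e f)

/-- The Eichler group parametrised by the complement of a hyperbolic pair. -/
noncomputable def chi2 (ρ : EG Q →* Module.End ℂ V) (e f : N) :
    AddChar (perp2 Q e f) (Module.End ℂ V) where
  toFun x := ρ (El Q e x)
  map_zero_eq_one' := by simp
  map_add_eq_mul' a b := by rw [← map_mul, ← El_add a.2.1 b.2.1]; rfl

omit [Finite N] [Finite F] in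
include h in
theorem wt_chi2 (w : perp2 Q e f) :
    wtSpace ψ (chi2 ρ e f) ((polarBilin Q w).domRestrict _) = Wt ρ ψ e w := by
  ext v
  refine ⟨fun H => mem_Wt.2 fun x hx => ?_, fun H x => mem_Wt.1 H x x.2.1⟩
  rw [← polar_hproj w.2, show El Q e x = El Q e (hproj Q e f x) from
    Subtype.ext (eichler_hproj h hx)]
  exact H ⟨_, h.hproj_mem x⟩

include h in
theorem bij_dual (hQ : ND Q) : Function.Bijective fun w : perp2 Q e f =>
    (polarBilin Q w).domRestrict (perp2 Q e f) := by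
  have := Module.Finite.of_finite (R := F) (M := N)
  exact (LinearMap.BilinForm.toDual _ ((nd_iff _).1 (hQ.ndon_perp2 h).nd_comp)).bijective

variable [FiniteDimensional ℂ V] [Fintype (perp2 Q e f)]
include h

theorem finrank_eq_sum (hQ : ND Q) (hψ : ψ ≠ 1) :
    finrank ℂ V = ∑ w : perp2 Q e f, finrank ℂ (Wt ρ ψ e w) := by
  have := finite_dual (F := F) (A := perp2 Q e f)
  have := Fintype.ofFinite (Dual F (perp2 Q e f))
  rw [finrank_eq_sum_wt hψ (chi2 ρ e f), ← (bij_dual h hQ).sum_comp]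
  exact Finset.sum_congr rfl fun w _ => by rw [wt_chi2 h]

theorem trace_eq_sum (hQ : ND Q) (hψ : ψ ≠ 1) (x : perp2 Q e f) :
    LinearMap.trace ℂ V (ρ (El Q e x)) = ∑ w : perp2 Q e f, ψ (B w x) * finrank ℂ (Wt ρ ψ e w) := by
  have := finite_dual (F := F) (A := perp2 Q e f)
  have := Fintype.ofFinite (Dual F (perp2 Q e f))
  refine (trace_addChar_eq_sum hψ (chi2 ρ e f) x).trans ?_
  rw [← (bij_dual h hQ).sum_comp]
  exact Finset.sum_congr rfl fun w _ => by rw [wt_chi2 h]; rfl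

end Sum

/-- The number of non-zero vectors of given norm. -/
noncomputable def cn (Q : QuadraticForm F N) (β : F) : ℕ := Nat.card {x // x ≠ 0 ∧ Q x = β}

omit [Finite N] [Finite F] in
open Classical in
theorem cn_eq [Fintype N] (β : F) : cn Q β = ∑ w : N, if w ≠ 0 ∧ Q w = β then 1 else 0 := by
  rw [cn, Nat.card_eq_fintype_card, Fintype.card_subtype, Finset.card_filter]

/-- All weights have norm `β` and multiplicity one. -/
def One (ρ : EG Q →* Module.End ℂ V) (ψ : AddChar F ℂ) (β : F) : Prop :=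
  ∀ a w, Pr Q a w → (Q w = β → finrank ℂ (Wt ρ ψ a w) = 1) ∧ (Q w ≠ β → Wt ρ ψ a w = ⊥)

variable [FiniteDimensional ℂ V]

theorem add_cn_le (hQ : ND Q) (hψ : ψ ≠ 1) {e f : N} (h : IsHyp Q e f) {β : F}
    (H : ∀ w ∈ perp2 Q e f, w ≠ 0 → Q w = β → Wt ρ ψ e w ≠ ⊥) :
    finrank ℂ (Wt ρ ψ e 0) + cn (Q.comp (perp2 Q e f).subtype) β ≤ finrank ℂ V := by
  classical
  have := Fintype.ofFinite (perp2 Q e f)
  rw [finrank_eq_sum (ρ := ρ) h hQ hψ, cn_eq, ← Finset.add_sum_erase _ _ (Finset.mem_univ 0),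
    ← Finset.add_sum_erase _ _ (Finset.mem_univ 0), if_neg (by simp), zero_add]
  refine Nat.add_le_add_left (Finset.sum_le_sum fun w _ => ?_) _
  split_ifs with hw
  · exact Nat.one_le_iff_ne_zero.2 fun e =>
      H w w.2 (by simpa using hw.1) hw.2 (Submodule.finrank_eq_zero.1 e)
  · simp

open Classical in
theorem One.finrank_Wt {β : F} (H : One ρ ψ β) {e f : N} (h : IsHyp Q e f) {w : perp2 Q e f}
    (hw : w ≠ 0) : finrank ℂ (Wt ρ ψ e w) = if w ≠ 0 ∧ Q w = β then 1 else 0 := by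
  have := H _ _ (Pr.of_hyp h w.2 (by simpa using hw))
  by_cases hβ : Q w = β
  · simp [hw, hβ, this.1]
  · simp [hβ, this.2]

theorem One.finrank_eq (hQ : ND Q) (hψ : ψ ≠ 1) {β : F} (H : One ρ ψ β) {e f : N} (h : IsHyp Q e f) :
    finrank ℂ V = finrank ℂ (Wt ρ ψ e 0) + cn (Q.comp (perp2 Q e f).subtype) β := by
  classical
  have := Fintype.ofFinite (perp2 Q e f)
  rw [finrank_eq_sum (ρ := ρ) h hQ hψ, cn_eq, ← Finset.add_sum_erase _ _ (Finset.mem_univ 0),
    ← Finset.add_sum_erase _ _ (Finset.mem_univ 0), if_neg (by simp), zero_add]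
  exact congrArg _ (Finset.sum_congr rfl fun w hw => by
    convert H.finrank_Wt h (Finset.ne_of_mem_erase hw); rfl)

theorem One.trace (hQ : ND Q) (hψ : ψ ≠ 1) (hd : 4 ≤ finrank F N) (H : One ρ ψ 0) {g : EG Q}
    (hg : IsLong g) :
    LinearMap.trace ℂ V (ρ g) = finrank ℂ V - (Nat.card F : ℂ) ^ (finrank F N - 3) := by
  classical
  have := Module.Finite.of_finite (R := F) (M := N)
  obtain ⟨e, x, h1, h2, rfl⟩ := hg
  obtain ⟨f, h⟩ := hQ.exists_isHyp h1.ne h1.sing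
  have := Fintype.ofFinite (perp2 Q e f)
  have := Fintype.ofFinite F
  have e1 : hproj Q e f x = x + (-B x f) • e := by
    simp [hproj, polar_comm _ x e, h1.perp, sub_eq_add_neg]
  have h3 := sum_sing (hQ.ndon_perp2 h).nd_comp hψ (x := ⟨_, h.hproj_mem x⟩)
    (fun e' => h1.ind (B x f) (by
      have : hproj Q e f x = 0 := congrArg Subtype.val e'
      linear_combination (norm := module) this - e1))
    (by simp [e1, Q_add, Q_smul, h2, h1.sing, polar_comm _ x e, h1.perp, -neg_smul])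
  have h4 := h.finrank_perp2
  have h5 := card_singular_ne_zero (Q.comp (perp2 Q e f).subtype)
  have h6 : 1 ≤ Nat.card {w // Q.comp (perp2 Q e f).subtype w = 0} :=
    Nat.card_pos_iff.2 ⟨⟨0, map_zero _⟩, inferInstance⟩
  rw [show El Q e x = El Q e (hproj Q e f x) from Subtype.ext (eichler_hproj h h1.perp),
    trace_eq_sum h hQ hψ ⟨_, h.hproj_mem x⟩, H.finrank_eq hQ hψ h, cn, h5,
    ← Finset.add_sum_erase _ _ (Finset.mem_univ 0),
    Finset.sum_congr rfl fun w hw => by rw [H.finrank_Wt h (Finset.ne_of_mem_erase hw)]]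
  rw [Finset.sum_filter, ← Finset.add_sum_erase _ _ (Finset.mem_univ 0), ← pow_succ',
    show finrank F (perp2 Q e f) - 2 + 1 = finrank F N - 3 by omega] at h3
  rw [Finset.sum_congr rfl (g := fun w : perp2 Q e f => if Q w = 0 then
    ψ (B w (hproj Q e f x)) else 0) fun w hw => by simp [Finset.ne_of_mem_erase hw]]
  simp only [polar_comp_subtype, comp_apply, Submodule.subtype_apply] at h3
  rw [Nat.cast_add, Nat.cast_sub h6]
  simp only [comp_apply, Submodule.subtype_apply]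
  simp only [ZeroMemClass.coe_zero, map_zero, polar_zero_left, AddChar.map_zero_eq_one, if_true,
    Nat.cast_one, one_mul] at h3 ⊢
  linear_combination h3

theorem dich (hQ : ND Q) (hψ : ψ ≠ 1) (hd : 6 ≤ finrank F N) {e f : N} (h : IsHyp Q e f) {g : EG Q}
    (hg : ρ g ≠ 1) {L : ℕ} (hL : ∀ β, L ≤ cn (Q.comp (perp2 Q e f).subtype) β) :
    2 * L ≤ finrank ℂ V ∨ ∃ β, One ρ ψ β ∧ ∀ c : F, c ≠ 0 → c ^ 2 * β = β := by
  classical
  obtain ⟨a, w, hw, h0⟩ : ∃ a w, Pr Q a w ∧ Wt ρ ψ a w ≠ ⊥ := by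
    by_contra! H
    refine hg ((eq_top_of_El (H := ρ.ker) fun a x ha hx => LinearMap.ext fun v =>
      fix_of_Pj (ρ := ρ) hQ hψ ha fun w h1 h2 => ?_).ge (Subgroup.mem_top g))
    by_cases h3 : B w x = 0
    · simp [mem_Wt.1 (Pj_mem a w v) x hx, h3]
    by_cases h4 : a = 0
    · simp [h4]
    exact absurd (H a w ⟨ha, h4, h1, fun c hc => h3 (by simp [hc, hx])⟩ ▸ Pj_mem a w v :
      _ ∈ (⊥ : Submodule ℂ V)) h2
  rw [Ne, ← Submodule.finrank_eq_zero] at h0
  refine or_iff_not_imp_left.2 fun H => ?_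
  have := Fintype.ofFinite (perp2 Q e f)
  have key : ∀ a' w', Pr Q a' w' →
      ¬ (if Q w' = Q w then 2 else 1) ≤ finrank ℂ (Wt ρ ψ a' w') := fun a' w' hw' hle => H (by
    refine le_trans ?_ (finrank_eq_sum (ρ := ρ) h hQ hψ).ge
    rw [two_mul]
    refine (add_le_add (hL (Q w)) (hL (Q w'))).trans ?_
    rw [cn_eq, cn_eq, ← Finset.sum_add_distrib]
    refine Finset.sum_le_sum fun z _ => ?_
    by_cases hz : z = 0
    · simp [hz]
    have hz' := Pr.of_hyp h z.2 (by simpa using hz)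
    have e1 := fun H => finrank_Wt_eq (ρ := ρ) (ψ := ψ) hQ hd hw hz' one_ne_zero H
    have e2 := fun H => finrank_Wt_eq (ρ := ρ) (ψ := ψ) hQ hd hw' hz' one_ne_zero H
    simp only [one_pow, one_mul, comp_apply, Submodule.subtype_apply, ne_eq, hz, not_false_eq_true,
      true_and] at e1 e2 ⊢
    grind)
  refine ⟨Q w, fun a' w' hw' => ⟨fun e1 => ?_, fun e1 => ?_⟩, fun c hc => by_contra fun e1 => ?_⟩
  · have := key _ _ hw'
    have := finrank_Wt_eq (ρ := ρ) (ψ := ψ) hQ hd hw hw' one_ne_zero (by simp [e1])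
    grind
  · have := key _ _ hw'
    rw [← Submodule.finrank_eq_zero]
    grind
  · have h1 := hw.smul one_ne_zero hc 0
    have := key _ _ h1
    have := finrank_Wt_eq (ρ := ρ) (ψ := ψ) hQ hd hw h1 hc (by simp [Q_smul])
    simp only [zero_smul, add_zero, Q_smul] at *
    grind

omit [Finite N] [Finite F] [FiniteDimensional ℂ V]

/-- The representation on the fixed points of an Eichler group. -/
noncomputable def down (ρ : EG Q →* Module.End ℂ V) (ψ : AddChar F ℂ) {e f : N} (h : IsHyp Q e f) :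
    EG (Q.comp (perp2 Q e f).subtype) →* Module.End ℂ (Wt ρ ψ e 0) :=
  res (ρ.comp (io h)) fun g v hv => by simpa [(io_fix h g).1] using map_Wt' h.left (io h g) hv

theorem down_apply {e f : N} (h : IsHyp Q e f) (g) (v : Wt ρ ψ e 0) :
    (down ρ ψ h g v : V) = ρ (io h g) v := rfl

theorem mem_Wt_down {e f : N} (h : IsHyp Q e f) {a w : perp2 Q e f} {v : Wt ρ ψ e 0} :
    v ∈ Wt (down ρ ψ h) ψ a w ↔
      ∀ x ∈ perp2 Q e f, B a x = 0 → ρ (El Q a x) v = ψ (B w x) • (v : V) := by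
  simp [mem_Wt, Subtype.ext_iff, down_apply, io_El, polar_comp_subtype]

end Cfsg.Agent.KSG.OM
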