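import Mathlib
import Cfsg.Agent.KSG.OrthRep

/-!
# Representations of orthogonal groups with singular weights of multiplicity one
-/

set_option autoImplicit false

namespace Cfsg.Agent.KSG.OM

open Module QuadraticMap Class.Orth

variable {F N : Type*} [Field F] [AddCommGroup N] [Module F N] {Q : QuadraticForm F N}
  {V : Type*} [AddCommGroup V] [Module ℂ V] {ρ : EG Q →* Module.End ℂ V} {ψ : AddChar F ℂ}

local notation "B" => polar Q

theorem rho_add {a x y : N} (hx : B a x = 0) (hy : B a y = 0) (v : V) :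
    ρ (El Q a (x + y)) v = ρ (El Q a x) (ρ (El Q a y) v) := by rw [El_add hx hy, rho_mul]

theorem pc {x y : N} (h : B x y = 0) : B y x = 0 := by rwa [polar_comm]

theorem line_fix {e w a x : N} (h1 : finrank ℂ (Wt ρ ψ e w) = 1) (he : Q e = 0) {v : V}
    (hv : v ∈ Wt ρ ψ e w) {g : EG Q} {t c : F} (ht : t ≠ 0) (hc : c ≠ 0) (hg : g • e = t • e)
    (hw : g • w = t • w) (ha : Q a = 0) (hga : g • a = c • a) (ea : B e a = 0) (wa : B w a = 0)
    (ex : B e x = 0) (wx : B w x = 0) (ax : B a x = 0) : ρ (El Q a (c • g • x - x)) v = v := by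
  by_cases hv0 : v = 0
  · simp [hv0]
  have key : ∀ k : EG Q, ρ k v ∈ Wt ρ ψ e w → ∃ c : ℂ, c ≠ 0 ∧ ρ k v = c • v := fun k hx => by
    obtain ⟨c, hc⟩ := (finrank_eq_one_iff_of_nonzero' (⟨v, hv⟩ : Wt ρ ψ e w)
      (fun e => hv0 (congrArg Subtype.val e))).1 h1 ⟨_, hx⟩
    have hc : c • v = ρ k v := congrArg Subtype.val hc
    exact ⟨c, by rintro rfl; exact hv0 (rep_injective ρ k (by simpa using hc.symm)), hc.symm⟩
  obtain ⟨κ, hκ, h2⟩ := key (El Q a x) (by simpa [El_fix, *] using map_Wt' he (El Q a x) hv)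
  obtain ⟨μ, hμ, h3⟩ := key g (map_Wt he ht hg (by simp [hw]) hv)
  have h4 : B a (g • x) = 0 := by simpa [hga, hc] using (polar_act g a x).trans ax
  have h5 := LinearMap.congr_fun (congrArg ρ (conj_El' ha hga h4)) v
  rw [rho_mul, rho_mul, h2, h3, map_smul, map_smul, h3, smul_comm] at h5
  have h6 := rho_add (ρ := ρ) (a := a) (x := c • g • x - x) (y := x) (by simp [h4, ax]) ax v
  rw [sub_add_cancel, ← smul_right_injective V hμ h5, h2, map_smul] at h6
  exact (smul_right_injective V hκ h6).symm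

theorem fix_of_sing {e w a x y : N} (h1 : finrank ℂ (Wt ρ ψ e w) = 1) (he : Q e = 0) {v : V}
    (hv : v ∈ Wt ρ ψ e w) (ha : Q a = 0) (ea : B e a = 0) (wa : B w a = 0) (h : IsHyp Q x y)
    (hx : ∀ s ∈ ({e, w, a} : Set N), B s x = 0) (hy : ∀ s ∈ ({e, w, a} : Set N), B s y = 0)
    (H : ∀ b, Q b = 0 → B e b = 0 → B w b = 0 → B a b = 0 → ∃ x z,
      (∀ s ∈ ({e, w, a, b} : Set N), B s x = 0) ∧ (∀ s ∈ ({e, w, a, b} : Set N), B s z = 0) ∧
        B z x = 1) {z : N} (ez : B e z = 0) (wz : B w z = 0) (az : B a z = 0) :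
    ρ (El Q a z) v = v := by
  refine singular_induction (W := perp Q (Submodule.span F {e, w, a})) (mem_perp_span.2 hx)
    (mem_perp_span.2 hy) h (fun z => ρ (El Q a z) v = v) (fun b hb hb' => ?_)
    (fun y hy z hz h1 h2 => ?_) z (mem_perp_span.2 (by simp [*]))
  · simp only [mem_perp_span, Set.mem_insert_iff, Set.mem_singleton_iff, forall_eq_or_imp,
      forall_eq] at hb
    obtain ⟨x, z, hx, hz, h⟩ := H b hb' hb.1 hb.2.1 hb.2.2
    simp only [Set.mem_insert_iff, Set.mem_singleton_iff, forall_eq_or_imp, forall_eq] at hx hz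
    simpa [El_act_perp hb' hz.2.2.2 hx.2.2.2, h] using line_fix h1 he hv (g := El Q b z) one_ne_zero
      one_ne_zero (by simp [El_fix, *]) (by simp [El_fix, *]) ha (by simp [El_fix, *]) ea wa hx.1
      hx.2.1 hx.2.2.1
  · rw [rho_add (mem_perp_span.1 hy a (by simp)) (mem_perp_span.1 hz a (by simp)), h2, h1]

/-- Eichler transformations orthogonal to a singular weight act trivially. -/
def PP (ρ : EG Q →* Module.End ℂ V) (ψ : AddChar F ℂ) : Prop :=
  ∀ e w, Pr Q e w → Q w = 0 → ∀ v ∈ Wt ρ ψ e w, ∀ a x, B e a = 0 → B w a = 0 → B e x = 0 →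
    B w x = 0 → ρ (El Q a x) v = v

theorem pp_of (h1 : ∀ e w, Pr Q e w → Q w = 0 → ∀ v ∈ Wt ρ ψ e w, ∀ x, B e x = 0 → B w x = 0 →
      ρ (El Q w x) v = v)
    (h2 : ∀ e w, Pr Q e w → Q w = 0 → ∀ v ∈ Wt ρ ψ e w, ∀ a, Q a = 0 → B e a = 0 → B w a = 0 →
      (∀ s t : F, a ≠ s • e + t • w) → (∀ s t r : F, ρ (El Q a (s • e + t • w + r • a)) v = v) →
      ∀ x, B e x = 0 → B w x = 0 → B a x = 0 → ρ (El Q a x) v = v) : PP ρ ψ := by
  intro e w h hw v hv a x ea wa ex wx
  by_cases H : Q a = 0 ∧ B a x = 0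
  swap
  · simp [El_of_not H]
  have key : ∀ (s t : F) x, B e x = 0 → B w x = 0 → ρ (El Q (s • e + t • w) x) v = v := by
    intro s t x ex wx
    rw [El_add_left (by simp [Q_smul, h.sing]) (by simp [Q_smul, hw]) (by simp [h.perp])
      (by simp [ex]) (by simp [wx]), rho_mul, El_smul hw wx, h1 e w h hw v hv _ (by simp [ex])
      (by simp [wx]), El_smul h.sing (by simp [ex, h.perp]),
      mem_Wt.1 hv _ (by simp [ex, h.perp])]
    simp [wx, polar_self', hw]
  by_cases ha : ∃ s t : F, a = s • e + t • w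
  · obtain ⟨s, t, rfl⟩ := ha
    exact key s t x ex wx
  push Not at ha
  refine h2 e w h hw v hv a H.1 ea wa ha (fun s t r => ?_) x ex wx H.2
  have h3 : B a (s • e + t • w) = 0 := by simp [pc ea, pc wa]
  rw [El_add_self H.1 h3, El_swap H.1 (by simp [Q_add, Q_smul, h.sing, hw, h.perp]) h3,
    key _ _ _ (by simp [ea]) (by simp [wa])]

variable [Finite F] [Finite N]

theorem pp_big (hQ : ND Q) (hd : 6 ≤ finrank F N) {t : F} (ht : t ≠ 0) (ht' : t ^ 2 ≠ 1)
    (H : One ρ ψ 0) : PP ρ ψ := by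
  have := Module.Finite.of_finite (R := F) (M := N)
  have h0 : t ^ 2 - 1 ≠ 0 := sub_ne_zero.2 ht'
  refine pp_of (fun e w h hw v hv x ex wx => ?_) fun e w h hw v hv a ha ea wa hi h3 x ex wx ax => ?_
  · obtain ⟨y, h1, h2⟩ := ex1 hQ h.ind 1
    have hy := isHyp_of_polar_eq_one hw h2
    have ey : B e (y - Q y • w) = 0 := by simp [h1, h.perp]
    generalize y - Q y • w = y at hy ey
    obtain ⟨f, h3, h4, h5⟩ := ex2 hQ (a := w) (b := y) (z := e) (fun s t hst => by
      have := congrArg (B w) hst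
      simp only [polar_add_right, polar_smul_right', hy.pol, hy.ee, pc h.perp] at this
      exact (h.symm hw).ind s (by simpa [show t = 0 by simpa using this.symm] using hst)) 1
    have hf := isHyp_of_polar_eq_one h.sing h5
    have wf : B w (f - Q f • e) = 0 := by simp [h3, pc h.perp]
    have yf : B y (f - Q f • e) = 0 := by simp [h4, pc ey]
    generalize f - Q f • e = f at hf wf yf
    obtain ⟨g, hg⟩ := exists_tor2 hQ (by omega) hf hy (mem_perp2'.2 ⟨pc h.perp, wf⟩)
      (mem_perp2'.2 ⟨pc ey, yf⟩) (pow_ne_zero 2 ht)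
    have e1 : g • w = t ^ 2 • w := by simp [hg, wf, pc h.perp, hy.pol, hy.ee, sub_smul]
    have := line_fix ((H e w h).1 hw) h.sing hv (g := g) (pow_ne_zero 2 ht) (pow_ne_zero 2 ht)
      (by simp [hg, ey, h.perp, hf.pol, hf.ee, sub_smul]) e1 hw e1 h.perp hy.ee
      (x := (t ^ 2 - 1)⁻¹ • (x - B x f • e - B x y • w)) (by simp [ex, hf.ee, h.perp])
      (by simp [wx, hy.ee, pc h.perp]) (by simp [wx, hy.ee, pc h.perp])
    rw [show t ^ 2 • g • ((t ^ 2 - 1)⁻¹ • (x - B x f • e - B x y • w)) -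
      (t ^ 2 - 1)⁻¹ • (x - B x f • e - B x y • w) = x + (-B x f) • e + (-B x y) • w by
        simp [hg, pc ex, pc wx, hf.ee, hf.pol, hy.ee, hy.pol, h.perp, pc h.perp, ey, wf]
        match_scalars <;> field_simp <;> ring,
      El_add_self hw (by simp [wx, pc h.perp]), rho_add wx (by simp [pc h.perp]),
      El_swap (v := _ • e) hw (by simp [Q_smul, h.sing, -neg_smul]) (by simp [pc h.perp]),
      El_smul h.sing (by simp [h.perp]), mem_Wt.1 hv _ (by simp [h.perp])] at this
    simpa [hy.ee] using this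
  · obtain ⟨b, h1, h2, h4⟩ := ex2 hQ hi 1
    have hb := isHyp_of_polar_eq_one ha h4
    have eb : B e (b - Q b • a) = 0 := by simp [h1, ea]
    have wb : B w (b - Q b • a) = 0 := by simp [h2, wa]
    generalize b - Q b • a = b at hb eb wb
    obtain ⟨g, hg⟩ := exists_tor1 hQ (by omega) hb ht
    have := line_fix ((H e w h).1 hw) h.sing hv (g := g) one_ne_zero (pow_ne_zero 2 ht)
      (by simp [hg, *]) (by simp [hg, *]) ha (by simp [hg, hb.pol, hb.ee, sub_smul]) ea wa
      (x := (t ^ 2 - 1)⁻¹ • (x - B x b • a)) (by simp [*]) (by simp [*]) (by simp [ax, hb.ee])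
    rwa [show t ^ 2 • g • ((t ^ 2 - 1)⁻¹ • (x - B x b • a)) - (t ^ 2 - 1)⁻¹ • (x - B x b • a) =
      x + (-B x b) • a by
        simp [hg, pc ax, hb.ee, hb.pol]
        match_scalars <;> field_simp <;> ring, El_add_self ha ax] at this

theorem pp_small (hQ : ND Q) (hd : 8 ≤ finrank F N)
    (h3 : 9 ≤ finrank F N ∨ ∀ U, TS Q U → finrank F U ≤ 3) (H : One ρ ψ 0) : PP ρ ψ := by
  classical
  have := Module.Finite.of_finite (R := F) (M := N)
  refine pp_of (fun e w h hw v hv x ex wx => ?_) fun e w h hw v hv a ha ea wa hi h4 x ex wx ax => ?_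
  · obtain ⟨y, z, h1, h2, h4⟩ := exists_hyp hQ {e, w} (by
      have := Finset.card_le_two (a := e) (b := w); omega)
    refine fix_of_sing ((H e w h).1 hw) h.sing hv hw h.perp (by simp [polar_self', hw]) h1
      (by simpa using h2) (by simpa using h4) (fun b _ _ _ _ => ?_) ex wx wx
    simpa using exists_pair hQ {e, w, b} (by
      have := Finset.card_le_three (a := e) (b := w) (c := b); omega)
  rcases h3 with h3 | h3
  · obtain ⟨y, z, h1, h2, h4⟩ := exists_hyp hQ {e, w, a} (by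
      have := Finset.card_le_three (a := e) (b := w) (c := a); omega)
    refine fix_of_sing ((H e w h).1 hw) h.sing hv ha ea wa h1
      (by simpa using h2) (by simpa using h4) (fun b _ _ _ _ => ?_) ex wx ax
    simpa using exists_pair hQ {e, w, a, b} (by
      have := Finset.card_le_four (a := e) (b := w) (c := a) (d := b); omega)
  have key := fun z => mem_span_of_TS h3 h hw ha ea wa hi (z := z)
  by_cases hx : Q x = 0
  · obtain ⟨s, t, r, rfl⟩ := key x hx ex wx ax
    exact h4 s t r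
  have hT : ∀ {u}, u ∈ Submodule.span F {e, w, a} → Q u = 0 := fun hu => by
    obtain ⟨s, t, r, rfl⟩ := Submodule.mem_span_triple.1 hu
    simp [Q_add, Q_smul, h.sing, h.perp, *]
  obtain ⟨z, hz, hz1, hz2⟩ : ∃ z ∈ perp Q (Submodule.span F {e, w, a}),
      z ∉ Submodule.span F ((({x, e, w, a} : Finset N)) : Set N) ∧ B x z ≠ 0 := by
    by_contra! H
    rcases le_or_le_of_forall_mem (U := Submodule.span F ((({x, e, w, a} : Finset N)) : Set N))
      (W := LinearMap.ker (polarBilin Q x)) (fun z hz => or_iff_not_imp_left.2 (H z hz)) with H | H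
    · have h1 := Submodule.finrank_mono H
      have h2 := hQ.finrank_perp (Submodule.span F {e, w, a})
      have h5 := finrank_span_finset_le_card (R := F) ({x, e, w, a} : Finset N)
      have h6 := finrank_span_finset_le_card (R := F) ({e, w, a} : Finset N)
      have := Finset.card_le_four (a := x) (b := e) (c := w) (d := a)
      have := Finset.card_le_three (a := e) (b := w) (c := a)
      rw [Set.finrank] at h5 h6
      rw [Finset.coe_insert, Finset.coe_insert, Finset.coe_singleton] at h6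
      omega
    · exact hx (hT (by rw [← hQ.perp_perp (Submodule.span _ _)]; exact fun u hu => pc (H hu)))
  simp only [mem_perp_span, Set.mem_insert_iff, Set.mem_singleton_iff, forall_eq_or_imp,
    forall_eq, Finset.coe_insert, Finset.coe_singleton] at hz hz1
  have hz3 : Q z ≠ 0 := fun e' => hz1 (by
    obtain ⟨s, t, r, rfl⟩ := key z e' hz.1 hz.2.1 hz.2.2
    exact Submodule.span_mono (Set.subset_insert _ _) (Submodule.mem_span_triple.2 ⟨s, t, r, rfl⟩))
  obtain ⟨y, hy, hy'⟩ := exists_perp hQ (s := {(refl Q z).1 x, e, w, a}) (z := x) (fun hm => by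
    obtain ⟨c, u, hu, e'⟩ := Submodule.mem_span_insert.1 hm
    have hc : c ≠ 0 := by rintro rfl; exact hx (hT (by rwa [e', zero_smul, zero_add]))
    have hk : c * ((Q z)⁻¹ * B x z) ≠ 0 := by simp [hc, hz3, hz2]
    refine hz1 (Submodule.mem_span_insert.2 ⟨(c * ((Q z)⁻¹ * B x z))⁻¹ * (c - 1), _,
      Submodule.smul_mem _ (c * ((Q z)⁻¹ * B x z))⁻¹ hu, smul_right_injective N hk ?_⟩)
    rw [refl_apply] at e'
    simp only [smul_add, smul_smul, mul_inv_cancel_left₀ hk, mul_inv_cancel₀ hk]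
    linear_combination (norm := module) e') (-Q x)
  simp only [Set.mem_insert_iff, Set.mem_singleton_iff, forall_eq_or_imp, forall_eq] at hy
  obtain ⟨f, hf⟩ := hQ.exists_isHyp h.ne h.sing
  have hg : ∀ u, B u x = 0 → B u z = 0 → (refl Q x * refl Q ((refl Q z).1 x)).1 u = u := by
    intro u h1 h2
    rw [OG.mul_apply, refl_apply_of_polar_eq_zero (x := u) (by simp [refl_apply, *]),
      refl_apply_of_polar_eq_zero h1]
  have := line_fix ((H e w h).1 hw) h.sing hv (g := ⟨_, hQ.refl_mul_refl_mem_EG hf (by omega) hx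
    (OG.map_Q (refl Q z) x).symm⟩) one_ne_zero one_ne_zero ((hg e ex hz.1).trans (one_smul _ _).symm)
    ((hg w wx hz.2.1).trans (one_smul _ _).symm) ha ((hg a ax hz.2.2).trans (one_smul _ _).symm)
    ea wa hy.2.1 hy.2.2.1 hy.2.2.2
  rw [act_def, OG.mul_apply, refl_apply_of_polar_eq_zero (pc hy.1), refl_apply, polar_comm, hy'] at this
  simpa [hx] using this

theorem Pj_eq_zero (hψ : ψ ≠ 1) {e w w' x : N} {v : V} (hv : v ∈ Wt ρ ψ e w') (hx : B e x = 0)
    (h : B w x ≠ B w' x) : Pj ρ ψ e w v = 0 := by_contra fun H =>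
  h (Pj_eig hψ H hx fun c => by simpa using mem_Wt.1 hv (c • x) (by simp [hx]))

theorem Pj_eq_zero_of_fix (hψ : ψ ≠ 1) {e w a z x : N} (he : Q e = 0) {v : V} (hv : v ∈ Wt ρ ψ a z)
    (ea : B e a = 0) (ex : B e x = 0) (wa : B w a = 0) (wx : B w x = 0) (ax : B a x = 0)
    (zx : B z x ≠ 0) (H : ∀ c : F, ρ (El Q a (c • x)) (Pj ρ ψ e w v) = Pj ρ ψ e w v) :
    Pj ρ ψ e w v = 0 := by
  obtain ⟨c, hc⟩ := addChar_mul_ne hψ zx
  have := H c
  rw [Pj_comm he (El_fix ea (by simp [ex])) (El_fix wa (by simp [wx])), mem_Wt.1 hv _ (by simp [ax]),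
    map_smul] at this
  exact by_contra fun h0 => hc (by simpa using smul_left_injective ℂ h0 (this.trans (one_smul _ _).symm))

theorem Pj_fix (hψ : ψ ≠ 1) {e w x : N} {v : V} (h : Pj ρ ψ e w v ≠ 0) (hx : B e x = 0)
    (H : ∀ c : F, ρ (El Q e (c • x)) v = v) : B w x = 0 := Pj_eig hψ h hx (by simpa using H)

theorem Pj_ne_zero (hQ : ND Q) (hψ : ψ ≠ 1) {e a w : N} (h : Pr Q a e) (he : Q e = 0)
    (ew : B e w = 0) (aw : B a w = 0) (hi : ∀ s t : F, w ≠ s • e + t • a) {v : V}
    (hv : v ∈ Wt ρ ψ a w) (h0 : v ≠ 0)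
    (h1 : ∀ x, B e x = 0 → B a x = 0 → B w x = 0 → ρ (El Q e x) v = v)
    (h2 : ∀ c : F, c ≠ 0 → ∀ u ∈ Wt ρ ψ e (c • a), ∀ x, B e x = 0 → B a x = 0 →
      ρ (El Q a x) u = u) : Pj ρ ψ e 0 v ≠ 0 := by
  intro H
  classical
  have := Module.Finite.of_finite (R := F) (M := N)
  have := Fintype.ofFinite F
  obtain ⟨x, ex, ax, wx⟩ := ex2 hQ hi 1
  have h3 : v ∈ LinearMap.ker (∑ t : F, ρ (El Q e (t • x))) := mem_of_Pj hQ hψ he _ fun z ez hz => by
    obtain ⟨s, c, d, rfl⟩ := sp3 hQ (a := e) (b := a) (d := w) (z := z) fun y h3 h4 h5 =>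
      Pj_fix hψ hz h3 fun c => h1 _ (by simp [h3]) (by simp [h4]) (by simp [h5])
    by_cases hd : d = 0
    · by_cases hc : c = 0
      · exact absurd (by rwa [Pj_congr (w' := 0) (by simp +contextual [hc, hd])]) hz
      · refine absurd (Pj_eq_zero_of_fix hψ he hv (pc h.perp) ex
          (by simp [hd, pc h.perp, polar_self', h.sing]) (by simp [*]) ax (by simp [wx]) fun r =>
            h2 c hc _ ?_ _ (by simp [ex]) (by simp [ax])) hz
        rw [Wt_congr (w' := s • e + c • a + d • w) (by simp +contextual [hd])]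
        exact Pj_mem _ _ _
    · have := fun t : F => mem_Wt.1 (Pj_mem (ρ := ρ) (ψ := ψ) e (s • e + c • a + d • w) v) (t • x)
        (by simp [ex])
      simp only [LinearMap.mem_ker, LinearMap.sum_apply, this, ← Finset.sum_smul]
      simp [ex, ax, wx, AddChar.sum_mulShift _ (AddChar.IsPrimitive.of_ne_one hψ), hd]
  obtain ⟨z, az, ez⟩ := ex1 hQ h.ind 1
  have := congrArg (Pj ρ ψ a w) (LinearMap.mem_ker.1 h3)
  rw [LinearMap.sum_apply, map_sum, Finset.sum_eq_single 0 (fun t _ ht => ?_) (by simp)] at this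
  · exact h0 (by simpa [Pj_of_mem hψ hv] using this)
  · have h4 := map_Wt' h.sing (El Q e (t • x)) hv
    rw [El_fix h.perp (by simp [ax]), El_act_perp he (by simp [ex]) ew] at h4
    exact Pj_eq_zero hψ h4 az (by simp [ez, polar_comm _ x, wx, ht])

theorem down_ne_bot (hQ : ND Q) (hψ : ψ ≠ 1) {e f : N} (h : IsHyp Q e f) {a w : perp2 Q e f}
    (hp : Pr (Q.comp (perp2 Q e f).subtype) a w) (h0 : Wt ρ ψ a w ≠ ⊥)
    (h1 : ∀ v ∈ Wt ρ ψ a w, ∀ x, B e x = 0 → B a x = 0 → B w x = 0 → ρ (El Q e x) v = v)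
    (h2 : ∀ c : F, c ≠ 0 → ∀ u ∈ Wt ρ ψ e (c • (a : N)), ∀ x, B e x = 0 → B a x = 0 →
      ρ (El Q a x) u = u) : Wt (down ρ ψ h) ψ a w ≠ ⊥ := by
  obtain ⟨v, hv, hv0⟩ := (Submodule.ne_bot_iff _).1 h0
  have ha := (Pr.of_hyp h a.2 (by simpa using hp.ne)).symm hp.sing
  have := Pj_ne_zero hQ hψ ha h.left w.2.1 (by simpa [polar_comp_subtype] using hp.perp)
    (fun s t e' => hp.ind t (Subtype.ext (by
      have := congrArg (B f) e'
      simp only [(mem_perp2.1 w.2).2, (mem_perp2.1 a.2).2, polar_add_right, polar_smul_right',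
        h.pol', mul_one, mul_zero, add_zero] at this
      simpa [← this] using e'))) hv hv0 (h1 v hv) h2
  refine (Submodule.ne_bot_iff _).2 ⟨⟨_, Pj_mem e 0 v⟩, (mem_Wt_down h).2 fun x hx ax => ?_,
    by simpa using this⟩
  rw [Pj_comm h.left (El_fix a.2.1 hx.1) (smul_zero _), mem_Wt.1 hv x ax, map_smul]

omit [Finite F] [Finite N] in
theorem Pr.of_down {W : Submodule F N} {a w : W}
    (hp : Pr (Q.comp W.subtype) a w) : Pr Q a w :=
  ⟨hp.sing, by simpa using hp.ne, by simpa [polar_comp_subtype] using hp.perp,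
    fun c hc => hp.ind c (Subtype.ext hc)⟩

/-- The fixed points of the radical of a line stabiliser, two steps down. -/
def W0 (ρ : EG Q →* Module.End ℂ V) (e a : N) : Submodule ℂ V where
  carrier := {u | (∀ x, B e x = 0 → ρ (El Q e x) u = u) ∧
    ∀ b x, B e b = 0 → B a b = 0 → B e x = 0 → B a x = 0 → ρ (El Q b x) u = u}
  add_mem' := by simp +contextual
  zero_mem' := by simp
  smul_mem' := by simp +contextual

theorem W0_ne_bot [FiniteDimensional ℂ V] (hQ : ND Q) (hψ : ψ ≠ 1) (hd : 6 ≤ finrank F N)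
    (H : One ρ ψ 0) (P : PP ρ ψ) {e a w : N} (h : Pr Q a w) (hw : Q w = 0) (he : Q e = 0)
    (ea : B e a = 0) (ew : B e w = 0) (hi : ∀ s t : F, e ≠ s • a + t • w) : W0 ρ a w ≠ ⊥ := by
  intro H0
  have := Module.Finite.of_finite (R := F) (M := N)
  have h0 : ∀ a' w', Pr Q a' w' → Q w' = 0 → ∀ v ∈ Wt ρ ψ a' w', Pj ρ ψ w' 0 v = 0 := by
    intro a' w' h' hw' v hv
    obtain ⟨g, rfl, rfl⟩ := (h'.symm hw').trans hQ hd h (by rw [hw, h'.sing])
    refine rep_injective ρ g ?_
    have h1 := map_Wt' h'.sing g hv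
    rw [Pj_conj h.sing one_ne_zero (one_smul _ _).symm (w' := 0) (by simp), map_zero,
      ← Submodule.mem_bot ℂ, ← H0]
    refine ⟨mem_Wt_zero.1 (Pj_mem _ _ _), fun b x h2 h3 h4 h5 => ?_⟩
    rw [Pj_comm h.sing (El_fix h2 h4) (smul_zero _), P _ _ (h.symm hw) h.sing _ h1 _ _ h3 h2 h5 h4]
  obtain ⟨v, hv, hv0⟩ := (Submodule.ne_bot_iff _).1 fun e : Wt ρ ψ a w = ⊥ => by
    have := (H a w h).1 hw
    rw [e] at this
    simp at this
  have li : ∀ {r s t : F}, r • e + s • a + t • w = 0 → r = 0 ∧ s = 0 ∧ t = 0 := fun {r s t} e' => by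
    have hr : r = 0 := by_contra fun hr => hi (-s / r) (-t / r) (smul_right_injective N hr (by
      simp only [smul_add, smul_smul, mul_div_cancel₀ _ hr]
      linear_combination (norm := module) e'))
    exact ⟨hr, h.eq_zero (by simpa [hr] using e')⟩
  have h1 : v ∈ Wt ρ ψ e 0 := mem_of_Pj hQ hψ he _ fun z ez hz => by
    obtain ⟨r, s, t, rfl⟩ := sp3 hQ (a := e) (b := a) (d := w) (z := z) fun y h3 h4 h5 =>
      Pj_fix hψ hz h3 fun c => P a w h hw v hv _ _ (pc ea) (pc ew) (by simp [h4]) (by simp [h5])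
    by_cases h2 : s • a + t • w = 0
    · rw [Pj_congr (w' := 0) (by simp +contextual [add_assoc, h2])]
      exact Pj_mem _ _ _
    refine absurd ?_ hz
    rw [Pj_congr (w' := s • a + t • w) (by simp +contextual)]
    have h3 : Q (s • a + t • w) = 0 := by simp [Q_add, Q_smul, h.sing, hw, h.perp]
    have h4 : Pr Q e (s • a + t • w) := ⟨he, fun e' => hi 0 0 (by simp [e']), by simp [*],
      fun c hc => h2 (by
        obtain ⟨-, rfl, rfl⟩ := li (r := -c) (s := s) (t := t) (by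
          linear_combination (norm := module) hc)
        simp)⟩
    have key : ∀ y z, y ∈ Wt ρ ψ (s • a + t • w) z → (∀ α β : F, z ≠ α • e + β • (s • a + t • w)) →
        Pj ρ ψ e (s • a + t • w) y = 0 := fun y z hy hz => by
      obtain ⟨x, h5, h6, h7⟩ := ex2 hQ hz 1
      exact Pj_eq_zero_of_fix hψ he hy h4.perp h5 (polar_self_of_Q_eq_zero h3) h6 h6 (by simp [h7])
        fun c => P _ _ h4 h3 _ (Pj_mem _ _ _) _ _ h4.perp (polar_self_of_Q_eq_zero h3)
          (by simp [h5]) (by rw [polar_smul_right', h6, mul_zero])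
    by_cases ht : t = 0
    · have hs : s ≠ 0 := by rintro rfl; simp [ht] at h2
      refine key v (s • w) (by rwa [ht, zero_smul, add_zero, Wt_smul h.sing hs]) fun α β e' => hs ?_
      simpa using (li (r := α) (s := β * s) (t := -s) (by
        rw [ht] at e'; linear_combination (norm := module) -e')).2.2
    · have h5 : v ∈ Wt ρ ψ (t • a) (s • a + t • w) := by
        rwa [Wt_congr (w' := t • w) (by simp +contextual [ht]), Wt_smul h.sing ht]
      have h6 := h.smul ht ht (s / t * t)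
      rw [div_mul_cancel₀ _ ht, add_comm] at h6
      refine LinearMap.mem_ker.1 (mem_of_Pj hQ hψ h3 _ fun z _ hz => key _ z (Pj_mem _ _ _) ?_)
      rintro α β rfl
      obtain ⟨γ, δ, e'⟩ := sp2 hQ (a := a) (b := w) (z := α • e + β • (s • a + t • w))
        fun y h7 h8 => Pj_fix hψ hz (by simp [h7, h8]) fun c => P _ _ h6 h3 v h5 _ _ h6.perp
          (polar_self_of_Q_eq_zero h3) (by simp [h7]) (by simp [h7, h8])
      obtain rfl := (li (r := α) (s := β * s - γ) (t := β * t - δ) (by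
        linear_combination (norm := module) e')).1
      exact hz (by rw [Pj_congr (w' := 0) (fun x hx => by
        rw [zero_smul, zero_add, polar_smul_left', hx]; simp), h0 _ _ h6 h3 v h5])
  obtain ⟨x, ex, ax, wx⟩ := ex2 hQ (a := e) (b := a) (z := w) (fun s t e' => by
    simpa using (li (r := s) (s := t) (t := -1) (by linear_combination (norm := module) -e')).2.2) 1
  obtain ⟨z, az, ez⟩ := ex1 hQ (a := a) (z := e) (fun s e' => hi s 0 (by simp [e'])) 1
  have h4 := map_Wt' h.sing (El Q e x) hv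
  rw [El_fix (pc ea) ax, El_act_perp he ex ew, mem_Wt_zero.1 h1 x ex] at h4
  simpa [ez, polar_comm _ x, wx] using eq_of_mem_Wt hψ hv0 hv h4 az

end Cfsg.Agent.KSG.OM
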