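import Mathlib
import Cfsg.Agent.KSG.OrthP
import Cfsg.Agent.Class.Orth.TypeCount
import Cfsg.Agent.Class.Orth.StdOrder

/-!
# Minimal degrees of complex representations of even-dimensional orthogonal groups
-/

set_option autoImplicit false

namespace Cfsg.Agent.KSG.OM

open Module QuadraticMap Class.Orth

universe u v

theorem excl1 {q x ε D c : ℤ} {k : ℕ} (hq : 2 ≤ q) (hx : q ^ 2 ≤ x) (hε : ε = 1 ∨ ε = -1)
    (h1 : (q ^ 2 - 1) * (D + 1) = (q ^ 2 * x - ε) * (q * x + ε * q))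
    (h2 : c * (q ^ 2 - 1) = (q ^ 2 * x - ε) * (q * x + ε) * ((q * x - ε) * (x + ε)))
    (h3 : D ∣ c * q ^ k) : False := by
  have hε2 : ε ^ 2 = 1 := by rcases hε with rfl | rfl <;> simp
  have h0 : 0 < q ^ 2 - 1 := by nlinarith
  have h4 : q * c = (D + 1) * (q ^ 2 * x ^ 2 - 1) := mul_left_cancel₀ h0.ne' (by
    linear_combination q * h2 - (q ^ 2 * x ^ 2 - 1) * h1 - q * (q ^ 2 * x - ε) * (x + ε) * hε2)
  obtain ⟨b, hb⟩ : q ∣ D + 1 := (show IsCoprime q (q ^ 2 - 1) from ⟨q, -1, by ring⟩).dvd_of_dvd_mul_left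
    ⟨(q ^ 2 * x - ε) * (x + ε), by linear_combination h1⟩
  have h5 : IsCoprime D q := ⟨-1, b, by linear_combination -hb⟩
  obtain ⟨j, hj⟩ : D ∣ q ^ 2 * x ^ 2 - 1 := by
    have := (h5.pow_right.dvd_of_dvd_mul_right h3).mul_left q
    rw [h4] at this
    exact (show IsCoprime D (D + 1) from ⟨-1, 1, by ring⟩).dvd_of_dvd_mul_left this
  obtain ⟨i, hi⟩ : q ∣ j - 1 := ⟨b * j - q * x ^ 2, by linear_combination hj + j * hb⟩
  have hx4 : 4 ≤ x := by nlinarith
  have hqx : q ≤ x := by nlinarith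
  have h6 : 0 < (q ^ 2 * x - ε) * (q * x + ε * q) - (q ^ 2 - 1) := by
    have : q ^ 2 ≤ q ^ 2 * x - ε := by rcases hε with rfl | rfl <;> nlinarith
    have : 1 ≤ q * x + ε * q := by rcases hε with rfl | rfl <;> nlinarith
    nlinarith
  have hD : 0 < D := pos_of_mul_pos_left (b := q ^ 2 - 1) (by linarith) h0.le
  have h7 : 0 < j := pos_of_mul_pos_right (a := D) (by nlinarith) hD.le
  have h8 : 0 ≤ i := by nlinarith
  have a1 : q ^ 2 * x * q ^ 2 ≤ q ^ 2 * x * x := by gcongr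
  have a2 : q ^ 3 * x * 2 ≤ q ^ 3 * x * q := by gcongr
  have a3 : q * x * 1 ≤ q * x * q ^ 2 := by gcongr; nlinarith
  have a4 : q * q ≤ q * x := by gcongr
  have a5 : 0 < q * x := by positivity
  rcases h8.eq_or_lt with rfl | h8
  · have a6 : q ^ 2 * x ^ 2 * (q + 2) ≤ q ^ 2 * x ^ 2 * q ^ 2 := by gcongr; nlinarith
    obtain rfl : j = 1 := by linarith
    obtain rfl : D = q ^ 2 * x ^ 2 - 1 := by linarith
    rcases hε with rfl | rfl <;> linarith
  · have h9 : D * (q + 1) ≤ D * j := by gcongr; nlinarith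
    have h10 : (q + 1) * ((q ^ 2 - 1) * D) ≤ (q + 1) * ((q - 1) * (q ^ 2 * x ^ 2 - 1)) := by nlinarith
    have h11 := le_of_mul_le_mul_left h10 (by linarith)
    rcases hε with rfl | rfl <;> linarith

theorem excl3 {q D : ℤ} (hq : 4 ≤ q) (h1 : q ^ 3 + q ^ 2 + q - 3 ≤ D) (h2 : D < q ^ 3 + q ^ 2 + q)
    (h3 : D ∣ (q ^ 3 - 1) * (q ^ 2 + 1) * (q + 1) * q ^ 3) : False := by
  obtain ⟨j, rfl⟩ : ∃ j, D = q ^ 3 + q ^ 2 + q - j := ⟨_, (sub_sub_cancel _ _).symm⟩
  have h4 : q ^ 3 + q ^ 2 + q - j ∣ (q - 1) * j * (j + 1) * q ^ 2 :=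
    (dvd_add_right (Dvd.intro ((q - 1) * q ^ 2 * (q ^ 3 + q ^ 2 + q + j + 1)) rfl)).1
      (Eq.subst (by ring) h3)
  have h5 : q ^ 3 + q ^ 2 + q - j ∣ (q - 1) * j ^ 3 * (j + 1) :=
    (dvd_add_right (Dvd.intro ((q - 1) * j * (j + 1) * (q ^ 3 + q ^ 2 + q + j)) rfl)).1
      (Eq.subst (by ring) (h4.mul_right ((q ^ 2 + q + 1) ^ 2)))
  have j1 : 1 ≤ j := by omega
  have j2 : j ≤ 3 := by omega
  have h6 := Int.le_of_dvd (by have : 0 < q - 1 := by omega
                               positivity) h5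
  have h7 : q ≤ 9 := by interval_cases j <;> nlinarith
  interval_cases j <;> interval_cases q <;> omega

variable {F N : Type*} [Field F] [AddCommGroup N] [Module F N] {Q : QuadraticForm F N}
  {V : Type*} [AddCommGroup V] [Module ℂ V] {ρ : EG Q →* Module.End ℂ V} {ψ : AddChar F ℂ}
  [Finite F] [Finite N]

local notation "B" => polar Q
local notation "q" => Nat.card F

omit [Finite F] in
theorem cn_zero : cn Q 0 + 1 = Nat.card {x // Q x = 0} := by
  rw [cn, card_singular_ne_zero]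
  exact Nat.sub_add_cancel (Nat.card_pos_iff.2 ⟨⟨0, map_zero _⟩, inferInstance⟩)

omit [Finite F] [Finite N] in
theorem cn_ne {β : F} (h : β ≠ 0) : cn Q β = Nat.card {x // Q x = β} :=
  Nat.card_congr (Equiv.subtypeEquivRight fun x => and_iff_right_of_imp fun e e' => h (by simp [← e, e']))

theorem cn_ge {e f : N} (h : IsHyp Q e f) {a b : perp2 Q e f}
    (h' : IsHyp (Q.comp (perp2 Q e f).subtype) a b) (β : F) :
    (q ^ 2 - 1) * q ^ (finrank F N - 3) ≤ cn Q β := by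
  have := Module.Finite.of_finite (R := F) (M := N)
  have h1 := h.card_Q_eq β
  have h2 := h'.card_Q_eq β
  have h3 := h.finrank_perp2
  have h4 := h'.finrank_perp2
  obtain ⟨k, hk⟩ : ∃ k, finrank F N = k + 4 := ⟨finrank F N - 4, by omega⟩
  obtain ⟨r, hr⟩ : ∃ r, q = r + 1 := Nat.exists_eq_add_of_le' Nat.card_pos
  rw [show finrank F (perp2 Q e f) - 2 = k by omega] at h2
  erw [h2] at h1
  rw [hk, hr] at h1 ⊢
  simp only [add_tsub_cancel_right, show k + 4 - 2 = k + 2 by omega, show k + 4 - 3 = k + 1 by omega,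
    show (r + 1) ^ 2 - 1 = r * (r + 2) from Nat.sub_eq_of_eq_add (by ring), pow_add] at h1 ⊢
  by_cases hβ : β = 0
  · subst hβ
    have h5 := cn_zero (Q := Q)
    have h6 : 0 < Nat.card {w : perp2 (Q.comp (perp2 Q e f).subtype) a b //
      Q.comp (perp2 Q e f).subtype w = 0} := Nat.card_pos_iff.2 ⟨⟨0, map_zero _⟩, inferInstance⟩
    nlinarith [Nat.mul_pos r.succ_pos (Nat.mul_pos r.succ_pos h6)]
  · rw [cn_ne hβ, h1]
    nlinarith [Nat.zero_le ((r + 1) * ((r + 1) * Nat.card {w : perp2 (Q.comp (perp2 Q e f).subtype) a b //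
      Q.comp (perp2 Q e f).subtype w = β}))]

theorem exists_sq_ne (h : 3 < q) : ∃ t : F, t ≠ 0 ∧ t ^ 2 ≠ 1 := by
  classical
  have := Fintype.ofFinite F
  obtain ⟨t, -, ht⟩ := Finset.exists_mem_notMem_of_card_lt_card (s := ({0, 1, -1} : Finset F))
    (t := Finset.univ) (Finset.card_le_three.trans_lt (by simpa using h))
  exact ⟨t, by simpa [sq_eq_one_iff, not_or] using ht⟩

theorem ne_one_of_Wt (hQ : ND Q) (hψ : ψ ≠ 1) {a w : N} (h : Pr Q a w) (h0 : Wt ρ ψ a w ≠ ⊥) :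
    ∃ g, ρ g ≠ 1 := by
  have := Module.Finite.of_finite (R := F) (M := N)
  obtain ⟨v, hv, hv0⟩ := (Submodule.ne_bot_iff _).1 h0
  obtain ⟨x, h1, h2⟩ := ex1 hQ h.ind 1
  by_contra! H
  simpa [h2] using eq_of_mem_Wt hψ hv0 hv (mem_Wt_zero.2 (by simp [H])) h1

omit [Finite F] [Finite N] in
theorem One.ne_bot {β : F} (H : One ρ ψ β) {a w : N} (h : Pr Q a w) (hw : Q w = β) :
    Wt ρ ψ a w ≠ ⊥ := fun e => by
  have := (H a w h).1 hw
  rw [e] at this
  simp at this

theorem PP.down (hQ : ND Q) (hψ : ψ ≠ 1) (H : One ρ ψ 0) (P : PP ρ ψ) {e f : N} (h : IsHyp Q e f)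
    {a w : perp2 Q e f} (hp : Pr (Q.comp (perp2 Q e f).subtype) a w) (hw : Q w = 0) :
    Wt (down ρ ψ h) ψ a w ≠ ⊥ :=
  down_ne_bot hQ hψ h hp (H.ne_bot hp.of_down hw)
    (fun v hv _ h1 h2 h3 => P _ _ hp.of_down hw v hv _ _ (pc a.2.1) (pc w.2.1) h2 h3)
    fun c hc u hu _ h1 h2 => P _ _ (Pr.of_hyp h (c • a).2 (by simpa [hc] using hp.ne))
      (by simp [Q_smul, hp.of_down.sing]) u hu _ _ a.2.1
      (by simp [polar_self', hp.of_down.sing]) h1 (by simp [h2])

theorem One.down (hQ : ND Q) (hψ : ψ ≠ 1) {β : F} (hβ : β ≠ 0) (H : One ρ ψ β)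
    (hd : 8 ≤ finrank F N) (hd' : 9 ≤ finrank F N ∨ (2 : F) ≠ 0) {e f : N} (h : IsHyp Q e f)
    {a w : perp2 Q e f} (hp : Pr (Q.comp (perp2 Q e f).subtype) a w) (hw : Q w = β) :
    Wt (down ρ ψ h) ψ a w ≠ ⊥ := by
  classical
  have := Module.Finite.of_finite (R := F) (M := N)
  have hp' := hp.of_down
  have ae : B a e = 0 := pc a.2.1
  have we : B w e = 0 := pc w.2.1
  refine down_ne_bot hQ hψ h hp (H.ne_bot hp' hw) (fun v hv x h1 h2 h3 => ?_) fun c hc u hu _ _ _ => ?_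
  · obtain ⟨b, hb⟩ := (hQ.ndon_perp2 h).nd_comp.exists_isHyp hp.ne hp.sing
    have ab : B a b = 1 := (polar_comp_subtype _ _ _).symm.trans hb.pol
    obtain ⟨y, y0, y1, y2⟩ := exists_sing hQ {e, f, (a : N), (b : N), (w : N)} (by
      have := Finset.card_le_five (a := e) (b := f) (c := (a : N)) (d := b) (e := w); omega)
    simp only [Finset.mem_insert, Finset.mem_singleton, forall_eq_or_imp, forall_eq] at y2
    obtain ⟨z, z1, z2, z3, z4⟩ := ex3 hQ (a := a) (b := w) (d := e) (z := y) (fun s t r e' => y0 (by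
      have ht : t = 0 := by
        simpa [e', Q_add, Q_smul, hp'.sing, hp'.perp, h.left, ae, we, hw, hβ] using y1
      have hr : r = 0 := by simpa [e', ht, h.pol', show B f a = 0 from a.2.2] using y2.2.1
      have hs : s = 0 := by simpa [e', ht, hr, polar_comm _ (b : N), ab] using y2.2.2.2.1
      simp [e', ht, hr, hs])) 1
    refine fix_of_sing ((H _ _ hp').1 hw) hp'.sing hv h.left (pc a.2.1) (pc w.2.1)
      (isHyp_of_polar_eq_one y1 z4) (by simp [y2]) (by simp [*]) (fun b _ _ _ _ => ?_) h2 h3 h1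
    have h4 := Finset.card_le_four (a := (a : N)) (b := w) (c := e) (d := b)
    rcases hd' with hd' | hd'
    · simpa using exists_pair hQ {(a : N), (w : N), e, b} (by omega)
    obtain ⟨z, hz, hz'⟩ := SetLike.not_le_iff_exists.1 fun H :
        perp Q (Submodule.span F ((({(a : N), (w : N), e, b} : Finset N)) : Set N)) ≤
          Submodule.span F ((({(a : N), (w : N), e, b} : Finset N)) : Set N) => by
      have h5 := hQ.finrank_perp (Submodule.span F ((({(a : N), (w : N), e, b} : Finset N)) : Set N))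
      have h6 := finrank_span_finset_le_card (R := F) ({(a : N), (w : N), e, b} : Finset N)
      rw [Set.finrank] at h6
      have := mem_perp_span.1 ((Submodule.eq_of_le_of_finrank_le H (by omega)).ge
        (Submodule.subset_span (by simp : (w : N) ∈ _))) w (by simp)
      simp [polar_self', hd', hw, hβ] at this
    obtain ⟨x, hx, hx'⟩ := exists_perp hQ hz' 1
    exact ⟨x, z, by simpa using hx, by simpa using mem_perp_span.1 hz, hx'⟩
  · erw [(H _ _ (Pr.of_hyp h (c • a).2 (by simpa [hc] using hp.ne))).2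
      (by simpa [Q_smul, hp'.sing] using hβ.symm)] at hu
    simp [(Submodule.mem_bot ℂ).1 hu]

theorem finite_EG : Finite (EG Q) :=
  Finite.of_injective (fun g : EG Q => fun x : N => g • x) fun _ _ e => act_ext (congrFun e)

/-- Type and rank of an even-dimensional quadratic space. -/
def Ty (Q : QuadraticForm F N) (ε : ℤ) (n : ℕ) : Prop := finrank F N = 2 * n ∧
  (q : ℤ) * Nat.card {x // Q x = 0} = (q : ℤ) ^ (2 * n) + ε * (q : ℤ) ^ n * (q - 1)

theorem Ty.down {ε : ℤ} {n : ℕ} (h : Ty Q ε (n + 1)) {e f : N} (hf : IsHyp Q e f) :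
    Ty (Q.comp (perp2 Q e f).subtype) ε n := by
  have := Module.Finite.of_finite (R := F) (M := N)
  have h1 := hf.finrank_perp2
  have h2 := congrArg (Nat.cast : ℕ → ℤ) (hf.card_Q_eq 0)
  obtain ⟨h3, h4⟩ := h
  rw [h3, show 2 * (n + 1) - 2 = 2 * n by omega] at h2
  push_cast [Nat.cast_sub (show 1 ≤ q from Nat.card_pos)] at h2
  refine ⟨by omega, mul_left_cancel₀ (Nat.cast_ne_zero.2 (Nat.card_pos (α := F)).ne') ?_⟩
  change (q : ℤ) * (q * Nat.card {w : perp2 Q e f // Q w = 0}) = _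
  linear_combination h4 - q * h2

theorem Ty.cn {ε : ℤ} {n : ℕ} (h : Ty Q ε (n + 1)) (hε : ε = 1 ∨ ε = -1) :
    (cn Q 0 : ℤ) = (q * q ^ n - ε) * (q ^ n + ε) := by
  have h1 := congrArg (Nat.cast : ℕ → ℤ) (cn_zero (Q := Q))
  have h2 : ε ^ 2 = 1 := by rcases hε with rfl | rfl <;> simp
  push_cast at h1
  exact mul_left_cancel₀ (Nat.cast_ne_zero.2 (Nat.card_pos (α := F)).ne')
    (by linear_combination h.2 + q * h1 + q * h2)

theorem Ty.le_cn {F : Type*} [Field F] [Finite F] (n : ℕ) : ∀ {N : Type u} [AddCommGroup N]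
    [Module F N] [Finite N] {Q : QuadraticForm F N}, ND Q → Ty Q (-1) (n + 1) → ∀ {β : F}, β ≠ 0 →
      OM.cn Q 0 + 1 ≤ OM.cn Q β := by
  induction n with
  | zero =>
    intro N _ _ _ Q hQ h β hβ
    have h1 := h.cn (Or.inr rfl)
    obtain ⟨v, hv⟩ := hQ.exists_Q_eq h.1.ge hβ
    rw [cn_ne hβ, show OM.cn Q 0 = 0 by simpa using h1]
    exact Nat.card_pos_iff.2 ⟨⟨v, hv⟩, inferInstance⟩
  | succ n ih =>
    intro N _ _ _ Q hQ h β hβ
    have := Module.Finite.of_finite (R := F) (M := N)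
    obtain ⟨e, f, hf⟩ := hQ.exists_isHyp_of_three_le (by rw [h.1]; omega)
    have := ih (hQ.ndon_perp2 hf).nd_comp (h.down hf) hβ
    rw [cn_zero, cn_ne hβ] at this ⊢
    rw [hf.card_Q_eq, hf.card_Q_eq]
    exact Nat.add_le_add_left (Nat.mul_le_mul_left _ this) _

theorem exists_bz (r : ℤ) {ε : ℤ} (hε : ε = 1 ∨ ε = -1) (m : ℕ) :
    ∃ b, (r ^ 2 * (r * r ^ m) - ε) * (r * (r * r ^ m) + ε * r) = (r ^ 2 - 1) * b := by
  induction m with
  | zero => exact ⟨r * (r ^ 2 + ε * r + 1), by rcases hε with rfl | rfl <;> ring⟩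
  | succ m ih =>
    obtain ⟨b, hb⟩ := ih
    exact ⟨b + (r * (r * (r * r ^ m)) - ε) * (r * (r * r ^ m) + ε) + 1, by
      rcases hε with rfl | rfl <;> linear_combination hb⟩

open Classical in
theorem One.dvd [Fintype (EG Q)] [FiniteDimensional ℂ V] (hQ : ND Q) (hψ : ψ ≠ 1)
    (hd : 4 ≤ finrank F N) (H : One ρ ψ 0) {g : EG Q} (hg : ρ g ≠ 1) {ω : ℂ}
    (hω : ∀ v, ∑ g ∈ Finset.univ.filter (IsLong (Q := Q)), ρ g v = ω • v) :
    (finrank ℂ V : ℤ) ∣ (Finset.univ.filter (IsLong (Q := Q))).card * (q : ℤ) ^ (finrank F N - 3) := by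
  obtain ⟨v, hv⟩ := DFunLike.ne_iff.1 hg
  have h1 := isIntegral_of_sum_eigen ρ (Finset.univ.filter (IsLong (Q := Q))).val (v := v)
    (by rintro rfl; simp at hv) (ω := ω) (by rw [← hω, ← LinearMap.sum_apply]; rfl)
  have h2 := congrArg (LinearMap.trace ℂ V) (LinearMap.ext (by simpa using hω) :
    ∑ g ∈ Finset.univ.filter (IsLong (Q := Q)), ρ g = ω • 1)
  rw [map_sum, Finset.sum_congr rfl fun g hg => H.trace hQ hψ hd (Finset.mem_filter.1 hg).2] at h2
  refine nat_dvd_of_isIntegral ((isIntegral_natCast (R := ℤ)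
    (Finset.univ.filter (IsLong (Q := Q))).card).sub h1) ?_
  simp only [Finset.sum_const, nsmul_eq_mul, map_smul, LinearMap.trace_one, smul_eq_mul] at h2
  push_cast
  linear_combination h2

omit [Finite N] in
theorem exists_psi : ∃ ψ : AddChar F ℂ, ψ ≠ 1 :=
  have := Fintype.ofFinite F
  ⟨_, by simpa using AddChar.FiniteField.primitiveChar_to_Complex_isPrimitive F one_ne_zero⟩

theorem IsLong.conj {x : EG Q} (h : IsLong x) (g : EG Q) : IsLong (g * x * g⁻¹) := by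
  obtain ⟨a, y, h1, h2, rfl⟩ := h
  exact ⟨_, _, h1.map g, by simp [h2], by simp [conj_El]⟩

set_option maxHeartbeats 800000 in
theorem even_bound {F : Type*} [Field F] [Finite F] {ε : ℤ} (hε : ε = 1 ∧ 3 < Nat.card F ∨ ε = -1)
    (m : ℕ) : ∀ {N : Type u} [AddCommGroup N] [Module F N] [Finite N] {Q : QuadraticForm F N}
      {V : Type v} [AddCommGroup V] [Module ℂ V] [FiniteDimensional ℂ V]
      (ρ : EG Q →* Module.End ℂ V), ND Q → Ty Q ε (m + 3) → (ε = -1 → m ≠ 0) → (∃ g, ρ g ≠ 1) →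
      ((Nat.card F : ℤ) ^ 2 * (Nat.card F * Nat.card F ^ m) - ε) *
        (Nat.card F * (Nat.card F * Nat.card F ^ m) + ε * Nat.card F) ≤
          (Nat.card F ^ 2 - 1) * finrank ℂ V := by
  induction m using Nat.strong_induction_on with | _ m ih => ?_
  intro N _ _ _ Q V _ _ _ ρ hQ hT hm ⟨g, hg⟩
  classical
  have := Module.Finite.of_finite (R := F) (M := N)
  have := finite_EG (Q := Q)
  have := Fintype.ofFinite (EG Q)
  have := Fintype.ofFinite N
  have := Fintype.ofFinite F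
  have hq : (2 : ℤ) ≤ Nat.card F := by exact_mod_cast Finite.one_lt_card
  have hε' : ε = 1 ∨ ε = -1 := by tauto
  have hq1 : (0 : ℤ) < Nat.card F ^ 2 - 1 := by nlinarith
  obtain ⟨W, hW, h0, h1, ω, hω⟩ := exists_sub ρ hg (Finset.univ.filter (IsLong (Q := Q)))
    fun g x h => Finset.mem_filter.2 ⟨Finset.mem_univ _, (Finset.mem_filter.1 h).2.conj g⟩
  refine le_trans ?_ (mul_le_mul_of_nonneg_left (Nat.cast_le.2 W.finrank_le) hq1.le)
  replace hg : ∃ g, res ρ hW g ≠ 1 := by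
    by_contra! H
    exact h0 ((Submodule.eq_bot_iff _).2 fun v hv => h1 v hv fun g =>
      congrArg Subtype.val (LinearMap.congr_fun (H g) ⟨v, hv⟩))
  replace hω : ∀ v, ∑ g ∈ Finset.univ.filter (IsLong (Q := Q)), res ρ hW g v = ω • v :=
    fun v => Subtype.ext (by simpa [res] using hω v v.2)
  generalize res ρ hW = σ at hg hω
  obtain ⟨g, hg⟩ := hg
  obtain ⟨ψ, hψ⟩ := exists_psi (F := F)
  have d0 := hT.1
  obtain ⟨e, f, hf⟩ := hQ.exists_isHyp_of_three_le (by omega)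
  have hQ' := (hQ.ndon_perp2 hf).nd_comp
  have T1 := hT.down hf
  have d1 := T1.1
  obtain ⟨a, b, hb⟩ := hQ'.exists_isHyp_of_three_le (by omega)
  have T2 := T1.down hb
  have c0 := hT.cn hε'
  have c1 := T1.cn hε'
  have c2 := T2.cn hε'
  have hy : (1 : ℤ) ≤ Nat.card F ^ m := one_le_pow₀ (by omega)
  have hy' : m ≠ 0 → (Nat.card F : ℤ) ≤ Nat.card F ^ m := le_self_pow₀ (by omega)
  obtain ⟨w, hw0, hw⟩ : ∃ w : perp2 (Q.comp (perp2 Q e f).subtype) a b, w ≠ 0 ∧ Q w = 0 := by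
    refine nonempty_subtype.1 (Nat.card_ne_zero.1 fun e' => ?_).1
    rw [cn] at c2
    erw [e'] at c2
    refine (mul_pos ?_ ?_).ne' c2.symm <;> rcases hε' with rfl | rfl
    · nlinarith
    · nlinarith
    · linarith
    · linarith [hy' (hm rfl)]
  obtain ⟨y, hy1⟩ := (hQ'.ndon_perp2 hb).nd_comp.exists_isHyp hw0 hw
  have hp := Pr.of_hyp hb w.2 (by simpa using hw0)
  have hbz := exists_bz (Nat.card F) hε'
  have IH : m ≠ 0 → (ε = -1 → m ≠ 1) → (∃ g, down σ ψ hf g ≠ 1) →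
      ((Nat.card F : ℤ) ^ 2 * Nat.card F ^ m - ε) * (Nat.card F * Nat.card F ^ m + ε * Nat.card F) ≤
        (Nat.card F ^ 2 - 1) * finrank ℂ (Wt σ ψ e 0) := fun h1 h2 h3 => by
    obtain ⟨k, rfl⟩ := Nat.exists_eq_succ_of_ne_zero h1
    simpa only [Nat.succ_eq_add_one, pow_succ' _ k] using
      ih k (by omega) _ hQ' T1 (fun h => by have := h2 h; omega) h3
  simp only [pow_succ'] at c0 c1 c2
  rcases dich hQ hψ (by omega) hf hg (cn_ge hb hy1) with H | ⟨β, H, hβ⟩
  · rw [d1, show 2 * (m + 2) - 3 = m + m + 1 by omega] at H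
    have H := (Nat.cast_le (α := ℤ)).2 H
    push_cast [Nat.cast_sub (Nat.one_le_pow 2 _ (Nat.card_pos (α := F))), pow_add] at H
    refine le_trans ?_ (mul_le_mul_of_nonneg_left H hq1.le)
    generalize (Nat.card F : ℤ) ^ m = y at hy
    rcases hε with ⟨rfl, h⟩ | rfl
    · have h : (4 : ℤ) ≤ Nat.card F := by exact_mod_cast h
      generalize (Nat.card F : ℤ) = r at h
      have a1 : r ^ 4 * y * 1 ≤ r ^ 4 * y * y := by gcongr
      have a2 : r ^ 3 * y ^ 2 * (r + 4) ≤ r ^ 3 * y ^ 2 * r ^ 2 := by gcongr; nlinarith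
      have a3 : 0 ≤ r ^ 2 * y + r + r * y ^ 2 := by positivity
      have a4 : 0 ≤ r * y ^ 2 := by positivity
      linarith
    · generalize (Nat.card F : ℤ) = r at hq
      have a1 : r ^ 2 * y * 1 ≤ r ^ 2 * y * r ^ 2 := by gcongr; nlinarith
      have a2 : r ^ 3 * y ^ 2 * 4 ≤ r ^ 3 * y ^ 2 * r ^ 2 := by gcongr; nlinarith
      have a4 : 0 ≤ r * y ^ 2 := by positivity
      linarith
  have hD := congrArg (Nat.cast : ℕ → ℤ) (H.finrank_eq hQ hψ hf)
  push_cast at hD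
  by_cases hβ0 : β = 0
  · subst hβ0
    have P : PP σ ψ := by
      by_cases h3 : 3 < Nat.card F
      · obtain ⟨t, ht, ht'⟩ := exists_sq_ne h3
        exact pp_big hQ (by omega) ht ht' H
      obtain rfl : ε = -1 := by tauto
      have := hm rfl
      refine pp_small hQ (by omega) (or_iff_not_imp_left.2 fun h U hU => by_contra fun h' => ?_) H
      have := hU.two_mul_le hQ
      have := (hQ.isPlus_iff_card d0).1 ⟨U, hU, by omega⟩
      have := pow_mul_sub_one_pos (F := F) (m + 3)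
      linarith [hT.2]
    have hX := congrArg (Nat.cast : ℕ → ℤ) (card_long hQ (c := cn (Q.comp (perp2 Q e f).subtype) 0)
      fun e' f' h' => Nat.cast_injective (R := ℤ) (((hT.down h').cn hε').trans (T1.cn hε').symm))
    push_cast [Nat.cast_sub (Nat.one_le_pow 2 _ (Nat.card_pos (α := F)))] at hX
    erw [c0, c1] at hX
    have hdvd := H.dvd hQ hψ (by omega) hg hω
    have h2 := (Nat.cast_le (α := ℤ)).2 (add_cn_le hQ' hψ hb fun w h1 h2 h3 =>
      P.down hQ hψ H hf (Pr.of_hyp hb h1 h2) h3)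
    push_cast at h2
    by_contra! h3
    by_cases hm0 : m = 0
    · subst hm0
      obtain ⟨rfl, h4⟩ : ε = 1 ∧ 3 < Nat.card F := by tauto
      refine excl3 (D := finrank ℂ W) (show (4 : ℤ) ≤ Nat.card F by exact_mod_cast h4) (by linarith)
        (lt_of_mul_lt_mul_left (by linarith) hq1.le) ?_
      rw [d0] at hdvd
      convert hdvd using 2
      exact mul_right_cancel₀ hq1.ne' (by linarith)
    obtain ⟨bz, hbz⟩ := hbz m
    refine excl1 (x := Nat.card F * Nat.card F ^ m) hq (by rw [pow_two]; gcongr; exact hy' hm0) hε' ?_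
      (by linarith) hdvd
    rw [hbz] at h3 ⊢
    have h4 := lt_of_mul_lt_mul_left h3 hq1.le
    refine le_antisymm (mul_le_mul_of_nonneg_left h4 hq1.le) ?_
    rw [← hbz]
    by_cases hm1 : ε = -1 → m ≠ 1
    · have := IH hm0 hm1 (ne_one_of_Wt hQ' hψ hp (P.down hQ hψ H hf hp hw))
      rw [hD, c1]
      rcases hε' with rfl | rfl <;> linarith
    push Not at hm1
    obtain ⟨rfl, rfl⟩ := hm1
    have ha := Pr.of_hyp hf a.2 (by simpa using hb.left_ne_zero)
    obtain ⟨u, hu, hu0⟩ := (Submodule.ne_bot_iff _).1 (W0_ne_bot hQ hψ (by omega) H P ha hb.left hw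
      (pc w.1.2.1) (pc w.2.1) fun s t e' => hp.ind t (Subtype.ext (by
        have := congrArg (polar Q f) e'
        simp only [(mem_perp2.1 w.1.2).2, (mem_perp2.1 a.2).2, polar_add_right, polar_smul_right',
          hf.pol', mul_one, mul_zero, add_zero] at this
        simpa [← this] using e')))
    have h5 : (1 : ℤ) ≤ finrank ℂ (Wt (down σ ψ hf) ψ a 0) := by
      rw [Nat.one_le_cast, Nat.one_le_iff_ne_zero, Ne, Submodule.finrank_eq_zero]
      exact (Submodule.ne_bot_iff _).2 ⟨⟨u, mem_Wt_zero.2 hu.1⟩, (mem_Wt_down hf).2 fun x hx ax => by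
        simpa using hu.2 a x a.2.1 (polar_self_of_Q_eq_zero hb.left) hx.1 ax, by simpa using hu0⟩
    have h6 := mul_le_mul_of_nonneg_left ((add_le_add h5 le_rfl).trans h2) hq1.le
    rw [hD, c1]
    rw [c2] at h6
    linarith
  have h3 : Nat.card F ≤ 3 := by
    by_contra! h3
    obtain ⟨t, ht, ht'⟩ := exists_sq_ne h3
    exact ht' (mul_right_cancel₀ hβ0 ((hβ t ht).trans (one_mul β).symm))
  obtain rfl : ε = -1 := by omega
  have l1 := (Nat.cast_le (α := ℤ)).2 (Ty.le_cn _ hQ' T1 hβ0)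
  have l2 := (Nat.cast_le (α := ℤ)).2 (Ty.le_cn _ (hQ'.ndon_perp2 hb).nd_comp T2 hβ0)
  push_cast at l1 l2
  have l3 := mul_le_mul_of_nonneg_left l1 hq1.le
  have := hm rfl
  by_cases hm1 : m = 1
  swap
  · obtain ⟨w, hw0, hw⟩ := nonempty_subtype.1 (Nat.card_ne_zero.1 (show cn _ β ≠ 0 from
      Nat.ne_of_gt (Nat.zero_lt_of_lt (Ty.le_cn _ (hQ'.ndon_perp2 hb).nd_comp T2 hβ0)))).1
    have hp := Pr.of_hyp hb w.2 (by simpa using hw0)
    have := IH this (fun _ => hm1) (ne_one_of_Wt hQ' hψ hp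
      (H.down hQ hψ hβ0 (by omega) (by omega) hf hp hw))
    rw [c1] at l3
    rw [hD]
    linarith
  subst hm1
  by_cases h2 : (2 : F) = 0
  · have h4 : Nat.card F = 2 := by
      have := FiniteField.even_card_of_char_two (F := F) (ringChar.eq_iff.2
        (CharTwo.of_one_ne_zero_of_two_eq_zero one_ne_zero h2))
      rw [← Nat.card_eq_fintype_card] at this
      omega
    obtain ⟨z, -, hz⟩ := (Nat.card_eq_two_iff' (0 : F)).1 h4
    have h5 : Nat.card {x // Q.comp (perp2 Q e f).subtype x = 0} +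
        cn (Q.comp (perp2 Q e f).subtype) β = Nat.card (perp2 Q e f) := by
      rw [cn_ne hβ0, ← Nat.card_congr (Equiv.sumCompl fun x => Q.comp (perp2 Q e f).subtype x = 0),
        Nat.card_sum]
      exact congrArg _ (Nat.card_congr (Equiv.subtypeEquivRight fun x =>
        ⟨fun h => by rwa [h], fun h => (hz _ h).trans (hz _ hβ0).symm⟩))
    rw [card_perp2 hf, d0, ← cn_zero] at h5
    have h5 := congrArg (Nat.cast : ℕ → ℤ) h5
    push_cast at h5
    rw [h4] at c1 h5 ⊢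
    norm_num at c1 h5 ⊢
    omega
  · have h4 := (Nat.cast_le (α := ℤ)).2 (add_cn_le hQ' hψ hb fun w h1 h3 h4 =>
      H.down hQ hψ hβ0 (by omega) (Or.inr h2) hf (Pr.of_hyp hb h1 h3) h4)
    push_cast at h4
    have h6 := mul_le_mul_of_nonneg_left (l2.trans ((le_add_of_nonneg_left (by positivity)).trans h4))
      hq1.le
    rw [c1] at l3
    rw [c2] at h6
    rw [hD]
    linarith

/-- Transfer to the matrix group. -/
theorem exists_rep {ι : Type} [Fintype ι] [DecidableEq ι] {Q : QuadraticForm F (ι → F)} (hQ : ND Q)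
    (h5 : 5 ≤ finrank F (ι → F)) {φ : (ι → F) → F} (h : ∀ v, Q v = φ v) {k : ℕ}
    (ρ : Representation ℂ (Omega F φ) (Fin k → ℂ)) (hρ : ρ.IsIrreducible) (hk : 2 ≤ k) :
    ∃ σ : EG Q →* Module.End ℂ (Fin k → ℂ), ∃ g, σ g ≠ 1 := by
  obtain ⟨g, hg⟩ := exists_ne_one_of_irreducible ρ hρ hk
  let e := (commutatorCongr (isoEquiv Q φ h)).trans
    (MulEquiv.subgroupCongr (hQ.commutator_eq_EG_of_five_le h5))
  exact ⟨MonoidHom.comp ρ e.symm, e g, by simpa using hg⟩

end Cfsg.Agent.KSG.OM
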