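import Mathlib
import Cfsg.Agent.KSG.OrthEven

/-!
# Vectors fixed by parabolic subgroups in representations with singular weights
-/

set_option autoImplicit false

namespace Cfsg.Agent.KSG.OM

open Module QuadraticMap Class.Orth

variable {F N : Type*} [Field F] [AddCommGroup N] [Module F N] {Q : QuadraticForm F N}
  {V : Type*} [AddCommGroup V] [Module ℂ V] {ρ : EG Q →* Module.End ℂ V} {ψ : AddChar F ℂ}

local notation "B" => polar Q

/-- The stabiliser of a vector. -/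
def stab {G : Type*} [Group G] (ρ : G →* Module.End ℂ V) (u : V) : Subgroup G where
  carrier := {g | ρ g u = u}
  one_mem' := by simp
  mul_mem' {a b} ha hb := by simp_all
  inv_mem' {a} ha := rep_injective ρ a (by
    rw [← Module.End.mul_apply, ← map_mul, mul_inv_cancel, map_one, ha]; rfl)

theorem mem_stab {G : Type*} [Group G] {ρ : G →* Module.End ℂ V} {u : V} {g : G} :
    g ∈ stab ρ u ↔ ρ g u = u := Iff.rfl

theorem rho_conj (g h : EG Q) (v : V) : ρ g (ρ h v) = ρ h (ρ (h⁻¹ * g * h) v) := by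
  rw [← rho_mul, ← rho_mul]; congr 2; group

theorem rho_El' (g : EG Q) (a x : N) (v : V) :
    ρ (El Q a x) (ρ g v) = ρ g (ρ (El Q (g⁻¹ • a) (g⁻¹ • x)) v) := by simp [rho_El]

/-- Two orthogonal hyperbolic pairs. -/
structure Hyp2 (Q : QuadraticForm F N) (e f a b : N) : Prop where
  h1 : IsHyp Q e f
  h2 : IsHyp Q a b
  ea : polar Q e a = 0
  eb : polar Q e b = 0
  fa : polar Q f a = 0
  fb : polar Q f b = 0

theorem Hyp2.all {e f a b : N} (h : Hyp2 Q e f a b) : Q e = 0 ∧ Q f = 0 ∧ Q a = 0 ∧ Q b = 0 ∧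
    B e e = 0 ∧ B f f = 0 ∧ B a a = 0 ∧ B b b = 0 ∧ B e f = 1 ∧ B f e = 1 ∧ B a b = 1 ∧ B b a = 1 ∧
    B e a = 0 ∧ B e b = 0 ∧ B f a = 0 ∧ B f b = 0 ∧ B a e = 0 ∧ B b e = 0 ∧ B a f = 0 ∧ B b f = 0 :=
  ⟨h.h1.left, h.h1.right, h.h2.left, h.h2.right, h.h1.ee, h.h1.ff, h.h2.ee, h.h2.ff, h.h1.pol,
    h.h1.pol', h.h2.pol, h.h2.pol', h.ea, h.eb, h.fa, h.fb, pc h.ea, pc h.eb, pc h.fa, pc h.fb⟩

theorem Hyp2.exists_n {e f a b : N} (h : Hyp2 Q e f a b) : ∃ n : EG Q, n • e = a ∧ n • a = -e ∧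
    n • f = b ∧ n • b = -f ∧ ∀ x, B x e = 0 → B x f = 0 → B x a = 0 → B x b = 0 → n • x = x := by
  have := h.all
  refine ⟨El Q a f * El Q e (-b) * El Q a f, ?_, ?_, ?_, ?_, fun x _ _ _ _ => ?_⟩ <;>
    simp [mul_smul, El_act, *]

theorem Hyp2.pr {e f a b : N} (h : Hyp2 Q e f a b) : Pr Q e a :=
  Pr.of_hyp h.h1 (mem_perp2.2 ⟨h.ea, h.fa⟩) h.h2.left_ne_zero

theorem mem_W0 {e a : N} {u : V} : u ∈ W0 ρ e a ↔ (∀ x, B e x = 0 → ρ (El Q e x) u = u) ∧
    ∀ b x, B e b = 0 → B a b = 0 → B e x = 0 → B a x = 0 → ρ (El Q b x) u = u := Iff.rfl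

section Hecke
variable [Fintype F]

/-- The sum over a long root group. -/
noncomputable def SU (ρ : EG Q →* Module.End ℂ V) (e b : N) : Module.End ℂ V :=
  ∑ t : F, ρ (El Q e (t • b))

theorem SU_apply (e b : N) (v : V) : SU ρ e b v = ∑ t : F, ρ (El Q e (t • b)) v := by
  simp [SU]

theorem SU_conj {e b e' b' : N} (he : Q e' = 0) (hb : B e' b' = 0) {g : EG Q} {s r : F} (hs : s ≠ 0)
    (hr : r ≠ 0) (h1 : g • e = s • e') (h2 : g • b = r • b') (v : V) :
    ρ g (SU ρ e b v) = SU ρ e' b' (ρ g v) := by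
  simp only [SU_apply, map_sum, rho_El, h1, act_smul, h2]
  exact Fintype.sum_equiv (Equiv.mulLeft₀ (s * r) (mul_ne_zero hs hr)) _ _ fun t => by
    rw [El_smul he (by simp [hb])]; simp [smul_smul, mul_comm, mul_left_comm]

theorem SU_abs {e b : N} (hb : B e b = 0) (s : F) (v : V) :
    ρ (El Q e (s • b)) (SU ρ e b v) = SU ρ e b v := by
  simp only [SU_apply, map_sum]
  exact Fintype.sum_equiv (Equiv.addLeft s) _ _ fun t => by
    rw [← rho_add (by simp [hb]) (by simp [hb])]; simp [add_smul]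

theorem SU_abs' {e b : N} (hb : B e b = 0) (s : F) (v : V) :
    SU ρ e b (ρ (El Q e (s • b)) v) = SU ρ e b v := by
  simp only [SU_apply]
  exact Fintype.sum_equiv (Equiv.addRight s) _ _ fun t => by
    rw [← rho_add (by simp [hb]) (by simp [hb])]; simp [add_smul]

theorem Hyp2.SU_inj {e f a b : N} (h : Hyp2 Q e f a b) {u : V}
    (hu : ∀ s : F, ρ (El Q a (s • f)) u = u) (H : SU ρ e b u = 0) : u = 0 := by
  classical
  have := h.all
  have h1 := congrArg (SU ρ a f) H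
  rw [SU_apply e, map_sum, Finset.sum_eq_single 0 (fun t _ ht => ?_) (by simp)] at h1
  · simpa [SU_apply, hu, ← Nat.cast_smul_eq_nsmul ℂ] using h1
  have := SU_conj (ρ := ρ) (e := e) (b := b) h.h2.left (pc h.fa)
    (g := El Q a (-t⁻¹ • f) * El Q e (t • b) * El Q a (-t⁻¹ • f)) (s := -t⁻¹) (r := t⁻¹)
    (by simp [ht]) (by simp [ht]) (by simp [mul_smul, El_act, Q_smul, act_smul, smul_smul, *])
    (by simp [mul_smul, El_act, Q_smul, act_smul, smul_smul, *]) u
  rw [H, map_zero, rho_mul, rho_mul, hu, SU_abs' (pc h.fa)] at this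
  exact this.symm

omit [Fintype F] in
theorem W0_map {e a : N} {g : EG Q} {s t s' t' : F} (h1 : g • e = s • e + t • a)
    (h2 : g • a = s' • e + t' • a) {u : V} (hu : u ∈ W0 ρ e a) {b x : N} (eb : B e b = 0)
    (ab : B a b = 0) (ex : B e x = 0) (ax : B a x = 0) : ρ (El Q b x) (ρ g u) = ρ g u := by
  rw [rho_El', hu.2] <;> simp [← polar_act_left, *]

theorem Hyp2.hecke {e f a b : N} (h : Hyp2 Q e f a b) {n : EG Q} (n1 : n • e = a) (n2 : n • a = -e)
    (n4 : n • b = -f) {u : V} (hu : u ∈ W0 ρ e a) :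
    SU ρ e b (ρ n u) ∈ W0 ρ e a ∧ (SU ρ e b (ρ n u) = 0 → u = 0) := by
  have := h.all
  have key : ∀ c x, B e c = 0 → B a c = 0 → B e x = 0 → B a x = 0 →
      ρ (El Q c x) (SU ρ e b (ρ n u)) = SU ρ e b (ρ n u) := fun c x h1 h2 h3 h4 => by
    simp only [SU_apply, map_sum, ← rho_mul _ n]
    exact Finset.sum_congr rfl fun t _ => W0_map (s := t) (t := 1) (s' := -1) (t' := 0)
      (by simp [mul_smul, n1, El_act, Q_smul, add_comm, *]) (by simp [mul_smul, n2, El_fix, *])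
      hu h1 h2 h3 h4
  refine ⟨⟨fun x hx => ?_, key⟩, fun H => rep_injective ρ n ?_⟩
  · rw [← sub_add_cancel x (B a x • b), rho_add (by simp [*]) (by simp [*]), SU_abs h.eb,
      key _ _ h.h1.ee (pc h.ea) (by simp [*]) (by simp [*])]
  · rw [h.SU_inj (fun s => ?_) H, map_zero]
    rw [rho_El', inv_smul_eq_iff.2 n1.symm, hu.1 _ (by simp [← polar_act_left, *])]

end Hecke

variable [Finite F] [Finite N]

theorem mem_of_fix2 (hQ : ND Q) (hq : ∃ a : F, a ≠ 0 ∧ a ≠ 1) (hd : 7 ≤ finrank F N) {e f a b : N}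
    (h : Hyp2 Q e f a b) {K : Subgroup (EG Q)} (hK : ∀ c x, B e c = 0 → B a c = 0 → B e x = 0 →
      B a x = 0 → El Q c x ∈ K) {g : EG Q} (h1 : g • e = e) (h2 : g • f = f) (h3 : g • a = a)
    (h4 : g • b = b) : g ∈ K := by
  have := Module.Finite.of_finite (R := F) (M := N)
  have m1 := mem_perp2.2 ⟨h.ea, h.fa⟩
  have m2 := mem_perp2.2 ⟨h.eb, h.fb⟩
  have hW := (hQ.ndon_perp2 h.h1).inf_perp2 m1 m2 h.h2
  have := h.h1.finrank_perp2
  have := h.h2.finrank_inf_perp2 m1 m2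
  refine mem_of_fix hQ hq hW (by omega) (fun c hc x hx => hK c x hc.1.1 hc.2.1 hx.1.1 hx.2.1)
    fun x hx => ?_
  have := hW _ ⟨hproj_mem_of_mem m1 m2 (h.h1.hproj_mem x), h.h2.hproj_mem _⟩ fun y hy => by
    rw [polar_comm, polar_hproj hy.2, polar_hproj hy.1, hx y hy]
  rw [← hproj_add (Q := Q) e f x, ← hproj_add (Q := Q) a b (hproj Q e f x), this]
  simp [act_smul, *]

theorem sing_trans {W : Submodule F N} (hW : NDon Q W) (hd : 5 ≤ finrank F W) {R : N → Prop}
    (hR : ∀ v ∈ W, ∀ x ∈ W, ∀ z, R z → R (El Q v x • z)) {y z : N} (hy : y ∈ W) (hz : z ∈ W)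
    (y0 : y ≠ 0) (z0 : z ≠ 0) (y1 : Q y = 0) (z1 : Q z = 0) (H : ∀ c : F, c ≠ 0 → R (c • y)) :
    R z := by
  classical
  have step : ∀ y ∈ W, ∀ z ∈ W, y ≠ 0 → z ≠ 0 → Q y = 0 → Q z = 0 → B y z = 0 →
      (∀ c : F, c ≠ 0 → R (c • y)) → R z := fun y hy z hz y0 z0 y1 z1 yz H => by
    obtain ⟨v, hv, h1, h2, h3⟩ := hW.exists_singular_ne_ne hy hz y0 z0 y1 yz
    have := hR v hv _ (W.smul_mem (B ((B z v / B y v) • y) v)⁻¹ (W.sub_mem (W.smul_mem (B z v / B y v) hy)
      hz)) _ (H _ (div_ne_zero h3 h2))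
    rwa [act_def, El, eichler_map h1 (by simp [h2]) (by simp [h2, h3]) (by simp [Q_smul, y1, z1])]
      at this
  have := Module.Finite.of_finite (R := F) (M := N)
  obtain ⟨x, x0, x1, hx⟩ := exists_sing hW.nd_comp {⟨y, hy⟩, ⟨z, hz⟩} (by
    have := Finset.card_le_two (a := (⟨y, hy⟩ : W)) (b := ⟨z, hz⟩); omega)
  simp only [Finset.mem_insert, Finset.mem_singleton, forall_eq_or_imp, forall_eq,
    polar_comp_subtype] at hx
  have x0' : (x : N) ≠ 0 := by simpa using x0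
  exact step x x.2 z hz x0' z0 x1 z1 (pc hx.2) fun c hc => step y hy _ (W.smul_mem c x.2) y0
    (by simp [hc, x0]) y1 (by simpa [Q_smul, hc] using x1) (by simp [hx.1]) H

theorem One.down_bot (hQ : ND Q) (hψ : ψ ≠ 1) (H : One ρ ψ 0) {e f : N} (h : IsHyp Q e f)
    {a w : perp2 Q e f} (ha : Q a = 0) (a0 : a ≠ 0) (aw : B a w = 0) (hw : Q w ≠ 0) :
    Wt (OM.down ρ ψ h) ψ a w = ⊥ := by
  have := Module.Finite.of_finite (R := F) (M := N)
  refine (Submodule.eq_bot_iff _).2 fun u hu => Subtype.ext ((Submodule.mem_bot ℂ).1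
    (mem_of_Pj (ρ := ρ) hQ hψ ha _ fun z az hz => absurd ?_ hz))
  have ae : B a e = 0 := pc a.2.1
  have h1 : B z e = 0 := Pj_fix hψ hz ae fun c => by
    rw [El_swap ha (by simp [Q_smul, h.left]) (by simp [ae]), El_smul h.left (by simp [pc ae]),
      mem_Wt_zero.1 u.2 _ (by simp [pc ae])]
  obtain ⟨s, t, e'⟩ := sp2 hQ (a := a) (b := e) (z := z - w) fun x h2 h3 => by
    have := Pj_eig hψ hz (x := hproj Q e f x) (by rw [polar_hproj a.2, h2]) (t := B w x) fun c => by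
      simpa [polar_hproj w.2] using (mem_Wt_down h).1 hu _
        (Submodule.smul_mem _ c (h.hproj_mem x)) (by simp [polar_hproj a.2, h2])
    simpa [hproj, h1, pc h3, sub_eq_zero] using this
  have h2 : Q z ≠ 0 := by
    rw [eq_add_of_sub_eq e']
    simpa [Q_add, Q_smul, ha, h.left, ae, aw, show B e w = 0 from w.2.1] using hw
  have := Pj_mem (ρ := ρ) (ψ := ψ) (a : N) z u
  rw [(H a z ⟨ha, by simpa using a0, az, fun c hc => h2 (by simp [hc, Q_smul, ha])⟩).2 h2] at this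
  exact this

theorem fix_of_par (hQ : ND Q) (hψ : ψ ≠ 1) (hq : ∃ a : F, a ≠ 0 ∧ a ≠ 1) (hd : 5 ≤ finrank F N)
    {e f : N} (h : IsHyp Q e f)
    (hZ : Nat.card {w : perp2 Q e f // Q w = 0} = Nat.card F ^ (finrank F N - 3))
    (hS : ∀ w ∈ perp2 Q f e, Q w ≠ 0 → Wt ρ ψ f w = ⊥) {u : V}
    (h1 : ∀ x, B e x = 0 → ρ (El Q e x) u = u)
    (h2 : ∀ a ∈ perp2 Q e f, ∀ x ∈ perp2 Q e f, ρ (El Q a x) u = u)
    (h3 : ∀ c : F, c ≠ 0 → ∃ t : EG Q, t • e = c • e ∧ t • f = c⁻¹ • f ∧ ρ t u = u) (g : EG Q) :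
    ρ g u = u := by
  classical
  have := Module.Finite.of_finite (R := F) (M := N)
  have := finite_EG (Q := Q)
  have := Fintype.ofFinite F
  have := Fintype.ofFinite (stab ρ u)
  have h1' : ∀ x, El Q e x ∈ stab ρ u := fun x => by
    by_cases hx : B e x = 0
    · exact h1 x hx
    · simp [El_of_not, hx]
  have PF : ∀ (g : EG Q) (c : F), g • e = c • e → g ∈ stab ρ u := fun g c hg => by
    have hc : c ≠ 0 := by rintro rfl; exact OG.apply_ne_zero g.1 h.left_ne_zero (hg.trans (zero_smul _ _))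
    obtain ⟨t, t1, t2, t3⟩ := h3 c hc
    have e1 : (t⁻¹ * g) • e = e := by rw [mul_smul, hg, ← t1, inv_smul_smul]
    have e2 : B ((t⁻¹ * g) • f) e = 1 := by rw [← h.pol', ← polar_act (t⁻¹ * g) f e, e1]
    obtain ⟨k, hk⟩ := exists_io hQ hq hd h (g := El Q e ((t⁻¹ * g) • f - f) * (t⁻¹ * g))
      (by rw [mul_smul, e1, El_fix h.ee (by simp [polar_comm _ e, e2, h.pol'])]) (by
        have := eichler_map h.left (x := (t⁻¹ * g) • f) (y := f) (by rw [e2, h.pol'])
          (by simp [e2]) (by simp)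
        rw [e2, inv_one, one_smul] at this
        rw [mul_smul]; exact this)
    have := (eq_top_of_El (H := (stab ρ u).comap (io h)) fun a x _ _ => by
      simpa [io_El, mem_stab] using h2 a a.2 x x.2).ge (Subgroup.mem_top k)
    rw [Subgroup.mem_comap, hk, mul_mem_cancel_left (h1' _)] at this
    exact (mul_mem_cancel_left (inv_mem t3)).1 this
  let T : N → V := fun x => ∑ k : stab ρ u, ρ (k * El Q f x) u
  have hT : ∀ x ∈ perp2 Q f e, ∀ y ∈ perp2 Q f e, Q x ≠ 0 → Q y ≠ 0 → T x = T y := by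
    intro x hx y hy x0 y0
    have e1 : ∀ x ∈ perp2 Q f e, B (El Q f x • e) e = -Q x := fun x hx => by
      simp [El_act h.right hx.1, h.pol, h.pol', h.ee, (mem_perp2'.1 hx).2, (mem_perp2.1 hx).2]
    have e2 := eichler_map h.left (x := El Q f x • e) (y := (Q x / Q y) • El Q f y • e)
      (by simp [e1 x hx, e1 y hy, y0]) (by simp [e1 x hx, x0]) (by simp [Q_smul, h.left])
    generalize (B (El Q f x • e) e)⁻¹ • (El Q f x • e - (Q x / Q y) • El Q f y • e) = z at e2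
    have e3 : ρ _ u = u := PF ((El Q f y)⁻¹ * El Q e z * El Q f x) (Q x / Q y) (by
      rw [mul_smul, mul_smul, show El Q e z • El Q f x • e = _ from e2, act_smul, inv_smul_smul])
    refine (Fintype.sum_equiv (Equiv.mulRight ⟨_, h1' z⟩) _ _ fun k => ?_).symm
    refine (congrArg (ρ (k * El Q f y)) e3).symm.trans ?_
    rw [← rho_mul]; simp [mul_assoc]
  have h4 : ∀ x ∈ perp2 Q f e, Q x ≠ 0 → El Q f x ∈ stab ρ u := fun x hx x0 => by
    have := Fintype.ofFinite (perp2 Q f e)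
    have := finite_dual (F := F) (A := perp2 Q f e)
    have := Fintype.ofFinite (Dual F (perp2 Q f e))
    have hQ' := (hQ.ndon_perp2 h.symm).nd_comp
    have d1 := h.symm.finrank_perp2
    let S : perp2 Q f e → ℂ := fun y =>
      ∑ w ∈ Finset.univ.filter fun w : perp2 Q f e => Q w = 0, ψ (B w (-y))
    have s0 : S 0 = Nat.card F ^ (finrank F N - 3) := by
      rw [perp2_comm] at hZ
      rw [← Nat.cast_pow, ← hZ]
      simp [S, Fintype.card_subtype]
    have s1 : ∀ y : perp2 Q f e, y ≠ 0 → Q y = 0 → S y = 0 := fun y y0 y1 => by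
      have := sum_sing hQ' hψ (neg_ne_zero.2 y0) (by simpa using y1)
      rw [perp2_comm] at hZ
      erw [hZ, ← pow_succ', show finrank F (perp2 Q f e) - 2 + 1 = finrank F N - 3 by omega] at this
      simp only [polar_comp_subtype, Nat.cast_pow, sub_self] at this
      convert this using 3 <;> rfl
    have s2 : ∑ y, S y = Fintype.card (perp2 Q f e) := by
      rw [Finset.sum_comm, Finset.sum_eq_single 0 (fun w _ hw => ?_) (by simp)]
      · simp
      · simpa using sum_addChar_dual_eq_zero hψ (f := -(polarBilin Q w).domRestrict (perp2 Q f e))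
          (neg_ne_zero.2 fun e' => hw ((bij_dual h.symm hQ).1 (a₂ := 0) (e'.trans (by ext; simp))))
    have s3 : ∑ y, S y • ρ (El Q f y) u = (Fintype.card (perp2 Q f e) : ℂ) • u := by
      rw [← sum_wtProj hψ (chi2 ρ f e) u, ← (bij_dual h.symm hQ).sum_comp, eq_comm,
        ← Finset.sum_filter_of_ne (p := fun w : perp2 Q f e => Q w = 0) fun w _ hw => by_contra
          fun w0 => hw (by simpa [wt_chi2 h.symm, hS w w.2 w0] using (wtProj_mem ψ (chi2 ρ f e)
            ((polarBilin Q w).domRestrict _) u))]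
      simp only [S, Finset.sum_smul, wtProj, LinearMap.sum_apply]
      rw [Finset.sum_comm]
      simp [chi2]
    have s4 : ∑ y, S y • (T y - T x) = (Fintype.card (perp2 Q f e) : ℂ) • (T 0 - T x) := by
      simp only [smul_sub, Finset.sum_sub_distrib, ← Finset.sum_smul, s2, sub_left_inj]
      simp only [T, rho_mul, Finset.smul_sum, El_zero, map_one, Module.End.one_apply, ← map_smul]
      rw [Finset.sum_comm]
      simp only [← s3, map_sum, map_smul]
    rw [Finset.sum_eq_single 0 (fun y _ y0 => ?_) (by simp), s0, ZeroMemClass.coe_zero,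
      ← sub_eq_zero, ← sub_smul,
      ← Nat.card_eq_fintype_card, card_perp2 h.symm, smul_eq_zero, sub_eq_zero, sub_eq_zero,
      ← Nat.cast_pow, Nat.cast_inj, (Nat.pow_right_injective Finite.one_lt_card).eq_iff] at s4
    · simpa [mem_stab] using fix_of_sum ρ (fun k : stab ρ u => k * El Q f x) (u := u) ((s4.resolve_left
        (by omega)).symm.trans (by simp [T, mem_stab.1 (Subtype.prop _), Nat.cast_smul_eq_nsmul])) 1
    · by_cases y1 : Q y = 0
      · simp [s1 y y0 y1]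
      · simp [hT y y.2 x hx y1 x0]
  obtain ⟨k, hk, e'⟩ := hQ.EG_le_of_isHyp h (by omega) ((stab ρ u).map (EG Q).subtype)
    (fun v _ => ⟨_, h1' v, rfl⟩) (fun v hv => hQ.eichler_mem_of_nonsingular (Or.inl hq)
      ((stab ρ u).map (EG Q).subtype) h.right
      (fun v hv v0 => ⟨_, h4 _ (h.symm.hproj_mem v) (by
        simpa [h.symm.Q_hproj v, pc hv] using v0), (eichler_hproj h.symm hv).symm⟩) hv.2) g.2
  rwa [show g = k from Subtype.ext e'.symm]

end Cfsg.Agent.KSG.OM
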