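import Mathlib
import Cfsg.Agent.KSG.OrthHecke

/-!
# Minimal degrees of complex representations of odd-dimensional orthogonal groups
-/

set_option autoImplicit false

namespace Cfsg.Agent.KSG.OM

open Module QuadraticMap Class.Orth

universe u v

variable {F N : Type*} [Field F] [AddCommGroup N] [Module F N] {Q : QuadraticForm F N}
  {V : Type*} [AddCommGroup V] [Module ℂ V] {ρ : EG Q →* Module.End ℂ V} {ψ : AddChar F ℂ}

local notation "B" => polar Q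

/-- `g` scales two hyperbolic pairs. -/
structure Ty2 (g : EG Q) (e f a b : N) (s r : F) : Prop where
  he : g • e = s • e
  hf : g • f = s⁻¹ • f
  ha : g • a = r • a
  hb : g • b = r⁻¹ • b

theorem Ty2.mul {g g' : EG Q} {e f a b : N} {s r s' r' : F} (h : Ty2 g e f a b s r)
    (h' : Ty2 g' e f a b s' r') : Ty2 (g * g') e f a b (s * s') (r * r') := by
  obtain ⟨_, _, _, _⟩ := h
  obtain ⟨_, _, _, _⟩ := h'
  constructor <;> simp [mul_smul, act_smul, smul_comm s, smul_comm r, *]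

theorem Ty2.mem {g : EG Q} {e f a b : N} {s r : F} (h : Ty2 g e f a b s r) (he : Q e = 0)
    (hs : s ≠ 0) {u : V} (hu : u ∈ W0 ρ e a) : ρ g u ∈ W0 ρ e a :=
  ⟨mem_Wt_zero.1 (map_Wt (ψ := 1) he hs h.he (by simp) (mem_Wt_zero.2 hu.1)),
    fun _ _ h1 h2 h3 h4 => W0_map (s := s) (t := 0) (s' := 0) (t' := r) (by simp [h.he])
      (by simp [h.ha]) hu h1 h2 h3 h4⟩

theorem Ty2.conj {g n : EG Q} {e f a b : N} {s r : F} (h : Ty2 g e f a b s r) (n1 : n • e = a)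
    (n2 : n • a = -e) (n3 : n • f = b) (n4 : n • b = -f) : Ty2 (n * g * n⁻¹) e f a b r s := by
  have i1 : n⁻¹ • e = -a := by rw [inv_smul_eq_iff, smul_neg, n2, neg_neg]
  have i2 : n⁻¹ • f = -b := by rw [inv_smul_eq_iff, smul_neg, n4, neg_neg]
  have i3 := inv_smul_eq_iff.2 n1.symm
  have i4 := inv_smul_eq_iff.2 n3.symm
  constructor <;> simp [mul_smul, act_smul, h.he, h.hf, h.ha, h.hb, *]

theorem Hyp2.tor [FiniteDimensional F N] (hQ : ND Q) (hd : finrank F N ≠ 2) {e f c d : N}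
    (h : Hyp2 Q e f c d) {γ : F} (hγ : γ ≠ 0) : ∃ g : EG Q, Ty2 g e f c d γ γ ∧
      ∀ x, B x e = 0 → B x f = 0 → B x c = 0 → B x d = 0 → g • x = x := by
  obtain ⟨g, hg⟩ := exists_tor2 hQ hd h.h1 h.h2 (mem_perp2.2 ⟨h.ea, h.fa⟩) (mem_perp2.2 ⟨h.eb, h.fb⟩) hγ
  have := h.all
  refine ⟨g, ⟨?_, ?_, ?_, ?_⟩, fun x _ _ _ _ => ?_⟩ <;> simp [sub_smul, *]

theorem Hyp2.symm {e f a b : N} (h : Hyp2 Q e f a b) : Hyp2 Q a b e f :=
  ⟨h.h2, h.h1, pc h.ea, pc h.fa, pc h.eb, pc h.fb⟩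

theorem Hyp2.down {e f a b : N} (h : Hyp2 Q e f a b) : IsHyp (Q.comp (perp2 Q e f).subtype)
    ⟨a, mem_perp2.2 ⟨h.ea, h.fa⟩⟩ ⟨b, mem_perp2.2 ⟨h.eb, h.fb⟩⟩ :=
  ⟨h.h2.left, h.h2.right, (polar_comp_subtype _ _ _).trans h.h2.pol⟩

/-- The number of zeros is that of an odd-dimensional form. -/
def TyO (Q : QuadraticForm F N) : Prop := Nat.card {x // Q x = 0} = Nat.card F ^ (finrank F N - 1)

/-- A generator of the multiplicative group. -/
def Gen (γ : F) : Prop := γ ≠ 0 ∧ ∀ c : F, c ≠ 0 → ∃ k : ℕ, γ ^ k = c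

variable [Finite F]

theorem exists_Gen : ∃ γ : F, Gen γ := by
  obtain ⟨g, hg⟩ := IsCyclic.exists_monoid_generator (α := Fˣ)
  exact ⟨g, g.ne_zero, fun c hc => (hg (Units.mk0 c hc)).imp fun k hk => by
    simpa using congrArg Units.val hk⟩

variable [Finite N]

theorem TyO.card (h : TyO Q) (hd : 3 ≤ finrank F N) {e f : N} (hf : IsHyp Q e f) :
    Nat.card {w : perp2 Q e f // Q w = 0} = Nat.card F ^ (finrank F N - 3) := by
  have := Module.Finite.of_finite (R := F) (M := N)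
  have h1 := hf.card_Q_eq 0
  obtain ⟨k, hk⟩ := Nat.exists_eq_add_of_le' hd
  obtain ⟨r, hr⟩ : ∃ r, Nat.card F = r + 1 := Nat.exists_eq_add_of_le' Nat.card_pos
  rw [h, hk, hr] at h1
  rw [hk, hr]
  simp only [add_tsub_cancel_right, show k + 3 - 1 = k + 2 by omega, show k + 3 - 2 = k + 1 by omega,
    pow_add] at h1 ⊢
  exact Nat.eq_of_mul_eq_mul_left r.succ_pos (by nlinarith)

theorem TyO.down (h : TyO Q) (hd : 3 ≤ finrank F N) {e f : N} (hf : IsHyp Q e f) :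
    TyO (Q.comp (perp2 Q e f).subtype) := by
  have := Module.Finite.of_finite (R := F) (M := N)
  have := hf.finrank_perp2
  exact (h.card hd hf).trans (congrArg _ (by omega))

theorem fix_of_par' (hQ : ND Q) (hψ : ψ ≠ 1) (hq : ∃ a : F, a ≠ 0 ∧ a ≠ 1) (hd : 5 ≤ finrank F N)
    (hT : TyO Q) {e f : N} (h : IsHyp Q e f)
    (hS : ∀ w ∈ perp2 Q f e, Q w ≠ 0 → Wt ρ ψ f w = ⊥) {u : V}
    (h1 : ∀ x, B e x = 0 → ρ (El Q e x) u = u)
    (h2 : ∀ a ∈ perp2 Q e f, ∀ x ∈ perp2 Q e f, ρ (El Q a x) u = u) {γ : F} (hγ : Gen γ)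
    {t : EG Q} (t1 : t • e = γ • e) (t2 : t • f = γ⁻¹ • f) (t3 : ρ t u = u) (g : EG Q) :
    ρ g u = u := by
  refine fix_of_par hQ hψ hq hd h (hT.card (by omega) h) hS h1 h2 (fun c hc => ?_) g
  obtain ⟨k, rfl⟩ := hγ.2 c hc
  refine ⟨t ^ k, ?_, ?_, mem_stab.1 (pow_mem (mem_stab.2 t3) k)⟩ <;> clear hc <;>
    induction k <;> simp [pow_succ', mul_smul, act_smul, smul_comm γ, *]

theorem Ty2.eq (hQ : ND Q) (hq : ∃ a : F, a ≠ 0 ∧ a ≠ 1) (hd : 7 ≤ finrank F N) {e f a b : N}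
    (H : Hyp2 Q e f a b) {g g' : EG Q} {s r : F} (h : Ty2 g e f a b s r) (h' : Ty2 g' e f a b s r)
    {u : V} (hu : u ∈ W0 ρ e a) : ρ g u = ρ g' u := by
  have : ρ (g'⁻¹ * g) u = u := mem_of_fix2 (K := stab ρ u) hQ hq hd H hu.2
    (by rw [mul_smul, h.he, ← h'.he, inv_smul_smul]) (by rw [mul_smul, h.hf, ← h'.hf, inv_smul_smul])
    (by rw [mul_smul, h.ha, ← h'.ha, inv_smul_smul]) (by rw [mul_smul, h.hb, ← h'.hb, inv_smul_smul])
  rw [← this, ← rho_mul g', mul_inv_cancel_left, this]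

theorem levi_fix (hQ : ND Q) (hψ : ψ ≠ 1) (hq : ∃ a : F, a ≠ 0 ∧ a ≠ 1) (hd : 7 ≤ finrank F N)
    (hT : TyO Q) (H : One ρ ψ 0) {e f a b : N} (h : Hyp2 Q e f a b) {u : V} (hu : u ∈ W0 ρ e a)
    {γ : F} (hγ : Gen γ) {t : EG Q} (ht : Ty2 t e f a b 1 γ) (t3 : ρ t u = u) (k) :
    ρ (io h.h1 k) u = u := by
  have := Module.Finite.of_finite (R := F) (M := N)
  have := h.h1.finrank_perp2
  obtain ⟨t, rfl⟩ := exists_io hQ hq (by omega) h.h1 (g := t) (by simp [ht.he]) (by simp [ht.hf])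
  exact congrArg Subtype.val (fix_of_par' (ρ := down ρ ψ h.h1) (hQ.ndon_perp2 h.h1).nd_comp hψ hq
    (by omega) (hT.down (by omega) h.h1) h.down (fun w hw w0 => H.down_bot hQ hψ h.h1 h.h2.right
      (by simpa using h.h2.right_ne_zero) ((polar_comp_subtype _ _ _).symm.trans hw.1) w0)
    (u := ⟨u, mem_Wt_zero.2 hu.1⟩) (fun x hx => Subtype.ext (by
      rw [down_apply, io_El]
      exact hu.2 _ _ h.ea h.h2.ee x.2.1 ((polar_comp_subtype _ _ _).symm.trans hx)))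
    (fun c hc x hx => Subtype.ext (by
      rw [down_apply, io_El]
      exact hu.2 _ _ c.2.1 ((polar_comp_subtype _ _ _).symm.trans hc.1) x.2.1
        ((polar_comp_subtype _ _ _).symm.trans hx.1))) hγ (t := t)
    (Subtype.ext ((io_act h.h1 t _).symm.trans ht.ha)) (Subtype.ext ((io_act h.h1 t _).symm.trans ht.hb))
    (Subtype.ext t3) k)

theorem Hyp3.exists (hQ : ND Q) (hd : 7 ≤ finrank F N) {e f : N} (h : IsHyp Q e f) :
    ∃ a b c d, Hyp2 Q e f a b ∧ Hyp2 Q e f c d ∧ Hyp2 Q a b c d := by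
  have := Module.Finite.of_finite (R := F) (M := N)
  have hQ' := (hQ.ndon_perp2 h).nd_comp
  have := h.finrank_perp2
  obtain ⟨a, b, h1⟩ := hQ'.exists_isHyp_of_three_le (by omega)
  have := h1.finrank_perp2
  obtain ⟨c, d, h2⟩ := (hQ'.ndon_perp2 h1).nd_comp.exists_isHyp_of_three_le (by omega)
  have pc := @polar_comp_subtype F N _ _ _ Q (perp2 Q e f)
  have h3 : IsHyp Q (c : perp2 Q e f) (d : perp2 Q e f) :=
    ⟨h2.left, h2.right, (pc _ _).symm.trans ((polar_comp_subtype _ _ _).symm.trans h2.pol)⟩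
  have h4 : IsHyp Q a b := ⟨h1.left, h1.right, (pc _ _).symm.trans h1.pol⟩
  exact ⟨a, b, c, d, ⟨h, h4, a.2.1, b.2.1, a.2.2, b.2.2⟩, ⟨h, h3, c.1.2.1, d.1.2.1, c.1.2.2, d.1.2.2⟩,
    h4, h3, (pc _ _).symm.trans c.2.1, (pc _ _).symm.trans d.2.1, (pc _ _).symm.trans c.2.2,
    (pc _ _).symm.trans d.2.2⟩

theorem exists_levi_fix [FiniteDimensional ℂ V] (hQ : ND Q) (hψ : ψ ≠ 1)
    (hq : ∃ a : F, a ≠ 0 ∧ a ≠ 1) (hd : 9 ≤ finrank F N) (hT : TyO Q) (H : One ρ ψ 0) (P : PP ρ ψ)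
    {e f : N} (h : IsHyp Q e f) : ∃ u ∈ Wt ρ ψ e 0, u ≠ 0 ∧ ∀ k, ρ (io h k) u = u := by
  classical
  have := Module.Finite.of_finite (R := F) (M := N)
  have := Fintype.ofFinite F
  by_contra! H0
  obtain ⟨γ, hγ⟩ := exists_Gen (F := F)
  obtain ⟨a, b, c, d, h1, h2, h3⟩ := Hyp3.exists hQ (by omega) h
  obtain ⟨g, hg, hg'⟩ := h2.tor hQ (by omega) hγ.1
  have a1 := h1.all
  have a2 := h2.all
  have a3 := h3.all
  have ga : g • a = a := hg' a (by simp [*]) (by simp [*]) (by simp [*]) (by simp [*])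
  have gb : g • b = b := hg' b (by simp [*]) (by simp [*]) (by simp [*]) (by simp [*])
  have tg : Ty2 g e f a b γ 1 := ⟨hg.he, hg.hf, by simp [ga], by simp [gb]⟩
  obtain ⟨u, hu, u0⟩ := (Submodule.ne_bot_iff _).1 (W0_ne_bot hQ hψ (by omega) H P h1.pr h1.h2.left
    h2.h2.left (pc h2.ea) (pc h3.ea) fun s t e' => by simpa [e', *] using h2.h2.pol)
  have m1 := mem_perp2.2 ⟨h1.ea, h1.fa⟩
  have m2 := mem_perp2.2 ⟨h1.eb, h1.fb⟩
  have hW := (hQ.ndon_perp2 h).inf_perp2 m1 m2 h1.h2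
  have d1 := h.finrank_perp2
  have d2 := h1.h2.finrank_inf_perp2 m1 m2
  have hu' := sub_mem (tg.mem h.left hγ.1 hu) hu
  obtain ⟨w, w0, w1, hw⟩ := exists_sing hQ {e, f, a, b, c, d} (by
    have := Finset.card_le_six (a := e) (b := f) (c := a) (d := b) (e := c) (f := d); omega)
  simp only [Finset.mem_insert, Finset.mem_singleton, forall_eq_or_imp, forall_eq] at hw
  have k1 : ∀ z ∈ perp2 Q e f ⊓ perp2 Q a b, z ≠ 0 → Q z = 0 → Pj ρ ψ b z (ρ g u - u) = 0 := by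
    intro z hz z0 z1
    refine sing_trans hW (by omega) (R := fun z => Pj ρ ψ b z (ρ g u - u) = 0) (fun v hv x hx z H => ?_)
      (y := w) ⟨mem_perp2.2 (by simp [hw]), mem_perp2.2 (by simp [hw])⟩ hz w0 z0 w1 z1 fun s hs => ?_
    · have := Pj_conj (ρ := ρ) (ψ := ψ) (w := z) (w' := El Q v x • z) h1.h2.right one_ne_zero
        (g := El Q v x) (by rw [one_smul, El_fix hv.2.2 hx.2.2]) (by simp) (ρ g u - u)
      rw [H, map_zero, hu'.2 v x hv.1.1 hv.2.1 hx.1.1 hx.2.1] at this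
      exact this.symm
    obtain ⟨w', hw', h4⟩ := (hW.inf_perp2 ⟨mem_perp2.2 ⟨h2.ea, h2.fa⟩, mem_perp2.2 ⟨h3.ea, h3.fa⟩⟩
      ⟨mem_perp2.2 ⟨h2.eb, h2.fb⟩, mem_perp2.2 ⟨h3.eb, h3.fb⟩⟩ h2.h2).exists_isHyp (e := s • w)
      ⟨⟨mem_perp2.2 (by simp [hw]), mem_perp2.2 (by simp [hw])⟩, mem_perp2.2 (by simp [hw])⟩
      (smul_ne_zero hs w0) (by simp [Q_smul, w1])
    have h5 : Hyp2 Q b a (s • w) w' := ⟨h1.h2.symm, h4, by simp [hw], hw'.1.2.2, by simp [hw], hw'.1.2.1⟩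
    have gw : g • s • w = s • w := hg' _ (by simp [pc, hw]) (by simp [pc, hw]) (by simp [pc, hw])
      (by simp [pc, hw])
    rw [map_sub, ← Pj_comm h1.h2.right gb gw, sub_eq_zero]
    exact mem_of_fix2 (K := stab ρ _) hQ hq (by omega) h5 (P _ _ h5.pr h4.left _ (Pj_mem _ _ _)) gb ga
      gw (hg' _ (pc hw'.1.1.1) (pc hw'.1.1.2) (pc hw'.2.1) (pc hw'.2.2))
  have k2 : ∀ x, B e x = 0 → B b x = 0 → ρ (El Q b x) (ρ g u - u) = ρ g u - u := fun x ex bx => by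
    refine fix_of_Pj (ρ := ρ) hQ hψ h1.h2.right fun z bz hz => ?_
    have ze : B z e = 0 := Pj_fix hψ hz (pc h1.eb) fun s => by
      rw [El_swap h1.h2.right (by simp [Q_smul, h.left]) (by simp [*]), El_smul h.left (by simp [*]),
        hu'.1 _ (by simp [*])]
    by_cases z0 : z - B z f • e - B z a • b = 0
    · rw [mem_Wt.1 (Pj_mem _ _ _) x bx, show z = B z f • e + B z a • b by
        rw [← sub_eq_zero, ← z0]; abel]
      simp [*]
    have hz0 : z - B z f • e - B z a • b ∈ perp2 Q e f ⊓ perp2 Q a b :=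
      ⟨mem_perp2'.2 (by simp [*]), mem_perp2'.2 (by simp [pc bz, *])⟩
    have z1 : Q z = 0 := by_contra fun z1 => hz ((Submodule.mem_bot ℂ).1 ((H b z ⟨h1.h2.right,
      h1.h2.right_ne_zero, bz, fun s hs => z1 (by simp [hs, Q_smul, h1.h2.right])⟩).2 z1 ▸ Pj_mem b z _))
    obtain ⟨y, hy, hy'⟩ := hW.exists_polar_eq hz0 z0 (B z f)
    have := Pj_conj (ρ := ρ) (ψ := ψ) (w := z - B z f • e - B z a • b) (w' := z) h1.h2.right one_ne_zero
      (g := El Q e y) (by rw [one_smul, El_fix (pc h1.eb) hy.2.2]) (fun x hx => by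
        rw [El_act_perp h.left hy.1.1 hz0.1.1, polar_comm _ y, hy']; simp [hx]) (ρ g u - u)
    rw [k1 _ hz0 z0 (by simp [Q_sub, Q_smul, pc bz, *]), map_zero, hu'.1 y hy.1.1] at this
    exact absurd this.symm hz
  have k3 : ρ g u = u := sub_eq_zero.1 (by_contra fun h0 => by
    obtain ⟨k, hk⟩ := H0 _ (mem_Wt_zero.2 hu'.1) h0
    obtain ⟨k', hk', e'⟩ := (hQ.ndon_perp2 h).nd_comp.EG_le_of_isHyp h1.down (by omega)
      (((stab ρ (ρ g u - u)).comap (io h)).map (EG _).subtype) (fun v hv => ⟨El _ _ v, by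
        simpa [io_El, mem_stab, -map_sub] using (hu'.2 _ _ h1.ea h1.h2.ee v.2.1
          ((polar_comp_subtype _ _ _).symm.trans hv.1)), rfl⟩) (fun v hv => ⟨El _ _ v, by
        simpa [io_El, mem_stab, -map_sub] using (k2 _ v.2.1
          ((polar_comp_subtype _ _ _).symm.trans hv.2)), rfl⟩) k.2
    exact hk (by rwa [show k = k' from Subtype.ext e'.symm]))
  obtain ⟨n, n1, n2, n3, n4, -⟩ := h1.exists_n
  obtain ⟨t1, t2⟩ := h1.hecke n1 n2 n4 hu
  have tn := tg.conj n1 n2 n3 n4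
  obtain ⟨k, hk⟩ := H0 _ (mem_Wt_zero.2 t1.1) fun e' => u0 (t2 e')
  refine hk (levi_fix hQ hψ hq (by omega) hT H h1 t1 hγ tn ?_ k)
  rw [SU_conj h.left h1.eb one_ne_zero (inv_ne_zero hγ.1) tn.he tn.hb, ← rho_mul, inv_mul_cancel_right,
    rho_mul, k3]

theorem mem_W0_of (hQ : ND Q) (hψ : ψ ≠ 1) (hd : finrank F N = 7) (H : One ρ ψ 0) {e a : N}
    (h : Pr Q e a) (ha : Q a = 0) {u : V} (h1 : ∀ x, B e x = 0 → ρ (El Q e x) u = u)
    (h2 : ∀ x, B e x = 0 → B a x = 0 → ρ (El Q a x) u = u) : u ∈ W0 ρ e a := by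
  have := Module.Finite.of_finite (R := F) (M := N)
  refine ⟨h1, fun c x ec ac ex ax => ?_⟩
  by_cases hc : Q c = 0 ∧ B c x = 0
  swap
  · simp [El_of_not hc]
  have ee := polar_self_of_Q_eq_zero h.sing
  have ea := h.perp
  by_cases hi : ∀ s t : F, c ≠ s • e + t • a
  swap
  · push Not at hi
    obtain ⟨s, t, rfl⟩ := hi
    rw [El_add_left (by simp [Q_smul, h.sing]) (by simp [Q_smul, ha]) (by simp [*]) (by simp [*])
      (by simp [*]), rho_mul, El_smul ha ax, h2 _ (by simp [*]) (by simp [*]),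
      El_smul h.sing (by simp [*]), h1 _ (by simp [*])]
  refine fix_of_Pj (ρ := ρ) hQ hψ hc.1 fun z cz hz => ?_
  have ze : B z e = 0 := Pj_fix hψ hz (pc ec) fun s => by
    rw [El_swap hc.1 (by simp [Q_smul, h.sing]) (by simp [pc ec]), El_smul h.sing (by simp [*]),
      h1 _ (by simp [*])]
  have za : B z a = 0 := Pj_fix hψ hz (pc ac) fun s => by
    rw [El_swap hc.1 (by simp [Q_smul, ha]) (by simp [pc ac]), El_smul ha (by simp [*]),
      h2 _ (by simp [*]) (by simp [*])]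
  have z1 : Q z = 0 := by_contra fun z1 => hz ((Submodule.mem_bot ℂ).1 ((H c z ⟨hc.1,
    fun e' => hi 0 0 (by simp [e']), cz, fun s hs => z1 (by simp [hs, Q_smul, hc.1])⟩).2 z1 ▸
      Pj_mem c z _))
  obtain ⟨s, t, r, rfl⟩ := mem_span_of_TS (fun U hU => by have := hU.two_mul_le hQ; omega) h ha hc.1
    ec ac hi z1 (pc ze) (pc za) cz
  rw [mem_Wt.1 (Pj_mem _ _ _) x hc.2]
  simp [*]

theorem hecke2 [Fintype F] (hQ : ND Q) (hψ : ψ ≠ 1) (hd : finrank F N = 7) (H : One ρ ψ 0)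
    {e f a b c d : N} (h1 : Hyp2 Q e f a b) (h2 : Hyp2 Q e f c d) (h3 : Hyp2 Q a b c d) {n : EG Q}
    (n0 : n • e = e) (n1 : n • a = c) (n4 : n • d = -b) {u : V} (hu : u ∈ W0 ρ e a) :
    SU ρ a d (ρ n u) ∈ W0 ρ e a ∧ (SU ρ a d (ρ n u) = 0 → u = 0) := by
  have := h1.all
  have := h2.all
  have := h3.all
  have k0 : ∀ t : F, (El Q a (t • d) * n) • e = e := fun t => by simp [mul_smul, n0, El_fix, *]
  refine ⟨mem_W0_of hQ hψ hd H h1.pr h1.h2.left (mem_Wt_zero.1 (show _ ∈ Wt ρ ψ e 0 from ?_))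
    fun x ex ax => ?_, fun H => rep_injective ρ n ?_⟩
  · simp only [SU_apply, ← rho_mul _ n]
    exact Submodule.sum_mem _ fun t _ => by
      simpa [k0] using map_Wt' h1.h1.left (El Q a (t • d) * n) (mem_Wt_zero.2 hu.1)
  · rw [← sub_add_cancel x (B c x • d), rho_add (by simp [*]) (by simp [*]), SU_abs h3.eb]
    simp only [SU_apply, map_sum, ← rho_mul _ n]
    refine Finset.sum_congr rfl fun t _ => ?_
    have k1 : (El Q a (t • d) * n) • a = c + t • a := by simp [mul_smul, n1, El_act, Q_smul, *]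
    rw [rho_El', hu.2] <;> simp [← polar_act_left, -mul_inv_rev, *]
  · rw [h3.SU_inj (fun s => ?_) H, map_zero]
    rw [rho_El', inv_smul_eq_iff.2 n1.symm, hu.2] <;> simp [← polar_act_left, *]

omit [Finite F] [Finite N] in
theorem exists_sign {X : Module.End ℂ V} {u : V} (h0 : u ≠ 0) (h : X (X u) = u) :
    ∃ α : ℂ, (α = 1 ∨ α = -1) ∧ u + α • X u ≠ 0 ∧ X (u + α • X u) = α • (u + α • X u) := by
  by_cases h1 : u + X u = 0
  · refine ⟨-1, by simp, fun h2 => h0 ?_, by simp [h, add_comm]⟩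
    have : (2 : ℂ) • u = 0 := by linear_combination (norm := module) h1 + h2
    simpa using this
  · exact ⟨1, by simp, by simpa, by simp [h, add_comm]⟩

theorem three_le [FiniteDimensional ℂ V] (hQ : ND Q) (hψ : ψ ≠ 1) (hq : ∃ a : F, a ≠ 0 ∧ a ≠ 1)
    (hd : finrank F N = 7) (hT : TyO Q) (H : One ρ ψ 0) (P : PP ρ ψ)
    (h0 : ∀ v, (∀ g, ρ g v = v) → v = 0) {e f a b c d : N} (h1 : Hyp2 Q e f a b)
    (h2 : Hyp2 Q e f c d) (h3 : Hyp2 Q a b c d) : 3 ≤ finrank ℂ (W0 ρ e a) := by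
  have := Module.Finite.of_finite (R := F) (M := N)
  have := Fintype.ofFinite F
  obtain ⟨γ, hγ⟩ := exists_Gen (F := F)
  have g0 := hγ.1
  have a1 := h1.all
  have a2 := h2.all
  have a3 := h3.all
  obtain ⟨x, hx, hx'⟩ := h2.tor hQ (by omega) g0
  obtain ⟨y, hy, hy'⟩ := h3.tor hQ (by omega) g0
  obtain ⟨z, hz⟩ := exists_tor1 hQ (by omega) h1.h2 g0
  obtain ⟨n, n1, n2, n3, n4, -⟩ := h1.exists_n
  obtain ⟨m, m1, m2, m3, m4, m5⟩ := h3.exists_n
  have me : m • e = e := m5 e (by simp [*]) (by simp [*]) (by simp [*]) (by simp [*])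
  have mf : m • f = f := m5 f (by simp [*]) (by simp [*]) (by simp [*]) (by simp [*])
  have tx : Ty2 x e f a b γ 1 := ⟨hx.he, hx.hf, by simp [*], by simp [*]⟩
  have ty : Ty2 y e f a b 1 γ := ⟨by simp [*], by simp [*], hy.he, hy.hf⟩
  have eq := @Ty2.eq _ _ _ _ _ _ _ _ _ ρ _ _ hQ hq hd.ge _ _ _ _ h1
  have T1 := @Hyp2.hecke _ _ _ _ _ _ _ _ _ ρ _ _ _ _ _ h1 _ n1 n2 n4
  have T2 := @hecke2 _ _ _ _ _ _ _ _ _ ρ _ _ _ _ hQ hψ hd H _ _ _ _ _ _ h1 h2 h3 _ me m1 m4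
  have A1 : ∀ {g g' s r}, s ≠ 0 → r ≠ 0 → Ty2 g e f a b s r → Ty2 g' e f a b r s → ∀ u ∈ W0 ρ e a,
      ρ g' (SU ρ e b (ρ n u)) = SU ρ e b (ρ n (ρ g u)) := fun hs hr t t' u hu => by
    have tn := t.conj n1 n2 n3 n4
    rw [eq t' tn (T1 hu).1, SU_conj h1.h1.left h1.eb hr (inv_ne_zero hs) tn.he tn.hb, ← rho_mul,
      inv_mul_cancel_right, rho_mul]
  have A2 : ∀ {g g' p s r}, s ≠ 0 → r ≠ 0 → Ty2 g e f a b p s → Ty2 g a b c d s r →
      Ty2 g' e f a b p r → ∀ u ∈ W0 ρ e a, ρ g' (SU ρ a d (ρ m u)) = SU ρ a d (ρ m (ρ g u)) :=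
    fun hs hr t0 t t' u hu => by
    have tn := t.conj m1 m2 m3 m4
    rw [eq t' ⟨by simp [mul_smul, inv_smul_eq_iff.2 me.symm, t0.he, act_smul, me],
      by simp [mul_smul, inv_smul_eq_iff.2 mf.symm, t0.hf, act_smul, mf], tn.he, tn.hf⟩ (T2 hu).1,
      SU_conj h1.h2.left h3.eb hr (inv_ne_zero hs) tn.he tn.hb, ← rho_mul, inv_mul_cancel_right,
      rho_mul]
  have S1 : ∀ u ∈ W0 ρ e a, ρ y (ρ y u) = u := fun u hu => by
    have tz : Ty2 z e f a b (1 * 1) (γ * γ) := by constructor <;> simp [sub_smul, pow_two, *]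
    rw [← rho_mul, eq (ty.mul ty) tz hu, ← sub_eq_zero]
    refine (T2 (sub_mem (tz.mem h1.h1.left (by simp) hu) hu)).2 ?_
    rw [map_sub, map_sub, ← A2 (g' := 1) (r := 1) (by simp [g0]) one_ne_zero tz
      (by constructor <;> simp [sub_smul, pow_two, *]) (by constructor <;> simp) u hu]
    simp
  have S2 : ∀ u ∈ W0 ρ e a, ρ x (ρ x u) = u := fun u hu => by
    rw [← rho_mul, ← sub_eq_zero]
    refine (T1 (sub_mem ((tx.mul tx).mem h1.h1.left (by simp [g0]) hu) hu)).2 ?_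
    rw [map_sub, map_sub, ← A1 (by simp [g0]) (by simp) (tx.mul tx) (ty.mul ty) u hu, rho_mul,
      S1 _ (T1 hu).1, sub_self]
  let E : ℂ → ℂ → Prop := fun α β => ∃ u ∈ W0 ρ e a, u ≠ 0 ∧ ρ x u = α • u ∧ ρ y u = β • u
  have e1 : ∀ {α β}, E α β → E β α := fun ⟨u, hu, u0, u1, u2⟩ => ⟨_, (T1 hu).1, mt (T1 hu).2 u0,
    by rw [A1 one_ne_zero g0 ty tx u hu, u2, map_smul, map_smul],
    by rw [A1 g0 one_ne_zero tx ty u hu, u1, map_smul, map_smul]⟩
  have e2 : ∀ {α}, E α (-1) → E (-α) (-1) := fun ⟨u, hu, u0, u1, u2⟩ => by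
    have k1 := A2 g0 g0 ty hy ty u hu
    have k2 := A2 one_ne_zero g0 tx ⟨tx.ha, tx.hb, hx.ha, hx.hb⟩ (by simpa using tx.mul ty) u hu
    rw [u2, map_smul, map_smul] at k1
    rw [rho_mul, k1, u1] at k2
    exact ⟨_, (T2 hu).1, mt (T2 hu).2 u0, by simpa [neg_eq_iff_eq_neg] using k2, k1⟩
  have e3 : ¬ E 1 1 := fun ⟨u, hu, u0, u1, u2⟩ => u0 (h0 u (fix_of_par' hQ hψ hq (by omega) hT h1.h1
    (fun w hw w0 => (H f w (Pr.of_hyp h1.h1.symm hw fun e' => w0 (by simp [e']))).2 w0) hu.1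
    (fun p hp r hr => by
      simpa [io_El] using levi_fix hQ hψ hq hd.ge hT H h1 hu hγ ty (by simpa using u2) (El _ ⟨p, hp⟩ ⟨r, hr⟩))
    hγ tx.he tx.hf (by simpa using u1)))
  have e4 : E 1 (-1) := by
    obtain ⟨u, hu, u0⟩ := (Submodule.ne_bot_iff _).1 (W0_ne_bot hQ hψ (by omega) H P h1.pr h1.h2.left
      h2.h2.left (pc h2.ea) (pc h3.ea) fun s t e' => by simpa [e', *] using h2.h2.pol)
    obtain ⟨α, hα, v0, v1⟩ := exists_sign u0 (S2 u hu)
    have hv := add_mem hu (Submodule.smul_mem _ α (tx.mem h1.h1.left g0 hu))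
    generalize u + α • ρ x u = v at v0 v1 hv
    obtain ⟨β, hβ, w0, w1⟩ := exists_sign v0 (S1 v hv)
    have k : E α β := ⟨_, add_mem hv (Submodule.smul_mem _ β (ty.mem h1.h1.left one_ne_zero hv)), w0, by
      rw [map_add, map_smul, ← rho_mul, eq (tx.mul ty) (by simpa using ty.mul tx) hv, rho_mul, v1,
        map_smul, smul_add, smul_comm], w1⟩
    rcases hα with rfl | rfl <;> rcases hβ with rfl | rfl
    exacts [absurd k e3, k, e1 k, by simpa using e2 k]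
  obtain ⟨u1, p1, p2, p3, p4⟩ := e4
  obtain ⟨u2, q1, q2, q3, q4⟩ := e1 ⟨u1, p1, p2, p3, p4⟩
  obtain ⟨u3, r1, r2, r3, r4⟩ := e2 ⟨u1, p1, p2, p3, p4⟩
  refine (LinearIndependent.of_comp (W0 ρ e a).subtype (v := ![⟨u1, p1⟩, ⟨u2, q1⟩, ⟨u3, r1⟩])
    (Module.End.eigenvectors_linearIndependent' (ρ x + (2 : ℂ) • ρ y) ![-1, 1, -3] ?_ _ fun i =>
      ?_)).fintype_card_le_finrank
  · intro i j; fin_cases i <;> fin_cases j <;> norm_num
  · fin_cases i <;> refine ⟨Module.End.mem_eigenspace_iff.2 ?_, by simpa⟩ <;>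
      simp [p3, p4, q3, q4, r3, r4] <;> module

theorem exists_red {G V : Type*} [Group G] [Finite G] [AddCommGroup V] [Module ℂ V]
    [FiniteDimensional ℂ V] (ρ : G →* Module.End ℂ V) (h : ∃ g, ρ g ≠ 1) :
    ∃ (W : Submodule ℂ V) (σ : G →* Module.End ℂ W), (∃ g, σ g ≠ 1) ∧
      (∀ v, (∀ g, σ g v = v) → v = 0) ∧ ∀ v ∈ W, (∀ g, ρ g v = v) → v = 0 := by
  obtain ⟨g, hg⟩ := h
  obtain ⟨W, hW, h0, h1, -⟩ := exists_sub ρ hg ∅ (by simp)
  refine ⟨W, res ρ hW, ?_, fun v hv => Subtype.ext (h1 v v.2 fun g => congrArg Subtype.val (hv g)), h1⟩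
  by_contra! H
  exact h0 ((Submodule.eq_bot_iff _).2 fun v hv => h1 v hv fun g =>
    congrArg Subtype.val (LinearMap.congr_fun (H g) ⟨v, hv⟩))

theorem odd_bound {F : Type*} [Field F] [Finite F] (h3 : 3 < Nat.card F) (m : ℕ) :
    ∀ {N : Type u} [AddCommGroup N] [Module F N] [Finite N] {Q : QuadraticForm F N}
      {V : Type v} [AddCommGroup V] [Module ℂ V] [FiniteDimensional ℂ V]
      (ρ : EG Q →* Module.End ℂ V), ND Q → finrank F N = 2 * m + 7 → TyO Q → (∃ g, ρ g ≠ 1) →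
      (Nat.card F : ℤ) ^ (2 * m + 6) ≤ 1 + (Nat.card F ^ 2 - 1) * finrank ℂ V := by
  induction m using Nat.strong_induction_on with | _ m ih => ?_
  intro N _ _ _ Q V _ _ _ ρ hQ d0 hT hg
  have := Module.Finite.of_finite (R := F) (M := N)
  have := finite_EG (Q := Q)
  have hq : (4 : ℤ) ≤ Nat.card F := by exact_mod_cast h3
  have hq1 : (0 : ℤ) < Nat.card F ^ 2 - 1 := by nlinarith
  obtain ⟨W, σ, ⟨g, hg⟩, h0, -⟩ := exists_red ρ hg
  refine le_trans ?_ (add_le_add le_rfl (mul_le_mul_of_nonneg_left (Nat.cast_le.2 W.finrank_le) hq1.le))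
  obtain ⟨ψ, hψ⟩ := exists_psi (F := F)
  obtain ⟨t, ht, ht'⟩ := exists_sq_ne h3
  have hq' : ∃ a : F, a ≠ 0 ∧ a ≠ 1 := ⟨_, pow_ne_zero 2 ht, ht'⟩
  obtain ⟨e, f, hf⟩ := hQ.exists_isHyp_of_three_le (by omega)
  obtain ⟨a, b, c, d, h1, h2, h3⟩ := Hyp3.exists hQ (by omega) hf
  have hQ' := (hQ.ndon_perp2 hf).nd_comp
  have d1 := hf.finrank_perp2
  have d2 := h1.down.finrank_perp2
  obtain ⟨w, y, hy⟩ := (hQ'.ndon_perp2 h1.down).nd_comp.exists_isHyp_of_three_le (by omega)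
  have T1 := hT.down (by omega) hf
  have c1 := congrArg (Nat.cast : ℕ → ℤ) (cn_zero.trans T1)
  have c2 := congrArg (Nat.cast : ℕ → ℤ) (cn_zero.trans (T1.down (by omega) h1.down))
  rw [show finrank F _ - 1 = 2 * m + 4 by omega] at c1
  rw [show finrank F _ - 1 = 2 * m + 2 by omega] at c2
  push_cast at c1 c2
  rcases dich hQ hψ (by omega) hf hg (cn_ge h1.down hy) with H | ⟨β, H, hβ⟩
  · rw [show finrank F _ - 3 = 2 * m + 2 by omega] at H
    have H := (Nat.cast_le (α := ℤ)).2 H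
    push_cast [Nat.cast_sub (Nat.one_le_pow 2 _ (Nat.card_pos (α := F)))] at H
    refine le_trans ?_ (add_le_add le_rfl (mul_le_mul_of_nonneg_left H hq1.le))
    rw [show 2 * m + 6 = 2 * m + 2 + 4 by omega, pow_add]
    have : (0 : ℤ) < Nat.card F ^ (2 * m + 2) := by positivity
    generalize (Nat.card F : ℤ) ^ (2 * m + 2) = z at this
    generalize (Nat.card F : ℤ) = r at hq
    have a1 : r ^ 2 * z * 4 ≤ r ^ 2 * z * r ^ 2 := by gcongr; nlinarith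
    linarith
  obtain rfl : β = 0 := by_contra fun h => ht' (mul_right_cancel₀ h ((hβ t ht).trans (one_mul β).symm))
  have hD := congrArg (Nat.cast : ℕ → ℤ) (H.finrank_eq hQ hψ hf)
  push_cast at hD
  have P := pp_big hQ (by omega) ht ht' H
  suffices (Nat.card F : ℤ) ^ (2 * m + 4) + Nat.card F ^ 2 ≤
      2 + (Nat.card F ^ 2 - 1) * finrank ℂ (Wt σ ψ e 0) by
    rw [hD, eq_sub_of_add_eq c1]
    linear_combination this
  rcases m with _ | m
  · have k1 := (Nat.cast_le (α := ℤ)).2 (add_cn_le hQ' hψ h1.down fun w h2 h3 h4 =>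
      P.down hQ hψ H hf (Pr.of_hyp h1.down h2 h3) h4)
    have k2 := (three_le hQ hψ hq' d0 hT H P h0 h1 h2 h3).trans ((Submodule.finrank_mono
      fun u hu => Submodule.mem_map.2 ⟨⟨u, mem_Wt_zero.2 hu.1⟩, (mem_Wt_down hf).2 fun x hx ax => by
        simpa using hu.2 a x h1.ea h1.h2.ee hx.1 ax, rfl⟩).trans_eq
      ((Wt σ ψ e 0).finrank_map_subtype_eq (Wt (down σ ψ hf) ψ ⟨a, mem_perp2.2 ⟨h1.ea, h1.fa⟩⟩ 0)))
    push_cast at k1
    have k3 : (Nat.card F : ℤ) ^ 2 + 2 ≤ finrank ℂ (Wt σ ψ e 0) := by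
      rw [mul_zero, zero_add] at c2; omega
    linear_combination mul_le_mul_of_nonneg_left k3 hq1.le
  obtain ⟨u, hu, u0, hu'⟩ := exists_levi_fix hQ hψ hq' (by omega) hT H P hf
  have hp := Pr.of_hyp h1.down w.2 (by simpa using hy.left_ne_zero)
  have := finite_EG (Q := Q.comp (perp2 Q e f).subtype)
  obtain ⟨W', τ, hτ, -, k1⟩ := exists_red _ (ne_one_of_Wt hQ' hψ hp (P.down hQ hψ H hf hp hy.left))
  have k2 := ih m (by omega) (V := W') τ hQ' (by omega) T1 hτ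
  have k3 : (finrank ℂ W' : ℤ) + 1 ≤ finrank ℂ (Wt σ ψ e 0) := by
    exact_mod_cast W'.finrank_lt fun e' => u0 (congrArg Subtype.val
      (k1 ⟨u, hu⟩ (by simp [e']) fun k => Subtype.ext (hu' k)))
  linear_combination k2 + mul_le_mul_of_nonneg_left k3 hq1.le

end Cfsg.Agent.KSG.OM
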