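import Mathlib
import Cfsg.Agent.KSG.PresC2
import Cfsg.Agent.KSG.PresSL1

/-!
Siegel type parabolic systems with Weyl group of type `D`.
-/

set_option autoImplicit false
set_option linter.unusedSectionVars false

namespace Cfsg.Agent.KSG.BN

open Matrix Equiv Subgroup

variable {K Γ : Type*} [Field K] [Group Γ]

section

variable {ι : Type*} [Fintype ι] [DecidableEq ι]

/-- The root subgroup of `e_i + e_j`. -/
def YD (l : SpecialLinearGroup ι K →* Γ) (σ : ι → ι → Γ) (i j : ι) : Subgroup Γ :=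
  US (fun k => (XL l i j).map (MulAut.conj (σ k j)).toMonoidHom) {k | k ≠ i ∧ k ≠ j}

/-- Subgroups of the radical. -/
def VD (l : SpecialLinearGroup ι K →* Γ) (σ : ι → ι → Γ) (S : Set (Sym2 ι)) : Subgroup Γ :=
  US (fun p : ι × ι => YD l σ p.1 p.2) {p | p.1 ≠ p.2 ∧ s(p.1, p.2) ∈ S}

/-- The extension of the torus by even sign changes. -/
def TD (H : Subgroup Γ) (σ : ι → ι → Γ) : Subgroup Γ :=
  H ⊔ closure {g | ∃ i j, i ≠ j ∧ g = σ i j}

variable {l : SpecialLinearGroup ι K →* Γ} {σ : ι → ι → Γ} {H : Subgroup Γ}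

theorem conj_mem_YD {i j k : ι} (h1 : k ≠ i) (h2 : k ≠ j) {x : Γ} (hx : x ∈ XL l i j) :
    σ k j * x * (σ k j)⁻¹ ∈ YD l σ i j :=
  mem_US (β := k) (show k ∈ {k | k ≠ i ∧ k ≠ j} from ⟨h1, h2⟩) ⟨x, hx, rfl⟩

theorem YD_le_VD {S : Set (Sym2 ι)} {i j : ι} (h : i ≠ j) (h' : s(i, j) ∈ S) :
    YD l σ i j ≤ VD l σ S :=
  le_US (X := fun p : ι × ι => YD l σ p.1 p.2) (β := (i, j))
    (show (i, j) ∈ {p : ι × ι | p.1 ≠ p.2 ∧ s(p.1, p.2) ∈ S} from ⟨h, h'⟩)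

theorem VD_le {S : Set (Sym2 ι)} {M : Subgroup Γ}
    (h : ∀ i j, i ≠ j → s(i, j) ∈ S → YD l σ i j ≤ M) : VD l σ S ≤ M :=
  US_le fun p hp => h p.1 p.2 hp.1 hp.2

theorem conj_mem_VD {S : Set (Sym2 ι)} {M : Subgroup Γ} {g : Γ}
    (h : ∀ i j, i ≠ j → s(i, j) ∈ S → ∀ x ∈ YD l σ i j, g * x * g⁻¹ ∈ M) {x : Γ}
    (hx : x ∈ VD l σ S) : g * x * g⁻¹ ∈ M :=
  VD_le (M := M.comap (MulAut.conj g).toMonoidHom) h hx

theorem σ_mem_TD {i j : ι} (h : i ≠ j) : σ i j ∈ TD H σ :=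
  mem_sup_right (subset_closure ⟨i, j, h, rfl⟩)

theorem TD_le {M : Subgroup Γ} (h1 : H ≤ M) (h2 : ∀ i j, i ≠ j → σ i j ∈ M) : TD H σ ≤ M :=
  sup_le h1 ((closure_le _).2 (by rintro _ ⟨i, j, h, rfl⟩; exact h2 i j h))

theorem conj_mem_of_eqv {M : Subgroup Γ} (hH : ∀ h ∈ H, ∀ x ∈ M, h * x * h⁻¹ ∈ M) {a b x : Γ}
    (h : a * b⁻¹ ∈ H) (hx : b * x * b⁻¹ ∈ M) : a * x * a⁻¹ ∈ M := by
  convert hH _ h _ hx using 1; group

/-- The basic relations of type `D`. -/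
structure DRel0 (l : SpecialLinearGroup ι K →* Γ) (H : Subgroup Γ) (σ : ι → ι → Γ) : Prop where
  diag : ∀ g, IsDiag g → l g ∈ H
  HX : ∀ h ∈ H, ∀ i j, i ≠ j → ∀ x ∈ XL l i j, h * x * h⁻¹ ∈ XL l i j
  monH : ∀ g, IsMon g → ∀ h ∈ H, l g * h * (l g)⁻¹ ∈ H
  σH : ∀ i j, i ≠ j → ∀ h ∈ H, σ i j * h * (σ i j)⁻¹ ∈ H
  σsq : ∀ i j, i ≠ j → σ i j * σ i j ∈ H
  σsym : ∀ i j, i ≠ j → σ i j * (σ j i)⁻¹ ∈ H
  σtr : ∀ i j k, i ≠ j → j ≠ k → i ≠ k → σ i j * σ j k * (σ i k)⁻¹ ∈ H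
  monσ : ∀ g τ c, g.1 = mon τ c → ∀ i j, i ≠ j → l g * σ i j * (l g)⁻¹ * (σ (τ i) (τ j))⁻¹ ∈ H
  σX : ∀ i j k m, i ≠ j → k ≠ m → k ≠ i → k ≠ j → m ≠ i → m ≠ j →
    ∀ x ∈ XL l i j, σ k m * x * (σ k m)⁻¹ ∈ XL l i j
  σsw : ∀ i j, i ≠ j → ∀ x ∈ XL l i j, σ i j * x * (σ i j)⁻¹ ∈ XL l j i

namespace DRel0

variable (R : DRel0 l H σ)
include R

theorem conj_inv {M M' : Subgroup Γ} (hH : ∀ h ∈ H, ∀ x ∈ M', h * x * h⁻¹ ∈ M') {i j : ι}
    (hij : i ≠ j) (h : ∀ x ∈ M, σ i j * x * (σ i j)⁻¹ ∈ M') {x : Γ} (hx : x ∈ M) :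
    (σ i j)⁻¹ * x * σ i j ∈ M' := by
  convert hH _ (inv_mem (R.σsq i j hij)) _ (h x hx) using 1; group

theorem σH' {i j : ι} (hij : i ≠ j) {h : Γ} (hh : h ∈ H) : (σ i j)⁻¹ * h * σ i j ∈ H :=
  R.conj_inv (fun _ hh _ hx => mul_mem (mul_mem hh hx) (inv_mem hh)) hij (R.σH i j hij) hh

theorem pair {m i j : ι} (h1 : m ≠ i) (h2 : m ≠ j) (h3 : i ≠ j) :
    σ m i * σ m j * (σ i j)⁻¹ ∈ H := by
  convert mul_mem (R.σsym m i h1) (R.σtr i m j h1.symm h2 h3) using 1; group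

theorem signs (m : ι) : Signs H fun k : {k // k ≠ m} => σ m k where
  wH k := R.σH m k k.2.symm
  ww k := R.σsq m k k.2.symm
  wc i j := by
    by_cases h : i = j
    · simp [h]
    have h' : i.1 ≠ j.1 := fun e => h (Subtype.ext e)
    convert mul_mem (mul_mem (R.pair i.2.symm j.2.symm h') (R.σsym _ _ h'))
      (inv_mem (R.pair j.2.symm i.2.symm h'.symm)) using 1
    group

theorem TD_le_TS (m : ι) : TD H σ ≤ TS H (fun k : {k // k ≠ m} => σ m k) Set.univ := by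
  have h1 : ∀ k, k ≠ m → σ m k ∈ TS H (fun k : {k // k ≠ m} => σ m k) Set.univ := fun k hk =>
    w_mem_TS (w := fun k : {k // k ≠ m} => σ m k) (i := ⟨k, hk⟩) trivial
  refine TD_le (H_le_TS _) fun i j hij => ?_
  by_cases hi : i = m
  · exact hi ▸ h1 j (hi ▸ hij.symm)
  by_cases hj : j = m
  · subst hj
    simpa using mul_mem (H_le_TS _ (R.σsym i j hij)) (h1 i hi)
  simpa [mul_assoc] using mul_mem (inv_mem (H_le_TS _ (R.pair (Ne.symm hi) (Ne.symm hj) hij)))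
    (mul_mem (h1 i hi) (h1 j hj))

theorem H_conj {i j k m : ι} (hij : i ≠ j) (hkm : k ≠ m) {h : Γ} (hh : h ∈ H) {y : Γ}
    (hy : y ∈ (XL l i j).map (MulAut.conj (σ k m)).toMonoidHom) :
    h * y * h⁻¹ ∈ (XL l i j).map (MulAut.conj (σ k m)).toMonoidHom := by
  obtain ⟨x, hx, rfl⟩ := hy
  exact ⟨_, R.HX _ (R.σH' hkm hh) i j hij x hx, by simp [mul_assoc]⟩

theorem of_YD {i j k : ι} (hij : i ≠ j) (h1 : k ≠ i) (h2 : k ≠ j) {y : Γ} (hy : y ∈ YD l σ i j) :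
    ∃ x ∈ XL l i j, σ k j * x * (σ k j)⁻¹ = y := by
  refine US_le (K := (XL l i j).map (MulAut.conj (σ k j)).toMonoidHom) ?_ hy
  rintro m ⟨h3, h4⟩ _ ⟨x, hx, rfl⟩
  by_cases h : m = k
  · exact ⟨x, hx, by rw [h]⟩
  refine conj_mem_of_eqv (b := σ k j * σ k m) (fun _ hh _ => R.H_conj hij h2 hh) ?_
    ⟨_, R.σX i j k m hij (Ne.symm h) h1 h2 h3 h4 x hx, by simp [mul_assoc]⟩
  exact mul_mem (R.σsym m j h4) (inv_mem (R.pair h2 (Ne.symm h) h4.symm)) |> fun h => by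
    convert h using 1; group

theorem of_YD' {i j k : ι} (hij : i ≠ j) (h1 : k ≠ i) (h2 : k ≠ j) {y : Γ} (hy : y ∈ YD l σ i j) :
    ∃ x ∈ XL l i j, σ j k * x * (σ j k)⁻¹ = y := by
  obtain ⟨x, hx, rfl⟩ := R.of_YD hij h1 h2 hy
  exact conj_mem_of_eqv (M := (XL l i j).map (MulAut.conj (σ j k)).toMonoidHom)
    (fun _ hh _ => R.H_conj hij h2.symm hh) (R.σsym k j h2) ⟨x, hx, rfl⟩

theorem HY {h : Γ} (hh : h ∈ H) {i j : ι} (hij : i ≠ j) {y : Γ} (hy : y ∈ YD l σ i j) :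
    h * y * h⁻¹ ∈ YD l σ i j :=
  conj_mem_of_US (fun k hk _ hx => mem_US hk (R.H_conj hij hk.2 hh hx)) hy

theorem conj_mem_YD' {i j k : ι} (hij : i ≠ j) (h1 : k ≠ i) (h2 : k ≠ j) {x : Γ}
    (hx : x ∈ XL l i j) : σ j k * x * (σ j k)⁻¹ ∈ YD l σ i j :=
  conj_mem_of_eqv (fun _ hh _ => R.HY hh hij) (R.σsym j k h2.symm) (conj_mem_YD h1 h2 hx)

theorem YD_symm {i j : ι} (hij : i ≠ j) {y : Γ} (hy : y ∈ YD l σ i j) : y ∈ YD l σ j i := by
  refine US_le (K := YD l σ j i) ?_ hy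
  rintro k ⟨h1, h2⟩ _ ⟨x, hx, rfl⟩
  refine conj_mem_of_eqv (b := σ k i * σ i j) (fun _ hh _ => R.HY hh hij.symm)
    (by simpa [mul_assoc] using inv_mem (R.σtr k i j h1 hij h2)) ?_
  convert conj_mem_YD (σ := σ) h2 h1 (R.σsw i j hij x hx) using 1; group

theorem monY {g : SpecialLinearGroup ι K} {τ : Perm ι} {c : ι → K} (hg : g.1 = mon τ c)
    {i j : ι} (hij : i ≠ j) {y : Γ} (hy : y ∈ YD l σ i j) :
    l g * y * (l g)⁻¹ ∈ YD l σ (τ i) (τ j) := by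
  refine conj_mem_of_US ?_ hy
  rintro k ⟨h1, h2⟩ _ ⟨x, hx, rfl⟩
  convert R.HY (R.monσ g τ c hg k j h2) (τ.injective.ne hij)
    (conj_mem_YD (τ.injective.ne h1) (τ.injective.ne h2) (mon_conj_XL hg hij hx)) using 1
  simp [mul_assoc]

theorem monY' {g : SpecialLinearGroup ι K} {τ : Perm ι} {c : ι → K} (hg : g.1 = mon τ c)
    {i j : ι} (h : i ≠ j) {x : Γ} (hx : x ∈ YD l σ (τ i) (τ j)) :
    ∃ y ∈ YD l σ i j, x = l g * y * (l g)⁻¹ :=
  ⟨_, by simpa using R.monY (inv_mon hg) (τ.injective.ne h) hx, by simp [mul_assoc]⟩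

theorem σX' {i j k m : ι} (hij : i ≠ j) (hkm : k ≠ m) (h1 : k ≠ i) (h2 : k ≠ j) (h3 : m ≠ i)
    (h4 : m ≠ j) {x : Γ} (hx : x ∈ XL l i j) : ∃ y ∈ XL l i j, σ k m * y * (σ k m)⁻¹ = x :=
  ⟨_, R.conj_inv (fun h hh => R.HX h hh i j hij) hkm (R.σX i j k m hij hkm h1 h2 h3 h4) hx, by
    simp [mul_assoc]⟩

theorem YY {i j k m : ι} (h1 : i ≠ j) (h2 : k ≠ m) (h3 : j ≠ k) (h4 : i ≠ m) (h5 : j ≠ m) {x y : Γ}
    (hx : x ∈ YD l σ i j) (hy : y ∈ YD l σ k m) : Commute x y := by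
  obtain ⟨a, ha, rfl⟩ := R.of_YD h1 h4.symm h5.symm hx
  obtain ⟨b, hb, rfl⟩ := R.of_YD' h2 h3 h5 hy
  exact commute_conj (XL_comm h1 h2 h4 h3 ha hb) _

theorem YY' (h3 : 3 ≤ Fintype.card ι) {i j k m : ι} (h1 : i ≠ j) (h2 : k ≠ m) {x y : Γ}
    (hx : x ∈ YD l σ i j) (hy : y ∈ YD l σ k m) : Commute x y := by
  have same : ∀ {y}, y ∈ YD l σ i j → Commute x y := fun hy => by
    obtain ⟨r, r1, r2⟩ := exists_third h3 i j
    obtain ⟨a, ha, rfl⟩ := R.of_YD h1 r1 r2 hx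
    obtain ⟨b, hb, rfl⟩ := R.of_YD h1 r1 r2 hy
    exact commute_conj (XL_comm h1 h1 h1 h1.symm ha hb) _
  by_cases a1 : i = k
  · subst a1
    by_cases a2 : j = m
    · subst a2; exact same hy
    · exact R.YY h1 h2 h1.symm h2 a2 hx hy
  by_cases a2 : i = m
  · subst a2
    by_cases a3 : j = k
    · subst a3; exact same (R.YD_symm h2 hy)
    · exact R.YY h1 h2.symm h1.symm a1 a3 hx (R.YD_symm h2 hy)
  by_cases a3 : j = k
  · subst a3
    exact R.YY h1.symm h2 h1 h2 a2 (R.YD_symm h1 hx) hy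
  by_cases a4 : j = m
  · subst a4
    exact R.YY h1.symm h2.symm h1 a3 a1 (R.YD_symm h1 hx) (R.YD_symm h2 hy)
  exact R.YY h1 h2 a3 a2 a4 hx hy

theorem YV (h3 : 3 ≤ Fintype.card ι) {i j : ι} (h1 : i ≠ j) {x v : Γ} (hx : x ∈ YD l σ i j)
    {S : Set (Sym2 ι)} (hv : v ∈ VD l σ S) : Commute x v :=
  mem_centralizer_singleton_iff.1 (VD_le (M := centralizer {x})
    (fun _ _ hij _ _ hy => mem_centralizer_singleton_iff.2 (R.YY' h3 hij h1 hy hx)) hv) |>.symm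

theorem xy_five {i j k m r : ι} (hij : i ≠ j) (hkm : k ≠ m) (h1 : j ≠ k) (h2 : m ≠ i) (h3 : m ≠ j)
    (r1 : r ≠ i) (r2 : r ≠ j) (r3 : r ≠ k) (r4 : r ≠ m) {x y : Γ} (hx : x ∈ XL l i j)
    (hy : y ∈ YD l σ k m) : Commute x y := by
  obtain ⟨a, ha, rfl⟩ := R.σX' hij r4 r1 r2 h2 h3 hx
  obtain ⟨b, hb, rfl⟩ := R.of_YD hkm r3 r4 hy
  exact commute_conj (XL_comm hij hkm h2.symm h1 ha hb) _

theorem xy_cmt (h4 : 4 ≤ Fintype.card ι) {i j m : ι} (hij : i ≠ j) (hjm : j ≠ m) (him : i ≠ m)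
    {x y : Γ} (hx : x ∈ XL l i j) (hy : y ∈ YD l σ j m) : x * y * x⁻¹ * y⁻¹ ∈ YD l σ i m := by
  obtain ⟨r, r1, r2, r3⟩ := exists_fourth h4 i j m
  obtain ⟨a, ha, rfl⟩ := R.σX' hij r3 r1 r2 him.symm hjm.symm hx
  obtain ⟨b, hb, rfl⟩ := R.of_YD hjm r2 r3 hy
  convert conj_mem_YD (σ := σ) r1 r3 (XL_cmt hij hjm him ha hb) using 1; group

/-- Injectivity on the abelian radical. -/
theorem inj_V (h3 : 3 ≤ Fintype.card ι) {G : Type*} [Group G] (φ : Γ →* G)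
    (E : ι → ι → Subgroup G)
    (e3 : ∀ i j k m, k ≠ m → s(i, j) ≠ s(k, m) → ∀ y ∈ YD l σ k m, φ y ∈ E i j)
    (e4 : ∀ i j, i ≠ j → ∀ y ∈ YD l σ i j, φ y ∈ E i j → y = 1) {v : Γ}
    (hv : v ∈ VD l σ Set.univ) (h1 : φ v = 1) : v = 1 := by
  obtain ⟨Z, z1, z2⟩ : ∃ Z : Sym2 ι → Subgroup Γ, (∀ i, Z s(i, i) = ⊥) ∧
      ∀ i j, i ≠ j → Z s(i, j) = YD l σ i j := by
    refine ⟨Sym2.lift ⟨fun i j => if i = j then ⊥ else YD l σ i j, fun i j => ?_⟩,
      by simp, fun i j h => by simp [h]⟩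
    by_cases h : i = j
    · simp [h]
    · simp only [h, Ne.symm h, if_false]
      exact le_antisymm (fun _ => R.YD_symm h) fun _ => R.YD_symm (Ne.symm h)
  have z4 : ∀ β, Z β ≤ VD l σ Set.univ := fun β => by
    induction β with | h i j =>
    by_cases h : i = j
    · rw [h, z1]; exact bot_le
    · rw [z2 i j h]; exact YD_le_VD h trivial
  refine inj_US (X := Z) (fun _ => 1) φ (fun β γ _ _ _ x hx y hy => ?_)
    (fun β _ x hx u hu e => ?_) (VD_le (fun i j h _ => z2 i j h ▸ le_US (by simp)) hv) h1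
  · induction β with | h i j =>
    by_cases h : i = j
    · rw [h, z1, mem_bot] at hx; simp [hx]
    rw [conj_eq_of_commute (R.YV h3 h (z2 i j h ▸ hx) (z4 γ hy)), mul_inv_cancel]; exact one_mem _
  induction β with | h i j =>
  have h2 : φ u ∈ E i j := by
    refine US_le (K := (E i j).comap φ) (fun γ hγ => ?_) hu
    induction γ with | h k m =>
    by_cases h : k = m
    · rw [h, z1]; exact bot_le
    · rw [z2 k m h]; exact e3 i j k m h hγ.1.symm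
  have h3 : φ x ∈ E i j := by
    rw [map_mul, mul_eq_one_iff_inv_eq] at e
    exact e ▸ inv_mem h2
  by_cases h : i = j
  · rw [h, z1, mem_bot] at hx; simp [hx]
  · rw [e4 i j h x (z2 i j h ▸ hx) h3]; exact one_mem _

end DRel0

/-- The relations of type `D`. -/
structure DRel (l : SpecialLinearGroup ι K →* Γ) (H : Subgroup Γ) (σ : ι → ι → Γ) : Prop
    extends DRel0 l H σ where
  four : 4 ≤ Fintype.card ι
  xy : ∀ i j, i ≠ j → ∀ x ∈ XL l i j, ∀ y ∈ YD l σ i j, Commute x y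
  xy4 : ∀ i j k m, i ≠ j → k ≠ m → k ≠ i → k ≠ j → m ≠ i → m ≠ j →
    ∀ x ∈ XL l i j, ∀ y ∈ YD l σ k m, Commute x y

theorem DRel.XY (R : DRel l H σ) {i j k m : ι} (hij : i ≠ j) (hkm : k ≠ m) {x y : Γ}
    (hx : x ∈ XL l i j) (hy : y ∈ YD l σ k m) : x * y * x⁻¹ * y⁻¹ ∈
      VD l σ {p | i ∈ p ∧ i ≠ k ∧ i ≠ m} := by
  have key : ∀ {k m}, k ≠ m → m ≠ i → m ≠ j → y ∈ YD l σ k m → x * y * x⁻¹ * y⁻¹ ∈
      VD l σ {p | i ∈ p ∧ i ≠ k ∧ i ≠ m} := by
    intro k m hkm h1 h2 hy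
    by_cases a1 : k = j
    · subst a1
      exact YD_le_VD h1.symm (Set.mem_ofPred.2 ⟨Sym2.mem_mk_left _ _, hij, h1.symm⟩)
        (R.toDRel0.xy_cmt R.four hij hkm h1.symm hx hy)
    have : Commute x y := by
      by_cases a2 : k = i
      · obtain ⟨r, r1, r2, r3⟩ := exists_fourth R.four i j m
        exact R.toDRel0.xy_five hij hkm (Ne.symm a1) h1 h2 r1 r2 (a2 ▸ r1) r3 hx hy
      · exact R.xy4 i j k m hij hkm a2 a1 h1 h2 x hx y hy
    rw [conj_eq_of_commute this, mul_inv_cancel]; exact one_mem _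
  have same : y ∈ YD l σ i j → ∀ S, x * y * x⁻¹ * y⁻¹ ∈ VD l σ S := fun hy S => by
    rw [conj_eq_of_commute (R.xy i j hij x hx y hy), mul_inv_cancel]; exact one_mem _
  have hy' := R.toDRel0.YD_symm hkm hy
  have sw : ∀ {u}, u ∈ VD l σ {p | i ∈ p ∧ i ≠ m ∧ i ≠ k} → u ∈ VD l σ {p | i ∈ p ∧ i ≠ k ∧ i ≠ m} :=
    fun h => by simpa only [and_comm (a := i ≠ m)] using h
  by_cases a1 : m = i
  · subst a1
    by_cases a2 : k = j
    · subst a2; exact same hy' _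
    · exact sw (key hkm.symm hkm a2 hy')
  by_cases a2 : m = j
  · subst a2
    by_cases a3 : k = i
    · subst a3; exact same hy _
    · exact sw (key hkm.symm a3 hkm hy')
  exact key hkm a1 a2 hy

theorem VD_mono {S T : Set (Sym2 ι)} (h : S ⊆ T) : VD l σ S ≤ VD l σ T :=
  VD_le fun _ _ hij hS => YD_le_VD hij (h hS)

end

variable {n : ℕ} {l : SpecialLinearGroup (Fin (n + 2)) K →* Γ} {H : Subgroup Γ}
  {σ : Fin (n + 2) → Fin (n + 2) → Γ}

theorem DRel.TX (R : DRel l H σ) {t : Γ} (ht₀ : t ∈ TD H σ) {i j : Fin (n + 2)} (hij : i ≠ j) :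
    (∀ x ∈ XL l i j, t * x * t⁻¹ ∈ VD l σ Set.univ ⊔ UL l) ∨
      ∀ x ∈ XL l j i, t * x * t⁻¹ ∈ VD l σ Set.univ ⊔ UL l := by
  obtain ⟨m, m1, m2⟩ := exists_third (le_trans (by norm_num) R.four) i j
  have S := R.toDRel0.signs m
  replace ht₀ := R.toDRel0.TD_le_TS m ht₀
  let i' : {k // k ≠ m} := ⟨i, m1.symm⟩
  let j' : {k // k ≠ m} := ⟨j, m2.symm⟩
  have e : (Set.univ : Set {k // k ≠ m}) = insert i' (insert j' {i', j'}ᶜ) := by
    ext k; by_cases h1 : k = i' <;> by_cases h2 : k = j' <;> simp [h1, h2]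
  have hk : ∀ k ∈ ({i', j'}ᶜ : Set {k // k ≠ m}), k.1 ≠ i ∧ k.1 ≠ j := fun k hk => by
    simpa [i', j', Subtype.ext_iff] using hk
  have k1 : ∀ t ∈ TS H (fun k : {k // k ≠ m} => σ m k) {i', j'}ᶜ, ∀ x ∈ XL l i j,
      t * x * t⁻¹ ∈ XL l i j := fun t ht x hx => S.conj_of_TS (fun h hh => R.HX h hh i j hij)
    (fun k h => R.σX i j m k hij k.2.symm m1 m2 (hk k h).1 (hk k h).2) ht hx
  have k2 : ∀ t ∈ TS H (fun k : {k // k ≠ m} => σ m k) {i', j'}ᶜ, ∀ x ∈ XL l j i,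
      t * x * t⁻¹ ∈ XL l j i := fun t ht x hx => S.conj_of_TS (fun h hh => R.HX h hh j i hij.symm)
    (fun k h => R.σX j i m k hij.symm k.2.symm m2 m1 (hk k h).2 (hk k h).1) ht hx
  rw [e] at ht₀
  rcases S.split ht₀ with ht₁ | ⟨t₁, ht₁, rfl⟩ <;> rcases S.split ht₁ with ht | ⟨t₂, ht, rfl⟩
  · rcases lt_or_gt_of_ne hij with h | h
    · exact Or.inl fun x hx => mem_sup_right (XL_le_UL h (k1 _ ht x hx))
    · exact Or.inr fun x hx => mem_sup_right (XL_le_UL h (k2 _ ht x hx))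
  · refine Or.inl fun x hx => mem_sup_left (YD_le_VD hij (Set.mem_univ _) ?_)
    convert conj_mem_YD (σ := σ) m1 m2 (k1 _ ht x hx) using 1; simp [j', mul_assoc]
  · refine Or.inr fun x hx => mem_sup_left (YD_le_VD hij.symm (Set.mem_univ _) ?_)
    convert conj_mem_YD (σ := σ) m2 m1 (k2 _ ht x hx) using 1; simp [i', mul_assoc]
  · have p := R.toDRel0.pair m1 m2 hij
    rcases lt_or_gt_of_ne hij with h | h
    · refine Or.inr fun x hx => mem_sup_right (XL_le_UL h ?_)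
      have p' : σ m i * σ m j * (σ j i)⁻¹ ∈ H := by
        convert mul_mem p (R.σsym i j hij) using 1; group
      convert conj_mem_of_eqv (fun h hh => R.HX h hh i j hij) p' (R.σsw j i hij.symm _
        (k2 _ ht x hx)) using 1
      simp [i', j', mul_assoc]
    · refine Or.inl fun x hx => mem_sup_right (XL_le_UL h ?_)
      convert conj_mem_of_eqv (fun h hh => R.HX h hh j i hij.symm) p (R.σsw i j hij _
        (k1 _ ht x hx)) using 1
      simp [i', j', mul_assoc]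

theorem DRel.LV [Finite K] (R : DRel l H σ) (g : SpecialLinearGroup (Fin (n + 2)) K) {v : Γ}
    (hv : v ∈ VD l σ Set.univ) : l g * v * (l g)⁻¹ ∈ VD l σ Set.univ := by
  have key : ∀ i j, i ≠ j → ∀ x ∈ XL l i j, ∀ v ∈ VD l σ Set.univ,
      x * v * x⁻¹ ∈ VD l σ Set.univ := fun i j hij x hx v hv =>
    conj_mem_VD (fun k m hkm _ y hy => by
      have := mul_mem (VD_mono (Set.subset_univ _) (R.XY hij hkm hx hy))
        (YD_le_VD hkm (Set.mem_univ _) hy)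
      rwa [inv_mul_cancel_right] at this) hv
  have := eq_top_of_tvE ((normalizer (VD l σ Set.univ : Set Γ)).comap l) fun i j hij a =>
    mem_normalizer_iff.2 fun x => ⟨key i j hij _ (tv_mem_XL i j a) x, fun hx => by
      simpa [mul_assoc] using key i j hij _ (inv_mem (tv_mem_XL i j a)) _ hx⟩
  exact (mem_normalizer_iff.1 (this ▸ mem_top g : g ∈ comap l _) v).1 hv

theorem DRel.siegel [Finite K] (R : DRel l H σ)
    (gen : ∀ M : Subgroup Γ, l.range ≤ M → H ≤ M → (∀ i j, i ≠ j → σ i j ∈ M) → M = ⊤)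
    {a b c : Fin (n + 2)} (ha : a = (Fin.last n).castSucc) (hb : b = Fin.last _) (ca : c ≠ a)
    (cb : c ≠ b) : Siegel l H (VD l σ Set.univ) (TD H σ) (YD l σ a b)
      (σ c b * l (wE tvE a b 1) * (σ c b)⁻¹) := by
  have ab : a ≠ b := ha ▸ hb ▸ Fin.castSucc_ne_last _
  have R0 := R.toDRel0
  have hw := wE_tvE_coe (F := K) ab one_ne_zero
  have lb : ∀ {i}, i ≠ b → i < b := fun h => hb ▸ Fin.lt_last_iff_ne_last.2 (hb ▸ h)
  have la : ∀ {i}, i ≠ a → i ≠ b → i < a := fun {i} h h' => by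
    have := lb h'
    rw [ha, hb] at *
    rw [Fin.lt_def] at *
    have : i.1 ≠ n := fun e => h (Fin.ext e)
    simp at *; omega
  have hs : σ c b * l (wE tvE a b 1) * (σ c b)⁻¹ * (σ a b * l (wE tvE a b 1))⁻¹ ∈ H := by
    have h1 := R.monσ _ _ _ hw c b cb
    rw [swap_apply_right, swap_apply_of_ne_of_ne ca cb] at h1
    convert mul_mem (mul_mem (R0.pair cb ca ab.symm) (R.σH b a ab.symm _
      (mul_mem (inv_mem (R.σsq c a ca)) (inv_mem h1)))) (R.σsym b a ab.symm) using 1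
    group
  have HV : ∀ h ∈ H, ∀ v ∈ VD l σ Set.univ, h * v * h⁻¹ ∈ VD l σ Set.univ := fun h hh v hv =>
    conj_mem_VD (fun i j hij _ y hy => YD_le_VD hij (Set.mem_univ _) (R0.HY hh hij hy)) hv
  have monT : ∀ g, IsMon g → ∀ t ∈ TD H σ, l g * t * (l g)⁻¹ ∈ TD H σ := fun g hg t ht =>
    TD_le (M := (TD H σ).comap (MulAut.conj (l g)).toMonoidHom)
      (fun h hh => mem_sup_left (R.monH g hg h hh)) (fun i j hij => by
        obtain ⟨τ, d, hg⟩ := hg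
        have := mul_mem (mem_sup_left (R.monσ g τ d hg i j hij) : _ ∈ TD H σ)
          (σ_mem_TD (τ.injective.ne hij))
        rwa [inv_mul_cancel_right] at this) ht
  refine ⟨le_sup_left, fun g d hg => R.diag g ⟨d, hg⟩, R.HX, HV, fun h hh _ => R0.HY hh ab,
    fun g _ => R.LV g, YD_le_VD ab (Set.mem_univ _), monT,
    ⟨_, mul_mem (σ_mem_TD cb) (monT _ ⟨_, _, hw⟩ _ (inv_mem (σ_mem_TD cb))), _, ⟨_, _, hw⟩, by
      group⟩, ?_, fun u hu => ?_, fun x hx h1 => ?_, fun t ht i j => R.TX ht,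
    fun t ht g hg => ?_, fun M h1 _ h3 h4 => gen M h1 h3 fun i j hij => ?_⟩
  · convert R.σH c b cb _ (R.diag _ (wE_tvE_sq ab)) using 1
    rw [map_mul]; group
  · have h1 : VD l σ Set.univ ⊔ UL l ≤ VD l σ {s(a, b)}ᶜ ⊔ UL l ⊔ YD l σ a b := by
      refine sup_le (VD_le fun i j hij _ => ?_) (le_sup_right.trans le_sup_left)
      by_cases h : s(i, j) = s(a, b)
      · rcases Sym2.eq_iff.1 h with ⟨rfl, rfl⟩ | ⟨rfl, rfl⟩
        · exact le_sup_right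
        · exact fun _ hy => mem_sup_right (R0.YD_symm hij hy)
      · exact ((YD_le_VD hij h).trans le_sup_left).trans le_sup_left
    obtain ⟨u', hu', x, hx, rfl⟩ := exists_mul_of_conj (A := YD l σ a b)
      (K := VD l σ {s(a, b)}ᶜ ⊔ UL l) (fun y hy k hk => conj_mem_sup
        (fun v hv => by
          rw [conj_eq_of_commute (R0.YV (le_trans (by norm_num) R.four) ab hy hv)]
          exact mem_sup_left hv)
        (fun v hv => conj_mem_UL (fun i j hij x hx => by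
          have h2 : {p : Sym2 (Fin (n + 2)) | i ∈ p ∧ i ≠ a ∧ i ≠ b} ⊆ {s(a, b)}ᶜ := by
            rintro _ ⟨h1, h2, h3⟩ rfl
            exact (Sym2.mem_iff.1 h1).elim h2 h3
          have := mul_mem (mem_sup_left (T := UL l) (inv_mem (VD_mono h2 (R.XY hij.ne ab hx hy))))
            (mem_sup_right (XL_le_UL hij hx))
          simpa [mul_assoc] using this) hv) hk) (h1 hu)
    refine ⟨u', conj_mem_of_eqv (fun h hh y hy => conj_mem_sup (fun v hv => mem_sup_left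
      (HV h hh v hv)) (fun v hv => conj_mem_UL (fun i j hij x hx => mem_sup_right
        (XL_le_UL hij (R.HX h hh i j hij.ne x hx))) hv) hy) hs ?_, x, hx, rfl⟩
    have e : ∀ y, σ a b * l (wE tvE a b 1) * y * (σ a b * l (wE tvE a b 1))⁻¹ =
        σ a b * (l (wE tvE a b 1) * y * (l (wE tvE a b 1))⁻¹) * (σ a b)⁻¹ := fun y => by group
    have key : ∀ i j, i ≠ j → i ≠ a → i ≠ b → ∀ y ∈ YD l σ i j,
        σ a b * y * (σ a b)⁻¹ ∈ VD l σ Set.univ ⊔ UL l := by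
      intro i j hij ia ib y hy
      by_cases jb : j = b
      · subst jb
        obtain ⟨z, hz, rfl⟩ := R0.of_YD hij ia.symm ab hy
        refine mem_sup_right (XL_le_UL (lb ib) ?_)
        convert R.HX _ (R.σsq a j ab) i j hij z hz using 1; group
      by_cases ja : j = a
      · subst ja
        obtain ⟨z, hz, rfl⟩ := R0.of_YD' hij ib.symm ab.symm hy
        refine mem_sup_right (XL_le_UL (la ia ib) ?_)
        convert R.HX _ (R.σsq j b ab) i j hij z hz using 1; group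
      obtain ⟨z, hz, rfl⟩ := R0.of_YD hij ib.symm (Ne.symm jb) hy
      refine mem_sup_left (YD_le_VD hij (Set.mem_univ _) ?_)
      convert conj_mem_of_eqv (fun h hh _ => R0.HY hh hij) (R.σtr a b j ab (Ne.symm jb) (Ne.symm ja))
        (conj_mem_YD ia.symm (Ne.symm ja) hz) using 1
      group
    refine conj_mem_sup (fun v hv => conj_mem_VD (fun i j hij h y hy => ?_) hv)
      (fun v hv => conj_mem_UL (fun i j hij y hy => ?_) hv) hu'
    · rw [e]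
      replace hy := R0.monY hw hij hy
      replace hij := (swap a b).injective.ne hij
      replace h : s(swap a b i, swap a b j) ≠ s(a, b) := fun e => h (by
        simp only [Sym2.eq_iff, swap_apply_eq_iff, swap_apply_left, swap_apply_right] at e
        simpa [or_comm] using e)
      generalize swap a b i = i at *
      generalize swap a b j = j at *
      by_cases h1 : i ≠ a ∧ i ≠ b
      · exact key i j hij h1.1 h1.2 _ hy
      refine key j i hij.symm ?_ ?_ _ (R0.YD_symm hij hy) <;> rintro rfl <;>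
        simp_all [Sym2.eq_swap]
    · rw [e]
      replace hy := mon_conj_XL hw hij.ne hy
      by_cases ia : i = a
      · subst ia
        obtain rfl : j = b := by
          by_contra h
          exact lt_asymm hij (la hij.ne' h)
        rw [swap_apply_left, swap_apply_right] at hy
        exact mem_sup_right (XL_le_UL hij (conj_mem_of_eqv (fun h hh => R.HX h hh _ _ ab)
          (R.σsym _ _ ab) (R.σsw _ _ ab.symm _ hy)))
      have ib : i ≠ b := fun e => lt_asymm hij (e ▸ lb (e ▸ hij.ne'))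
      rw [swap_apply_of_ne_of_ne ia ib] at hy
      by_cases ja : j = a
      · rw [ja, swap_apply_left] at hy
        exact mem_sup_left (YD_le_VD ib (Set.mem_univ _) (conj_mem_YD (Ne.symm ia) ab hy))
      by_cases jb : j = b
      · rw [jb, swap_apply_right] at hy
        exact mem_sup_left (YD_le_VD ia (Set.mem_univ _) (R0.conj_mem_YD' ia ib.symm ab.symm hy))
      rw [swap_apply_of_ne_of_ne ja jb] at hy
      exact mem_sup_right (XL_le_UL hij (R.σX i j a b hij.ne ab (Ne.symm ia) (Ne.symm ja) ib.symm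
        (Ne.symm jb) _ hy))
  · obtain ⟨_, ⟨t, rfl⟩, rfl⟩ := R0.of_YD ab ca cb hx
    have ht : t ≠ 0 := by rintro rfl; exact h1 (by simp [stSL_tvE.zero ab])
    refine ⟨_, conj_mem_YD ca cb (tv_mem_XL _ _ (-t⁻¹)), _, R.σH c b cb _ (R.diag _
      (isDiag_hE ab (inv_ne_zero ht))), _, conj_mem_YD ca cb (tv_mem_XL _ _ (-t⁻¹)), ?_⟩
    have := congrArg (fun x => σ c b * l x * (σ c b)⁻¹) (tvE_bruhat ab ht)
    simpa [mul_assoc] using this
  · obtain ⟨τ, d, hg⟩ := hg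
    refine (R.TX (mul_mem ht (monT g ⟨_, _, hg⟩ _ (σ_mem_TD cb))) (τ.injective.ne ab)).imp
      (fun h x hx => ?_) fun h x hx => ?_ <;> obtain ⟨y, hy, rfl⟩ := R0.of_YD ab ca cb hx
    · convert h _ (mon_conj_XL hg ab hy) using 1; group
    · have := mon_conj_XL hw ab hy
      rw [swap_apply_left, swap_apply_right] at this
      convert h _ (mon_conj_XL hg ab.symm this) using 1; group
  · have h5 : σ a b ∈ M := by
      simpa [mul_assoc] using mul_mem (mul_mem (inv_mem (h3 hs)) h4)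
        (inv_mem (h1 ⟨wE tvE a b 1, rfl⟩))
    obtain ⟨g, τ, d, hg, rfl, rfl⟩ := exists_mon_pair (K := K) ab hij
    have h6 : l g ∈ M := h1 ⟨g, rfl⟩
    simpa [mul_assoc] using mul_mem (inv_mem (h3 (R.monσ g τ d hg a b ab)))
      (mul_mem (mul_mem h6 h5) (inv_mem h6))

/-- The injectivity criterion in type `D`. -/
theorem DRel.injective [Finite K] (R : DRel l H σ)
    (gen : ∀ M : Subgroup Γ, l.range ≤ M → H ≤ M → (∀ i j, i ≠ j → σ i j ∈ M) → M = ⊤)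
    {G : Type*} [Group G] (φ : Γ →* G) (D : Fin (n + 2) → Subgroup G) (P U : Subgroup G)
    (E : Fin (n + 2) → Fin (n + 2) → Subgroup G) (UP : U ≤ P)
    (u : ∀ i j, i ≠ j → ∀ y ∈ YD l σ i j, φ y ∈ U)
    (p : ∀ x ∈ l.range ⊔ H, φ x ∈ P ∧ (φ x ∈ U → x = 1))
    (d1 : ∀ j, ∀ h ∈ H, φ h ∈ D j) (d2 : ∀ i k j, i ≠ k → i ≠ j → k ≠ j → φ (σ i k) ∈ D j)
    (d3 : ∀ i j, i ≠ j → ∀ d ∈ D j, φ (σ i j) * d ∉ P)
    (e3 : ∀ i j k m, k ≠ m → s(i, j) ≠ s(k, m) → ∀ y ∈ YD l σ k m, φ y ∈ E i j)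
    (e4 : ∀ i j, i ≠ j → ∀ y ∈ YD l σ i j, φ y ∈ E i j → y = 1) : Function.Injective φ := by
  have h3 : 3 ≤ Fintype.card (Fin (n + 2)) := le_trans (by norm_num) R.four
  obtain ⟨c, ca, cb⟩ := exists_third h3 (Fin.last n).castSucc (Fin.last _)
  have S := R.siegel gen rfl rfl ca cb
  have h0 : ∀ x ∈ VD l σ Set.univ ⊔ l.range ⊔ H, φ x ∈ P ∧ (φ x = 1 → x = 1) := fun x hx => by
    rw [sup_assoc] at hx
    have hN : l.range ⊔ H ≤ normalizer (VD l σ Set.univ : Set Γ) := sup_le (by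
      rintro _ ⟨g, rfl⟩
      exact mem_normalizer_iff.2 fun x => ⟨S.LV g x, fun hx => by
        simpa [mul_assoc] using S.LV g⁻¹ _ hx⟩) fun h hh =>
      mem_normalizer_iff.2 fun x => ⟨S.HV h hh x, fun hx => by
        simpa [mul_assoc] using S.HV _ (inv_mem hh) _ hx⟩
    obtain ⟨v, hv, y, hy, rfl⟩ := exists_mul_of_conj
      (fun a ha v hv => (mem_normalizer_iff.1 (hN ha) v).1 hv) hx
    have hU : φ v ∈ U := VD_le (M := U.comap φ) (fun i j h _ => u i j h) hv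
    refine ⟨map_mul φ _ _ ▸ mul_mem (UP hU) (p y hy).1, fun e => ?_⟩
    have e' := e
    rw [map_mul, mul_eq_one_iff_inv_eq] at e'
    obtain rfl := (p y hy).2 (e' ▸ inv_mem hU)
    rw [mul_one] at e ⊢
    exact R.toDRel0.inj_V h3 φ E e3 e4 hv e
  exact S.injective φ (fun p hp => (h0 p hp).2) fun _ ht p hp e =>
    (R.toDRel0.signs c).mem_H φ (fun j => D j) P (fun j => d1 j)
      (fun i j h => d2 c i j i.2.symm j.2.symm fun e => h (Subtype.ext e))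
      (fun j => d3 c j j.2.symm) (R.toDRel0.TD_le_TS c ht) (e ▸ (h0 p hp).1)

end Cfsg.Agent.KSG.BN
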