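import Mathlib
import Cfsg.Agent.KSG.PresD
import Cfsg.Agent.KSG.PresSp1

/-!
Finitely many relations which imply the relations of type `D_n`.
-/

set_option autoImplicit false
set_option linter.unusedSectionVars false

namespace Cfsg.Agent.KSG.BN

open Matrix Equiv Subgroup

variable {F Γ : Type*} [Field F] [Group Γ] {ι : Type*} [Fintype ι] [DecidableEq ι]

theorem dcj_mon (d : ι → F) (hd : ∀ i, d i ≠ 0) {g : SpecialLinearGroup ι F} {σ : Perm ι}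
    {c : ι → F} (hg : g.1 = mon σ c) : (dcj d hd g).1 = mon σ fun j => d (σ j) * c j / d j := by
  change diagonal d * g.1 * (diagonal fun i => (d i)⁻¹) = _
  rw [hg, ← mon_one, ← mon_one, mon_mul_mon, mon_mul_mon]
  simp [div_eq_mul_inv]

theorem IsDiag.dcj_eq (d : ι → F) (hd : ∀ i, d i ≠ 0) {g : SpecialLinearGroup ι F}
    (hg : IsDiag g) : dcj d hd g = g := by
  obtain ⟨c, hc⟩ := hg.mon
  exact Subtype.ext (by rw [dcj_mon d hd hc, hc]; simp [hd])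

theorem act_eq_dcj [Finite F] {l : SpecialLinearGroup ι F →* Γ} {h : Γ} {d : ι → F}
    (hA : Act (fun i j a => l (tvE i j a)) h 1 d) (g : SpecialLinearGroup ι F) :
    h * l g * h⁻¹ = l (dcj d hA.1 g) := by
  have := eq_top_of_tvE (MonoidHom.eqLocus ((MulAut.conj h).toMonoidHom.comp l)
    (l.comp (dcj d hA.1))) fun i j hij t =>
      (hA.2 i j hij t).trans (congrArg l (dcj_tvE _ hA.1 hij t).symm)
  exact (this ▸ mem_top g : g ∈ MonoidHom.eqLocus _ _)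

/-- Matrices fixing a coordinate. -/
def Fix (a : ι) (g : SpecialLinearGroup ι F) : Prop :=
  g.1 a a = 1 ∧ ∀ j, j ≠ a → g.1 a j = 0 ∧ g.1 j a = 0

theorem fix_tvE {a i j : ι} (h : i ≠ j) (h1 : i ≠ a) (h2 : j ≠ a) (t : F) : Fix a (tvE i j t) :=
  ⟨by simp [tvE_coe h, h1], fun k hk => by simp [tvE_coe h, single_apply, h1, h2, hk, hk.symm]⟩

theorem fix_mon {a : ι} {g : SpecialLinearGroup ι F} {σ : Perm ι} {c : ι → F} (hg : g.1 = mon σ c)
    (h1 : σ a = a) (h2 : c a = 1) : Fix a g :=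
  ⟨by rw [hg, mon_apply, h1, if_pos rfl, h2], fun j hj => by
    rw [hg, mon_apply, mon_apply, h1, if_neg hj, if_neg fun e => hj (σ.injective (e.symm.trans h1.symm))]
    exact ⟨rfl, rfl⟩⟩

theorem hE_mon {i j : ι} (h : i ≠ j) {t : F} (ht : t ≠ 0) :
    (hE tvE i j t).1 = mon 1 fun k => if k = i then t else if k = j then t⁻¹ else 1 :=
  (hE_tvE_coe h ht).trans (mon_one _).symm

theorem wE_neg_one {i j : ι} (h : i ≠ j) : wE tvE j i (-1 : F) = wE tvE i j 1 := by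
  apply Subtype.ext
  rw [wE_tvE_coe h.symm (neg_ne_zero.2 one_ne_zero), wE_tvE_coe h one_ne_zero, Equiv.swap_comm]
  congr 1
  funext k
  by_cases h1 : k = i
  · simp [wC, h1, h]
  · simp [wC, h1]

/-- The conjugates of `s`. -/
def sg (l : SpecialLinearGroup ι F →* Γ) (s : Γ) (g : ι → ι → SpecialLinearGroup ι F) (i j : ι) :
    Γ := l (g i j) * s * (l (g i j))⁻¹

/-- The relations used to present the orthogonal groups of plus type. -/
structure DBase (l : SpecialLinearGroup ι F →* Γ) (s : Γ) (a b r r' : ι) : Prop where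
  ab : a ≠ b
  ra : r ≠ a
  rb : r ≠ b
  pa : r' ≠ a
  pb : r' ≠ b
  rp : r ≠ r'
  sq : s * s = 1
  cent : ∀ g, Fix a g → Fix b g → Commute s (l g)
  sw : ∀ t, s * l (tvE a b t) * s⁻¹ = l (tvE b a (-t))
  act : ∀ t : F, t ≠ 0 → Act (fun i j a => l (tvE i j a)) (s * l (hE tvE r b t) * s⁻¹) 1
    fun i => if i = r ∨ i = b then t else 1
  tr : s * (l (wE tvE a r 1) * s * (l (wE tvE a r 1))⁻¹) =
    l (wE tvE b r 1) * s * (l (wE tvE b r 1))⁻¹
  xy : Commute (l (tvE r b 1)) (s * l (tvE r b 1) * s⁻¹)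

namespace DBase

variable [Finite F] {l : SpecialLinearGroup ι F →* Γ} {s : Γ} {a b r r' : ι}
  (R : DBase l s a b r r')
include R

theorem inv : s⁻¹ = s := inv_eq_of_mul_eq_one_right R.sq

theorem conj_conj (x : Γ) : s * (s * x * s⁻¹) * s⁻¹ = x := by
  calc _ = s * s * x * (s * s)⁻¹ := by group
    _ = x := by rw [R.sq]; group

theorem sw' (t : F) : s * l (tvE b a t) * s⁻¹ = l (tvE a b (-t)) := by
  rw [← R.conj_conj (l (tvE a b (-t))), R.sw, neg_neg]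

theorem s_w (t : F) : s * l (wE tvE a b t) * s⁻¹ = l (wE tvE b a (-t)) := by
  simp only [wE, map_mul]
  rw [← conj_mul, ← conj_mul, R.sw, R.sw', inv_neg]

theorem hp_comm {t : F} (ht : t ≠ 0) {d : SpecialLinearGroup ι F} (hd : IsDiag d) :
    Commute (s * l (hE tvE r b t) * s⁻¹) (l d) :=
  mul_inv_eq_iff_eq_mul.1 ((act_eq_dcj (R.act t ht) d).trans (by rw [hd.dcj_eq]))

/-- The torus. -/
def H : Subgroup Γ where
  carrier := {x | ∃ d t, IsDiag d ∧ t ≠ 0 ∧ x = l d * (s * l (hE tvE r b t) * s⁻¹)}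
  one_mem' := ⟨1, 1, ⟨1, by simp⟩, one_ne_zero, by simp [hE]⟩
  mul_mem' := by
    rintro _ _ ⟨d, t, hd, ht, rfl⟩ ⟨e, u, he, hu, rfl⟩
    refine ⟨_, _, hd.mul he, mul_ne_zero ht hu, ?_⟩
    rw [hE_tvE_mul R.rb ht hu, map_mul, map_mul, ← conj_mul]
    conv_rhs => rw [← conj_eq_of_commute (R.hp_comm ht he)]
    group
  inv_mem' := by
    rintro _ ⟨d, t, hd, ht, rfl⟩
    refine ⟨_, _, hd.inv, inv_ne_zero ht, ?_⟩
    rw [← (R.hp_comm (inv_ne_zero ht) hd.inv).eq, _root_.mul_inv_rev, map_inv, conj_inv, ← map_inv,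
      inv_eq_of_mul_eq_one_right (b := hE tvE r b t⁻¹)
        (by rw [← hE_tvE_mul R.rb ht (inv_ne_zero ht), mul_inv_cancel₀ ht]; simp [hE])]

theorem diag_mem {d : SpecialLinearGroup ι F} (hd : IsDiag d) : l d ∈ R.H :=
  ⟨d, 1, hd, one_ne_zero, by simp [hE]⟩

theorem s_diag {d : SpecialLinearGroup ι F} (hd : IsDiag d) : s * l d * s⁻¹ ∈ R.H := by
  obtain ⟨c, hc⟩ := hd.mon
  have h0 := ne_zero_of_mon hc
  have ht := inv_ne_zero (mul_ne_zero (h0 a) (h0 b))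
  have hk := mul_mon (mul_mon hc (inv_mon (hE_mon R.rb ht))) (inv_mon (hE_mon R.ab (h0 a)))
  have h1 := conj_eq_of_commute (R.cent _
    (fix_mon hk (by simp) (by simp [R.ra.symm, R.ab, h0]))
    (fix_mon hk (by simp) (by simp [R.rb.symm, R.ab.symm, h0])))
  have h2 : s * l (hE tvE a b (c a)) * s⁻¹ ∈ R.H := by
    rw [hE, map_mul, map_inv, ← conj_mul, ← conj_inv, R.s_w, R.s_w, ← map_inv, ← map_mul]
    exact R.diag_mem ⟨_, by
      rw [mul_mon (wE_tvE_coe R.ab.symm (neg_ne_zero.2 (h0 a)))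
        (inv_mon (wE_tvE_coe R.ab.symm (neg_ne_zero.2 one_ne_zero))), mul_inv_cancel, mon_one]⟩
  have h3 : s * l (hE tvE r b (c a * c b)⁻¹) * s⁻¹ ∈ R.H := ⟨1, _, ⟨1, by simp⟩, ht, by simp⟩
  have h4 := R.diag_mem ((hd.mul (isDiag_hE R.rb ht).inv).mul (isDiag_hE R.ab (h0 a)).inv)
  rw [← h1] at h4
  convert mul_mem (mul_mem h4 h2) h3 using 1
  simp [mul_assoc]

theorem sH {h : Γ} (hh : h ∈ R.H) : s * h * s⁻¹ ∈ R.H := by
  obtain ⟨d, t, hd, ht, rfl⟩ := hh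
  rw [← conj_mul, R.conj_conj]
  exact mul_mem (R.s_diag hd) (R.diag_mem (isDiag_hE R.rb ht))

theorem monH {g : SpecialLinearGroup ι F} (hg : IsMon g) {h : Γ} (hh : h ∈ R.H) :
    l g * h * (l g)⁻¹ ∈ R.H := by
  obtain ⟨d, t, hd, ht, rfl⟩ := hh
  obtain ⟨τ, c, hc⟩ := id hg
  refine ⟨_, t, (hg.conj_diag hd).mul (h := g * dcj _ (R.act t ht).1 g⁻¹)
    ⟨_, by rw [mul_mon hc (dcj_mon _ _ (inv_mon hc)), mul_inv_cancel, mon_one]⟩, ht, ?_⟩
  simp only [map_mul l, ← act_eq_dcj (R.act t ht), map_inv l]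
  group

theorem HX {h : Γ} (hh : h ∈ R.H) {i j : ι} (hij : i ≠ j) {x : Γ} (hx : x ∈ XL l i j) :
    h * x * h⁻¹ ∈ XL l i j := by
  obtain ⟨d, t, hd, ht, rfl⟩ := hh
  obtain ⟨u, rfl⟩ := hx
  obtain ⟨c, hc⟩ := hd.mon
  have : _ ∈ XL l i j := mon_conj_XL hc hij (⟨_, (R.act t ht).2 i j hij u⟩ : _ ∈ XL l i j)
  convert this using 1
  group

theorem mon_s {g : SpecialLinearGroup ι F} {τ : Perm ι} {c : ι → F} (hg : g.1 = mon τ c)
    (h1 : τ a = a) (h2 : τ b = b) : l g * s * (l g)⁻¹ * s⁻¹ ∈ R.H := by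
  have h0 := ne_zero_of_mon hg
  have hk := mul_mon (inv_mon (mul_mon (hE_mon R.ra.symm (h0 a)) (hE_mon R.rb.symm (h0 b)))) hg
  have h3 := conj_eq_of_commute (R.cent _
    (fix_mon hk (by simpa using h1) (by simp [h1, R.ra.symm, R.ab, h0]))
    (fix_mon hk (by simpa using h2) (by simp [h2, R.rb.symm, R.ab.symm, h0]))).symm
  have hd := (isDiag_hE R.ra.symm (h0 a)).mul (isDiag_hE R.rb.symm (h0 b))
  convert mul_mem (R.diag_mem hd) (R.s_diag hd.inv) using 1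
  conv_rhs => enter [2, 1, 1]; rw [← h3]
  simp [mul_assoc]

theorem mon_s' {g : SpecialLinearGroup ι F} {τ : Perm ι} {c : ι → F} (hg : g.1 = mon τ c)
    (h1 : τ a = b) (h2 : τ b = a) : l g * s * (l g)⁻¹ * s⁻¹ ∈ R.H := by
  have hw := wE_tvE_coe (F := F) R.ab one_ne_zero
  have h3 := R.monH ⟨_, _, hw⟩ (R.mon_s (mul_mon (inv_mon hw) hg) (by simp [h1]) (by simp [h2]))
  have h4 : Commute s (l (wE tvE a b 1)) :=
    mul_inv_eq_iff_eq_mul.1 ((R.s_w 1).trans (by rw [wE_neg_one R.ab]))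
  convert h3 using 1
  conv_lhs => rw [← conj_eq_of_commute h4.inv_left.symm]
  simp [mul_assoc]

variable {g : ι → ι → SpecialLinearGroup ι F}
  (hg : ∀ i j, i ≠ j → ∃ τ c, (g i j).1 = mon τ c ∧ τ a = i ∧ τ b = j)
include hg

theorem eqv {m : SpecialLinearGroup ι F} {τ : Perm ι} {c : ι → F} (hm : m.1 = mon τ c) {i j : ι}
    (h : (τ a = i ∧ τ b = j) ∨ (τ b = i ∧ τ a = j)) :
    l m * s * (l m)⁻¹ * (sg l s g i j)⁻¹ ∈ R.H := by
  have hij : i ≠ j := by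
    rcases h with ⟨rfl, rfl⟩ | ⟨rfl, rfl⟩
    exacts [τ.injective.ne R.ab, τ.injective.ne R.ab.symm]
  obtain ⟨ρ, e, h1, h2, h3⟩ := hg i j hij
  have h4 : l ((g i j)⁻¹ * m) * s * (l ((g i j)⁻¹ * m))⁻¹ * s⁻¹ ∈ R.H := by
    rcases h with ⟨h5, h6⟩ | ⟨h5, h6⟩
    · exact R.mon_s (mul_mon (inv_mon h1) hm) (by simp [h5, ← h2]) (by simp [h6, ← h3])
    · exact R.mon_s' (mul_mon (inv_mon h1) hm) (by simp [h6, ← h3]) (by simp [h5, ← h2])
  convert R.monH ⟨_, _, h1⟩ h4 using 1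
  simp [sg, mul_assoc]

theorem dRel0 : DRel0 l R.H (sg l s g) := by
  have σH : ∀ i j, i ≠ j → ∀ h ∈ R.H, sg l s g i j * h * (sg l s g i j)⁻¹ ∈ R.H := by
    intro i j hij h hh
    obtain ⟨τ, c, h1, -⟩ := hg i j hij
    convert R.monH ⟨_, _, h1⟩ (R.sH (R.monH (IsMon.inv ⟨_, _, h1⟩) hh)) using 1
    simp [sg, mul_assoc]
  refine ⟨fun _ => R.diag_mem, fun _ hh _ _ hij _ => R.HX hh hij, fun _ hg _ => R.monH hg, σH,
    fun i j _ => ?_, fun i j hij => ?_, fun i j k h1 h2 h3 => ?_, fun m τ c hm i j hij => ?_,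
    fun i j k m h1 h2 h3 h4 h5 h6 x hx => ?_, fun i j hij x hx => ?_⟩
  · rw [sg, conj_mul, R.sq]; simp
  · obtain ⟨τ, c, h1, h2, h3⟩ := hg i j hij
    exact R.eqv hg h1 (Or.inr ⟨h3, h2⟩)
  · obtain ⟨τ, hτ⟩ := Perm.exists_extending_pair ![a, b, r] ![i, j, k]
      (List.nodup_ofFn.1 (by simp [R.ab, R.ra.symm, R.rb.symm]))
      (List.nodup_ofFn.1 (by simp [h1, h2, h3]))
    obtain ⟨m, hm⟩ := exists_mon_SL (F := F) τ a
    have t1 : τ a = i := hτ 0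
    have t2 : τ b = j := hτ 1
    have t3 : τ r = k := hτ 2
    have e1 := R.eqv hg hm (Or.inl ⟨t1, t2⟩)
    have e2 := R.eqv hg (mul_mon hm (wE_tvE_coe R.ra.symm one_ne_zero)) (i := j) (j := k)
      (Or.inr ⟨by simp [swap_apply_of_ne_of_ne R.ab.symm R.rb.symm, t2], by simp [t3]⟩)
    have e3 := R.eqv hg (mul_mon hm (wE_tvE_coe R.rb.symm one_ne_zero)) (i := i) (j := k)
      (Or.inl ⟨by simp [swap_apply_of_ne_of_ne R.ab R.ra.symm, t1], by simp [t3]⟩)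
    rw [map_mul, show l m * l (wE tvE b r 1) * s * (l m * l (wE tvE b r 1))⁻¹ =
      l m * (l (wE tvE b r 1) * s * (l (wE tvE b r 1))⁻¹) * (l m)⁻¹ by group, ← R.tr] at e3
    convert mul_mem (mul_mem (σH i j h1 _ (inv_mem e2)) (inv_mem e1)) e3 using 1
    simp [mul_assoc]
  · obtain ⟨ρ, e, h1, h2, h3⟩ := hg i j hij
    convert R.eqv hg (mul_mon hm h1) (i := τ i) (j := τ j) (Or.inl ⟨by simp [h2], by simp [h3]⟩)
      using 1
    simp [sg, mul_assoc]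
  · obtain ⟨τ, c, e1, rfl, rfl⟩ := hg k m h2
    obtain ⟨i, rfl⟩ := τ.surjective i
    obtain ⟨j, rfl⟩ := τ.surjective j
    simp only [ne_eq, τ.injective.eq_iff] at h1 h3 h4 h5 h6
    obtain ⟨_, ⟨t, rfl⟩, e⟩ := mon_conj_XL' e1 h1 hx
    have := commute_conj (R.cent _ (fix_tvE h1 (Ne.symm h3) (Ne.symm h4) t)
      (fix_tvE h1 (Ne.symm h5) (Ne.symm h6) t)) (l (g (τ a) (τ b)))
    rw [← e, ← sg] at this
    rwa [conj_eq_of_commute this]
  · obtain ⟨τ, c, e1, rfl, rfl⟩ := hg i j hij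
    obtain ⟨_, ⟨t, rfl⟩, rfl⟩ := mon_conj_XL' e1 R.ab hx
    convert mon_conj_XL e1 R.ab.symm (⟨_, R.sw t⟩ : _ ∈ XL l b a) using 1
    simp [sg, mul_assoc]

omit hg in
theorem comm_ext {i j : ι} (hij : i ≠ j) (h : (i = r ∧ j = b) ∨ (i = a ∧ j = r'))
    (h0 : Commute (l (tvE i j 1)) (s * l (tvE r b 1) * s⁻¹)) (u v : F) :
    Commute (l (tvE i j u)) (s * l (tvE r b v) * s⁻¹) := by
  by_cases hu : u = 0
  · rw [hu, stSL_tvE.zero hij, map_one]; exact Commute.one_left _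
  have A := act_map l (hE_mon R.rp hu)
  have c := R.cent _ (fix_mon (hE_mon R.rp hu) rfl (by simp [R.ra.symm, R.pa.symm]))
    (fix_mon (hE_mon R.rp hu) rfl (by simp [R.rb.symm, R.pb.symm]))
  have h1 := commute_conj h0 (l (hE tvE r r' u))
  rw [A.2 i j hij, ← conj_mul, ← conj_mul, ← conj_inv, conj_eq_of_commute c.symm,
    A.2 r b R.rb] at h1
  replace h1 : Commute (l (tvE i j u)) (s * l (tvE r b u) * s⁻¹) := by
    rcases h with ⟨rfl, rfl⟩ | ⟨rfl, rfl⟩ <;>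
      simpa [R.rb.symm, R.pb.symm, R.ra.symm, R.pa.symm, R.rp.symm] using h1
  rw [← div_mul_cancel₀ v hu]
  induction v / u using add_induction_sq with
  | hadd x y hx hy =>
    rw [add_mul, ← stSL_tvE.add r b R.rb, map_mul, ← conj_mul]; exact hx.mul_right hy
  | h0 => rw [zero_mul, stSL_tvE.zero R.rb, map_one]; simp
  | hsq x hx =>
    have h2 := commute_conj h1 (s * l (hE tvE r b x) * s⁻¹)
    rw [(R.act x hx).2 i j hij, conj_inv, conj_mul, conj_mul,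
      (act_map l (hE_mon R.rb hx)).2 r b R.rb] at h2
    rw [show x ^ 2 * u = x * u * x by ring]
    rcases h with ⟨rfl, rfl⟩ | ⟨rfl, rfl⟩ <;>
      simpa [hx, R.ab, R.ra.symm, R.rp.symm, R.pb, R.rb.symm] using h2

theorem comm_YD {i j : ι} (hij : i ≠ j) (h : (i = r ∧ j = b) ∨ (i = a ∧ j = r'))
    (h0 : Commute (l (tvE i j 1)) (s * l (tvE r b 1) * s⁻¹)) {x y : Γ} (hx : x ∈ XL l i j)
    (hy : y ∈ YD l (sg l s g) r b) : Commute x y := by
  obtain ⟨y, hy', rfl⟩ := (R.dRel0 hg).of_YD R.rb R.ra.symm R.ab hy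
  have h1 := inv_mem (R.eqv hg (m := 1) (τ := 1) (c := 1) (by simp [mon_one]) (Or.inl ⟨rfl, rfl⟩))
  obtain ⟨u, hu⟩ := R.HX (inv_mem h1) hij hx
  obtain ⟨v, rfl⟩ := hy'
  convert commute_conj (hu ▸ R.comm_ext hij h h0 u v) (l 1 * s * (l 1)⁻¹ * (sg l s g a b)⁻¹)⁻¹
    using 1 <;> simp [mul_assoc]

theorem dRel (h0 : Fintype.card ι = 4 → Commute (l (tvE a r' 1)) (s * l (tvE r b 1) * s⁻¹)) :
    DRel l R.H (sg l s g) := by
  have R0 := R.dRel0 hg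
  have h4 : 4 ≤ Fintype.card ι := by
    simpa using Fintype.card_le_of_injective ![a, r', r, b] (List.nodup_ofFn.1 (by
      simp [R.ab, R.ra.symm, R.rb, R.pa.symm, R.pb, R.rp.symm]))
  refine ⟨R0, h4, fun i j hij x hx y hy => ?_, fun i j k m h1 h2 h3 h4 h5 h6 x hx y hy => ?_⟩
  · obtain ⟨m, τ, c, hm, rfl, rfl⟩ := exists_mon_pair (K := F) R.rb hij
    obtain ⟨x, hx', rfl⟩ := mon_conj_XL' hm R.rb hx
    obtain ⟨y, hy', rfl⟩ := R0.monY' hm R.rb hy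
    exact commute_conj (R.comm_YD hg R.rb (Or.inl ⟨rfl, rfl⟩) R.xy hx' hy') _
  by_cases hc : Fintype.card ι = 4
  · obtain ⟨τ, hτ⟩ := Perm.exists_extending_pair ![a, r', r, b] ![i, j, k, m]
      (List.nodup_ofFn.1 (by simp [R.ab, R.ra.symm, R.rb, R.pa.symm, R.pb, R.rp.symm]))
      (List.nodup_ofFn.1 (by simp [h1, h2, h3.symm, h4.symm, h5.symm, h6.symm]))
    obtain ⟨w, hw⟩ := exists_mon_SL (F := F) τ a
    obtain rfl : τ a = i := hτ 0
    obtain rfl : τ r' = j := hτ 1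
    obtain rfl : τ r = k := hτ 2
    obtain rfl : τ b = m := hτ 3
    obtain ⟨x, hx', rfl⟩ := mon_conj_XL' hw R.pa.symm hx
    obtain ⟨y, hy', rfl⟩ := R0.monY' hw R.rb hy
    exact commute_conj (R.comm_YD hg R.pa.symm (Or.inr ⟨rfl, rfl⟩) (h0 hc) hx' hy') _
  · obtain ⟨p, hp⟩ : ∃ p, p ∉ ({i, j, k, m} : Finset ι) := by
      by_contra! h
      have := (Finset.card_le_card (s := Finset.univ) fun p _ => h p).trans Finset.card_le_four
      rw [Finset.card_univ] at this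
      omega
    simp only [Finset.mem_insert, Finset.mem_singleton, not_or] at hp
    exact R0.xy_five h1 h2 h4.symm h5 h6 hp.1 hp.2.1 hp.2.2.1 hp.2.2.2 hx hy

theorem gen (h : ∀ M : Subgroup Γ, l.range ≤ M → s ∈ M → M = ⊤) (M : Subgroup Γ)
    (h1 : l.range ≤ M) (h2 : R.H ≤ M) (h3 : ∀ i j, i ≠ j → sg l s g i j ∈ M) : M = ⊤ :=
  h M h1 (by simpa using mul_mem (h2 (R.eqv hg (m := 1) (τ := 1) (c := 1) (by simp [mon_one])
    (Or.inl ⟨rfl, rfl⟩))) (h3 a b R.ab))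

omit hg in
theorem exists_mul {x : Γ} (hx : x ∈ l.range ⊔ R.H) :
    ∃ g t, t ≠ 0 ∧ x = l g * (s * l (hE tvE r b t) * s⁻¹) := by
  obtain ⟨_, ⟨g, rfl⟩, _, ⟨d, t, -, ht, rfl⟩, e⟩ := exists_mul_of_conj (A := R.H) (K := l.range) (by
    rintro _ ⟨d, t, -, ht, rfl⟩ _ ⟨g, rfl⟩
    exact ⟨d * dcj _ (R.act t ht).1 g * d⁻¹, by
      simp only [map_mul l, ← act_eq_dcj (R.act t ht), map_inv l]; group⟩) hx
  exact ⟨g * d, t, ht, by rw [e, map_mul, mul_assoc (l g)]⟩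

end DBase

end Cfsg.Agent.KSG.BN
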