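import Mathlib
import Cfsg.Agent.KSG.PresD2
import Cfsg.Agent.KSG.PresSp2
import Cfsg.Agent.Class.Orth.Levi
import Cfsg.Agent.Class.Orth.Simple

/-!
The orthogonal groups of plus type satisfy the relations of type `D_n`.
-/

set_option autoImplicit false
set_option linter.unusedSectionVars false

namespace Cfsg.Agent.KSG.BN

open Matrix Equiv Subgroup Class.Orth QuadraticMap

variable {F : Type*} [Field F] {m : ℕ}

theorem eichler_swap {V : Type*} [AddCommGroup V] [Module F V] {Q : QuadraticForm F V} {u v : V}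
    (hu : Q u = 0) (hv : Q v = 0) (h : polar Q u v = 0) : eichler Q u v = eichler Q v (-u) := by
  refine OG.ext fun x => ?_
  rw [eichler_apply hu h, eichler_apply hv (by rw [polar_neg_right, polar_comm, h, neg_zero])]
  simp only [hu, hv, polar_neg_right, Q.map_neg]
  module

/-- The stabiliser of a subspace. -/
def oStab {V : Type*} [AddCommGroup V] [Module F V] (Q : QuadraticForm F V) (W : Submodule F V) :
    Subgroup (OG Q) where
  carrier := {g | omap g W = W}
  one_mem' := omap_one W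
  mul_mem' {a b} ha hb := by
    change omap _ _ = _
    rw [omap_mul, hb, ha]
  inv_mem' {a} ha := by
    change omap _ _ = _
    conv_lhs => rw [← ha, ← omap_mul, inv_mul_cancel, omap_one]

/-- The basis vector `e_i`. -/
abbrev eV (F : Type*) [Field F] (i : Fin m) : Fin m ⊕ Fin m → F := Pi.single (.inl i) 1

/-- The basis vector `f_i`. -/
abbrev fV (F : Type*) [Field F] (i : Fin m) : Fin m ⊕ Fin m → F := Pi.single (.inr i) 1

theorem polar_eV (x : Fin m ⊕ Fin m → F) (i : Fin m) :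
    polar (plusQF m F) x (eV F i) = x (.inr i) := by simp [polar_plusQF, Pi.single_apply]

theorem polar_fV (x : Fin m ⊕ Fin m → F) (i : Fin m) :
    polar (plusQF m F) x (fV F i) = x (.inl i) := by simp [polar_plusQF, Pi.single_apply]

theorem Q_eV (i : Fin m) : plusQF m F (eV F i) = 0 := (isHyp_plus i).left

theorem Q_fV (i : Fin m) : plusQF m F (fV F i) = 0 := (isHyp_plus i).right

/-- The Levi subgroup. -/
noncomputable def oL : SpecialLinearGroup (Fin m) F →* OG (plusQF m F) :=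
  (leviHom m F).comp SpecialLinearGroup.toGL

theorem oL_apply (g : SpecialLinearGroup (Fin m) F) (v : Fin m ⊕ Fin m → F) :
    (oL g).1 v = Sum.elim (g.1 *ᵥ (v ∘ Sum.inl)) ((g⁻¹).1ᵀ *ᵥ (v ∘ Sum.inr)) := by
  rw [oL, MonoidHom.comp_apply, leviHom_apply, leviMat_mulVec, ← map_inv]; rfl

theorem oL_tvE {i j : Fin m} (h : i ≠ j) (t : F) :
    oL (tvE i j t) = eichler (plusQF m F) (eV F i) (t • fV F j) := by
  refine OG.ext fun v => ?_
  rw [oL_apply, eichler_apply (Q_eV i) (by simp [polar_smul_right', polar_fV, h.symm]),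
    stSL_tvE.inv h, tvE_coe h, tvE_coe h, polar_smul_right', polar_fV, polar_eV, Q_smul, Q_fV]
  ext (k | k)
  · by_cases e : k = i <;> simp [add_mulVec, single_mulVec, e]
  · by_cases e : k = j <;> simp [add_mulVec, single_mulVec, e, mul_comm, sub_eq_add_neg]

theorem oL_e {g : SpecialLinearGroup (Fin m) F} {σ : Perm (Fin m)} {c : Fin m → F}
    (hg : g.1 = mon σ c) (i : Fin m) : (oL g).1 (eV F i) = c i • eV F (σ i) := by
  rw [oL_apply, hg]
  ext (k | k) <;> simp [mulVec, dotProduct, Pi.single_apply, mon_apply]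

theorem oL_f {g : SpecialLinearGroup (Fin m) F} {σ : Perm (Fin m)} {c : Fin m → F}
    (hg : g.1 = mon σ c) (i : Fin m) : (oL g).1 (fV F i) = (c i)⁻¹ • fV F (σ i) := by
  rw [oL_apply, inv_transpose_mon hg]
  ext (k | k) <;> simp [mulVec, dotProduct, Pi.single_apply, mon_apply]

/-- The reflection interchanging `e_i` and `f_i`. -/
noncomputable def oR (F : Type*) [Field F] (i : Fin m) : OG (plusQF m F) :=
  refl (plusQF m F) (eV F i - fV F i)

theorem Q_sub_ef (i : Fin m) : plusQF m F (eV F i - fV F i) = -1 := by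
  rw [Q_sub, Q_eV, Q_fV, polar_fV]; simp

theorem oR_e (i j : Fin m) : (oR F i).1 (eV F j) = if j = i then fV F j else eV F j := by
  rw [oR, Class.Orth.refl_apply, Q_sub_ef, polar_sub_right, polar_eV, polar_fV]
  by_cases h : j = i
  · simp [h]
  · simp [h, Ne.symm h]

theorem oR_f (i j : Fin m) : (oR F i).1 (fV F j) = if j = i then eV F j else fV F j := by
  rw [oR, Class.Orth.refl_apply, Q_sub_ef, polar_sub_right, polar_eV, polar_fV]
  by_cases h : j = i
  · simp [h]
  · simp [h, Ne.symm h]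

theorem oR_sq (i : Fin m) : oR F i * oR F i = 1 := refl_mul_self _

theorem oR_comm (i j : Fin m) : Commute (oR F i) (oR F j) := by
  by_cases h : j = i
  · rw [h]
  refine mul_inv_eq_iff_eq_mul.1 ?_
  rw [oR.eq_1 F j, Class.Orth.conj_refl, map_sub, oR_e, oR_f, if_neg h, if_neg h]

theorem oL_conj_oR {g : SpecialLinearGroup (Fin m) F} {σ : Perm (Fin m)} {c : Fin m → F}
    (hg : g.1 = mon σ c) {i : Fin m} (hc : c i = 1 ∨ c i = -1) :
    oL g * oR F i * (oL g)⁻¹ = oR F (σ i) := by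
  rw [oR, Class.Orth.conj_refl, map_sub, oL_e hg, oL_f hg, oR]
  rcases hc with h | h
  · simp [h]
  · rw [h, inv_neg_one, ← smul_sub, refl_smul (by simp)]

theorem Fix.comm_oR {g : SpecialLinearGroup (Fin m) F} {i : Fin m} (h : Fix i g) :
    Commute (oR F i) (oL g) := by
  refine Commute.symm (mul_inv_eq_iff_eq_mul.1 ?_)
  have h1 : Pi.single i 1 ᵥ* g.1 = Pi.single i 1 := by
    ext k; by_cases e : k = i <;> simp [e, h.1, h.2]
  have h2 : (g⁻¹).1ᵀ *ᵥ Pi.single i 1 = Pi.single i 1 := by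
    rw [mulVec_transpose]
    conv_lhs => rw [← h1, vecMul_vecMul, sl_mul_inv, vecMul_one]
  rw [oR, Class.Orth.conj_refl, oL_apply]
  congr 1
  have h3 : (eV F i - fV F i) ∘ Sum.inr = -Pi.single i 1 := by ext; simp [Pi.single_apply]
  have h4 : (eV F i - fV F i) ∘ Sum.inl = Pi.single i 1 := by ext; simp [Pi.single_apply]
  rw [h3, h4, mulVec_neg, h2]
  ext (k | k)
  · by_cases e : k = i <;> simp [e, h.1, h.2]
  · simp [Pi.single_apply]

theorem oS_tor {a b r : Fin m} (ra : r ≠ a) (rb : r ≠ b) (ab : a ≠ b) {t : F} (ht : t ≠ 0)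
    (i : Fin m) :
    (oR F a * oR F b * oL (hE tvE r b t) * (oR F a * oR F b)⁻¹).1 (eV F i) =
      (if i = r ∨ i = b then t else 1) • eV F i ∧
    (oR F a * oR F b * oL (hE tvE r b t) * (oR F a * oR F b)⁻¹).1 (fV F i) =
      (if i = r ∨ i = b then t else 1)⁻¹ • fV F i := by
  rw [_root_.mul_inv_rev, oR, oR, refl_inv, refl_inv, ← oR, ← oR]
  simp only [OG.mul_apply, oR_e, oR_f]
  by_cases h1 : i = a
  · simp [h1, oR_e, oR_f, oL_e (hE_mon rb ht), oL_f (hE_mon rb ht), ab, ra.symm]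
  by_cases h2 : i = b
  · simp [h2, oR_e, oR_f, oL_e (hE_mon rb ht), oL_f (hE_mon rb ht), ab.symm, rb.symm]
  simp [-ite_smul, h1, h2, oR_e, oR_f, oL_e (hE_mon rb ht), oL_f (hE_mon rb ht)]

theorem oS_y {i j k : Fin m} (h : i ≠ j) (h1 : k ≠ i) (h2 : k ≠ j) (t : F) :
    oR F k * oR F j * oL (tvE i j t) * (oR F k * oR F j)⁻¹ =
      eichler (plusQF m F) (eV F i) (t • eV F j) := by
  rw [oL_tvE h, conj_eichler]
  simp [OG.mul_apply, oR_e, oR_f, h, h1.symm, h2.symm]

theorem dBase_O {a b r r' : Fin m} (ab : a ≠ b) (ra : r ≠ a) (rb : r ≠ b) (pa : r' ≠ a)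
    (pb : r' ≠ b) (rp : r ≠ r') : DBase oL (oR F a * oR F b) a b r r' where
  ab := ab
  ra := ra
  rb := rb
  pa := pa
  pb := pb
  rp := rp
  sq := by rw [(oR_comm a b).symm.mul_mul_mul_comm, oR_sq, oR_sq, mul_one]
  cent g h1 h2 := h1.comm_oR.mul_left h2.comm_oR
  sw t := by
    rw [oL_tvE ab, oL_tvE ab.symm, conj_eichler]
    simp only [OG.mul_apply, oR_e, oR_f, ab, ab.symm, map_smul, if_true, if_false]
    rw [eichler_swap (Q_fV a) (by simp [Q_smul, Q_eV]) (by simp [polar_eV, ab.symm]),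
      eichler_smul_left (Q_eV b) (by simp [polar_fV, ab])]
    simp
  act t ht := ⟨fun i => by by_cases h : i = r ∨ i = b <;> simp [h, ht], fun i j h u => by
    simp only [oL_tvE h, Perm.one_apply]
    rw [conj_eichler, map_smul, (oS_tor ra rb ab ht i).1, (oS_tor ra rb ab ht j).2,
      eichler_smul_left (Q_eV i) (by simp [polar_fV, h.symm]), smul_smul, smul_smul,
      div_eq_mul_inv]⟩
  tr := by
    rw [← conj_mul, ← conj_mul, oL_conj_oR (wE_tvE_coe ra.symm one_ne_zero) (by simp [wC, ra.symm]),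
      oL_conj_oR (wE_tvE_coe ra.symm one_ne_zero) (by simp [wC, ab.symm, rb.symm]),
      oL_conj_oR (wE_tvE_coe rb.symm one_ne_zero) (by simp [wC, ab, ra.symm]),
      oL_conj_oR (wE_tvE_coe rb.symm one_ne_zero) (by simp [wC, rb.symm]), swap_apply_left,
      swap_apply_left, swap_apply_of_ne_of_ne ab.symm rb.symm, swap_apply_of_ne_of_ne ab ra.symm,
      (oR_comm r b).eq, mul_assoc, ← mul_assoc (oR F b), oR_sq, one_mul]
  xy := by
    rw [oS_y rb ra.symm ab, oL_tvE rb]
    exact eichler_comm (Q_eV r) (by simp [polar_fV, rb.symm]) (by simp [polar_eV])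

end Cfsg.Agent.KSG.BN
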