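import Mathlib
import Cfsg.Agent.KSG.PresO1
import Cfsg.Agent.Class.Asch.SLProp
import Cfsg.Agent.Class.SL2Sylow

/-!
Bounded presentations of the orthogonal groups of plus type.
-/

set_option autoImplicit false
set_option linter.unusedSectionVars false

namespace Cfsg.Agent.KSG.BN

open Matrix Equiv Subgroup Class.Orth QuadraticMap

variable {F : Type*} [Field F] {m : ℕ}

theorem exists_sign_pair {ι : Type*} [Fintype ι] [DecidableEq ι] {a b i j : ι} (hab : a ≠ b)
    (hij : i ≠ j) : ∃ (g : SpecialLinearGroup ι F) (σ : Perm ι) (c : ι → F), g.1 = mon σ c ∧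
      σ a = i ∧ σ b = j ∧ ∀ k, c k = 1 ∨ c k = -1 := by
  obtain ⟨-, σ, -, -, h1, h2⟩ := exists_mon_pair (K := F) hab hij
  obtain ⟨g, hg⟩ := exists_mon_SL (F := F) σ a
  refine ⟨g, σ, _, hg, h1, h2, fun k => ?_⟩
  rcases Int.units_eq_one_or (Perm.sign σ) with h | h <;> by_cases e : k = a <;> simp [h, e]

/-- The Siegel radical with a vanishing condition. -/
def oE (i j : Fin m) : Subgroup (OG (plusQF m F)) where
  carrier := {g | (∀ v ∈ stdU m F, g.1 v = v) ∧ (∀ v, g.1 v - v ∈ stdU m F) ∧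
    g.1 (fV F j) (.inl i) = 0}
  one_mem' := ⟨fun _ _ => rfl, fun v => by simp, by simp⟩
  mul_mem' := by
    rintro a b ⟨h1, h2, h3⟩ ⟨h4, h5, h6⟩
    have h7 : ∀ v, (a * b).1 v = a.1 v + (b.1 v - v) := fun v => by
      rw [← h1 _ (h5 v), ← map_add, OG.mul_apply]; simp
    refine ⟨fun v hv => by rw [OG.mul_apply, h4 v hv, h1 v hv], fun v => ?_, by rw [h7]; simp [h3, h6]⟩
    rw [h7, add_sub_right_comm]
    exact add_mem (h2 v) (h5 v)
  inv_mem' := by
    rintro a ⟨h1, h2, h3⟩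
    have h7 : ∀ v, (a⁻¹).1 v = v - (a.1 v - v) := fun v => by
      rw [OG.inv_apply_eq_iff, map_sub, h1 _ (h2 v)]; simp
    refine ⟨fun v hv => by rw [OG.inv_apply_eq_iff, h1 v hv], fun v => ?_, by rw [h7]; simp [h3]⟩
    rw [h7, sub_sub_cancel_left]
    exact neg_mem (h2 v)

theorem y_apply (i j : Fin m) (t : F) (v : Fin m ⊕ Fin m → F) :
    (eichler (plusQF m F) (eV F i) (t • eV F j)).1 v =
      v + (t * v (.inr j)) • eV F i - (v (.inr i) * t) • eV F j := by
  rw [eichler_apply (Q_eV i) (by simp [polar_eV]), polar_smul_right', polar_eV, polar_eV, Q_smul,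
    Q_eV, smul_smul]
  simp

theorem y_mem_oE {i j k r : Fin m} {t : F} : eichler (plusQF m F) (eV F k) (t • eV F r) ∈ oE i j ↔
    (if r = j ∧ k = i then t else 0) = if k = j ∧ r = i then t else 0 := by
  refine (and_iff_right fun v hv => by simp [y_apply, mem_stdU.1 hv]).trans
    ((and_iff_right fun v => mem_stdU.2 fun s => by simp [y_apply]).trans ?_)
  rw [y_apply, ← sub_eq_zero (a := ite _ _ _)]
  simp [-ite_smul, Pi.single_apply, ← ite_and, eq_comm, and_comm]

theorem mem_oStab_line {g : OG (plusQF m F)} {v : Fin m ⊕ Fin m → F} {c : F} (h : g.1 v = c • v) :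
    g ∈ oStab _ (Submodule.span F {v}) :=
  omap_eq_of_le (fun u hu => by
    obtain ⟨d, rfl⟩ := Submodule.mem_span_singleton.1 hu
    rw [map_smul, h, smul_smul]
    exact Submodule.mem_span_singleton.2 ⟨_, rfl⟩) le_rfl

theorem mem_oStab_stdU {g : OG (plusQF m F)} (h : ∀ i, g.1 (eV F i) ∈ stdU m F) :
    g ∈ oStab _ (stdU m F) :=
  omap_eq_of_le (fun u hu => by
    rw [← Finset.univ_sum_single u, map_sum]
    refine Submodule.sum_mem _ ?_
    rintro (i | i) -
    · rw [← mul_one (u _), ← smul_eq_mul, Pi.single_smul, map_smul]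
      exact Submodule.smul_mem _ _ (h i)
    · simp [mem_stdU.1 hu]) le_rfl

theorem DBase.injective_O [Finite F] {Γ : Type*} [Group Γ] {n : ℕ}
    {l : SpecialLinearGroup (Fin (n + 2)) F →* Γ} {s : Γ} {a b r r' : Fin (n + 2)}
    (R : DBase l s a b r r') (h0 : n = 2 → Commute (l (tvE a r' 1)) (s * l (tvE r b 1) * s⁻¹))
    (spin : s * l (hE tvE r b (-1)) * s⁻¹ = l (hE tvE r b (-1)))
    (gen : ∀ M : Subgroup Γ, l.range ≤ M → s ∈ M → M = ⊤) (φ : Γ →* OG (plusQF (n + 2) F))
    (h1 : ∀ g, φ (l g) = oL g) (h2 : φ s = oR F a * oR F b) : Function.Injective φ := by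
  have : ∀ i j, ∃ g : SpecialLinearGroup (Fin (n + 2)) F, i ≠ j → ∃ σ c, g.1 = mon σ c ∧
      σ a = i ∧ σ b = j ∧ ∀ k, c k = 1 ∨ c k = -1 := fun i j => by
    by_cases h : i = j
    · exact ⟨1, fun h' => absurd h h'⟩
    · exact (exists_sign_pair R.ab h).imp fun g hg _ => hg
  choose g hg using this
  have hg' : ∀ i j, i ≠ j → ∃ τ c, (g i j).1 = mon τ c ∧ τ a = i ∧ τ b = j := fun i j h =>
    let ⟨τ, c, h1, h2, h3, _⟩ := hg i j h; ⟨τ, c, h1, h2, h3⟩
  have D := R.dRel hg' fun h => h0 (by simpa using h)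
  have h3 : ∀ i j, i ≠ j → φ (sg l s g i j) = oR F i * oR F j := fun i j h => by
    obtain ⟨τ, c, e1, rfl, rfl, e2⟩ := hg i j h
    rw [sg, map_mul, map_mul, map_inv, h1, h2, ← conj_mul, oL_conj_oR e1 (e2 a),
      oL_conj_oR e1 (e2 b)]
  have hY : ∀ {i j}, i ≠ j → ∀ y ∈ YD l (sg l s g) i j, ∃ t : F, (t = 0 → y = 1) ∧
      φ y = eichler (plusQF _ F) (eV F i) (t • eV F j) := fun {i j} h y hy => by
    obtain ⟨k, k1, k2⟩ := exists_third (le_trans (by norm_num) D.four) i j
    obtain ⟨_, ⟨t, rfl⟩, rfl⟩ := D.toDRel0.of_YD h k1 k2 hy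
    exact ⟨t, by rintro rfl; simp [stSL_tvE.zero h], by
      rw [map_mul, map_mul, map_inv, h1, h3 k j k2, oS_y h k1 k2]⟩
  have hP : ∀ t : F, t ≠ 0 → ∀ i, (φ (s * l (hE tvE r b t) * s⁻¹)).1 (eV F i) =
      (if i = r ∨ i = b then t else 1) • eV F i := fun t ht i => by
    rw [map_mul, map_mul, map_inv, h1, h2]; exact (oS_tor R.ra R.rb R.ab ht i).1
  refine D.injective (R.gen hg' gen) φ (fun j => oStab _ (Submodule.span F {eV F j}))
    (oStab _ (stdU _ F)) (fixer _ (stdU _ F)) oE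
    (fun u hu => omap_eq_of_le (fun v hv => (hu v hv).symm ▸ hv) le_rfl) (fun i j h y hy => ?_)
    (fun x hx => ?_) ?_ (fun i k j e1 e2 e3 => ?_) (fun i j h d hd hP => ?_)
    (fun i j k p e1 e2 y hy => ?_) fun i j h y hy e => ?_
  · obtain ⟨t, -, e⟩ := hY h y hy
    exact fun v hv => by simp [e, y_apply, mem_stdU.1 hv]
  · obtain ⟨x, t, ht, rfl⟩ := R.exists_mul hx
    have e : ∀ i, (φ (l x * (s * l (hE tvE r b t) * s⁻¹))).1 (eV F i) =
        Sum.elim (fun k => x.1 k i * if i = r ∨ i = b then t else 1) 0 := fun i => by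
      rw [map_mul, OG.mul_apply, hP t ht, map_smul, h1, oL_apply]
      have e1 : eV F i ∘ Sum.inl = Pi.single i 1 := by ext; simp [Pi.single_apply]
      have e2 : eV F i ∘ Sum.inr = 0 := by ext; simp
      rw [e1, e2]
      ext (k | k) <;> simp [-ite_smul, -ite_mul, -mul_ite, mul_comm]
    refine ⟨mem_oStab_stdU fun i => mem_stdU.2 fun k => by rw [e]; rfl, fun hU => ?_⟩
    have e1 : x.1 * diagonal (fun i => if i = r ∨ i = b then t else 1) = 1 := by
      ext k i
      have := congrFun ((e i).symm.trans (hU _ (mem_stdU.2 fun k => by simp))) (.inl k)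
      simpa [-mul_ite, Pi.single_apply, Matrix.one_apply] using this
    have e2 := congrArg det e1
    rw [det_mul, x.2, det_diagonal, Finset.prod_ite, Finset.prod_const, Finset.prod_const_one,
      Finset.filter_or, Finset.filter_eq', Finset.filter_eq'] at e2
    simp only [Finset.mem_univ, if_true, ← Finset.insert_eq, Finset.card_pair R.rb, det_one, one_mul,
      mul_one] at e2
    replace e2 := mul_self_eq_one_iff.1 ((pow_two t).symm.trans e2)
    have e3 : s * l (hE tvE r b t) * s⁻¹ = l (hE tvE r b t) := by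
      rcases e2 with rfl | rfl
      · simp [hE]
      · exact spin
    rw [e3, ← map_mul, ← map_one l]
    congr 1
    apply Subtype.ext
    change x.1 * _ = 1
    rw [hE_tvE_coe R.rb ht, ← e1]
    congr 2
    funext k
    by_cases k1 : k = r <;> by_cases k2 : k = b <;> rcases e2 with rfl | rfl <;> simp [k1, k2]
  · rintro j _ ⟨d, t, hd, ht, rfl⟩
    obtain ⟨c, hc⟩ := hd.mon
    rw [map_mul, h1]
    exact mul_mem (mem_oStab_line (oL_e hc j)) (mem_oStab_line (hP t ht j))
  · refine mem_oStab_line (c := 1) ?_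
    simp [h3 i k e1, OG.mul_apply, oR_e, e2.symm, e3.symm]
  · obtain ⟨c, hc⟩ := Submodule.mem_span_singleton.1
      (hd ▸ Submodule.mem_map_of_mem (Submodule.mem_span_singleton_self _) :
        d.1 (eV F j) ∈ Submodule.span F {eV F j})
    have e1 : (φ (sg l s g i j) * d).1 (eV F j) ∈ stdU _ F :=
      hP ▸ Submodule.mem_map_of_mem (mem_stdU.2 fun k => by simp)
    have e2 := mem_stdU.1 e1 j
    rw [h3 i j h, OG.mul_apply, ← hc, map_smul] at e2
    refine OG.apply_ne_zero d (v := eV F j) (by simp) ?_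
    rw [← hc, show c = 0 by simpa [OG.mul_apply, oR_e, oR_f, h.symm] using e2, zero_smul]
  · obtain ⟨t, -, e⟩ := hY e1 y hy
    rw [e, y_mem_oE, if_neg, if_neg]
    · rintro ⟨rfl, rfl⟩; exact e2 Sym2.eq_swap
    · rintro ⟨rfl, rfl⟩; exact e2 rfl
  · obtain ⟨t, e1, e2⟩ := hY h y hy
    rw [e2, y_mem_oE] at e
    exact e1 (by simpa [h] using e)

theorem commutator_le_O [Finite F] (hm : 3 ≤ m) {a b : Fin m} (ab : a ≠ b)
    {M : Subgroup (OG (plusQF m F))} (h1 : ∀ g, oL g ∈ M) (h2 : oR F a * oR F b ∈ M) :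
    commutator (OG (plusQF m F)) ≤ M := by
  have h3 : ∀ i j, i ≠ j → oR F i * oR F j ∈ M := fun i j h => by
    obtain ⟨g, τ, c, e1, rfl, rfl, e2⟩ := exists_sign_pair (F := F) ab h
    rw [← oL_conj_oR e1 (e2 a), ← oL_conj_oR e1 (e2 b), conj_mul]
    exact mul_mem (mul_mem (h1 g) h2) (inv_mem (h1 g))
  have h4 : ∀ v, polar (plusQF m F) (eV F a) v = 0 → eichler (plusQF m F) (eV F a) v ∈ M := by
    intro v hv
    rw [polar_comm, polar_eV] at hv
    rw [← Finset.univ_sum_single v]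
    refine (Finset.sum_induction _ (fun v => polar (plusQF m F) (eV F a) v = 0 ∧
      eichler (plusQF m F) (eV F a) v ∈ M) (fun x y hx hy => ⟨by simp [hx.1, hy.1], ?_⟩)
      ⟨by simp, by rw [eichler_zero]; exact one_mem _⟩ ?_).2
    · rw [eichler_add (Q_eV a) hx.1 hy.1]; exact mul_mem hx.2 hy.2
    rintro (i | i) - <;> rw [← mul_one (v _), ← smul_eq_mul, Pi.single_smul] <;> by_cases h : a = i
    · exact ⟨by simp [polar_eV], by rw [h, eichler_self_smul (Q_eV i)]; exact one_mem _⟩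
    · obtain ⟨k, k1, k2⟩ := exists_third (by simpa using hm) a i
      exact ⟨by simp [polar_eV], oS_y h k1 k2 (v _) ▸
        mul_mem (mul_mem (h3 k i k2) (h1 _)) (inv_mem (h3 k i k2))⟩
    · rw [← h, hv, zero_smul, eichler_zero]; exact ⟨by simp, one_mem _⟩
    · exact ⟨by simp [polar_fV, Ne.symm h], oL_tvE h (v _) ▸ h1 _⟩
  rw [(nd_plusQF m F).commutator_eq_EG_of_five_le (by rw [finrank_plus_space]; omega)]
  refine (nd_plusQF m F).EG_le_of_isHyp (isHyp_plus a) (by rw [finrank_plus_space]; omega) M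
    (fun v hv => h4 v (mem_perp2.1 hv).1) fun v hv => ?_
  have e : (oR F a * oR F b).1 (eV F a) = fV F a := by simp [OG.mul_apply, oR_e, ab]
  have := mul_mem (mul_mem h2 (h4 (((oR F a * oR F b)⁻¹).1 v) (by
    rw [← OG.polar_apply_left, e]; exact (mem_perp2.1 hv).2))) (inv_mem h2)
  rwa [conj_eichler, e, OG.apply_inv_apply] at this

theorem oL_mem [Finite F] (hm : 3 ≤ m) (g : SpecialLinearGroup (Fin m) F) :
    oL g ∈ commutator (OG (plusQF m F)) := by
  rw [(nd_plusQF m F).commutator_eq_EG_of_five_le (by rw [finrank_plus_space]; omega)]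
  have := eq_top_of_tvE ((EG (plusQF m F)).comap oL) fun i j h t =>
    mem_comap.2 (oL_tvE h t ▸ eichler_mem_EG _ _)
  exact (this ▸ mem_top g : g ∈ comap oL _)

theorem oS_mem (a b : Fin m) : oR F a * oR F b ∈ commutator (OG (plusQF m F)) :=
  refl_mul_refl_mem_commutator (nd_plusQF m F) (by simp [Q_sub_ef]) (by simp [Q_sub_ef])
    (by rw [Q_sub_ef, Q_sub_ef])

theorem closure_pair_prod {A B : Type*} [Group A] [Group B] [Finite A] [Finite B]
    (hB : ∀ N : Subgroup B, N.Normal → N ≤ center B ∨ N = ⊤)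
    (hc : Nat.card A * Nat.card (center B) < Nat.card B) {I : Subgroup (A × B)}
    (h1 : I.map (MonoidHom.fst A B) = ⊤) (h2 : I.map (MonoidHom.snd A B) = ⊤) : I = ⊤ := by
  have k1 : Function.Surjective (Prod.fst ∘ I.subtype) := fun a => by
    obtain ⟨x, hx, e⟩ : a ∈ I.map (MonoidHom.fst A B) := h1 ▸ mem_top a
    exact ⟨⟨x, hx⟩, e⟩
  have k2 : Function.Surjective (Prod.snd ∘ I.subtype) := fun a => by
    obtain ⟨x, hx, e⟩ : a ∈ I.map (MonoidHom.snd A B) := h2 ▸ mem_top a
    exact ⟨⟨x, hx⟩, e⟩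
  have := normal_goursatFst k1
  have := normal_goursatSnd k2
  obtain ⟨e, -⟩ := goursat_surjective k1 k2
  have e1 : I.goursatFst.index = I.goursatSnd.index := Nat.card_congr e.toEquiv
  rcases hB I.goursatSnd this with h | h
  · refine absurd hc (not_lt.2 ?_)
    rw [← I.goursatSnd.index_mul_card, ← e1]
    exact Nat.mul_le_mul (Nat.le_of_dvd Nat.card_pos I.goursatFst.index_dvd_card) (card_le_of_le h)
  · rw [h, index_top, index_eq_one] at e1
    rw [eq_top_iff, ← top_prod_top, ← e1, ← h]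
    exact goursatFst_prod_goursatSnd_le I

theorem exists_gens_K [Finite F] {n : ℕ} (hn : 3 ≤ n) :
    ∃ x y : SpecialLinearGroup (Fin 2) F × SpecialLinearGroup (Fin n) F, closure {x, y} = ⊤ := by
  have := Fintype.ofFinite F
  obtain ⟨a, a', ha⟩ := exists_pair_SL (ι := Fin 2) (F := F)
  obtain ⟨b, b', hb⟩ := exists_pair_SL (ι := Fin n) (F := F)
  have h3 : 3 ≤ Fintype.card (Fin n) := by simpa using hn
  refine ⟨(a, b), (a', b'), closure_pair_prod (Class.Asch.le_center_or_eq_top_of_simple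
    (Class.SL_commutator_eq_top h3) (Class.PSL_isSimpleGroup h3)) ?_
    (by simpa [MonoidHom.map_closure, Set.image_pair] using ha)
    (by simpa [MonoidHom.map_closure, Set.image_pair] using hb)⟩
  have h1 : Nat.card (SpecialLinearGroup (Fin 3) F) ≤ Nat.card (SpecialLinearGroup (Fin n) F) := by
    clear hb h3 b b'
    induction n, hn using Nat.le_induction with
    | base => exact le_rfl
    | succ n _ ih => exact ih.trans (Nat.card_le_card_of_injective _ Hyp.blkSL_injective)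
  have h2 := Class.card_units_mul_card_SL (ι := Fin 3) (R := F)
  rw [Matrix.card_GL_field, Nat.card_units, Fin.prod_univ_three, Nat.card_eq_fintype_card (α := F)]
    at h2
  have : Nonempty (Fin n) := ⟨⟨0, by omega⟩⟩
  rw [Class.card_SL2, Class.card_center_SL, Nat.card_eq_fintype_card (α := F)]
  obtain ⟨q, hq⟩ : ∃ q, Fintype.card F = q + 2 := ⟨_, (Nat.sub_add_cancel Fintype.one_lt_card).symm⟩
  rw [hq] at h2 ⊢
  refine lt_of_lt_of_le ?_ h1
  refine lt_of_le_of_lt (Nat.mul_le_mul_left _ (Nat.gcd_le_right _ (by simp))) ?_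
  refine lt_of_mul_lt_mul_left (a := q + 2 - 1) ?_ (Nat.zero_le _)
  rw [h2, show (q + 2) ^ 2 - 1 = q ^ 2 + 4 * q + 3 from Nat.sub_eq_of_eq_add (by ring),
    show (q + 2) ^ 3 - (q + 2) ^ (0 : Fin 3).1 = q ^ 3 + 6 * q ^ 2 + 12 * q + 7 from
      Nat.sub_eq_of_eq_add (by simp; ring),
    show (q + 2) ^ 3 - (q + 2) ^ (1 : Fin 3).1 = q ^ 3 + 6 * q ^ 2 + 11 * q + 6 from
      Nat.sub_eq_of_eq_add (by simp; ring),
    show (q + 2) ^ 3 - (q + 2) ^ (2 : Fin 3).1 = q ^ 3 + 5 * q ^ 2 + 8 * q + 4 from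
      Nat.sub_eq_of_eq_add (by simp; ring), show q + 2 - 1 = q + 1 from rfl]
  ring_nf
  nlinarith [Nat.zero_le q, Nat.zero_le (q ^ 2), Nat.zero_le (q ^ 3), Nat.zero_le (q ^ 4),
    Nat.zero_le (q ^ 5), Nat.zero_le (q ^ 6), Nat.zero_le (q ^ 7), Nat.zero_le (q ^ 8),
    Nat.zero_le (q ^ 9)]

theorem exists_pair_nc [Finite F] : ∃ x y : SpecialLinearGroup (Fin 2) F,
    closure {x, y} = ⊤ ∧ normalClosure {x} = ⊤ := by
  have := Fintype.ofFinite F
  have hw := wE_tvE_coe (F := F) (i := (0 : Fin 2)) zero_ne_one one_ne_zero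
  have key : ∀ N : Subgroup (SpecialLinearGroup (Fin 2) F), N.Normal → TvIn N 1 0 → N = ⊤ :=
    fun N hN h => Class.SL_eq_top_of_transvection_mem _ fun i j hij t => by
      obtain ⟨rfl, rfl⟩ | ⟨rfl, rfl⟩ : (i = 0 ∧ j = 1) ∨ (i = 1 ∧ j = 0) := by revert i j; decide
      · have := hN.conj_mem _ (h one_ne_zero (-t)) (wE tvE 0 1 1)
        rw [mon_conj_tv hw] at this
        simpa [wC] using this
      · exact h _ t
  have ha : swap (0 : Fin 2) 1 0 ≠ 0 := by decide
  have hσ : ∀ i j : Fin 2, ∃ k : ℕ, (swap (0 : Fin 2) 1 ^ k) i = j := fun i j => by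
    by_cases h : i = j
    · exact ⟨0, h⟩
    · exact ⟨1, by revert i j; decide⟩
  by_cases hF : Fintype.card F ≤ 3
  · exact ⟨_, _, closure_small_pair hF hw ha hσ, key _ inferInstance
      (tvIn_of_small hF ha (subset_normalClosure rfl))⟩
  · obtain ⟨k, hk⟩ := IsCyclic.exists_generator (α := Fˣ)
    have h2 := sub_ne_zero.2 (sq_ne_one_of_gen (by omega) hk)
    refine ⟨_, _, closure_steinberg_pair (h := SpecialLinearGroup.diag2n ha k k.ne_zero) (by omega)
      hk hw ha hσ rfl, key _ inferInstance fun h t => ?_⟩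
    have h1 : SpecialLinearGroup.diag2n ha (k : F) k.ne_zero ∈
      normalClosure {SpecialLinearGroup.diag2n ha (k : F) k.ne_zero} := subset_normalClosure rfl
    have := mul_mem h1 (normalClosure_normal.conj_mem _ (inv_mem h1)
      (SpecialLinearGroup.transvection h (t / (k ^ 2 - 1))))
    rw [← mul_assoc, ← mul_assoc, diag_conj_tv rfl, SpecialLinearGroup.transvection_inv,
      tv_add] at this
    convert this using 2
    simp
    field_simp
    ring

theorem exists_gens_K2 [Finite F] :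
    ∃ x y z : SpecialLinearGroup (Fin 2) F × SpecialLinearGroup (Fin 2) F,
      closure {x, y, z} = ⊤ := by
  obtain ⟨x, y, h1, h2⟩ := exists_pair_nc (F := F)
  refine ⟨(x, 1), (y, y), (1, x), ?_⟩
  set I := closure {(x, (1 : SpecialLinearGroup (Fin 2) F)), (y, y), (1, x)}
  have k1 : Function.Surjective (Prod.fst ∘ I.subtype) := fun a => by
    obtain ⟨x, hx, e⟩ : a ∈ I.map (MonoidHom.fst _ _) := closure_mono (h := {x, y}) (by
      simp [Set.image_insert_eq, Set.insert_subset_iff]) |>.trans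
        (MonoidHom.map_closure _ _).ge (h1 ▸ mem_top a)
    exact ⟨⟨x, hx⟩, e⟩
  have k2 : Function.Surjective (Prod.snd ∘ I.subtype) := fun a => by
    obtain ⟨x, hx, e⟩ : a ∈ I.map (MonoidHom.snd _ _) := closure_mono (h := {x, y}) (by
      simp [Set.image_insert_eq, Set.insert_subset_iff]) |>.trans
        (MonoidHom.map_closure _ _).ge (h1 ▸ mem_top a)
    exact ⟨⟨x, hx⟩, e⟩
  have := normal_goursatFst k1
  have := normal_goursatSnd k2
  rw [eq_top_iff, ← top_prod_top, ← h2]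
  refine (prod_mono (normalClosure_le_normal ?_) (normalClosure_le_normal ?_)).trans
    (goursatFst_prod_goursatSnd_le I)
  · exact Set.singleton_subset_iff.2 (mem_goursatFst.2 (subset_closure (by simp)))
  · exact Set.singleton_subset_iff.2 (mem_goursatSnd.2 (subset_closure (by simp)))

end Cfsg.Agent.KSG.BN
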