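import Mathlib
import Cfsg.Agent.KSG.PresO2

/-!
Bounded presentations of the orthogonal groups of plus type: the finite list of relations.
-/

set_option autoImplicit false
set_option linter.unusedSectionVars false

namespace Cfsg.Agent.KSG.BN

open Matrix Equiv Subgroup Class.Orth QuadraticMap

variable {F : Type*} [Field F]

section

variable {Γ : Type*} [Group Γ] {ι : Type*} [Fintype ι] [DecidableEq ι]

theorem eq_top_of_K [Finite F] {a b r : ι} (ab : a ≠ b) (ra : r ≠ a) (rb : r ≠ b)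
    {M : Subgroup (SpecialLinearGroup ι F)} (h1 : ∀ i j, i ≠ a → i ≠ b → j ≠ a → j ≠ b → TvIn M i j)
    (h2 : TvIn M a b) (h3 : TvIn M b a) (h4 : wE tvE b r 1 ∈ M) : M = ⊤ := by
  have hw := wE_tvE_coe (F := F) rb.symm one_ne_zero
  have e := swap_apply_of_ne_of_ne ab ra.symm
  have k1 : TvIn M a r := by simpa [e] using h2.conj hw h4
  have k2 : TvIn M r a := by simpa [e] using h3.conj hw h4
  have k3 : ∀ i, TvIn M i r := fun i => by
    by_cases ia : i = a
    · exact ia ▸ k1
    by_cases ib : i = b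
    · exact ib ▸ h3.trans k1
    exact h1 i r ia ib ra rb
  have k4 : ∀ i, TvIn M r i := fun i => by
    by_cases ia : i = a
    · exact ia ▸ k2
    by_cases ib : i = b
    · exact ib ▸ k2.trans h2
    exact h1 r i ra rb ia ib
  exact eq_top_of_tvE M fun i j h t => tvE_eq h t ▸ (k3 i).trans (k4 j) h t

theorem act_of_one [Finite F] {l : SpecialLinearGroup ι F →* Γ} {s : Γ} {a b r : ι} (ab : a ≠ b)
    (ra : r ≠ a) (rb : r ≠ b) (sq : s * s = 1) (cent : ∀ g, Fix a g → Fix b g → Commute s (l g))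
    (sw : ∀ t, s * l (tvE a b t) * s⁻¹ = l (tvE b a (-t))) {ζ : Fˣ}
    (hζ : ∀ a : Fˣ, a ∈ Submonoid.powers ζ) (hd : ∀ i, (if i = r ∨ i = b then (ζ : F) else 1) ≠ 0)
    (h : s * l (hE tvE r b ζ) * s⁻¹ * l (wE tvE b r 1) * (s * l (hE tvE r b ζ) * s⁻¹)⁻¹ =
      l (dcj _ hd (wE tvE b r 1))) {t : F} (ht : t ≠ 0) :
    Act (fun i j a => l (tvE i j a)) (s * l (hE tvE r b t) * s⁻¹) 1
      fun i => if i = r ∨ i = b then t else 1 := by
  have cc : ∀ x, s * (s * x * s⁻¹) * s⁻¹ = x := fun x => by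
    calc _ = s * s * x * (s * s)⁻¹ := by group
      _ = x := by rw [sq]; group
  have sw' : ∀ t, s * l (tvE b a t) * s⁻¹ = l (tvE a b (-t)) := fun t => by
    rw [← cc (l (tvE a b (-t))), sw, neg_neg]
  have A := act_map l (hE_mon rb ζ.ne_zero)
  have key : ∀ {i j k m} (c : F), i ≠ j → k ≠ m → (∀ t, s * l (tvE k m t) * s⁻¹ = l (tvE i j (c * t))) →
      c * c = 1 → ((if k = r then (ζ : F) else if k = b then (ζ : F)⁻¹ else 1) /
        (if m = r then (ζ : F) else if m = b then (ζ : F)⁻¹ else 1) =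
        (if i = r ∨ i = b then (ζ : F) else 1) / if j = r ∨ j = b then (ζ : F) else 1) →
      TvIn (MonoidHom.eqLocus ((MulAut.conj (s * l (hE tvE r b ζ) * s⁻¹)).toMonoidHom.comp l)
        (l.comp (dcj _ hd))) i j := by
    intro i j k m c hij hkm h1 h2 h3 _ u
    rw [← tvE_eq hij]
    change _ * l _ * _ = l (dcj _ hd _)
    rw [dcj_tvE _ hd hij, show u = c * (c * u) by rw [← mul_assoc, h2, one_mul], ← h1,
      conj_inv, conj_mul, conj_mul, A.2 k m hkm]
    refine (h1 _).trans ?_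
    congr 2
    rw [mul_div_right_comm, h3, mul_div_right_comm]
    ring
  have h1 := eq_top_of_K ab ra rb (fun i j ia ib ja jb hij => key 1 hij hij (fun t => by
      rw [conj_eq_of_commute (cent _ (fix_tvE hij ia ja t) (fix_tvE hij ib jb t)), one_mul])
      (by simp) (by simp [ib, jb]) hij)
    (key (-1) ab ab.symm (by simpa using sw') (by simp) (by simp [ra.symm, rb.symm, ab]))
    (key (-1) ab.symm ab (by simpa using sw) (by simp) (by simp [ra.symm, rb.symm, ab])) h
  have h2 : Act (fun i j a => l (tvE i j a)) (s * l (hE tvE r b ζ) * s⁻¹) 1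
      fun i => if i = r ∨ i = b then ζ else 1 := ⟨hd, fun i j hij u =>
    (h1.ge (mem_top (tvE i j u))).trans (congrArg l (dcj_tvE _ hd hij u))⟩
  obtain ⟨m, hm⟩ := hζ (Units.mk0 t ht)
  obtain rfl : (ζ : F) ^ m = t := by simpa using congrArg Units.val hm
  clear hm
  induction m with
  | zero => simpa [hE, Pi.one_def] using Act.one (x := fun i j a => l (tvE i j a))
  | succ m ih =>
    rw [pow_succ, hE_tvE_mul rb (pow_ne_zero _ ζ.ne_zero) ζ.ne_zero, map_mul, ← conj_mul]
    convert (ih (pow_ne_zero _ ζ.ne_zero)).mul h2 using 1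
    · simp
    · funext i; by_cases h : i = r ∨ i = b <;> simp [h]

/-- The elements on which `s` acts as `w`. -/
def sEq (l : SpecialLinearGroup ι F →* Γ) (s : Γ) (w : SpecialLinearGroup ι F) :
    Subgroup (SpecialLinearGroup ι F) :=
  MonoidHom.eqLocus ((MulAut.conj s).toMonoidHom.comp l) (l.comp (MulAut.conj w).toMonoidHom)

theorem mem_sEq {l : SpecialLinearGroup ι F →* Γ} {s : Γ} {w k : SpecialLinearGroup ι F} :
    k ∈ sEq l s w ↔ s * l k * s⁻¹ = l (w * k * w⁻¹) := Iff.rfl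

/-- The relations for the orthogonal group. -/
def oRels (l : SpecialLinearGroup ι F →* Γ) (s : Γ) (a b r r' : ι) (h d : SpecialLinearGroup ι F)
    (ks : List (SpecialLinearGroup ι F)) (e : List Unit) : List (Γ × Γ) :=
  [(s * s, 1), (s * l h * s⁻¹ * l (wE tvE b r 1) * (s * l h * s⁻¹)⁻¹, l d),
    (s * l (hE tvE r b (-1)) * s⁻¹, l (hE tvE r b (-1))),
    (s * (l (wE tvE a r 1) * s * (l (wE tvE a r 1))⁻¹), l (wE tvE b r 1) * s * (l (wE tvE b r 1))⁻¹),
    (l (tvE r b 1) * (s * l (tvE r b 1) * s⁻¹), s * l (tvE r b 1) * s⁻¹ * l (tvE r b 1))] ++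
  (ks.map fun k => (s * l k * s⁻¹, l (wE tvE a b 1 * k * (wE tvE a b 1)⁻¹))) ++
  e.map fun _ => (l (tvE a r' 1) * (s * l (tvE r b 1) * s⁻¹), s * l (tvE r b 1) * s⁻¹ * l (tvE a r' 1))

theorem oRels_map {Γ' : Type*} [Group Γ'] (ψ : Γ →* Γ') (l : SpecialLinearGroup ι F →* Γ) (s : Γ)
    (a b r r' : ι) (h d : SpecialLinearGroup ι F) (ks : List (SpecialLinearGroup ι F))
    (e : List Unit) : (oRels l s a b r r' h d ks e).map (Prod.map ψ ψ) =
      oRels (ψ.comp l) (ψ s) a b r r' h d ks e := by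
  simp only [oRels, List.map_append, List.map_cons, List.map_nil, List.map_map, Function.comp_def,
    Prod.map_apply, map_mul ψ, map_inv ψ, map_one, MonoidHom.comp_apply]

end

theorem blkSL_tvE {n : ℕ} {i j : Fin n} (h : i ≠ j) (t : F) :
    Hyp.blkSL (tvE i j t) = tvE i.castSucc j.castSucc t := Subtype.ext (by
  rw [tvE_coe (Fin.castSucc_injective _ |>.ne h)]
  exact (congrArg Hyp.blk (tvE_coe h t)).trans (Hyp.blk_transvection i j t))

theorem exists_blk_of_fix {n : ℕ} {g : SpecialLinearGroup (Fin (n + 2)) F}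
    (h1 : Fix (Fin.last n).castSucc g) (h2 : Fix (Fin.last _) g) :
    ∃ k, g = Hyp.blkSL (Hyp.blkSL k) := by
  obtain ⟨k, rfl⟩ := mem_range_blkSL (fun j h => (h2.2 j h).1) (fun j h => (h2.2 j h).2) h2.1
  obtain ⟨k, rfl⟩ := mem_range_blkSL (g := k)
    (fun j h => (Hyp.blk_cc _ _ _).symm.trans (h1.2 _ ((Fin.castSucc_injective _).ne h)).1)
    (fun j h => (Hyp.blk_cc _ _ _).symm.trans (h1.2 _ ((Fin.castSucc_injective _).ne h)).2)
    ((Hyp.blk_cc _ _ _).symm.trans h1.1)
  exact ⟨k, rfl⟩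

theorem exists_embK [Finite F] {n : ℕ} (hn : 1 ≤ n) :
    ∃ ε : SpecialLinearGroup (Fin 2) F × SpecialLinearGroup (Fin n) F →*
      SpecialLinearGroup (Fin (n + 2)) F, (∀ k, ε (1, k) = Hyp.blkSL (Hyp.blkSL k)) ∧
      (∀ t, ε (tvE 0 1 t, 1) = tvE (Fin.last n).castSucc (Fin.last _) t) ∧
      ∀ t, ε (tvE 1 0 t, 1) = tvE (Fin.last _) (Fin.last n).castSucc t := by
  have ab := Fin.castSucc_ne_last (Fin.last n)
  obtain ⟨e, h1, h2⟩ := (stSL_tvE.stRel (F := F) (by simpa using hn) ab).exists_hom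
  have e1 : ∀ t, e (tvE 0 1 t) = tvE (Fin.last n).castSucc (Fin.last _) t := fun t => by
    rw [← h1]; congr 1; apply Subtype.ext; rw [tvE_coe zero_ne_one]
    ext i j; fin_cases i <;> fin_cases j <;> simp
  have e2 : ∀ t, e (tvE 1 0 t) = tvE (Fin.last _) (Fin.last n).castSucc t := fun t => by
    rw [← h2]; congr 1; apply Subtype.ext; rw [tvE_coe one_ne_zero]
    ext i j; fin_cases i <;> fin_cases j <;> simp
  have hc : ∀ x k, Commute (e x) ((Hyp.blkSL.comp Hyp.blkSL) k) := fun x k => by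
    have := eq_top_of_tvE ((centralizer {(Hyp.blkSL.comp Hyp.blkSL) k}).comap e) fun i j h t => by
      have := eq_top_of_tvE ((centralizer {e (tvE i j t)}).comap (Hyp.blkSL.comp Hyp.blkSL))
        fun p q hpq u => by
          have c : ∀ p : Fin n, p.castSucc.castSucc ≠ (Fin.last n).castSucc := fun p =>
            (Fin.castSucc_injective _).ne (Fin.castSucc_ne_last p)
          have c' := (Fin.castSucc_injective _).ne ((Fin.castSucc_injective _).ne hpq)
          rw [mem_comap, mem_centralizer_singleton_iff, MonoidHom.comp_apply, blkSL_tvE hpq,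
            blkSL_tvE ((Fin.castSucc_injective _).ne hpq)]
          obtain ⟨rfl, rfl⟩ | ⟨rfl, rfl⟩ : (i = 0 ∧ j = 1) ∨ (i = 1 ∧ j = 0) := by
            revert i j; decide
          · rw [e1]
            exact stSL_tvE.comm _ _ _ _ c' ab (Fin.castSucc_ne_last _) (c q) _ _
          · rw [e2]
            exact stSL_tvE.comm _ _ _ _ c' ab.symm (c p) (Fin.castSucc_ne_last _) _ _
      exact mem_centralizer_singleton_iff.2
        (mem_centralizer_singleton_iff.1 (this ▸ mem_top k : k ∈ comap _ _)).symm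
    exact mem_centralizer_singleton_iff.1 (this.ge (mem_top x))
  exact ⟨e.noncommCoprod _ hc, by simp, by simp [e1], by simp [e2]⟩

theorem pres_Omega_of [Finite F] {n d r : ℕ} (hn : 2 ≤ n)
    (h : Pres d r (SpecialLinearGroup (Fin (n + 2)) F))
    (ks : List (SpecialLinearGroup (Fin 2) F × SpecialLinearGroup (Fin n) F))
    (hk : closure {k | k ∈ ks} = ⊤) (e : List Unit) (he : n = 2 → e ≠ []) :
    Pres (d + 1) (r + (5 + ks.length + e.length)) (commutator (OG (plusQF (n + 2) F))) := by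
  obtain ⟨ζ, hζ⟩ := IsCyclic.exists_monoid_generator (α := Fˣ)
  obtain ⟨ε, ε1, ε2, ε3⟩ := exists_embK (F := F) (n := n) (by omega)
  obtain ⟨a, ha⟩ : ∃ a, a = (Fin.last n).castSucc := ⟨_, rfl⟩
  obtain ⟨b, hb⟩ : ∃ b, b = Fin.last (n + 1) := ⟨_, rfl⟩
  rw [← ha, ← hb] at ε2 ε3
  have ab : a ≠ b := ha ▸ hb ▸ Fin.castSucc_ne_last _
  obtain ⟨p, pa, pb⟩ := exists_third (by simp; omega) a b
  obtain ⟨q, qa, qb, qp⟩ := exists_fourth (by simp; omega) a b p
  have G := dBase_O (F := F) ab pa pb qa qb qp.symm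
  have hd : ∀ i, (if i = p ∨ i = b then (ζ : F) else 1) ≠ 0 := (G.act _ ζ.ne_zero).1
  have hw := wE_tvE_coe (F := F) ab one_ne_zero
  have w1 : ∀ t, wE tvE a b 1 * tvE a b t * (wE tvE a b 1)⁻¹ = tvE b a (-t : F) := fun t => by
    rw [(act_tvE hw).2 a b ab]; simp [wC, ab]
  have w2 : ∀ t, wE tvE a b 1 * tvE b a t * (wE tvE a b 1)⁻¹ = tvE a b (-t : F) := fun t => by
    rw [(act_tvE hw).2 b a ab.symm]; simp [wC, ab, div_neg]
  have w3 : ∀ k, wE tvE a b 1 * ε (1, k) * (wE tvE a b 1)⁻¹ = ε (1, k) := fun k => by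
    rw [wE, ← ε2, ← ε3, ← map_mul, ← map_mul, ← map_inv, ← map_mul, ← map_mul]; simp
  let π₀ := Monoid.Coprod.lift (oL (m := n + 2) (F := F))
    (FreeGroup.lift fun _ : Fin 1 => oR F a * oR F b)
  have hπ : ∀ x, π₀ x ∈ commutator (OG (plusQF (n + 2) F)) := fun x => by
    induction x using Monoid.Coprod.induction_on with
    | inl g => exact oL_mem (by omega) g
    | inr g =>
      exact FreeGroup.range_lift_le (s := commutator _) (by
        rintro _ ⟨_, rfl⟩; exact oS_mem a b) ⟨g, rfl⟩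
    | mul x y hx hy => rw [map_mul]; exact mul_mem hx hy
  have hs : π₀ (.inr (.of 0)) = oR F a * oR F b := by simp [π₀]
  refine (Pres.quotient' (h.coprod (Pres.free 1)) (π₀.codRestrict _ hπ) ?_
    (oRels Monoid.Coprod.inl (.inr (.of 0)) a b p q (hE tvE p b ζ) (dcj _ hd (wE tvE b p 1))
      (ks.map ε) e) ?_ ?_).mono (by simp [oRels]; omega)
  · rintro ⟨x, hx⟩
    obtain ⟨y, rfl⟩ := commutator_le_O (M := π₀.range) (by omega) ab (fun g => ⟨.inl g, rfl⟩)
      ⟨_, hs⟩ hx
    exact ⟨y, rfl⟩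
  · have : ∀ x ∈ oRels oL (oR F a * oR F b) a b p q (hE tvE p b ζ) (dcj _ hd (wE tvE b p 1))
        (ks.map ε) e, x.1 = x.2 := by
      simp only [oRels, List.forall_mem_append, List.forall_mem_cons, List.forall_mem_map]
      refine ⟨⟨⟨G.sq, act_eq_dcj (G.act _ ζ.ne_zero) _, ?_, G.tr, G.xy, by simp⟩, fun k _ => ?_⟩,
        fun _ _ => ?_⟩
      · refine Subtype.ext (LinearEquiv.toLinearMap_injective ((Pi.basisFun F _).ext ?_))
        have h1 : (-1 : F) ≠ 0 := by simp
        rintro (i | i) <;> rw [Pi.basisFun_apply]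
        · exact ((oS_tor pa pb ab h1 i).1.trans (by by_cases i = p <;> simp [*])).trans
            (oL_e (hE_mon pb h1) i).symm
        · exact ((oS_tor pa pb ab h1 i).2.trans (by by_cases i = p <;> simp [*])).trans
            (oL_f (hE_mon pb h1) i).symm
      · have k1 := eq_top_of_tvE ((sEq oL (oR F a * oR F b) (wE tvE a b 1)).comap
          (ε.comp (MonoidHom.inl _ _))) fun i j h t => by
            change ε (tvE i j t, 1) ∈ sEq _ _ _
            obtain ⟨rfl, rfl⟩ | ⟨rfl, rfl⟩ : (i = 0 ∧ j = 1) ∨ (i = 1 ∧ j = 0) := by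
              revert i j; decide
            · rw [ε2, mem_sEq, w1, G.sw]
            · rw [ε3, mem_sEq, w2, G.sw']
        have k2 := eq_top_of_tvE ((sEq oL (oR F a * oR F b) (wE tvE a b 1)).comap
          (ε.comp (MonoidHom.inr _ _))) fun i j h t => by
            change ε (1, tvE i j t) ∈ sEq _ _ _
            have c : ∀ p : Fin n, p.castSucc.castSucc ≠ a := fun p =>
              ha ▸ (Fin.castSucc_injective _).ne (Fin.castSucc_ne_last p)
            have c' := (Fin.castSucc_injective _).ne ((Fin.castSucc_injective _).ne h)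
            rw [mem_sEq, w3, ε1, blkSL_tvE h, blkSL_tvE ((Fin.castSucc_injective _).ne h),
              conj_eq_of_commute (G.cent _ (fix_tvE c' (c i) (c j) t)
                (fix_tvE c' (hb ▸ Fin.castSucc_ne_last _) (hb ▸ Fin.castSucc_ne_last _) t))]
        have := mul_mem (mem_comap.1 (k1.ge (mem_top k.1))) (mem_comap.1 (k2.ge (mem_top k.2)))
        rw [MonoidHom.comp_apply, MonoidHom.comp_apply, ← map_mul] at this
        exact mem_sEq.1 (by simpa using this)
      · rw [oS_y pb pa.symm ab, oL_tvE qa.symm]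
        refine (mul_inv_eq_iff_eq_mul.1 ?_).symm
        rw [conj_eichler, y_apply, y_apply]
        simp [qp.symm, qb.symm]
    intro x hx
    apply Subtype.ext
    refine this (Prod.map π₀ π₀ x) ?_
    have e := oRels_map π₀ Monoid.Coprod.inl (.inr (.of 0)) a b p q (hE tvE p b ζ)
      (dcj _ hd (wE tvE b p 1)) (ks.map ε) e
    rw [Monoid.Coprod.lift_comp_inl, hs] at e
    exact e ▸ List.mem_map.2 ⟨x, hx, rfl⟩
  · intro Γ _ ψ φ hψ hφ hR
    have R : ∀ x ∈ oRels (ψ.comp Monoid.Coprod.inl) (ψ (.inr (.of 0))) a b p q (hE tvE p b ζ)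
        (dcj _ hd (wE tvE b p 1)) (ks.map ε) e, x.1 = x.2 := by
      rw [← oRels_map]
      intro x hx
      obtain ⟨y, hy, rfl⟩ := List.mem_map.1 hx
      exact hR y hy
    have gen : ∀ M : Subgroup Γ, (ψ.comp Monoid.Coprod.inl).range ≤ M →
        ψ (.inr (.of 0)) ∈ M → M = ⊤ := fun M h1 h2 => by
      rw [eq_top_iff]
      rintro x -
      obtain ⟨x, rfl⟩ := hψ x
      induction x using Monoid.Coprod.induction_on with
      | inl g => exact h1 ⟨g, rfl⟩
      | inr g =>
        induction g using FreeGroup.induction_on with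
        | C1 => simp
        | of i => rwa [Subsingleton.elim i 0]
        | inv_of i h => simpa using h
        | mul x y hx hy => rw [map_mul, map_mul]; exact mul_mem hx hy
      | mul x y hx hy => rw [map_mul]; exact mul_mem hx hy
    have p1 : ∀ g, ((commutator _).subtype.comp φ) ((ψ.comp Monoid.Coprod.inl) g) = oL g :=
      fun g => congrArg Subtype.val (DFunLike.congr_fun hφ _)
    have p2 : ((commutator _).subtype.comp φ) (ψ (.inr (.of 0))) = oR F a * oR F b :=
      (congrArg Subtype.val (DFunLike.congr_fun hφ _)).trans hs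
    generalize ψ.comp Monoid.Coprod.inl = l at *
    generalize ψ (.inr (.of 0)) = s at *
    simp only [oRels, List.forall_mem_append, List.forall_mem_cons, List.forall_mem_map] at R
    obtain ⟨⟨⟨r1, r2, r3, r4, r5, -⟩, r6⟩, r7⟩ := R
    have k1 : ∀ k, s * l (ε k) * s⁻¹ = l (wE tvE a b 1 * ε k * (wE tvE a b 1)⁻¹) := fun k =>
      mem_sEq.1 ((closure_le (comap ε (sEq l s _))).2 (fun k hk => r6 k hk) (hk.ge (mem_top k)))
    have cent : ∀ g, Fix a g → Fix b g → Commute s (l g) := fun g h1 h2 => by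
      obtain ⟨k, rfl⟩ := exists_blk_of_fix (ha ▸ h1) (hb ▸ h2)
      rw [← ε1]
      exact mul_inv_eq_iff_eq_mul.1 ((k1 _).trans (by rw [w3]))
    have sw : ∀ t, s * l (tvE a b t) * s⁻¹ = l (tvE b a (-t)) := fun t => by
      rw [← w1, ← ε2, k1]
    refine Function.Injective.of_comp (f := (commutator _).subtype) (DBase.injective_O
      ⟨ab, pa, pb, qa, qb, qp.symm, r1, cent, sw,
        fun t ht => act_of_one ab pa pb r1 cent sw hζ hd r2 ht, r4, r5⟩
      (fun h => ?_) r3 gen _ p1 p2)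
    obtain ⟨x, hx⟩ := List.exists_mem_of_ne_nil _ (he h)
    exact r7 x hx

theorem pres_Omega [Finite F] {n : ℕ} (hn : 4 ≤ n) :
    Pres 8 31 (commutator (OG (plusQF n F))) ∧
      (n ≤ 5 → Pres 8 29 (commutator (OG (plusQF n F)))) := by
  obtain ⟨n, rfl⟩ : ∃ m, n = m + 2 := ⟨n - 2, by omega⟩
  have h4 : Pres 8 29 (commutator (OG (plusQF 4 F))) := by
    obtain ⟨x, y, z, h⟩ := exists_gens_K2 (F := F)
    exact (pres_Omega_of (n := 2) le_rfl pres_SL_four [x, y, z] (by rw [← h]; congr 1; ext; simp) [()]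
      (by simp)).pad' (by norm_num) (by simp)
  by_cases h : n = 2
  · subst h; exact ⟨h4.mono (by norm_num), fun _ => h4⟩
  obtain ⟨x, y, h⟩ := exists_gens_K (F := F) (n := n) (by omega)
  refine ⟨(pres_Omega_of (by omega) (pres_SL (by omega)) [x, y] (by rw [← h]; congr 1; ext; simp) []
    (by omega)).pad' (by norm_num) (by simp), fun h5 => ?_⟩
  obtain rfl : n = 3 := by omega
  exact (pres_Omega_of (by omega) pres_SL_five [x, y] (by rw [← h]; congr 1; ext; simp) []
    (by omega)).pad' (by norm_num) (by simp)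

theorem pres_pOmega [Finite F] {V : Type*} [AddCommGroup V] [Module F V] [FiniteDimensional F V]
    {Q : QuadraticForm F V} (hQ : ND Q) (h5 : 5 ≤ Module.finrank F V) {d r : ℕ}
    (h : Pres d r (commutator (OG Q))) :
    Pres d (r + 1) (commutator (OG Q) ⧸ center (commutator (OG Q))) := by
  have : IsCyclic (center (commutator (OG Q))) := by
    by_cases h1 : negOne Q ∈ commutator (OG Q)
    · refine ⟨⟨⟨⟨_, h1⟩, (hQ.mem_center_Omega h5 _).2 (Or.inr rfl)⟩, fun x => ?_⟩⟩
      rcases (hQ.mem_center_Omega h5 _).1 x.2 with h | h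
      · exact ⟨0, Subtype.ext (Subtype.ext (by simp [h]))⟩
      · exact ⟨1, Subtype.ext (Subtype.ext (by simp [h]))⟩
    · refine ⟨⟨1, fun x => ⟨0, Subtype.ext (Subtype.ext ?_)⟩⟩⟩
      rcases (hQ.mem_center_Omega h5 _).1 x.2 with h | h
      · simp [h]
      · exact absurd (h ▸ x.1.2) h1
  exact h.quotient_cyclic _

end Cfsg.Agent.KSG.BN
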