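import Mathlib
import Cfsg.Agent.KSG.PresU3b
import Cfsg.Agent.KSG.PresImp
import Cfsg.Agent.KSG.PresBN

/-!
A bounded presentation of `SU₃(q)`, `q ≥ 3`, on three generators.
-/

set_option autoImplicit false
set_option linter.unusedSectionVars false

namespace Cfsg.Agent.KSG.U3

open Cfsg Cfsg.Agent.Class.U Cfsg.Agent.KSG.Pres

universe u w

variable {F : Type u} [Field F] {q : ℕ} [hU : UF F q]

local notation "σ" => conj F q
local notation "𝐡" => hermForm 3 F q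

/-- The commutator generating the centre of the unipotent radical. -/
def zz {Γ : Type*} [Group Γ] (u h : Γ) : Γ := u * cj u h 1 * u⁻¹ * (cj u h 1)⁻¹

theorem map_zz {Γ Γ' : Type*} [Group Γ] [Group Γ'] (φ : Γ →* Γ') (u h : Γ) :
    φ (zz u h) = zz (φ u) (φ h) := by simp [zz, map_cj']

/-- The relations of the Borel subgroup. -/
structure BRel {Γ : Type*} [Group Γ] (q p k l : ℕ) (M M' : List ℕ) (u h : Γ) : Prop where
  r1 : Commute (zz u h) (cj (zz u h) h 1)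
  r2 : cj (zz u h) h k = zz u h * cj (zz u h) h 1 ∧
      (u * cj u h (q + 1))⁻¹ * cj u h (k * (q + 1)) ∈ Nn (zz u h) h ∨
    zz u h * cj (zz u h) h 1 = 1
  r3 : zz u h ^ p = 1
  r4 : horner (zz u h) h M = 1
  r5 : ∀ i ∈ [0, 1, 2, 3], Commute u (cj (zz u h) h i)
  r6 : ∀ i ∈ [2, 3], u * cj u h i * u⁻¹ * (cj u h i)⁻¹ ∈ Nn (zz u h) h
  r7 : (u * (cj u h 1 ^ 3 * cj u h 2 ^ 3) * cj u h 3)⁻¹ * cj u h l ∈ Nn (zz u h) h
  r8 : u ^ p ∈ Nn (zz u h) h
  r9 : horner u h M' ∈ Nn (zz u h) h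
  r10 : h ^ ((q + 1) * (q - 1)) = 1

variable {e n f : Fin 3 → F} (h : Fr q e n f) {ζ : Fˣ} (hζ : ∀ a : Fˣ, a ∈ Submonoid.powers ζ)
  {d u : SU 3 F q} (hd : Dg e f (ζ : F) d) {a : F} (hu : IsSiegel e ((1 : F) • n) a u)
  (hq : 3 ≤ q)
include h hζ hd hu hq

theorem BRel.injective {Γ : Type*} [Group Γ] (φ : Γ →* SU 3 F q) {U H : Γ} (hU' : φ U = u)
    (hH : φ H = d) (gen : ∀ K : Subgroup Γ, U ∈ K → H ∈ K → K = ⊤) {p k l : ℕ} [Fact p.Prime]
    [Algebra (ZMod p) F] {M M' : List ℕ} (hM : hpoly (ZMod p) M = minpoly (ZMod p) (ζ * σ ζ : F))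
    (hM' : hpoly (ZMod p) M' = minpoly (ZMod p) (σ ζ ^ 2 / ζ : F)) (R : BRel q p k l M M' U H) :
    Function.Injective φ := by
  have := hU.finite
  obtain ⟨s, s0, hs⟩ := sg_z h hζ hd hu hq
  set Z := zz U H with hZ
  have hz : IsSiegel e ((0 : F) • n) s (φ Z) := by rwa [hZ, map_zz, hU', hH]
  have c0 : ∀ i j, Commute (cj Z H i) (cj Z H j) := by
    rcases R.r2 with h2 | h2
    · exact baumslag_one R.r1 h2.1
    · intro i j
      obtain ⟨a, ha⟩ := Nn_eq_zpowers h2 i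
      obtain ⟨b, hb⟩ := Nn_eq_zpowers h2 j
      rw [← ha, ← hb]
      exact Commute.zpow_zpow_self _ _ _
  have c1 : ∀ w ∈ Nn Z H, ∃ s', IsSiegel e ((0 : F) • n) s' (φ w) ∧ (s' = 0 → w = 1) := by
    intro w hw
    obtain ⟨L, rfl, h2⟩ := exists_horner p c0 R.r3 hM R.r4 hw
    obtain ⟨s', h3, h4⟩ := sg_horner h hd hz L
    refine ⟨s', by rw [map_horner, hH]; exact sg_congr h3 (mul_zero _) rfl, fun h0 => h2 ?_⟩
    exact (mul_eq_zero.1 ((h4 rfl).symm.trans h0)).resolve_right s0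
  have c2 : ∀ w ∈ Nn Z H, φ w = 1 → w = 1 := fun w hw h1 => by
    obtain ⟨s', h3, h4⟩ := c1 w hw
    exact h4 (sg_inj h h3 (h1 ▸ sg_one h)).2
  have c3 : ∀ i, Commute U (cj Z H i) := by
    rcases R.r2 with h2 | h2
    · refine cent_Nn (m := q - 1) c0 h2.1 ?_ (fun i hi => R.r5 i (by simp; omega))
        (by rw [show q - 1 + 2 = q + 1 by omega]; exact h2.2)
      rw [← mul_inv_eq_one]
      refine c2 _ (mul_mem (cj_mem _ _ _) (inv_mem (mem_Nn _ _))) ?_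
      rw [map_mul, map_inv, mul_inv_eq_one, map_cj', hH]
      refine (sg_cj h hd hz _).unique (sg_congr hz (mul_zero _).symm ?_)
      rw [(conj_eq_self_iff (mul_ne_zero ζ.ne_zero (conj_ne_zero.2 ζ.ne_zero))).1
        (by rw [map_mul, conj_conj, mul_comm]), one_mul]
    · intro i
      obtain ⟨a, ha⟩ := Nn_eq_zpowers h2 i
      rw [← ha]
      exact (cj_zero Z H ▸ R.r5 0 (by simp)).zpow_right _
  obtain ⟨N, hN⟩ : ∃ N, (q + 1) * (q - 1) = N + 1 :=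
    Nat.exists_eq_add_one_of_ne_zero (Nat.mul_ne_zero (by omega) (by omega))
  have hi : H⁻¹ = H ^ N := inv_eq_of_mul_eq_one_left (by rw [← pow_succ, ← hN, R.r10])
  have c4 : (Nn Z H).Normal := by
    refine Subgroup.normalizer_eq_top_iff.1 (gen _ (Subgroup.mem_normalizer_iff.2 fun w => ?_)
      (Subgroup.mem_normalizer_iff.2 fun w => ⟨conj_mem_Nn, fun hw => ?_⟩))
    · have key : ∀ w ∈ Nn Z H, Commute U w := fun w hw =>
        commute_of_closure (S := {U}) (by rintro _ rfl _ ⟨i, rfl⟩; exact c3 i)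
          (Subgroup.subset_closure rfl) hw
      refine ⟨fun hw => by rwa [(key w hw).eq, mul_inv_cancel_right], fun hw => ?_⟩
      have := (key _ hw).inv_left.eq
      rw [← mul_inv_eq_iff_eq_mul] at this
      rw [← this] at hw
      simpa [mul_assoc] using hw
    · have := pow_conj_mem_Nn hw N
      rw [← hi] at this
      simpa [mul_assoc] using this
  let π := QuotientGroup.mk' (Nn Z H)
  have q1 : ∀ {w}, π w = 1 ↔ w ∈ Nn Z H := QuotientGroup.eq_one_iff _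
  have q2 : ∀ i, U * cj U H i * U⁻¹ * (cj U H i)⁻¹ ∈ Nn Z H → Commute (π U) (cj (π U) (π H) i) :=
    fun i hi => by
      have := q1.2 hi
      rwa [map_mul, map_mul, map_mul, map_inv, map_inv, map_cj', mul_inv_eq_one,
        mul_inv_eq_iff_eq_mul] at this
  have c5 := baumslag_three (k := l) (q2 1 (mem_Nn _ _)) (q2 2 (R.r6 2 (by simp)))
    (q2 3 (R.r6 3 (by simp))) (by
      have := q1.2 R.r7
      simp only [map_mul, map_inv, map_pow, map_cj', inv_mul_eq_one] at this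
      exact this.symm)
  rw [injective_iff_map_eq_one]
  intro g hg
  have c6 : π g ∈ Nn (π U) (π H) ⊔ Subgroup.zpowers (π H) :=
    (gen ((Nn (π U) (π H) ⊔ Subgroup.zpowers (π H)).comap π)
      (Subgroup.mem_sup_left (mem_Nn _ _))
      (Subgroup.mem_sup_right (Subgroup.mem_zpowers _))).ge (Subgroup.mem_top g)
  have pw : ∀ {Δ : Type _} [Group Δ] {x y : Δ}, x ^ (N + 1) = 1 → y ∈ Subgroup.zpowers x →
      ∃ i : ℕ, y = x ^ i := fun h1 h2 =>
    let ⟨i, hi⟩ := (isOfFinOrder_iff_pow_eq_one.2 ⟨_, N.succ_pos, h1⟩).mem_powers_iff_mem_zpowers.2 h2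
    ⟨i, hi.symm⟩
  have hπH : π H ^ (N + 1) = 1 := by rw [← map_pow, ← hN, R.r10, map_one]
  obtain ⟨w, hw, y, hy, e1⟩ := BN.exists_mul_of_conj (fun y hy w hw => by
    obtain ⟨i, rfl⟩ := pw hπH hy
    exact pow_conj_mem_Nn hw i) c6
  obtain ⟨i, rfl⟩ := pw hπH hy
  obtain ⟨L, rfl, h2⟩ := exists_horner p c5 (by rw [← map_pow, q1.2 R.r8]) hM'
    (by rw [← map_horner, q1.2 R.r9]) hw
  have e2 : (horner U H L)⁻¹ * g * (H ^ i)⁻¹ ∈ Nn Z H := q1.1 (by
    simp [e1, map_horner])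
  obtain ⟨s', h3, -⟩ := c1 _ e2
  obtain ⟨a', h4, -⟩ := sg_horner h hd hu L
  rw [map_mul, map_mul, hg, map_inv, map_inv, map_horner, map_pow, hU', hH, mul_one] at h3
  have h5 := sg_mul h h4 h3
  rw [mul_inv_cancel_left] at h5
  have h6 : (ζ : F) ^ i = 1 := by
    have := (hd.pow i).1
    rw [← inv_smul_eq_iff.1 (h.unip_e h5)] at this
    exact smul_left_injective F h.e_ne (this.symm.trans (one_smul _ _).symm)
  obtain ⟨j, rfl⟩ := (pow_eq_one_iff (q := q) hζ).1 h6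
  rw [pow_mul, ← hH, ← map_pow φ, R.r10, map_one, one_pow, inv_one] at h5
  rw [h2 (by simpa using (sg_inj h h5 (sg_one h)).1), pow_mul, hN, hπH, one_pow, mul_one] at e1
  exact c2 g (q1.1 e1) hg

theorem exists_BRel {p : ℕ} [Fact p.Prime] [CharP F p] [Algebra (ZMod p) F] {M M' : List ℕ}
    (hM : hpoly (ZMod p) M = minpoly (ZMod p) (ζ * σ ζ : F))
    (hM' : hpoly (ZMod p) M' = minpoly (ZMod p) (σ ζ ^ 2 / ζ : F)) :
    ∃ k l, BRel q p k l M M' u d := by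
  obtain ⟨s, s0, hs⟩ := sg_z h hζ hd hu hq
  change IsSiegel _ _ _ (zz u d) at hs
  have m0 := conj_mu_ne hζ hq
  have mem : ∀ {c c' a a' : F} {g g' : SU 3 F q}, IsSiegel e (c • n) a g →
      IsSiegel e (c' • n) a' g' → c = c' → g⁻¹ * g' ∈ Nn (zz u d) d := by
    rintro c _ a a' g g' h1 h2 rfl
    obtain ⟨s', h3⟩ := sg_div h h1 h2
    exact mem_Nn_of_sg h hζ hd hs s0 h3
  have zc := fun i => sg_congr (sg_cj h hd hs i) (mul_zero _) rfl
  have uc := fun i => sg_congr (sg_cj h hd hu i) (mul_one _) rfl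
  have min : ∀ {η : F} {M}, hpoly (ZMod p) M = minpoly (ZMod p) η → hval η M = 0 := fun h => by
    rw [← aeval_hpoly (ZMod p), h, minpoly.aeval]
  have nn : (σ ζ ^ 2 / ζ : F) ^ (q + 1) = ζ * σ ζ := by
    have h1 : σ (ζ : F) ≠ 0 := conj_ne_zero.2 ζ.ne_zero
    rw [← mul_conj_eq_pow, map_div₀, map_pow, conj_conj]
    field_simp
  obtain ⟨k, hk⟩ : ∃ k, 1 + ζ * σ ζ = (0 : F) ∨ (ζ * σ ζ : F) ^ k = 1 + ζ * σ ζ := by
    by_cases h0 : 1 + ζ * σ ζ = (0 : F)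
    · exact ⟨0, Or.inl h0⟩
    · obtain ⟨k, hk⟩ := exists_norm_pow (q := q) hζ h0
        (by rw [map_add, map_one, map_mul, conj_conj, mul_comm])
      exact ⟨k, Or.inr hk⟩
  obtain ⟨j, hj⟩ := exists_pow hζ (c := 1 + σ ζ ^ 2 / ζ) fun h0 => m0 (by
    rw [eq_neg_of_add_eq_zero_right h0, map_neg, map_one])
  obtain ⟨a1, b1, c1⟩ := sg_pow h hs p
  obtain ⟨a2, b2, c2⟩ := sg_horner h hd hs M
  obtain ⟨a3, b3, -⟩ := sg_pow h hu p
  obtain ⟨a4, b4, -⟩ := sg_horner h hd hu M'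
  obtain ⟨a5, b5, -⟩ := sg_pow h (uc 1) 3
  obtain ⟨a6, b6, -⟩ := sg_pow h (uc 2) 3
  refine ⟨k, (2 * q + 1) * j, sg_comm h hs (zc 1), ?_,
    b1.unique (sg_congr (sg_one h) (by simp) (by simp [c1])),
    b2.unique (sg_congr (sg_one h) (by simp) (by simp [c2, min hM])),
    fun i _ => sg_comm h hu (zc i), fun i _ => mem_Nn_of_sg h hζ hd hs s0 (sg_cmt h hu (uc i)),
    mem (sg_mul h (sg_mul h hu (sg_mul h b5 b6)) (uc 3)) (uc _) ?_,
    mem_Nn_of_sg h hζ hd hs s0 (sg_congr b3 (by simp) rfl),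
    mem_Nn_of_sg h hζ hd hs s0 (sg_congr b4 (by simp [min hM']) rfl), ?_⟩
  · rcases hk with hk | hk
    · exact Or.inr ((sg_mul h hs (zc 1)).unique (sg_congr (sg_one h) (by simp)
        (by linear_combination -s * hk)))
    · exact Or.inl ⟨(zc k).unique (sg_congr (sg_mul h hs (zc 1)) (by simp) (by rw [hk]; ring)),
        mem (sg_mul h hu (uc _)) (uc _) (by rw [mul_comm k, pow_mul, nn, hk])⟩
  · rw [pow_mul, mu_pow, ← pow_mul, mul_comm 3, pow_mul, hj]; push_cast; ring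
  · refine (hd.pow _).unique h ?_
    rw [(pow_eq_one_iff (q := q) hζ).2 dvd_rfl]
    simp [Dg]

theorem imp_borel : Imp.{u, 0, w} (FreeGroup.lift ![u, d]) 15 fun _ _ ψ =>
    ∀ x, FreeGroup.lift ![u, d] x = 1 → ψ x = 1 := by
  obtain ⟨p, k, hp, hc, -⟩ := exists_prime_pow F q
  have := Fact.mk hp
  let _ := ZMod.algebra F p
  obtain ⟨M, hM⟩ := hpoly_surjective p (minpoly (ZMod p) (ζ * σ ζ : F))
  obtain ⟨M', hM'⟩ := hpoly_surjective p (minpoly (ZMod p) (σ ζ ^ 2 / ζ : F))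
  obtain ⟨k, l, R⟩ := exists_BRel h hζ hd hu hq hM hM'
  set π : FreeGroup (Fin 2) →* SU 3 F q := FreeGroup.lift ![u, d] with hπ
  obtain ⟨U, H, e1, e2, gen⟩ : ∃ U H, π U = u ∧ π H = d ∧
      ∀ K : Subgroup (FreeGroup (Fin 2)), U ∈ K → H ∈ K → K = ⊤ :=
    ⟨.of 0, .of 1, by simp [hπ], by simp [hπ], fun K h1 h2 => by
      rw [eq_top_iff, ← FreeGroup.closure_range_of, Subgroup.closure_le]
      rintro _ ⟨i, rfl⟩
      fin_cases i
      exacts [h1, h2]⟩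
  refine Imp.ker (T := fun _ _ ψ => BRel q p k l M M' (ψ U) (ψ H)) ?_ fun Γ _ ψ φ a b c =>
    BRel.injective h hζ hd hu hq φ ((DFunLike.congr_fun b U).trans e1)
      ((DFunLike.congr_fun b H).trans e2) (fun K h1 h2 => eq_top_iff.2 fun x _ => by
        obtain ⟨x, rfl⟩ := a x
        exact (gen (K.comap ψ) h1 h2).ge (Subgroup.mem_top x)) hM hM' c
  rw [← e1, ← e2] at R
  clear_value π
  have mem : ∀ {x}, π x ∈ Nn (zz (π U) (π H)) (π H) →
      Imp.{u, 0, 0} π 1 fun _ _ ψ => ψ x ∈ Nn (zz (ψ U) (ψ H)) (ψ H) := fun {x} hx =>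
    (Imp.mem (a := x) (M := Nn (zz U H) H) (by rwa [map_Nn, map_zz])).imp fun _ _ _ h => by
      rwa [map_Nn, map_zz] at h
  have i2 : Imp.{u, 0, 0} π 2 fun _ _ ψ => cj (zz (ψ U) (ψ H)) (ψ H) k =
      zz (ψ U) (ψ H) * cj (zz (ψ U) (ψ H)) (ψ H) 1 ∧ (ψ U * cj (ψ U) (ψ H) (q + 1))⁻¹ *
        cj (ψ U) (ψ H) (k * (q + 1)) ∈ Nn (zz (ψ U) (ψ H)) (ψ H) ∨
      zz (ψ U) (ψ H) * cj (zz (ψ U) (ψ H)) (ψ H) 1 = 1 := by
    rcases R.r2 with h2 | h2
    · refine ((Imp.eq (a := cj (zz U H) H k) (b := zz U H * cj (zz U H) H 1) ?_).and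
        (mem (x := (U * cj U H (q + 1))⁻¹ * cj U H (k * (q + 1))) ?_)).imp fun _ _ _ h => Or.inl ?_
      · simpa only [map_mul, map_cj', map_zz] using h2.1
      · simpa only [map_mul, map_inv, map_cj'] using h2.2
      · simpa only [map_mul, map_inv, map_cj', map_zz] using h
    · refine (Imp.eq (a := zz U H * cj (zz U H) H 1) (b := 1) ?_).mono one_le_two
        fun _ _ _ h => Or.inr ?_
      · simpa only [map_mul, map_cj', map_zz, map_one] using h2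
      · simpa only [map_mul, map_cj', map_zz, map_one] using h
  refine ((((((((((Imp.comm (a := zz U H) (b := cj (zz U H) H 1) ?_).and i2).and
    (Imp.eq (a := zz U H ^ p) (b := 1) ?_)).and (Imp.eq (a := horner (zz U H) H M) (b := 1) ?_)).and
    (Imp.forall_mem [0, 1, 2, 3] fun i hi => Imp.comm (a := U) (b := cj (zz U H) H i) ?_)).and
    (Imp.forall_mem [2, 3] fun i hi => mem (x := U * cj U H i * U⁻¹ * (cj U H i)⁻¹) ?_)).and
    (mem (x := (U * (cj U H 1 ^ 3 * cj U H 2 ^ 3) * cj U H 3)⁻¹ * cj U H l) ?_)).and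
    (mem (x := U ^ p) ?_)).and (mem (x := horner U H M') ?_)).and
    (Imp.eq (a := H ^ ((q + 1) * (q - 1))) (b := 1) ?_)).imp fun _ _ _ h => ?_
  all_goals simp only [map_mul, map_inv, map_pow, map_cj', map_zz, map_one, map_horner] at *
  exacts [R.r1, R.r3, R.r4, R.r5 i hi, R.r6 i hi, R.r7, R.r8, R.r9, R.r10,
    let ⟨⟨⟨⟨⟨⟨⟨⟨⟨a, b⟩, c⟩, d⟩, e⟩, f⟩, g⟩, h⟩, i⟩, j⟩ := h; ⟨a, b, c, d, e, f, g, h, i, j⟩]

end Cfsg.Agent.KSG.U3
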