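import Mathlib
import Cfsg.Agent.KSG.PresU3c

/-!
The triangle relations of `SU₃(q)`: three of them, together with the collinear one, imply all.
-/

set_option autoImplicit false
set_option linter.unusedSectionVars false

namespace Cfsg.Agent.KSG.U3

open Cfsg Cfsg.Agent.Class.U Cfsg.Agent.KSG.Pres

universe u w

variable {F : Type u} [Field F] {q : ℕ} [hU : UF F q]

local notation "σ" => conj F q
local notation "𝐡" => hermForm 3 F q

/-- The Bruhat relation for `y`. -/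
def Good {Γ : Type*} [Group Γ] (B : Subgroup Γ) (T y : Γ) : Prop :=
  ∃ b₁ ∈ B, ∃ b₂ ∈ B, T * y * T = b₁ * T * b₂

theorem Dg.inv {e f : Fin 3 → F} {l : F} {d : SU 3 F q} (hd : Dg e f l d) (hl : l ≠ 0) :
    Dg e f l⁻¹ d⁻¹ :=
  ⟨inv_smul_of_eigen hl hd.1, by
    rw [inv_smul_of_eigen (inv_ne_zero (conj_ne_zero.2 hl)) hd.2, map_inv₀]⟩

variable {e n f : Fin 3 → F} (h : Fr q e n f) {ζ : Fˣ} (hζ : ∀ a : Fˣ, a ∈ Submonoid.powers ζ)

include h hζ in
theorem injective_of_good {Γ : Type*} [Group Γ] (φ : Γ →* SU 3 F q) {B : Subgroup Γ} {H T : Γ}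
    (hd : Dg e f (ζ : F) (φ H)) (te : φ T • e = f) (tf : φ T • f = e) (HB : H ∈ B)
    (hB : ∀ b ∈ B, ∃ l : F, φ b • e = l • e) (inj : ∀ b ∈ B, φ b = 1 → b = 1)
    (surj : ∀ (g : SU 3 F q) (l : F), g • e = l • e → ∃ b ∈ B, φ b = g)
    (TT : T * T = 1) {j : ℕ} (TH : T * H * T = H ^ j) {θ : F} (θ0 : θ ≠ 0)
    (gZ : ∃ y ∈ B, IsSiegel e ((0 : F) • n) θ (φ y) ∧ Good B T y)
    (g3 : ∀ i < 3, ∃ y ∈ B, ∃ l : F, σ l = l ∧
      IsSiegel e ((ζ : F) ^ i • n) (l * (θ * ζ)) (φ y) ∧ Good B T y)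
    (gen : ∀ K : Subgroup Γ, B ≤ K → T ∈ K → K = ⊤) : Function.Injective φ := by
  have inj' : ∀ b ∈ B, ∀ b' ∈ B, φ b = φ b' → b = b' := fun b hb b' hb' e =>
    mul_inv_eq_one.1 (inj _ (mul_mem hb (inv_mem hb')) (by rw [map_mul, map_inv, e, mul_inv_cancel]))
  have Ti : T⁻¹ = T := inv_eq_of_mul_eq_one_right TT
  have DB : Subgroup.zpowers H ≤ B := Subgroup.zpowers_le.2 HB
  have TD : ∀ x ∈ Subgroup.zpowers H, T * x * T ∈ B := by
    rintro _ ⟨k, rfl⟩
    have := zpow_mem (pow_mem HB j) k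
    rw [← TH] at this
    nth_rewrite 2 [← Ti] at this ⊢
    rwa [conj_zpow] at this
  have G1 : ∀ {x y x'}, x ∈ Subgroup.zpowers H → x' ∈ Subgroup.zpowers H → Good B T y →
      Good B T (x * y * x') := by
    rintro x y x' hx hx' ⟨b₁, h1, b₂, h2, e⟩
    refine ⟨_, mul_mem (TD x hx) h1, _, mul_mem h2 (TD x' hx'), ?_⟩
    calc T * (x * y * x') * T = T * x * (T * T) * y * (T * T) * x' * T := by rw [TT]; group
      _ = T * x * T * (T * y * T) * (T * x' * T) := by group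
      _ = _ := by rw [e]; group
  have pm : ∀ i : ℕ, H ^ i ∈ Subgroup.zpowers H := fun i => pow_mem (Subgroup.mem_zpowers H) i
  have G2 : ∀ y₀ ∈ B, Good B T y₀ → ∀ y ∈ B, ∀ i, φ y = cj (φ y₀) (φ H) i → Good B T y := by
    intro y₀ h0 g0 y hy i e
    rw [inj' y hy (cj y₀ H i) (mul_mem (mul_mem (pow_mem HB i) h0) (inv_mem (pow_mem HB i)))
      (by rw [e, map_cj'])]
    exact G1 (pm i) (inv_mem (pm i)) g0
  let P : F → Prop := fun a => ∀ y ∈ B, ∀ c : F, IsSiegel e (c • n) a (φ y) → Good B T y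
  have P1 : ∀ {a l}, σ l = l → l ≠ 0 → P a → P (l * a) := by
    intro a l h1 h0 hP y hy c hc
    obtain ⟨x, rfl⟩ := exists_norm_eq h1
    have x0 := left_ne_zero_of_mul h0
    obtain ⟨i, rfl⟩ := exists_pow hζ x0
    have h2 := sg_conj h ((hd.pow i).inv x0) hc
    rw [← map_pow φ, ← map_inv, ← map_inv, ← map_mul, ← map_mul] at h2
    have := G1 (pm i) (inv_mem (pm i)) (hP _ (mul_mem (mul_mem (inv_mem (pow_mem HB i)) hy)
      (inv_mem (inv_mem (pow_mem HB i)))) _ (sg_congr h2 rfl (by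
        have := right_ne_zero_of_mul h0
        rw [map_inv₀]; field_simp)))
    simpa [mul_assoc] using this
  have P2 : ∀ {a}, P a → ∀ y ∈ B, 𝐡 (φ y • f) f = a * 𝐡 (φ y • f) e → Good B T y := by
    intro a hP y hy e1
    obtain ⟨l, hl⟩ := hB y hy
    obtain ⟨i, c, a', x, hx, e2⟩ := borel_decomp h hζ hd hl
    rw [e2, mul_smul, (hd.pow i).2, SU_smul_comm, h.unip_f hx, herm_smul_left, herm_smul_left,
      ← one_smul F f, h.comb_e, one_smul, ← one_smul F f] at e1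
    nth_rewrite 2 [one_smul] at e1
    rw [h.comb_f, mul_one, mul_comm a,
      mul_right_inj' (inv_ne_zero (conj_ne_zero.2 (pow_ne_zero _ ζ.ne_zero)))] at e1
    have := G1 (one_mem _) (pm i) (hP (y * (H ^ i)⁻¹) (mul_mem hy (inv_mem (pow_mem HB i))) c
      (by rwa [map_mul, map_inv, map_pow, e2, mul_inv_cancel_right, ← e1]))
    simpa using this
  obtain ⟨z, zB, hz, gz⟩ := gZ
  have θ1 : σ θ = -θ := by linear_combination sg_cond h hz
  have PZ : ∀ {a}, a ≠ 0 → σ a = -a → P a := by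
    intro a a0 a1 y hy c hc
    obtain rfl : c = 0 := by
      have : c * σ c = 0 := by linear_combination sg_cond h hc - a1
      simpa [conj_eq_zero] using this
    obtain ⟨i, hi⟩ := exists_cj h hζ hd hz θ0 hc a0
    exact G2 z zB gz y hy i hi
  have t0 : θ * ζ + σ (θ * ζ) ≠ 0 := fun h0 => conj_gen_ne (q := q) hζ (mul_left_cancel₀ θ0 (by
    rw [map_mul, θ1] at h0; linear_combination -h0))
  have P3 : P (θ * ζ) := by
    intro y hy c hc
    have c1 := sg_cond h hc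
    obtain ⟨i, hi, m, rfl⟩ := exists_mu_pow (q := q) hζ (c := c) (by
      rintro rfl; exact t0 (by simpa using c1))
    obtain ⟨y₀, h0, l, hl, h1, g0⟩ := g3 i hi
    have h2 := sg_cj h hd h1 m
    have c2 := sg_cond h h2
    refine G2 y₀ h0 g0 y hy m (hc.unique (sg_congr h2 rfl ?_))
    have : (ζ * σ ζ : F) ^ m * l = 1 := mul_right_cancel₀ t0 (by
      rw [map_mul, map_mul σ l, hl, map_pow, map_mul σ (ζ : F), conj_conj, mul_comm (σ (ζ : F))] at c2
      linear_combination c2 - c1)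
    rw [← mul_assoc, this, one_mul]
  have tri : ∀ {a s}, a ≠ 0 → s ≠ 0 → σ s = -s → P a →
      (∀ l, l ≠ 0 → P ((a + s) / (l * σ l * a * s))) → P (a + s) := by
    intro a s a0 s0 s1 hP hP' y hy c hc
    obtain ⟨z', hz'⟩ := h.exists_unip (c := 0) (a := s) (by rw [s1]; ring)
    obtain ⟨z', zB', rfl⟩ := surj z' 1 (by rw [h.unip_e hz', one_smul])
    have hx := sg_congr (sg_mul h hc (sg_inv h hz')) (show _ = c by ring)
      (show _ = a by rw [s1]; ring)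
    rw [← map_inv, ← map_mul] at hx
    obtain ⟨b₁, h1, b₂, h2, e1⟩ := hP _ (mul_mem hy (inv_mem zB')) c hx
    obtain ⟨b₃, h3, b₄, h4, e2⟩ := PZ s0 s1 z' zB' 0 hz'
    obtain ⟨l₁, k1⟩ := hB b₁ h1
    obtain ⟨l₂, k2⟩ := hB b₂ h2
    obtain ⟨l₃, k3⟩ := hB b₄ h4
    obtain ⟨l, l0, e3⟩ := triangle h te tf (b₃ := φ b₃) hx hz' k1 k2 k3
      (by simpa only [map_mul] using congrArg φ e1) (by simpa only [map_mul] using congrArg φ e2)
    obtain ⟨b₅, h5, b₆, h6, e4⟩ := P2 (hP' l l0) _ (mul_mem h2 h3) (by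
      have := conj_ne_zero (q := q).2 l0
      rw [map_mul, div_mul_eq_mul_div, eq_div_iff (by positivity), e3])
    refine ⟨_, mul_mem h1 h5, _, mul_mem h6 h4, ?_⟩
    calc T * y * T = T * (y * z'⁻¹) * (T * T) * z' * T := by rw [TT]; group
      _ = T * (y * z'⁻¹) * T * (T * z' * T) := by group
      _ = b₁ * (T * (b₂ * b₃) * T) * b₄ := by rw [e1, e2]; group
      _ = _ := by rw [e4]; group
  have P4 : ∀ i : ℕ, P (θ * ζ ^ i) := by
    intro i
    induction i with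
    | zero => exact PZ (by simpa using θ0) (by simpa using θ1)
    | succ i ih =>
      have z0 := ζ.ne_zero
      set a := θ * ζ ^ (i + 1) with ha
      have a0 : a ≠ 0 := by positivity
      by_cases h0 : a + σ a = 0
      · exact PZ a0 (by linear_combination h0)
      set l := (a + σ a) / (θ * ζ + σ (θ * ζ)) with hl
      have l0 : l ≠ 0 := div_ne_zero h0 t0
      have l1 : σ l = l := by
        rw [hl, map_div₀, map_add, map_add, conj_conj, conj_conj, add_comm (σ a), add_comm (σ _)]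
      have p := P1 l1 l0 P3
      by_cases h1 : a - l * (θ * ζ) = 0
      · rwa [sub_eq_zero.1 h1]
      have s1 : σ (a - l * (θ * ζ)) = -(a - l * (θ * ζ)) := by
        rw [map_sub, map_mul σ l, l1]
        linear_combination -div_mul_cancel₀ (a + σ a) t0
      have := tri (by positivity) h1 s1 p fun k k0 => by
        have k1 := conj_ne_zero (q := q).2 k0
        have := P1 (l := (k * σ k * l * (a - l * (θ * ζ)) * θ)⁻¹) (by
          rw [map_inv₀, map_mul, map_mul, map_mul, map_mul, conj_conj, l1, s1, θ1]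
          congr 1; ring) (by positivity) ih
        convert this using 1
        rw [add_sub_cancel]
        nth_rewrite 1 [ha]
        field_simp
        ring
      rwa [add_sub_cancel] at this
  have P5 : ∀ y ∈ B, T * y * T ∈ B ∨ Good B T y := by
    intro y hy
    obtain ⟨l, hl⟩ := hB y hy
    obtain ⟨i, c, a, x, hx, e2⟩ := borel_decomp h hζ hd hl
    by_cases a0 : a = 0
    · obtain rfl : c = 0 := by simpa [a0, conj_eq_zero] using sg_cond h hx
      rw [hx.unique (sg_congr (sg_one h) rfl a0.symm), one_mul, ← map_pow] at e2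
      exact Or.inl (inj' y hy _ (pow_mem HB i) e2 ▸ TD _ (pm i))
    obtain ⟨k, hk⟩ := exists_pow hζ (div_ne_zero a0 θ0)
    have := G1 (one_mem _) (pm i) (P4 k (y * (H ^ i)⁻¹) (mul_mem hy (inv_mem (pow_mem HB i))) c
      (by rwa [map_mul, map_inv, map_pow, e2, mul_inv_cancel_right, hk, mul_div_cancel₀ _ θ0]))
    exact Or.inr (by simpa using this)
  have all : ∀ g, g ∈ B ∨ ∃ b₁ ∈ B, ∃ b₂ ∈ B, g = b₁ * T * b₂ := by
    intro g
    have hg : g ∈ Subgroup.closure ((B : Set Γ) ∪ {T}) :=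
      (gen (Subgroup.closure ((B : Set Γ) ∪ {T})) (fun b hb => Subgroup.subset_closure (Or.inl hb))
        (Subgroup.subset_closure (Or.inr rfl))).ge (Subgroup.mem_top g)
    have key : ∀ x ∈ (B : Set Γ) ∪ {T}, ∀ g, (g ∈ B ∨ ∃ b₁ ∈ B, ∃ b₂ ∈ B, g = b₁ * T * b₂) →
        (x * g ∈ B ∨ ∃ b₁ ∈ B, ∃ b₂ ∈ B, x * g = b₁ * T * b₂) := by
      rintro x (hx | rfl) g (hg | ⟨b₁, h1, b₂, h2, rfl⟩)
      · exact Or.inl (mul_mem hx hg)
      · exact Or.inr ⟨_, mul_mem hx h1, _, h2, by group⟩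
      · exact Or.inr ⟨1, one_mem _, g, hg, by group⟩
      · rcases P5 b₁ h1 with h3 | ⟨b₃, h3, b₄, h4, e1⟩
        · exact Or.inl (by simpa [mul_assoc] using mul_mem h3 h2)
        · exact Or.inr ⟨b₃, h3, _, mul_mem h4 h2, by rw [← mul_assoc, ← mul_assoc, e1]; group⟩
    induction hg using Subgroup.closure_induction_left with
    | one => exact Or.inl (one_mem _)
    | mul_left x hx y _ ih => exact key x hx y ih
    | inv_mul_cancel x hx y _ ih =>
      refine key _ ?_ y ih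
      rcases hx with hx | rfl
      exacts [Or.inl (inv_mem hx), Or.inr Ti]
  rw [injective_iff_map_eq_one]
  intro g hg
  rcases all g with h1 | ⟨b₁, h1, b₂, h2, rfl⟩
  · exact inj g h1 hg
  obtain ⟨l, hl⟩ := hB _ (inv_mem (mul_mem h2 h1))
  rw [show φ (b₂ * b₁)⁻¹ = φ T by
    simp only [map_mul, map_inv] at hg ⊢
    rw [inv_eq_iff_mul_eq_one, ← conj_eq_one_iff (a := (φ b₂)⁻¹), ← hg]; group, te] at hl
  have := h.fe
  rw [hl, herm_smul_left, h.ee, mul_zero] at this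
  exact absurd this zero_ne_one

include h hζ in
theorem eq_top_of_borel {t : SU 3 F q} (te : t • e = f) (tf : t • f = e) {M : Subgroup (SU 3 F q)}
    (hM : ∀ (g : SU 3 F q) (l : F), g • e = l • e → g ∈ M) {g : SU 3 F q} (hg : g ∈ M)
    (hg' : ∀ l : F, g • e ≠ l • e) : M = ⊤ := by
  have ht : t ∈ M := by
    obtain ⟨l, hl⟩ | ⟨c, a, l, x, b, h1, h2, rfl⟩ := bruhat h te tf g
    · exact (hg' l hl).elim
    · simpa [mul_assoc] using mul_mem (mul_mem (inv_mem (hM x 1 (by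
        rw [h.unip_e h1, one_smul]))) hg) (inv_mem (hM b l h2))
  refine eq_top_iff.2 fun g _ => ?_
  obtain ⟨l, hl⟩ | ⟨c, a, l, x, b, h1, h2, rfl⟩ := bruhat h te tf g
  · exact hM g l hl
  · exact mul_mem (mul_mem (hM x 1 (by rw [h.unip_e h1, one_smul])) ht) (hM b l h2)

theorem pres_SU_three (hq : 3 ≤ q) : KSG.Pres 3 21 (SU 3 F q) := by
  have := hU.finite
  obtain ⟨e, e0, ee⟩ := exists_isotropic (F := F) (q := q) (n := 3) (by norm_num)
  obtain ⟨n, f, h⟩ := exists_fr e0 ee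
  obtain ⟨ζ, hζ⟩ := IsCyclic.exists_monoid_generator (α := Fˣ)
  obtain ⟨d, hd⟩ : ∃ d : SU 3 F q, Dg e f (ζ : F) d := h.exists_diag ζ.ne_zero
  obtain ⟨a, ha⟩ := exists_trace_eq (q := q) (a := (-1 : F)) (by simp)
  obtain ⟨u, hu⟩ := h.exists_unip (c := 1) (a := a) (by rw [ha]; simp)
  obtain ⟨t, te, tf⟩ := exists_weyl h
  obtain ⟨θ, θ0, hz⟩ := sg_z h hζ hd hu hq
  have θ1 : σ θ = -θ := by linear_combination sg_cond h hz
  let π : FreeGroup (Fin 3) →* SU 3 F q := FreeGroup.lift ![u, d, t]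
  let ι : FreeGroup (Fin 2) →* FreeGroup (Fin 3) := FreeGroup.lift ![.of 0, .of 1]
  have hι : π.comp ι = FreeGroup.lift ![u, d] := by
    ext1 i; fin_cases i <;> simp [π, ι]
  obtain ⟨U, H, T, e1, e2, e3, e4, e5, e6, gen⟩ : ∃ U H T, π U = u ∧ π H = d ∧ π T = t ∧
      U ∈ ι.range ∧ H ∈ ι.range ∧ (∀ K : Subgroup _, U ∈ K → H ∈ K → ι.range ≤ K) ∧
      ∀ K : Subgroup (FreeGroup (Fin 3)), U ∈ K → H ∈ K → T ∈ K → K = ⊤ :=
    ⟨.of 0, .of 1, .of 2, by simp [π], by simp [π], by simp [π], ⟨.of 0, by simp [ι]⟩,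
      ⟨.of 1, by simp [ι]⟩, fun K h1 h2 => by
        rw [FreeGroup.range_lift_eq_closure, Subgroup.closure_le]
        rintro _ ⟨i, rfl⟩
        fin_cases i
        exacts [h1, h2], fun K h1 h2 h3 => by
      rw [eq_top_iff, ← FreeGroup.closure_range_of, Subgroup.closure_le]
      rintro _ ⟨i, rfl⟩
      fin_cases i
      exacts [h1, h2, h3]⟩
  have i1 := Imp.comp ι (hι ▸ imp_borel.{u, 0} h hζ hd hu hq)
  clear_value π ι
  have hB : ∀ b ∈ ι.range, ∃ l : F, π b • e = l • e := fun b hb =>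
    e6 { carrier := {b | ∃ l : F, π b • e = l • e}
         one_mem' := ⟨1, by simp⟩
         mul_mem' := fun ⟨l, h1⟩ ⟨l', h2⟩ =>
          ⟨l' * l, by rw [map_mul, mul_smul, h2, SU_smul_comm, h1, smul_smul]⟩
         inv_mem' := fun ⟨l, h1⟩ =>
          ⟨_, by rw [map_inv, inv_smul_of_eigen (eigen_ne_zero h.e_ne h1) h1]⟩ }
      ⟨1, by rw [e1, h.unip_e hu, one_smul]⟩ ⟨_, e2 ▸ hd.1⟩ hb
  have surj : ∀ (g : SU 3 F q) (l : F), g • e = l • e → g ∈ ι.range.map π := fun g l =>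
    mem_of_borel h hζ hd hu hq (M := ι.range.map π) ⟨U, e4, e1⟩ ⟨H, e5, e2⟩
  have good : ∀ {c a : F}, a ≠ 0 → a + σ a + c * σ c = 0 → ∃ y ∈ ι.range,
      IsSiegel e (c • n) a (π y) ∧
        Imp.{u, 0, 0} π 1 fun _ _ ψ => Good (ι.range.map ψ) (ψ T) (ψ y) := by
    intro c a a0 hc
    obtain ⟨x, hx⟩ := h.exists_unip hc
    obtain ⟨y, hy, rfl⟩ := surj x 1 (by rw [h.unip_e hx, one_smul])
    refine ⟨y, hy, hx, ?_⟩
    obtain ⟨l, hl⟩ | ⟨c', a', l, x, b, h1, h2, e7⟩ := bruhat h te tf (t * π y * t)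
    · obtain ⟨κ, -, hκ⟩ := weyl_comb h te tf
      rw [mul_smul, mul_smul, te, h.unip_f hx, hκ] at hl
      exact (a0 (h.comb_inj (b' := 0) (c' := 0) (hl.trans (by simp; rfl))).2.2).elim
    obtain ⟨x, hx, rfl⟩ := surj x 1 (by rw [h.unip_e h1, one_smul])
    obtain ⟨b, hb, rfl⟩ := surj b l h2
    exact (Imp.eq (a := T * y * T) (b := x * T * b) (by simpa only [map_mul, e3] using e7)).imp
      fun _ _ ψ h => ⟨_, ⟨x, hx, rfl⟩, _, ⟨b, hb, rfl⟩, by simpa only [map_mul] using h⟩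
  obtain ⟨z, zB, hz', iz⟩ := good (c := 0) θ0 (by rw [θ1]; ring)
  have t0 : θ * ζ + σ (θ * ζ) ≠ 0 := fun h0 => conj_gen_ne (q := q) hζ (mul_left_cancel₀ θ0 (by
    rw [map_mul, θ1] at h0; linear_combination -h0))
  have g3 : ∀ i : ℕ, ∃ y ∈ ι.range, ∃ l : F, σ l = l ∧
      IsSiegel e ((ζ : F) ^ i • n) (l * (θ * ζ)) (π y) ∧
        Imp.{u, 0, 0} π 1 fun _ _ ψ => Good (ι.range.map ψ) (ψ T) (ψ y) := fun i => by
    have z0 := pow_ne_zero i ζ.ne_zero
    have z1 := conj_ne_zero (q := q).2 z0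
    have z2 := ζ.ne_zero
    have l1 : σ (-(ζ ^ i * σ (ζ ^ i)) / (θ * ζ + σ (θ * ζ)) : F) =
        -(ζ ^ i * σ (ζ ^ i)) / (θ * ζ + σ (θ * ζ)) := by
      rw [map_div₀, map_neg, map_mul, map_add, conj_conj, conj_conj, add_comm, mul_comm]
    obtain ⟨y, h1, h2, h3⟩ := good (c := ζ ^ i)
      (a := -(ζ ^ i * σ (ζ ^ i)) / (θ * ζ + σ (θ * ζ)) * (θ * ζ))
      (mul_ne_zero (div_ne_zero (neg_ne_zero.2 (by positivity)) t0) (by positivity)) (by
        rw [map_mul σ (_ / _), l1, ← mul_add, div_mul_cancel₀ _ t0, neg_add_cancel])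
    exact ⟨y, h1, _, l1, h2, h3⟩
  choose y yB l l1 hy iy using g3
  obtain ⟨j, hj⟩ := exists_pow hζ (inv_ne_zero (conj_ne_zero (q := q).2 ζ.ne_zero))
  refine Imp.pres ((((i1.and (Imp.eq (a := T * T) (b := 1) ?_)).and
    (Imp.eq (a := T * H * T) (b := H ^ j) ?_)).and iz).and
    (Imp.forall_mem [0, 1, 2] fun i _ => iy i)) (KSG.Pres.free 3) ?_ ?_
  · rw [map_mul, e3, weyl_sq h te tf, map_one]
  · rw [map_mul, map_mul, map_pow, e2, e3]
    exact (weyl_conj h te tf hd).unique h (hj ▸ hd.pow j)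
  · rw [← MonoidHom.range_eq_top]
    refine eq_top_of_borel h hζ te tf (fun g l hg => ?_) ⟨T, e3⟩ fun l hl => ?_
    · obtain ⟨b, -, rfl⟩ := surj g l hg
      exact ⟨b, rfl⟩
    · have := h.fe
      rw [← te, hl, herm_smul_left, h.ee, mul_zero] at this
      exact zero_ne_one this
  rintro Γ _ ψ φ hψ rfl ⟨⟨⟨⟨r1, r2⟩, r3⟩, r4⟩, r5⟩
  refine injective_of_good h hζ φ (B := ι.range.map ψ) (H := ψ H) (T := ψ T) (e2 ▸ hd)
    (e3 ▸ te) (e3 ▸ tf) ⟨H, e5, rfl⟩ ?_ ?_ (fun g l hg => ?_) (by rw [← map_mul, r2, map_one])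
    (j := j) (by simpa only [map_mul, map_pow] using r3) θ0 ⟨_, ⟨z, zB, rfl⟩, hz', r4⟩
    (fun i hi => ⟨_, ⟨y i, yB i, rfl⟩, l i, l1 i, hy i, r5 i (by simp; omega)⟩) fun K h1 h2 => ?_
  · rintro _ ⟨b, hb, rfl⟩
    exact hB b hb
  · rintro _ ⟨_, ⟨x, rfl⟩, rfl⟩
    exact r1 x
  · obtain ⟨b, hb, rfl⟩ := surj g l hg
    exact ⟨_, ⟨b, hb, rfl⟩, rfl⟩
  · refine eq_top_iff.2 fun x _ => ?_
    obtain ⟨x, rfl⟩ := hψ x
    exact (gen (K.comap ψ) (h1 ⟨U, e4, rfl⟩) (h1 ⟨H, e5, rfl⟩) h2).ge (Subgroup.mem_top x)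

theorem isCyclic_center {n : ℕ} (hn : 2 ≤ n) : IsCyclic (Subgroup.center (SU n F q)) := by
  have := hU.finite
  choose e he using fun g : Subgroup.center (SU n F q) => (mem_center_iff hn).1 g.2
  have h1 : ∀ a b : F, (∀ x : Fin n → F, a • x = b • x) → a = b := fun a b h => by
    simpa using congrFun (h 1) ⟨0, by omega⟩
  exact isCyclic_of_injective_ringHom
    (⟨⟨e, h1 _ _ fun x => by rw [← he, Subgroup.coe_one, one_smul, one_smul]⟩, fun g k =>
      h1 _ _ fun x => by rw [← he, Subgroup.coe_mul, mul_smul, he, he, smul_smul]⟩ : _ →* F)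
    fun g k h => Subtype.ext (SU_ext fun x => by rw [he, he, show e g = e k from h])

theorem pres_PSU {n d r : ℕ} (hn : 2 ≤ n) (h : KSG.Pres d r (SU n F q)) :
    KSG.Pres d (r + 1) (PSU n F q) :=
  have := isCyclic_center (F := F) (q := q) hn
  h.quotient_cyclic _

end Cfsg.Agent.KSG.U3
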