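import Mathlib
import Cfsg.Agent.KSG.PresAlt
import Cfsg.Agent.KSG.Mon
import Cfsg.Agent.CT.UPhan

/-!
Even permutation matrices in `SU_n` and coordinate subgroups.
-/

set_option autoImplicit false
set_option linter.unusedSectionVars false

namespace Cfsg.Agent.KSG.UG

open Equiv Matrix Cfsg Cfsg.Agent.Class.U Cfsg.Agent.CT.U

section perm

variable {ι : Type*} [Fintype ι] [DecidableEq ι]

theorem exists_alt {κ : Type*} [Finite κ] {a a' : κ → ι} (ha : Function.Injective a)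
    (ha' : Function.Injective a') {J T : Finset ι} (hJ : ∀ k, a k ∉ J) (hT : ∀ k, a' k ∉ T)
    (hc : J.card ≤ T.card) (h2 : 2 ≤ T.card) :
    ∃ σ : alternatingGroup ι, (∀ k, σ.1 (a k) = a' k) ∧ ∀ i ∈ J, σ.1 i ∈ T := by
  obtain ⟨e, he⟩ := Function.Embedding.exists_of_card_le_finset (α := J) (s := T) (by simpa using hc)
  have he' : ∀ j, e j ∈ T := fun j => he ⟨j, rfl⟩
  obtain ⟨σ, hσ⟩ := Perm.exists_extending_pair (Sum.elim a (Subtype.val : J → ι)) (Sum.elim a' e)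
    (ha.sumElim Subtype.val_injective fun k j h => hJ k (h ▸ j.2))
    (ha'.sumElim e.injective fun k j h => hT k (h ▸ he' j))
  have h1 : ∀ i ∈ J, σ i ∈ T := fun i hi => (hσ (.inr ⟨i, hi⟩) : σ i = e _) ▸ he' _
  rcases Int.units_eq_one_or (Perm.sign σ) with h | h
  · exact ⟨⟨σ, h⟩, fun k => hσ (.inl k), h1⟩
  obtain ⟨r, hr, s, hs, hrs⟩ := Finset.one_lt_card.1 h2
  refine ⟨⟨swap r s * σ, by simp [h, Perm.sign_swap hrs]⟩, fun k => ?_, fun i hi => ?_⟩
  · change swap r s (σ (a k)) = _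
    rw [show σ (a k) = a' k from hσ (.inl k)]
    exact swap_apply_of_ne_of_ne (fun e => hT k (e ▸ hr)) fun e => hT k (e ▸ hs)
  · change swap r s (σ i) ∈ T
    rw [swap_apply_def]
    split_ifs
    exacts [hs, hr, h1 i hi]

theorem exists_alt_into {J T : Finset ι} (hc : J.card ≤ T.card) (h2 : 2 ≤ T.card) :
    ∃ σ : alternatingGroup ι, ∀ i ∈ J, σ.1 i ∈ T :=
  (exists_alt (a := (Empty.elim : _ → ι)) (a' := Empty.elim) (Function.injective_of_subsingleton _)
    (Function.injective_of_subsingleton _) (fun k => k.elim) (fun k => k.elim) hc h2).imp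
    fun _ h => h.2

theorem exists_alt_fix {L J T : Finset ι} (hJ : J ⊆ L) (hT : T ⊆ L) (hc : J.card ≤ T.card)
    (h2 : 2 ≤ T.card) : ∃ σ : alternatingGroup ι, (∀ i ∉ L, σ.1 i = i) ∧ ∀ i ∈ J, σ.1 i ∈ T :=
  (exists_alt (a := (Subtype.val : {i // i ∉ L} → ι)) (a' := Subtype.val) Subtype.val_injective
    Subtype.val_injective (fun k h => k.2 (hJ h)) (fun k h => k.2 (hT h)) hc h2).imp
    fun _ h => ⟨fun i hi => h.1 ⟨i, hi⟩, h.2⟩

theorem exists_alt_two {J J' T T' : Finset ι} (hJ : Disjoint J J') (hT : Disjoint T T')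
    (hc : J.card ≤ T.card) (hc' : J'.card ≤ T'.card) (h2 : 2 ≤ T.card) :
    ∃ σ : alternatingGroup ι, (∀ i ∈ J, σ.1 i ∈ T) ∧ ∀ i ∈ J', σ.1 i ∈ T' := by
  obtain ⟨e, he⟩ := Function.Embedding.exists_of_card_le_finset (α := J') (s := T')
    (by simpa using hc')
  have he' : ∀ j, e j ∈ T' := fun j => he ⟨j, rfl⟩
  obtain ⟨σ, h1, h3⟩ := exists_alt (a := (Subtype.val : J' → ι)) Subtype.val_injective e.injective
    (fun k h => Finset.disjoint_left.1 hJ h k.2) (fun k h => Finset.disjoint_left.1 hT h (he' k))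
    hc h2
  exact ⟨σ, h3, fun i hi => (h1 ⟨i, hi⟩ : σ.1 i = _) ▸ he' _⟩

theorem inv_mem_of_maps {J T : Finset ι} {σ : Perm ι} (h : ∀ i ∈ J, σ i ∈ T) (hc : T.card ≤ J.card) :
    ∀ i ∈ T, σ⁻¹ i ∈ J := fun i hi => by
  have := Finset.eq_of_subset_of_card_le (s := J.map σ.toEmbedding) (t := T)
    (fun x hx => by obtain ⟨j, hj, rfl⟩ := Finset.mem_map.1 hx; exact h j hj) (by simpa using hc)
  obtain ⟨j, hj, rfl⟩ := Finset.mem_map.1 (this ▸ hi)
  simpa using hj

/-- The stabiliser of a set is generated by two elements modulo the alternating group on it. -/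
theorem exists_gens_set {T : Finset ι} (h2 : 2 ≤ T.card) :
    ∃ L : List (alternatingGroup ι), L.length = 2 ∧ (∀ ν ∈ L, ∀ i ∈ T, ν.1 i ∈ T) ∧
      ∀ M : Subgroup (alternatingGroup ι), (∀ ν ∈ L, ν ∈ M) →
        (∀ ρ : alternatingGroup ι, (∀ i ∉ T, ρ.1 i = i) → ρ ∈ M) →
        ∀ τ : alternatingGroup ι, (∀ i ∈ T, τ.1 i ∈ T) → τ ∈ M := by
  obtain ⟨L, h4, h5⟩ := (Pres.congr (S2284.result (Fintype.card {i // i ∉ T})).1
    (Fintype.equivFin _).symm.permCongrHom).exists_gens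
  have : ∀ π : Perm {i // i ∉ T}, ∃ ν : alternatingGroup ι, (∀ i, ν.1 i.1 = (π i).1) ∧
      ∀ i ∈ T, ν.1 i ∈ T := fun π =>
    exists_alt Subtype.val_injective (Subtype.val_injective.comp π.injective) (fun k => k.2)
      (fun k => (π k).2) le_rfl h2
  choose f f1 f2 using this
  refine ⟨L.map f, by simpa using h4, fun ν hν => ?_, fun M h1 h3 τ hτ => ?_⟩
  · obtain ⟨π, -, rfl⟩ := List.mem_map.1 hν
    exact f2 π
  let W : Subgroup (Perm {i // i ∉ T}) :=
    { carrier := {π | ∃ ν ∈ M, ∀ i, ν.1 i.1 = (π i).1}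
      one_mem' := ⟨1, one_mem _, fun _ => rfl⟩
      mul_mem' := by
        rintro a b ⟨x, hx, ex⟩ ⟨y, hy, ey⟩
        exact ⟨x * y, mul_mem hx hy, fun i => (congrArg x.1 (ey i)).trans (ex _)⟩
      inv_mem' := by
        rintro a ⟨x, hx, ex⟩
        exact ⟨x⁻¹, inv_mem hx, fun i => Perm.inv_eq_iff_eq.2 (by rw [ex]; simp)⟩ }
  have hW : ⊤ ≤ W := h5 ▸ (Subgroup.closure_le W).2 fun π hπ =>
    ⟨f π, h1 _ (List.mem_map_of_mem hπ), f1 π⟩
  obtain ⟨ν, hν, e⟩ := hW (Subgroup.mem_top (τ.1.subtypePerm (p := fun i => i ∉ T) fun i =>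
    not_congr ⟨fun h => by simpa using inv_mem_of_maps hτ le_rfl _ h, hτ i⟩))
  simpa using mul_mem hν (h3 (ν⁻¹ * τ) fun i hi => Perm.inv_eq_iff_eq.2 (e ⟨i, hi⟩).symm)

/-- Generators of the alternating group on a subset. -/
theorem exists_gens_sub (T : Finset ι) :
    ∃ L : List (alternatingGroup ι), L.length ≤ min 2 (T.card - 2) ∧ (∀ ν ∈ L, ∀ i ∉ T, ν.1 i = i) ∧
      ∀ M : Subgroup (alternatingGroup ι), (∀ ν ∈ L, ν ∈ M) →
        ∀ ρ : alternatingGroup ι, (∀ i ∉ T, ρ.1 i = i) → ρ ∈ M := by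
  obtain ⟨L, h1, h2⟩ := exists_gens_alt (ι := T)
  let f : alternatingGroup T →* alternatingGroup ι :=
    (Perm.ofSubtype.comp (alternatingGroup _).subtype).codRestrict _ fun g => by
      rw [Perm.mem_alternatingGroup]
      exact (Perm.sign_ofSubtype g.1).trans g.2
  refine ⟨L.map f, by simpa using h1, fun g hg i hi => ?_, fun M hM g hg => ?_⟩
  · obtain ⟨g, -, rfl⟩ := List.mem_map.1 hg
    exact Perm.ofSubtype_apply_of_not_mem _ hi
  · have h3 : ∀ x, g.1 x ∈ T ↔ x ∈ T := fun x => by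
      refine not_iff_not.1 ⟨fun h h' => h ?_, fun h => by rwa [hg x h]⟩
      rwa [g.1.injective (hg _ h)]
    have h4 := Perm.ofSubtype_subtypePerm h3 fun x hx => by_contra fun h => hx (hg x h)
    have h5 : g = f ⟨g.1.subtypePerm h3, by
        rw [Perm.mem_alternatingGroup, ← Perm.sign_ofSubtype, h4]; exact g.2⟩ := Subtype.ext h4.symm
    have : ⊤ ≤ M.comap f := h2 ▸ (Subgroup.closure_le _).2 fun x hx =>
      hM _ (List.mem_map_of_mem hx)
    exact h5 ▸ this (Subgroup.mem_top _)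

end perm

variable {F : Type*} [Field F] {q : ℕ} {n : ℕ} [hU : UF F q]

variable (F q) in
/-- Permutation matrices. -/
def pm : alternatingGroup (Fin n) →* SU n F q :=
  MonoidHom.mk' (fun σ => mkSU (mon σ.1 1) (by
      rw [pres_iff]
      ext i j
      rw [show (mon σ.1 (1 : Fin n → F)).map (conj F q) = mon σ.1 1 by
        ext i j; simp [mon_apply, apply_ite], mul_mon_apply]
      simp [mon_apply, one_apply, eq_comm]) (by
      rw [det_mon, show Perm.sign σ.1 = 1 from σ.2]; simp))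
    fun a b => Subtype.ext (Subtype.ext (by
      change _ = mon _ _ * mon _ _
      rw [mon_mul_mon]; simp [mkSU, Pi.one_def]))

theorem pm_smul (σ : alternatingGroup (Fin n)) (i : Fin n) :
    pm F q σ • ee F i = ee F (σ.1 i) := by
  change mon σ.1 1 *ᵥ _ = _
  rw [mon_mulVec_single]; simp

/-- `s` is supported on the coordinates in `J`. -/
def Fx (J : Finset (Fin n)) (s : SU n F q) : Prop := ∀ i ∉ J, s • ee F i = ee F i

variable {J J' : Finset (Fin n)} {s t : SU n F q}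

theorem Fx.mono (h : Fx J s) (hJ : J ⊆ J') : Fx J' s := fun i hi => h i fun h' => hi (hJ h')

theorem Fx.inter (h : Fx J s) (h' : Fx J' s) : Fx (J ∩ J') s := fun i hi => by
  by_cases h1 : i ∈ J
  · exact h' i fun h2 => hi (Finset.mem_inter.2 ⟨h1, h2⟩)
  · exact h i h1

theorem Fx.conj (h : Fx J s) {σ : alternatingGroup (Fin n)} (hσ : ∀ i ∈ J, σ.1 i ∈ J') :
    Fx J' (pm F q σ * s * (pm F q σ)⁻¹) := fun i hi => by
  rw [← map_inv, mul_smul, mul_smul, pm_smul, h _ fun h' => hi (by simpa using hσ _ h'), pm_smul]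
  simp

theorem fx_pm {σ : alternatingGroup (Fin n)} (h : ∀ i ∉ J, σ.1 i = i) : Fx J (pm F q σ) :=
  fun i hi => by rw [pm_smul, h i hi]

theorem Fx.commute (h : Fx J s) (h' : Fx J' t) (hd : Disjoint J J') : Commute s t :=
  commute_of_fix (fun i => i ∉ J) h fun i hi => h' i (Finset.disjoint_left.1 hd (not_not.1 hi))

theorem fx_iff {k : ℕ} {f : Fin k → Fin n} (hf : Function.Injective f) (h : ∀ i, i ∈ J ↔ ∃ a, f a = i) :
    Fx J s ↔ ∃ g, blk hf g = s :=
  Iff.trans (forall_congr' fun i => by simp [h]) (mem_range_blk hf).symm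

theorem Fx.eq_one (h : Fx J s) (hc : J.card ≤ 1) : s = 1 := by
  obtain ⟨g, rfl⟩ := (fx_iff (J.orderEmbOfFin rfl).injective fun i => by
    rw [← Finset.mem_coe, ← J.range_orderEmbOfFin rfl]; rfl).1 h
  have : Subsingleton (Fin J.card) := Fin.subsingleton_iff_le_one.2 hc
  rw [Subsingleton.elim g 1, map_one]

theorem closure_fix (h : 4 ≤ n ∨ n = 3 ∧ 3 ≤ q) :
    Subgroup.closure {s : SU n F q | ∃ i : Fin n, s • ee F i = ee F i} = ⊤ := by
  rw [eq_top_iff]
  rcases h with h | ⟨rfl, h⟩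
  · intro s _
    obtain ⟨a, b, c, h1, h2, h3⟩ : ∃ a b c : Fin n, a ≠ b ∧ a ≠ c ∧ b ≠ c :=
      ⟨⟨0, by omega⟩, ⟨1, by omega⟩, ⟨2, by omega⟩, by simp, by simp, by simp⟩
    have o := (on_single (F := F) (q := q) (n := n)).orth
    have D : Data (MonoidHom.id (SU n F q)) (MulAction.stabilizer _ (ee F b))
        (MulAction.stabilizer _ (ee F a)) (ee F a) (ee F b) (ee F c) :=
      ⟨fun _ _ => rfl, h, on3 (on_single.unit _) (on_single.unit _) (on_single.unit _)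
        (o _ _ h1) (o _ _ h2) (o _ _ h3), fun _ h => h, fun s h => ⟨s, h, rfl⟩, fun _ h => h,
        fun s h => ⟨s, h, rfl⟩, fun _ _ h => h, fun x hx y _ e1 e2 =>
          commute_of_fix (fun i => i = b ∨ i = c) (by rintro _ (rfl | rfl); exacts [hx, e1])
            fun i hi => e2 _ (o _ _ (not_or.1 hi).1) (o _ _ (not_or.1 hi).2)⟩
    obtain ⟨g, hg, rfl⟩ := D.surj s
    refine (sup_le (fun x hx => ?_) (fun x hx => ?_) : _ ≤ Subgroup.closure _) hg <;>
      exact Subgroup.subset_closure ⟨_, hx⟩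
  · rw [← sup_iL_iR h]
    exact sup_le (fun x hx => Subgroup.subset_closure ⟨_, mem_range_iL.1 hx⟩)
      fun x hx => Subgroup.subset_closure ⟨_, mem_range_iR.1 hx⟩

theorem Fx.mem (h : Fx J s) (hc : 4 ≤ J.card ∨ J.card = 3 ∧ 3 ≤ q) {M : Subgroup (SU n F q)}
    (hM : ∀ t, ∀ i ∈ J, Fx (J.erase i) t → t ∈ M) : s ∈ M := by
  have hf := (J.orderEmbOfFin rfl).injective
  have h1 : ∀ i, i ∈ J ↔ ∃ a, J.orderEmbOfFin rfl a = i := fun i => by
    rw [← Finset.mem_coe, ← J.range_orderEmbOfFin rfl]; rfl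
  obtain ⟨g, rfl⟩ := (fx_iff hf h1).1 h
  refine (Subgroup.closure_le (M.comap (blk hf))).2 ?_ ((closure_fix hc).ge (Subgroup.mem_top g))
  rintro g ⟨a, ha⟩
  refine hM _ _ ((h1 _).2 ⟨a, rfl⟩) fun i hi => ?_
  by_cases e : i = J.orderEmbOfFin rfl a
  · rw [e]; exact (blk_smul_ee_iff hf g a).2 ha
  · exact (fx_iff hf h1).2 ⟨g, rfl⟩ i fun h => hi (Finset.mem_erase.2 ⟨e, h⟩)

end Cfsg.Agent.KSG.UG
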