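import Mathlib
import Cfsg.Agent.KSG.PresUG1

/-!
Gluing a small special unitary group and an alternating group to `SU_n`.
-/

set_option autoImplicit false
set_option linter.unusedSectionVars false

namespace Cfsg.Agent.KSG.UG

open Equiv Matrix Cfsg Cfsg.Agent.Class.U Cfsg.Agent.CT.U

variable {F : Type*} [Field F] {q : ℕ} {n m : ℕ} [hU : UF F q] {Γ : Type*} [Group Γ]

/-- An interval of coordinates. -/
def II (n a c : ℕ) : Finset (Fin n) := Finset.univ.filter fun i => a ≤ i ∧ i < c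

theorem mem_II {a c : ℕ} {i : Fin n} : i ∈ II n a c ↔ a ≤ i ∧ i < c := by simp [II]

theorem card_II {a c : ℕ} (h : c ≤ n) : (II n a c).card = c - a := by
  rw [← Nat.card_Ico, ← Finset.card_map Fin.valEmbedding]
  congr 1
  ext i
  simp only [Finset.mem_map, mem_II, Fin.valEmbedding_apply, Finset.mem_Ico]
  exact ⟨by rintro ⟨j, h, rfl⟩; exact h, fun h' => ⟨⟨i, by omega⟩, h', rfl⟩⟩

theorem fx_II {a c : ℕ} {s : SU n F q} : Fx (II n a c) s ↔ Supp a c s :=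
  forall_congr' fun i => by rw [mem_II, not_and_or, not_le, not_lt]

/-- `Φ` lifts the coordinate subgroup attached to `J`. -/
structure Sec (p : Γ →* SU n F q) (J : Finset (Fin n)) (Φ : Subgroup Γ) : Prop where
  inj : ∀ x ∈ Φ, p x = 1 → x = 1
  ex : ∀ s, Fx J s → ∃ x ∈ Φ, p x = s

variable {p : Γ →* SU n F q} {J J' : Finset (Fin n)} {Φ : Subgroup Γ} {x y : Γ}

theorem Sec.uniq (S : Sec p J Φ) (hx : x ∈ Φ) (hy : y ∈ Φ) (e : p x = p y) : x = y :=
  inv_mul_eq_one.1 (S.inj _ (mul_mem (inv_mem hx) hy) (by simp [e]))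

theorem Sec.lift (S : Sec p J Φ) {M : Subgroup Γ} (hx : x ∈ Φ) (h : p x ∈ (Φ ⊓ M).map p) :
    x ∈ M :=
  let ⟨_, h1, h2⟩ := h; S.uniq h1.1 hx h2 ▸ h1.2

theorem Sec.mem (S : Sec p J Φ) (hx : x ∈ Φ) (h : Fx J' (p x)) (hJ : J' ⊆ J)
    (hc : 4 ≤ J'.card ∨ J'.card = 3 ∧ 3 ≤ q) {M : Subgroup Γ}
    (hM : ∀ y ∈ Φ, ∀ i ∈ J', Fx (J'.erase i) (p y) → y ∈ M) : x ∈ M :=
  S.lift hx (h.mem hc fun t i hi ht => by
    obtain ⟨y, hy, rfl⟩ := S.ex t (ht.mono ((J'.erase_subset i).trans hJ))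
    exact ⟨y, ⟨hy, hM y hy i hi ht⟩, rfl⟩)

theorem Sec.exists_hom (S : Sec p J Φ) {A : Type*} [Group A] (θ : A →* SU n F q)
    (h : ∀ a, Fx J (θ a)) : ∃ ψ : A →* Γ, ∀ a, ψ a ∈ Φ ∧ p (ψ a) = θ a := by
  choose f f1 f2 using fun a => S.ex _ (h a)
  exact ⟨MonoidHom.mk' f fun a b => S.uniq (f1 _) (mul_mem (f1 _) (f1 _)) (by simp [f2]),
    fun a => ⟨f1 a, f2 a⟩⟩

/-- The lift `Φ` of `SU_m` and the alternating group fit together. -/
structure Ctx (p : Γ →* SU n F q) (α : alternatingGroup (Fin n) →* Γ) (m : ℕ) (Φ : Subgroup Γ) :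
    Prop where
  sec : Sec p (II n 0 m) Φ
  fx : ∀ x ∈ Φ, Fx (II n 0 m) (p x)
  pα : ∀ σ, p (α σ) = pm F q σ
  le : m ≤ n
  hm : m = 4 ∨ m = 3 ∧ 4 ≤ q
  A : ∀ ρ : alternatingGroup (Fin n), (∀ i ∉ II n 0 m, ρ.1 i = i) → α ρ ∈ Φ
  B : ∀ ν : alternatingGroup (Fin n), (∀ i ∈ II n 0 (m - 1), ν.1 i ∈ II n 0 (m - 1)) →
    ∀ x ∈ Φ, Fx (II n 0 (m - 1)) (p x) → α ν * x * (α ν)⁻¹ ∈ Φ

/-- Conjugates of elements of `Φ`. -/
def Rel (α : alternatingGroup (Fin n) →* Γ) (Φ : Subgroup Γ) (x : Γ) : Prop :=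
  ∃ σ, α σ * x * (α σ)⁻¹ ∈ Φ

variable {α : alternatingGroup (Fin n) →* Γ}

theorem conj_conj' (σ τ : alternatingGroup (Fin n)) (x : Γ) :
    α σ * (α τ * x * (α τ)⁻¹) * (α σ)⁻¹ = α (σ * τ) * x * (α (σ * τ))⁻¹ := by
  rw [map_mul]; group

theorem Rel.conj (h : Rel α Φ x) (τ : alternatingGroup (Fin n)) :
    Rel α Φ (α τ * x * (α τ)⁻¹) :=
  let ⟨σ, h⟩ := h; ⟨σ * τ⁻¹, by rwa [conj_conj', inv_mul_cancel_right]⟩

theorem rel_of_mem (h : x ∈ Φ) : Rel α Φ x := ⟨1, by simpa using h⟩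

namespace Ctx

variable (C : Ctx p α m Φ)
include C

theorem conj (h : Fx J (p x)) {σ : alternatingGroup (Fin n)} (hσ : ∀ i ∈ J, σ.1 i ∈ J') :
    Fx J' (p (α σ * x * (α σ)⁻¹)) := by
  simpa only [map_mul, map_inv, C.pα] using h.conj hσ

theorem card : (II n 0 m).card = m := card_II C.le

theorem good₁ (hc : J.card + 1 = m) (h1 : J ⊆ II n 0 m) {τ : alternatingGroup (Fin n)}
    (h2 : ∀ i ∈ J, τ.1 i ∈ II n 0 m) (hx : x ∈ Φ) (h : Fx J (p x)) :
    α τ * x * (α τ)⁻¹ ∈ Φ := by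
  have hm := C.hm
  have c : (II n 0 (m - 1)).card = m - 1 := card_II (C.le.trans' (by omega))
  have s : II n 0 (m - 1) ⊆ II n 0 m := fun i hi => mem_II.2 (by have := mem_II.1 hi; omega)
  obtain ⟨ρ, r1, r2⟩ := exists_alt_fix h1 s (by omega) (by omega)
  obtain ⟨ρ', r3, r4⟩ := exists_alt_fix (J := J.map τ.1.toEmbedding)
    (fun i hi => by obtain ⟨j, hj, rfl⟩ := Finset.mem_map.1 hi; exact h2 j hj) s
    (by rw [Finset.card_map]; omega) (by omega)
  have a1 := C.A ρ r1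
  have a2 := C.A ρ' r3
  have := C.B (ρ' * τ * ρ⁻¹) (fun i hi => r4 _ (Finset.mem_map_of_mem _
    (inv_mem_of_maps r2 (by omega) i hi))) _ (mul_mem (mul_mem a1 hx) (inv_mem a1)) (C.conj h r2)
  rw [conj_conj', inv_mul_cancel_right, ← conj_conj'] at this
  simpa [mul_assoc] using mul_mem (mul_mem (inv_mem a2) this) a2

theorem good (h1 : J ⊆ II n 0 m) {τ : alternatingGroup (Fin n)}
    (h2 : ∀ i ∈ J, τ.1 i ∈ II n 0 m) (hx : x ∈ Φ) (h : Fx J (p x)) :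
    α τ * x * (α τ)⁻¹ ∈ Φ := by
  have hm := C.hm
  have c := C.card
  have hc := Finset.card_le_card h1
  by_cases a1 : J.card ≤ 1
  · simp [C.sec.inj x hx (h.eq_one a1)]
  by_cases a2 : J.card + 1 = m
  · exact C.good₁ a2 h1 h2 hx h
  by_cases a3 : J.card = m
  · exact C.sec.mem hx h h1 (by omega) (M := Φ.comap (MulAut.conj (α τ)).toMonoidHom)
      fun y hy i hi h' => C.good₁ (by rw [Finset.card_erase_add_one hi, a3])
        ((J.erase_subset i).trans h1) (fun j hj => h2 j (J.erase_subset i hj)) hy h'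
  have ins : ∀ {k} {τ : alternatingGroup (Fin n)} {x}, k ∉ J → k ∈ II n 0 m →
      (∀ i ∈ J, τ.1 i ∈ II n 0 m) → τ.1 k ∈ II n 0 m → x ∈ Φ → Fx J (p x) →
      α τ * x * (α τ)⁻¹ ∈ Φ := fun b1 b2 b3 b4 b5 b6 =>
    C.good₁ (by rw [Finset.card_insert_of_notMem b1]; omega) (Finset.insert_subset b2 h1)
      ((Finset.forall_mem_insert _ _ _).2 ⟨b4, b3⟩) b5 (b6.mono (Finset.subset_insert _ _))
  obtain ⟨l, l1, l2⟩ := Finset.exists_mem_notMem_of_card_lt_card (s := J.map τ.1.toEmbedding)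
    (t := II n 0 m) (by rw [Finset.card_map]; omega)
  obtain ⟨l, rfl⟩ := τ.1.surjective l
  have l3 : l ∉ J := fun h => l2 (Finset.mem_map_of_mem _ h)
  by_cases l4 : l ∈ II n 0 m
  · exact ins l3 l4 h2 l1 hx h
  obtain ⟨k, k1, k', k2, k3⟩ := Finset.one_lt_card.1 (show 1 < (II n 0 m \ J).card by
    rw [Finset.card_sdiff_of_subset h1]; omega)
  obtain ⟨i, i1, i', i2, i3⟩ := Finset.one_lt_card.1 (not_le.1 a1)
  rw [Finset.mem_sdiff] at k1 k2
  let ν : alternatingGroup (Fin n) := ⟨swap i i' * swap k' l, by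
    simp [Perm.sign_swap i3, Perm.sign_swap (ne_of_mem_of_not_mem k2.1 l4)]⟩
  have n1 : ∀ j ∈ J, ν.1 j ∈ J := fun j hj => by
    change swap i i' (swap k' l j) ∈ J
    rw [swap_apply_of_ne_of_ne (ne_of_mem_of_not_mem hj k2.2) (ne_of_mem_of_not_mem hj l3),
      swap_apply_def]
    split_ifs
    exacts [i2, i1, hj]
  have n2 : ν.1 l = k' := by
    change swap i i' (swap k' l l) = _
    rw [swap_apply_right, swap_apply_of_ne_of_ne (ne_of_mem_of_not_mem i1 k2.2).symm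
      (ne_of_mem_of_not_mem i2 k2.2).symm]
  have := ins (τ := τ * ν⁻¹) k2.2 k2.1 (fun j hj => h2 _ (inv_mem_of_maps n1 le_rfl j hj))
    (by rw [← n2]; simpa using l1) (ins (τ := ν) k1.2 k1.1 (fun j hj => h1 (n1 j hj)) (by
      change swap i i' (swap k' l k) ∈ _
      rw [swap_apply_of_ne_of_ne k3 (ne_of_mem_of_not_mem k1.1 l4), swap_apply_of_ne_of_ne
        (ne_of_mem_of_not_mem i1 k1.2).symm (ne_of_mem_of_not_mem i2 k1.2).symm]
      exact k1.1) hx h) (C.conj h n1)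
  rwa [conj_conj', inv_mul_cancel_right] at this

theorem exists_fx (h : Rel α Φ x) : ∃ J : Finset (Fin n), J.card ≤ m ∧ Fx J (p x) := by
  obtain ⟨σ, h⟩ := h
  refine ⟨(II n 0 m).map (σ⁻¹).1.toEmbedding, by rw [Finset.card_map, C.card], ?_⟩
  simpa [mul_assoc] using C.conj (C.fx _ h) (σ := σ⁻¹) fun i hi => Finset.mem_map_of_mem _ hi

theorem mem (h : Rel α Φ x) (h1 : Fx J (p x)) {τ : alternatingGroup (Fin n)}
    (h2 : ∀ i ∈ J, τ.1 i ∈ II n 0 m) : α τ * x * (α τ)⁻¹ ∈ Φ := by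
  obtain ⟨σ, h⟩ := h
  have := C.good (τ := τ * σ⁻¹) Finset.inter_subset_left (fun i hi => ?_) h
    ((C.fx _ h).inter (C.conj h1 fun i hi => Finset.mem_map_of_mem σ.1.toEmbedding hi))
  · rwa [conj_conj', inv_mul_cancel_right] at this
  · obtain ⟨j, hj, rfl⟩ := Finset.mem_map.1 (Finset.mem_inter.1 hi).2
    simpa using h2 j hj

theorem exists_sec (hc : J.card ≤ m) : ∃ Ψ, Sec p J Ψ ∧ (∀ x ∈ Ψ, Rel α Φ x) ∧
    ∀ x, Rel α Φ x → Fx J (p x) → x ∈ Ψ := by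
  have hm := C.hm
  obtain ⟨τ, hτ⟩ := exists_alt_into (hc.trans C.card.ge) (by rw [C.card]; omega)
  refine ⟨Φ.comap (MulAut.conj (α τ)).toMonoidHom, ⟨fun x hx e => ?_, fun s hs => ?_⟩,
    fun x hx => ⟨τ, hx⟩, fun x hx h => C.mem hx h hτ⟩
  · simpa using C.sec.inj _ hx (by simp [e])
  · obtain ⟨x, hx, e⟩ := C.sec.ex _ (hs.conj hτ)
    exact ⟨(α τ)⁻¹ * x * α τ, by simpa [mul_assoc] using hx, by simp [e, C.pα, mul_assoc]⟩

theorem uniq (hx : Rel α Φ x) (hy : Rel α Φ y) (e : p x = p y) : x = y := by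
  obtain ⟨J, h1, h2⟩ := C.exists_fx hx
  obtain ⟨Ψ, S, -, h3⟩ := C.exists_sec h1
  exact S.uniq (h3 x hx h2) (h3 y hy (e ▸ h2)) e

theorem rel_α {ρ : alternatingGroup (Fin n)} (h : ∀ i ∉ J, ρ.1 i = i) (hc : J.card ≤ m) :
    Rel α Φ (α ρ) := by
  have hm := C.hm
  obtain ⟨τ, hτ⟩ := exists_alt_into (hc.trans C.card.ge) (by rw [C.card]; omega)
  refine ⟨τ, ?_⟩
  rw [← map_inv, ← map_mul, ← map_mul]
  refine C.A _ fun i hi => ?_
  change τ.1 (ρ.1 (τ.1⁻¹ i)) = i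
  rw [h _ fun h' => hi (by simpa using hτ _ h')]
  simp

theorem dec (hx : Rel α Φ x) (h : Fx J (p x)) (hc : J.card ≤ m)
    (hc' : 4 ≤ J.card ∨ J.card = 3 ∧ 3 ≤ q) {M : Subgroup Γ}
    (hM : ∀ y, Rel α Φ y → ∀ i ∈ J, Fx (J.erase i) (p y) → y ∈ M) : x ∈ M := by
  obtain ⟨Ψ, S, h1, h2⟩ := C.exists_sec hc
  exact S.mem (h2 x hx h) h le_rfl hc' fun y hy => hM y (h1 y hy)

theorem dec' {b : ℕ} (hb : b = 3 ∨ b = 2 ∧ 3 ≤ q) (hx : Rel α Φ x) (h : Fx J (p x))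
    {M : Subgroup Γ} (hM : ∀ y, Rel α Φ y → ∀ J' ⊆ J, J'.card ≤ b → Fx J' (p y) → y ∈ M) :
    x ∈ M := by
  obtain ⟨J₀, h1, h2⟩ := C.exists_fx hx
  suffices H : ∀ k, ∀ J' ⊆ J, J'.card = k → k ≤ m → ∀ x, Rel α Φ x → Fx J' (p x) → x ∈ M from
    H _ _ Finset.inter_subset_left rfl ((Finset.card_le_card Finset.inter_subset_right).trans h1)
      x hx (h.inter h2)
  intro k
  induction k with
  | zero => exact fun J' a b _ x c => hM x c J' a (by omega)
  | succ k ih =>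
    intro J' a1 a2 a3 x a4 a5
    by_cases a6 : J'.card ≤ b
    · exact hM x a4 J' a1 a6 a5
    exact C.dec a4 a5 (by omega) (by omega) fun y hy i hi => ih _ ((J'.erase_subset i).trans a1)
      (by rw [Finset.card_erase_of_mem hi]; omega) (by omega) y hy

theorem commute_α {ρ : alternatingGroup (Fin n)} (h : ∀ i ∉ J, ρ.1 i = i) (hx : Rel α Φ x)
    (h' : Fx J' (p x)) (hd : Disjoint J J') : Commute (α ρ) x :=
  mul_inv_eq_iff_eq_mul.1 (C.uniq (hx.conj ρ) hx (by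
    rw [map_mul, map_mul, map_inv, C.pα, ((fx_pm h).commute h' hd).eq, mul_inv_cancel_right]))

theorem exists_hom {b : ℕ} (hb : b = 3 ∨ b = 2 ∧ 3 ≤ q)
    (hc : ∀ (J J' : Finset (Fin n)) x y, Disjoint J J' → J.card ≤ b → J'.card ≤ b → Rel α Φ x →
      Rel α Φ y → Fx J (p x) → Fx J' (p y) → Commute x y) :
    ∃ Θ : SU n F q →* Γ, ∀ x, Rel α Φ x → x ∈ Θ.range := by
  have hm := C.hm
  have hn := C.le
  obtain ⟨k, rfl⟩ : ∃ k, m = k + 1 := ⟨m - 1, by omega⟩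
  let K : ℕ → ℕ → Subgroup Γ := fun a c =>
    Subgroup.closure {x | Rel α Φ x ∧ Fx (II n a c) (p x)}
  have mK : ∀ {a c x}, Rel α Φ x → Fx (II n a c) (p x) → x ∈ K a c := fun h h' =>
    Subgroup.subset_closure ⟨h, h'⟩
  have inj : ∀ i (h : i + k + 1 ≤ n), Function.Injective fun j : Fin (k + 1) =>
      (⟨i + j, by omega⟩ : Fin n) := fun i h a b e => by simpa [Fin.ext_iff] using e
  have fx : ∀ i h {s : SU n F q}, Fx (II n i (i + k + 1)) s ↔ ∃ g, blk (inj i h) g = s :=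
    fun i h => fx_iff _ fun j => mem_II.trans ⟨fun h => ⟨⟨j - i, by omega⟩, Fin.ext (by
      simp; omega)⟩, by rintro ⟨a, rfl⟩; simp; omega⟩
  have : ∀ i, ∃ ψ : SU (k + 1) F q →* Γ, ∀ h : i + k + 1 ≤ n, ∀ g,
      Rel α Φ (ψ g) ∧ p (ψ g) = blk (inj i h) g := fun i => by
    by_cases h : i + k + 1 ≤ n
    · obtain ⟨Ψ, S, h1, -⟩ := C.exists_sec (J := II n i (i + k + 1)) (by rw [card_II h]; omega)
      obtain ⟨ψ, h2⟩ := S.exists_hom (blk (inj i h)) fun a => (fx i h).2 ⟨a, rfl⟩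
      exact ⟨ψ, fun _ g => ⟨h1 _ (h2 g).1, (h2 g).2⟩⟩
    · exact ⟨1, fun h' => (h h').elim⟩
  choose ψ hψ using this
  refine (Sys.exists_hom (d := n) (K := K) (ψ := ψ) (fun a b c _ x hx y hy => ?_)
    (fun a b a' b' h1 h2 => Subgroup.closure_mono fun x hx => ⟨hx.1, hx.2.mono fun i hi =>
      mem_II.2 (by have := mem_II.1 hi; omega)⟩) (fun a c h => ?_) (by omega) (by omega) hn
    ⟨fun i hi g => ?_, fun i hi a b g _ hb hg => ?_, fun i hi => ?_⟩).imp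
    fun Θ hΘ x hx => hΘ (mK hx fun i hi => (hi (mem_II.2 ⟨i.1.zero_le, i.2⟩)).elim)
  · refine Subgroup.mem_centralizer_singleton_iff.1 ((Subgroup.closure_le _).2 (fun x hx => ?_) hx)
    refine Subgroup.mem_centralizer_singleton_iff.2 (Subgroup.mem_centralizer_singleton_iff.1
      ((Subgroup.closure_le _).2 (fun y hy => ?_) hy)).symm
    refine C.dec' hb hy.1 hy.2 fun y y1 J' y2 y3 y4 => Subgroup.mem_centralizer_singleton_iff.2
      (Subgroup.mem_centralizer_singleton_iff.1 (C.dec' hb hx.1 hx.2 fun x x1 J x2 x3 x4 =>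
        Subgroup.mem_centralizer_singleton_iff.2 (hc J J' x y (Finset.disjoint_left.2
          fun i h h' => ?_) x3 y3 x1 y1 x4 y4))).symm
    have := mem_II.1 (x2 h)
    have := mem_II.1 (y2 h')
    omega
  · have key : ∀ x, Rel α Φ x → ∀ j ∈ II n a c, Fx ((II n a c).erase j) (p x) →
        x ∈ K a (c - 1) ⊔ K (a + 1) c := fun x x1 j hj x2 => by
      rw [mem_II] at hj
      have sub : ∀ {a' c' : ℕ}, (∀ i : Fin n, i.1 ≠ j → a ≤ i ∧ i < c → a' ≤ i ∧ i < c') →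
          (II n a c).erase j ⊆ II n a' c' := fun h i hi =>
        mem_II.2 (h i (Fin.val_ne_of_ne (Finset.mem_erase.1 hi).1)
          (mem_II.1 (Finset.mem_erase.1 hi).2))
      by_cases j1 : j.1 = a
      · exact Subgroup.mem_sup_right (mK x1 (x2.mono (sub fun i h h' => by omega)))
      by_cases j2 : c ≤ j.1 + 1 ∨ n < c
      · exact Subgroup.mem_sup_left (mK x1 (x2.mono (sub fun i h h' => by omega)))
      obtain ⟨a₀, rfl⟩ : ∃ a₀ : Fin n, a₀.1 = a := ⟨⟨a, by omega⟩, rfl⟩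
      obtain ⟨j', b1, b2, b3⟩ : ∃ j' : Fin n, j'.1 ≠ j.1 ∧ a₀.1 < j' ∧ j'.1 + 1 < c :=
        ⟨⟨if j.1 = a₀ + 1 then a₀ + 2 else a₀ + 1, by split_ifs <;> omega⟩, by
          dsimp only; split_ifs <;> omega⟩
      let ρ : alternatingGroup (Fin n) := ⟨swap a₀ j * swap a₀ j', by
        simp [Perm.sign_swap (Fin.ne_of_val_ne j1).symm, Perm.sign_swap (Fin.ne_of_val_ne b2.ne)]⟩
      have r1 : ∀ i ∉ ({a₀, j, j'} : Finset (Fin n)), ρ.1 i = i := fun i hi => by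
        simp only [Finset.mem_insert, Finset.mem_singleton, not_or] at hi
        change swap a₀ j (swap a₀ j' i) = i
        rw [swap_apply_of_ne_of_ne hi.1 hi.2.2, swap_apply_of_ne_of_ne hi.1 hi.2.1]
      have r2 : α ρ ∈ K a₀ (c - 1) ⊔ K (a₀ + 1) c := Subgroup.mem_sup_left
        (mK (C.rel_α r1 (Finset.card_le_three.trans (by omega))) (C.pα ρ ▸ (fx_pm r1).mono (by
          simp only [Finset.insert_subset_iff, Finset.singleton_subset_iff, mem_II]; omega)))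
      have r3 := Subgroup.mem_sup_right (S := K a₀ (c - 1)) (mK (a := a₀ + 1) (c := c) (x1.conj ρ)
        (C.conj x2 fun i hi => by
          rw [Finset.mem_erase, mem_II, Ne, Fin.ext_iff] at hi
          change swap a₀ j (swap a₀ j' i) ∈ _
          simp only [mem_II, swap_apply_def, Fin.ext_iff]
          split_ifs <;> omega))
      simpa [mul_assoc] using mul_mem (mul_mem (inv_mem r2) r3) r2
    refine (Subgroup.closure_le _).2 fun x hx => ?_
    obtain ⟨J, h1, h2⟩ := C.exists_fx hx.1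
    by_cases h3 : II n a c ⊆ J
    · by_cases h4 : c ≤ n
      · exact C.dec hx.1 hx.2 ((Finset.card_le_card h3).trans h1) (by rw [card_II h4]; omega) key
      · exact Subgroup.mem_sup_left (mK hx.1 (hx.2.mono fun i hi => mem_II.2 (by
          have := mem_II.1 hi; omega)))
    · obtain ⟨j, j1, j2⟩ := Finset.not_subset.1 h3
      exact key x hx.1 j j1 ((hx.2.inter h2).mono fun i hi => Finset.mem_erase.2
        ⟨ne_of_mem_of_not_mem (Finset.mem_inter.1 hi).2 j2, (Finset.mem_inter.1 hi).1⟩)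
  · refine C.uniq (hψ i (by omega) _).1 (hψ (i + 1) (by omega) _).1 ?_
    rw [(hψ i (by omega) _).2, (hψ (i + 1) (by omega) _).2]
    refine (emb_blk (on_ee (inj i (by omega))) (Fin.succ_injective _) g).trans (Eq.trans ?_
      (emb_blk (on_ee (inj (i + 1) (by omega))) (Fin.castSucc_injective _) g).symm)
    refine DFunLike.congr_fun (emb_congr _ _ (funext fun a => congrArg (ee F) (Fin.ext ?_))) g
    simp; omega
  · refine mK (hψ i hi g).1 fun j hj => ?_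
    rw [(hψ i hi g).2]
    by_cases h : j ∈ II n i (i + k + 1)
    · rw [mem_II] at h hj
      have := (blk_smul_ee_iff (inj i hi) g ⟨j - i, by omega⟩).2 (hg _ (by simp; omega))
      rwa [show (⟨i + (⟨j - i, by omega⟩ : Fin (k + 1)), by simp; omega⟩ : Fin n) = j from
        Fin.ext (by simp; omega)] at this
    · exact (fx i hi).2 ⟨g, rfl⟩ j h
  · refine (Subgroup.closure_le _).2 fun x hx => ?_
    obtain ⟨g, e⟩ := (fx i hi).1 hx.2
    exact ⟨g, C.uniq (hψ i hi g).1 hx.1 ((hψ i hi g).2.trans e)⟩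

theorem injective {b : ℕ} (hb : b = 3 ∨ b = 2 ∧ 3 ≤ q)
    (hc : ∀ (J J' : Finset (Fin n)) x y, Disjoint J J' → J.card ≤ b → J'.card ≤ b → Rel α Φ x →
      Rel α Φ y → Fx J (p x) → Fx J' (p y) → Commute x y)
    (gen : ∀ M : Subgroup Γ, α.range ≤ M → Φ ≤ M → M = ⊤) (hp : Function.Surjective p) :
    Function.Injective p := by
  have hm := C.hm
  have := hU.finite
  obtain ⟨Θ, hΘ⟩ := C.exists_hom hb hc
  have h1 : Function.Surjective Θ := MonoidHom.range_eq_top.1 (gen _ (by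
    rintro _ ⟨σ, rfl⟩
    refine (Subgroup.closure_le (Θ.range.comap α)).2 (fun ρ hρ => hΘ _ (C.rel_α (J := ρ.1.support)
      (fun i hi => by simpa using hi) ?_))
      (alternatingGroup.closure_isThreeCycles_eq_top.ge (Subgroup.mem_top σ))
    rw [Perm.IsThreeCycle.card_support hρ]; omega) fun x hx => hΘ x (rel_of_mem hx))
  exact Function.Injective.of_comp_right (Finite.injective_iff_surjective.2 (hp.comp h1)) h1

end Ctx

end Cfsg.Agent.KSG.UG
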