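import Mathlib

/-! A real element of odd order in an abelian Sylow subgroup makes the automizer of even order. -/

set_option autoImplicit false

namespace Cfsg.Agent.KSG

theorem exists_conj_mem_sylow {G : Type*} [Group G] [Finite G] {p : ℕ} [Fact p.Prime]
    (P : Sylow p G) (x : G) (k : ℕ) (hx : x ^ p ^ k = 1) : ∃ g : G, g * x * g⁻¹ ∈ P := by
  have h1 : IsPGroup p (Subgroup.zpowers x) := by
    rintro ⟨_, n, rfl⟩
    refine ⟨k, Subtype.ext ?_⟩
    change (x ^ n) ^ p ^ k = 1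
    rw [← zpow_natCast, ← zpow_mul, mul_comm, zpow_mul, zpow_natCast, hx, one_zpow]
  obtain ⟨Q, hQ⟩ := h1.exists_le_sylow
  obtain ⟨g, rfl⟩ := MulAction.exists_smul_eq G Q P
  exact ⟨g, x, hQ (Subgroup.mem_zpowers x), rfl⟩

theorem two_dvd_automizer_of_real {G : Type*} [Group G] [Finite G] {p : ℕ} [Fact p.Prime]
    (P : Sylow p G) (hP : IsMulCommutative (P : Subgroup G)) (x : G) (k : ℕ) (hx : x ^ p ^ k = 1)
    (hne : x ≠ x⁻¹) (hreal : IsConj x x⁻¹) :
    2 ∣ ((Subgroup.centralizer ((P : Subgroup G) : Set G)).subgroupOf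
      (Subgroup.normalizer ((P : Subgroup G) : Set G))).index := by
  obtain ⟨g, hg⟩ := exists_conj_mem_sylow P x k hx
  set y := g * x * g⁻¹ with hy
  have hyne : y ≠ y⁻¹ := by
    intro h
    apply hne
    have : y⁻¹ = g * x⁻¹ * g⁻¹ := by rw [hy]; group
    rw [this, hy] at h
    simpa using h
  obtain ⟨c, hc⟩ := isConj_iff.1 hreal
  have h1 : (g * c⁻¹ * g⁻¹)⁻¹ * y * (g * c⁻¹ * g⁻¹) = y⁻¹ := by
    calc _ = g * (c * x * c⁻¹) * g⁻¹ := by rw [hy]; group
      _ = y⁻¹ := by rw [hc, hy]; group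
  obtain ⟨n, hn, hn'⟩ := P.conj_eq_normalizer_conj_of_mem y (g * c⁻¹ * g⁻¹) hg
    (by rw [h1]; exact (P : Subgroup G).inv_mem hg)
  rw [h1] at hn'
  by_contra hodd
  set m := ((Subgroup.centralizer ((P : Subgroup G) : Set G)).subgroupOf
      (Subgroup.normalizer ((P : Subgroup G) : Set G))).index with hm
  have h2 : (⟨n, hn⟩ : Subgroup.normalizer ((P : Subgroup G) : Set G)) ^ m ∈
      (Subgroup.centralizer ((P : Subgroup G) : Set G)).subgroupOf _ :=
    Subgroup.pow_index_mem _ _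
  have h3 : y * n ^ m = n ^ m * y := h2 y hg
  have h4 : ∀ j : ℕ, y * n ^ (2 * j + 1) = n ^ (2 * j + 1) * y⁻¹ := by
    have h5 : y * n = n * y⁻¹ := by rw [hn']; group
    have h6 : y⁻¹ * n = n * y := by
      calc y⁻¹ * n = y⁻¹ * (n * y⁻¹) * y := by group
        _ = y⁻¹ * (y * n) * y := by rw [h5]
        _ = n * y := by group
    intro j
    induction j with
    | zero => simpa using h5
    | succ j ih =>
      calc y * n ^ (2 * (j + 1) + 1) = y * n ^ (2 * j + 1) * n * n := by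
            rw [show 2 * (j + 1) + 1 = 2 * j + 1 + 1 + 1 by ring, pow_succ, pow_succ]
            simp only [mul_assoc]
        _ = n ^ (2 * j + 1) * (y⁻¹ * n) * n := by rw [ih]; simp only [mul_assoc]
        _ = n ^ (2 * j + 1) * n * (y * n) := by rw [h6]; simp only [mul_assoc]
        _ = n ^ (2 * (j + 1) + 1) * y⁻¹ := by
            rw [h5, show 2 * (j + 1) + 1 = 2 * j + 1 + 1 + 1 by ring, pow_succ _ (2 * j + 1 + 1),
              pow_succ _ (2 * j + 1)]
            simp only [mul_assoc]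
  obtain ⟨j, hj⟩ : ∃ j, m = 2 * j + 1 := ⟨m / 2, by omega⟩
  rw [hj, h4 j] at h3
  exact hyne (mul_left_cancel h3).symm

theorem exists_isCycle_cycleType {α : Type*} [Fintype α] [DecidableEq α] {k : ℕ} (h2 : 2 ≤ k)
    (hk : k ≤ Fintype.card α) : ∃ c : Equiv.Perm α, c.cycleType = {k} ∧ orderOf c = k ∧
      c.support.card = k := by
  obtain ⟨c, hc⟩ := (Equiv.Perm.exists_with_cycleType_iff α (m := {k})).2 ⟨by simpa, by simpa⟩
  refine ⟨c, hc, ?_, ?_⟩
  · rw [← c.lcm_cycleType, hc]; simp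
  · rw [← c.sum_cycleType, hc]; simp

end Cfsg.Agent.KSG
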