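import Mathlib
import Cfsg.Agent.KSG.BlockCharP
import Cfsg.Agent.KSG.GLBN
import Cfsg.Agent.St.Dual

/-!
The blocks of `SL_n(q)` in the defining characteristic.
-/

set_option autoImplicit false
set_option linter.unusedSectionVars false

namespace Cfsg.Agent.KSG

open Cfsg Cfsg.Agent.St Cfsg.Agent.Char Cfsg.Agent.Block

/-- In a split Tits system generated by `p`-elements there is exactly one irreducible character of
defect zero. -/
theorem card_defect_zero_eq_one {p : ℕ} [hp : Fact p.Prime] {G ι W : Type*} [Group G] [Group W]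
    [Finite G] [Finite ι] (T : Split p G ι W)
    (hG : Subgroup.normalClosure (T.U : Set G) = ⊤) :
    Nat.card {χ : IrrCharacter G //
      (charDegree (χ : G → ℂ)).factorization p = (Nat.card G).factorization p} = 1 := by
  classical
  have := Fintype.ofFinite G
  have := Fintype.ofFinite ι
  have hG' : Subgroup.closure {g : G | ∃ k, orderOf g = p ^ k} = ⊤ := by
    rw [eq_top_iff, ← hG, Subgroup.normalClosure]
    refine Subgroup.closure_mono fun g hg => ?_
    obtain ⟨u, hu, e⟩ := Group.mem_conjugatesOfSet_iff.1 hg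
    obtain ⟨c, rfl⟩ := isConj_iff.1 e
    obtain ⟨k, hk⟩ := IsPGroup.iff_orderOf.1 T.pU ⟨u, hu⟩
    rw [Subgroup.orderOf_mk] at hk
    exact ⟨k, by rw [← hk]; exact (SemiconjBy.orderOf_eq c (by simp [SemiconjBy])).symm⟩
  rw [Nat.card_eq_one_iff_exists]
  refine ⟨⟨⟨T.steinberg, T.isIrr_steinberg⟩, ?_⟩, ?_⟩
  · change (charDegree T.steinberg).factorization p = _
    rw [charDegree_eq_of_eq (T.steinberg_one), T.card_U, hp.out.factorization_pow]
    simp
  · rintro ⟨χ, h⟩
    refine Subtype.ext (Subtype.ext (T.eq_steinberg_of_vanish hG' χ.2 fun g hg => ?_))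
    refine χ.2.eq_zero_of_pow_dvd hp.out (coe_charDegree_irr χ).symm
      (Nat.pow_succ_factorization_not_dvd Nat.card_pos.ne' hp.out) ?_ hg
    rw [← h]
    exact Nat.ordProj_dvd _ _

variable {F : Type*} [Field F] [Finite F] (p : ℕ) [hp : Fact p.Prime] [CharP F p]

theorem card_defect_zero_SL (n : ℕ) :
    Nat.card {χ : IrrCharacter (Matrix.SpecialLinearGroup (Fin (n + 1)) F) //
      (charDegree (χ : Matrix.SpecialLinearGroup (Fin (n + 1)) F → ℂ)).factorization p =
        (Nat.card (Matrix.SpecialLinearGroup (Fin (n + 1)) F)).factorization p} = 1 :=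
  card_defect_zero_eq_one (GLn.slSplit n F p) (GLn.normalClosure_slSplit_U n F p)

theorem dvd_card_SL {ι : Type*} [Fintype ι] [DecidableEq ι] [Nontrivial ι] :
    p ∣ Nat.card (Matrix.SpecialLinearGroup ι F) := by
  obtain ⟨i, j, h⟩ := exists_pair_ne ι
  have h1 : IsNilpotent ((GLn.tr h (1 : F) : Matrix ι ι F) - 1) := ⟨2, by
    rw [GLn.coe_tr, Matrix.transvection, add_sub_cancel_left, pow_two,
      Matrix.single_mul_single_of_ne _ _ _ _ h.symm]⟩
  rw [GL_isNilpotent_iff_exists_orderOf p, GLn.tr,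
    orderOf_injective _ Matrix.SpecialLinearGroup.toGL_injective] at h1
  obtain ⟨k, hk⟩ := h1
  refine dvd_trans ?_ (orderOf_dvd_natCard (Matrix.SpecialLinearGroup.transvection h (1 : F)))
  rw [hk]
  refine dvd_pow_self p ?_
  rintro rfl
  have h2 := congrArg (fun g : Matrix.SpecialLinearGroup ι F => (g : Matrix ι ι F) i j)
    (orderOf_eq_one_iff.1 hk)
  have h3 := GLn.tr_apply h (1 : F) i j
  simp only [Matrix.SpecialLinearGroup.coe_one] at h2
  rw [show (GLn.tr h (1 : F) : Matrix ι ι F) i j = _ from h2] at h3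
  simp at h3

end Cfsg.Agent.KSG
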