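import Mathlib
import Cfsg.Agent.KSG.SylowTwoMax

/-!
# Overgroups of a Sylow 3-subgroup of `A_n`

If a Sylow 3-subgroup of `A_n` lies in a unique maximal subgroup then `n = 6`, `9` or `3 ^ a + 1`.
-/

set_option autoImplicit false

namespace Cfsg.Agent.KSG.Syl3

open Equiv Equiv.Perm Subgroup Cfsg.Agent.PLocal.Amb

variable {Ω : Type*} [DecidableEq Ω] [Fintype Ω] {R J : Subgroup (Perm Ω)}

omit [Fintype Ω] in
theorem card_le_three (hR : IsPGroup 3 R) {X : Finset Ω} (h : AltFull R X) : X.card ≤ 3 := by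
  by_contra h4
  obtain ⟨a, b, c, d, ha, hb, hc, hd, h1, h2, h3, h5, h6, h7⟩ :=
    Finset.three_lt_card_iff.1 (not_le.1 h4)
  obtain ⟨k, hk⟩ := hR ⟨_, mul_mem (h a ha b hb c hc h1 h2 h5) (h a ha b hb d hd h1 h3 h6)⟩
  have e1 : (c3 a b c * c3 a b d) ^ 3 ^ k = 1 := congrArg Subtype.val hk
  have e2 : (c3 a b c * c3 a b d) ^ 2 = 1 := by rw [pow_two, c3_mul_c3_sq h1 h2 h5 h3 h6 h7]
  have := pow_gcd_eq_one.2 ⟨e1, e2⟩
  rw [Nat.Coprime.pow_left k (by norm_num), pow_one] at this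
  exact c3_mul_c3_ne_one h1 h2 h5 h3 this

/-- The permutations preserving the supports of the three-cycles of `R`. -/
def tri (R : Subgroup (Perm Ω)) : Subgroup (Perm Ω) where
  carrier := {g | ∀ X : Finset Ω, X.card = 3 → (AltFull R (X.image g) ↔ AltFull R X)}
  one_mem' := fun X _ => by simp
  mul_mem' := fun {g h} hg hh X hX => by
    rw [← hh X hX, ← hg (X.image h) (by rw [Finset.card_image_of_injective _ h.injective, hX]),
      Finset.image_image]
    rfl
  inv_mem' := fun {g} hg X hX => by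
    rw [← hg _ (by rw [Finset.card_image_of_injective _ g⁻¹.injective, hX]), Finset.image_image]
    simp

omit [Fintype Ω] in
theorem le_tri : R ≤ tri R := fun g hg X _ =>
  ⟨fun h => by simpa [Finset.image_image] using h.image (inv_mem hg), fun h => h.image hg⟩

omit [Fintype Ω] in
theorem altFull_image (hR : IsPGroup 3 R) {X Y : Finset Ω} (hX : AltFull R X) (hY : AltFull R Y)
    (cX : X.card = 3) (cY : Y.card = 3) {g : Perm Ω} (h1 : ∀ x ∈ X, g x ∈ Y)
    (h2 : ∀ y ∈ Y, g y ∈ X) (h3 : ∀ z, z ∉ X → z ∉ Y → g z = z) {Z : Finset Ω} (cZ : Z.card = 3)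
    (hZ : AltFull R Z) : AltFull R (Z.image g) := by
  have key : ∀ W : Finset Ω, AltFull R W → W.card = 3 → ∀ w ∈ Z, w ∈ W → Z ⊆ W := by
    intro W hW cW w w1 w2
    have := card_le_three hR (hW.union hZ cW.ge cZ.ge w2 w1)
    rw [Finset.eq_of_subset_of_card_le (Finset.subset_union_left (s₁ := W) (s₂ := Z))
      (by omega)]
    exact Finset.subset_union_right
  by_cases e1 : ∃ w ∈ Z, w ∈ X
  · obtain ⟨w, w1, w2⟩ := e1
    exact hY.mono (Finset.image_subset_iff.2 fun z hz => h1 z (key X hX cX w w1 w2 hz))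
  by_cases e2 : ∃ w ∈ Z, w ∈ Y
  · obtain ⟨w, w1, w2⟩ := e2
    exact hX.mono (Finset.image_subset_iff.2 fun z hz => h2 z (key Y hY cY w w1 w2 hz))
  push Not at e1 e2
  exact hZ.mono (Finset.image_subset_iff.2 fun z hz => by rwa [h3 z (e1 z hz) (e2 z hz)])

theorem exists_swap (hR : IsPGroup 3 R) {X Y : Finset Ω} (hX : AltFull R X) (hY : AltFull R Y)
    (cX : X.card = 3) (cY : Y.card = 3) (hd : ∀ x ∈ X, x ∉ Y) :
    ∃ g ∈ tri R ⊓ alternatingGroup Ω, (∀ x ∈ X, g x ∈ Y) ∧ ∀ z, z ∉ X → z ∉ Y → g z = z := by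
  obtain ⟨a, b, c, h1, h2, h3, rfl⟩ := Finset.card_eq_three.1 cX
  obtain ⟨d, e, f, h4, h5, h6, rfl⟩ := Finset.card_eq_three.1 cY
  simp only [Finset.mem_insert, Finset.mem_singleton, forall_eq_or_imp, forall_eq, not_or] at hd
  obtain ⟨⟨a1, a2, a3⟩, ⟨b1, b2, b3⟩, c1, c2, c4⟩ := hd
  set g := (swap a d * swap b e) * (swap c f * swap a b) with hg
  have ea : g a = e := by simp only [hg, Perm.mul_apply, swap_apply_def]; grind
  have eb : g b = d := by simp only [hg, Perm.mul_apply, swap_apply_def]; grind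
  have ec : g c = f := by simp only [hg, Perm.mul_apply, swap_apply_def]; grind
  have ed : g d = a := by simp only [hg, Perm.mul_apply, swap_apply_def]; grind
  have ee : g e = b := by simp only [hg, Perm.mul_apply, swap_apply_def]; grind
  have ef : g f = c := by simp only [hg, Perm.mul_apply, swap_apply_def]; grind
  have f1 : ∀ x ∈ ({a, b, c} : Finset Ω), g x ∈ ({d, e, f} : Finset Ω) := by simp [ea, eb, ec]
  have f2 : ∀ x ∈ ({d, e, f} : Finset Ω), g x ∈ ({a, b, c} : Finset Ω) := by simp [ed, ee, ef]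
  have f3 : ∀ z, z ∉ ({a, b, c} : Finset Ω) → z ∉ ({d, e, f} : Finset Ω) → g z = z := by
    intro z hz hz'
    simp only [Finset.mem_insert, Finset.mem_singleton, not_or] at hz hz'
    simp only [hg, Perm.mul_apply, swap_apply_def]; grind
  refine ⟨g, ⟨fun Z cZ => ⟨fun h => ?_, altFull_image hR hX hY cX cY f1 f2 f3 cZ⟩,
    mul_mem (swap_mul_swap_mem_alt a1 b2) (swap_mul_swap_mem_alt c4 h1)⟩, f1, f3⟩
  have := altFull_image hR hX hY cX cY (g := g⁻¹) ?_ ?_ (fun z h1 h2 => by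
    rw [Perm.inv_eq_iff_eq, f3 z h1 h2])
    (by rw [Finset.card_image_of_injective _ g.injective, cZ]) h
  · simpa [Finset.image_image] using this
  · simp only [Finset.mem_insert, Finset.mem_singleton, forall_eq_or_imp, forall_eq,
      Perm.inv_eq_iff_eq, ed, ee, ef]
    simp
  · simp only [Finset.mem_insert, Finset.mem_singleton, forall_eq_or_imp, forall_eq,
      Perm.inv_eq_iff_eq, ea, eb, ec]
    simp

theorem exists_triple (hR : IsSyl 3 R (alternatingGroup Ω)) {C : Finset Ω} (hC : R ≤ setStab C)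
    (h3 : 3 ≤ C.card) : ∃ X ⊆ C, X.card = 3 ∧ AltFull R X := by
  obtain ⟨a, b, c, ha, hb, hc, h1, h2, h4⟩ := Finset.two_lt_card_iff.1 h3
  obtain ⟨g, hg, e⟩ := isSyl_exists_conj_mem (hR.mono (le_inf hC hR.le) inf_le_right)
    (altFull_setStab_inf C a ha b hb c hc h1 h2 h4)
    ((isThreeCycle_c3 h1 h2 h4).orderOf ▸ pow_orderOf_eq_one _)
  rw [conj_c3] at e
  have hi := g.injective
  refine ⟨{g a, g b, g c}, ?_, Finset.card_eq_three.2 ⟨_, _, _, hi.ne h1, hi.ne h2, hi.ne h4, rfl⟩,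
    altFull_triple (hi.ne h1) (hi.ne h2) (hi.ne h4) e⟩
  simp [Finset.insert_subset_iff, hg.1 _, ha, hb, hc]

theorem not_alt_le_tri (hR : IsSyl 3 R (alternatingGroup Ω)) (h5 : 5 ≤ Fintype.card Ω) :
    ¬ alternatingGroup Ω ≤ tri R := by
  intro h
  obtain ⟨X, -, cX, hX⟩ := exists_triple hR (C := Finset.univ) (fun _ _ _ => by simp)
    (by simp; omega)
  obtain ⟨a, b, c, h1, h2, h3, rfl⟩ := Finset.card_eq_three.1 cX
  obtain ⟨d, hd⟩ := exists_notMem_list [a, b, c] (by simp; omega)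
  obtain ⟨e, he⟩ := exists_notMem_list [a, b, c, d] (by simp; omega)
  simp only [List.mem_cons, List.not_mem_nil, or_false, not_or] at hd he
  have h4 := (h (c3_mem_alternatingGroup (Ne.symm hd.2.2) (Ne.symm he.2.2.2)) _ cX).2 hX
  have h6 := card_le_three hR.pgrp (hX.union h4 cX.ge
    (by rw [Finset.card_image_of_injective _ (Equiv.injective _), cX]) (w := a) (by simp)
    (Finset.mem_image.2 ⟨a, by simp, c3_apply_of_ne h2 (Ne.symm hd.1) (Ne.symm he.1)⟩))
  have h7 := Finset.eq_of_subset_of_card_le Finset.subset_union_left (h6.trans cX.ge)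
  have h8 : d ∈ ({a, b, c} : Finset Ω) := h7 ▸ Finset.mem_union_right _ (Finset.mem_image.2
    ⟨c, by simp, c3_apply_fst (Ne.symm hd.2.2) (Ne.symm he.2.2.1)⟩)
  simp [hd] at h8

theorem not_alt_le_setStab {B : Finset Ω} (h3 : 3 ≤ Fintype.card Ω) {x y : Ω} (hx : x ∈ B)
    (hy : y ∉ B) : ¬ alternatingGroup Ω ≤ setStab B := by
  intro h
  obtain ⟨z, hz⟩ := exists_notMem_list [x, y] (by simp; omega)
  simp only [List.mem_cons, List.not_mem_nil, or_false, not_or] at hz
  have hxy : x ≠ y := fun e => hy (e ▸ hx)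
  have := (h (c3_mem_alternatingGroup hxy (Ne.symm hz.2)) x).2 hx
  rw [c3_apply_fst hxy (Ne.symm hz.1)] at this
  exact hy this

theorem not_dvd_choose {a m : ℕ} (h : m < 2 * 3 ^ a) : ¬ 3 ∣ (m + 3 ^ a).choose (3 ^ a) := by
  have h0 : 0 < 3 ^ a := by positivity
  have := Nat.factorization_choose' (n := m) (k := 3 ^ a) (b := a + 2) Nat.prime_three
    (Nat.log_lt_of_lt_pow (by omega) (by rw [pow_add]; omega))
  rw [Finset.filter_eq_empty_iff.2, Finset.card_empty] at this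
  · rw [Nat.prime_three.dvd_iff_one_le_factorization (Nat.choose_pos (Nat.le_add_left _ _)).ne',
      this]
    omega
  · intro i hi
    rw [Finset.mem_Ico] at hi
    by_cases e : i = a + 1
    · have h1 := Nat.mod_le (3 ^ a) (3 ^ i)
      have h2 := Nat.mod_le m (3 ^ i)
      rw [e, pow_succ] at *
      omega
    rw [Nat.mod_eq_zero_of_dvd (pow_dvd_pow 3 (by omega)), zero_add, not_le]
    exact Nat.mod_lt _ (by positivity)

variable (hR : IsSyl 3 R (alternatingGroup Ω)) (h5 : 5 ≤ Fintype.card Ω)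
  (hJ : ∀ K, R ≤ K → ¬ alternatingGroup Ω ≤ K → K ⊓ alternatingGroup Ω ≤ J)
include hR h5 hJ

theorem alt_le_of_stable {B : Finset Ω} (hB : R ≤ setStab B) (h4 : 4 ≤ B.card)
    (h3 : 3 ≤ Bᶜ.card) : alternatingGroup Ω ≤ J := by
  obtain ⟨X, h1, cX, hX⟩ := exists_triple hR hB (by omega)
  obtain ⟨Y, h2, cY, hY⟩ := exists_triple hR (C := Bᶜ)
    (fun r hr x => by simp [hB hr x]) h3
  have h2' : ∀ y ∈ Y, y ∉ B := fun y hy => Finset.mem_compl.1 (h2 hy)
  obtain ⟨g, hg, g1, g2⟩ := exists_swap hR.pgrp hX hY cX cY fun x hx hy => h2' x hy (h1 hx)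
  obtain ⟨w, hw, hw'⟩ := Finset.exists_mem_notMem_of_card_lt_card (show X.card < B.card by omega)
  obtain ⟨x, hx⟩ := Finset.card_pos.1 (show 0 < X.card by omega)
  exact alt_le_of_setStab_le (by omega)
    (hJ _ hB (not_alt_le_setStab (by omega) hw (h2' _ (g1 x hx))))
    (hJ _ le_tri (not_alt_le_tri hR h5) hg) hw
    (by rwa [g2 w hw' fun h => h2' w h hw]) (h1 hx) (h2' _ (g1 x hx))

theorem alt_le_of_two {B : Finset Ω} (hB : R ≤ setStab B) (h3 : 3 ≤ B.card) (h2 : 2 ≤ Bᶜ.card)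
    (hn : ¬ 3 ∣ Fintype.card Ω) : alternatingGroup Ω ≤ J := by
  obtain ⟨C, c1, c2⟩ := exists_setStab_of_not_dvd_choose hR.pgrp (m := 1) (by simpa using hn)
  obtain ⟨v, rfl⟩ := Finset.card_eq_one.1 c1
  obtain ⟨u, hu, hu'⟩ := exists_mem_notMem_list (B := Bᶜ) [v] (by simp; omega)
  obtain ⟨x, hx, y, hy, hxy, hxv, hyv⟩ := exists_two_ne_of_card h3 v
  obtain ⟨w, hw, hwx, hwy⟩ := exists_ne_ne_of_card h3 x y
  simp only [List.mem_cons, List.not_mem_nil, or_false] at hu'
  rw [Finset.mem_compl] at hu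
  have ne : ∀ z ∈ B, z ≠ u := fun z hz e => hu (e ▸ hz)
  refine alt_le_of_setStab_le h3 (hJ _ hB (not_alt_le_setStab (by omega) hw hu))
    (g := c3 x u y) (hJ _ c2 (not_alt_le_setStab (by omega) (Finset.mem_singleton_self v)
      (by simpa using hxv)) ⟨mul_mem (swap_mem_setStab (by simp [hxv, hu']))
        (swap_mem_setStab (by simp [hyv, hu'])), c3_mem_alternatingGroup (ne x hx) (ne y hy).symm⟩)
    hw (by rwa [c3_apply_of_ne hwx (ne w hw) hwy]) hx (by rwa [c3_apply_fst (ne x hx) hxy])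

theorem alt_le_of_trans (h10 : 10 ≤ Fintype.card Ω) (htr : ∀ x y, ∃ r ∈ R, r x = y) :
    alternatingGroup Ω ≤ J := by
  classical
  obtain ⟨X, -, cX, hX⟩ := exists_triple hR (C := Finset.univ) (fun _ _ _ => by simp)
    (by simp; omega)
  obtain ⟨x, b, c, h1, h2, h3, rfl⟩ := Finset.card_eq_three.1 cX
  obtain ⟨M, hM, hle⟩ := (eq_top_or_exists_le_coatom (MulAction.stabilizer R x)).resolve_left (by
    intro e
    obtain ⟨r, hr, rfl⟩ := htr x b
    exact h1 (e.ge (mem_top (⟨r, hr⟩ : R))).symm)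
  have hi := Grp.PFrattini.index_of_isCoatom hR.pgrp hM
  haveI := hR.pgrp.isNilpotent
  haveI : M.Normal := NormalizerCondition.normal_of_coatom M Group.normalizerCondition_of_isNilpotent hM
  choose s hs hs' using htr x
  let f : Ω → R ⧸ M := fun y => (⟨s y, hs y⟩ : R)
  have hf : ∀ (r : R) y, f (r.1 y) = r * f y := fun r y => by
    rw [← QuotientGroup.mk_mul, QuotientGroup.eq]
    refine hle ?_
    change ((s (r.1 y))⁻¹ * (r.1 * s y)) x = x
    rw [Perm.mul_apply, Perm.mul_apply, hs', Perm.inv_eq_iff_eq, hs']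
  have hK : R ≤ partStab f := fun r hr => mem_partStab_of_perm _
    (mul_right_injective ((⟨r, hr⟩ : R) : R ⧸ M)) (hf ⟨r, hr⟩)
  let fib : R ⧸ M → Finset Ω := fun q => Finset.univ.filter (f · = q)
  have hfib : ∀ q y, y ∈ fib q ↔ f y = q := fun q y => by simp [fib]
  have hc : ∀ q, (fib q).card = (fib (f x)).card := fun q => by
    obtain ⟨r, hr⟩ := QuotientGroup.mk_surjective (q * (f x)⁻¹)
    refine (Finset.card_bijective r.1 r.1.bijective fun y => ?_).symm
    rw [hfib, hfib, hf, hr, mul_assoc, mul_eq_left, inv_mul_eq_one, eq_comm]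
  have h4 : ∀ q, 4 ≤ (fib q).card := fun q => by
    haveI := Fintype.ofFinite (R ⧸ M)
    have := Finset.card_eq_sum_card_fiberwise (f := f) (s := Finset.univ) (t := Finset.univ)
      fun _ _ => Finset.mem_univ _
    rw [Finset.sum_congr rfl fun q _ => hc q, Finset.sum_const, Finset.card_univ, Finset.card_univ,
      ← Nat.card_eq_fintype_card (α := R ⧸ M), ← index, hi, smul_eq_mul] at this
    rw [hc]; omega
  obtain ⟨r, hr⟩ : ∃ r, r ∉ M := by
    by_contra! e
    exact hM.1 ((eq_top_iff' M).2 e)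
  have hr' : ∀ y, f (r.1 y) ≠ f y := fun y e => hr (by
    rwa [hf, mul_eq_right, QuotientGroup.eq_one_iff] at e)
  have hJK : partStab f ⊓ alternatingGroup Ω ≤ J := hJ _ hK fun h => by
    obtain ⟨u, hu, v, hv, huv, hux, hvx⟩ := exists_two_ne_of_card (X := fib (f x))
      (by have := h4 (f x); omega) x
    rw [hfib] at hu hv
    have ne : ∀ z, f z = f x → z ≠ r.1 x := fun z hz e => hr' x (e ▸ hz)
    have := (h (c3_mem_alternatingGroup (ne u hu) (ne v hv).symm) u x).1 hu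
    rw [c3_apply_fst (ne u hu) huv, c3_apply_of_ne hux.symm (ne x rfl) hvx.symm] at this
    exact hr' x this
  have hfull : ∀ q, AltFull J (fib q) := fun q a ha b hb c hc h1 _ h3 => by
    rw [hfib] at ha hb hc
    exact hJK ⟨mul_mem (swap_mem_partStab (ha.trans hb.symm)) (swap_mem_partStab (hb.trans hc.symm)),
      c3_mem_alternatingGroup h1 h3⟩
  have hXf : ∀ y ∈ ({x, b, c} : Finset Ω), f y = f x := by
    obtain ⟨z, hz⟩ := exists_notMem_list [x, b, c] (by simp; omega)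
    simp only [List.mem_cons, List.not_mem_nil, or_false, not_or] at hz
    have t1 := hX x (by simp) b (by simp) c (by simp) h1 h2 h3
    have t2 := hf ⟨_, t1⟩ z
    rw [c3_apply_of_ne hz.1 hz.2.1 hz.2.2, eq_comm, mul_eq_right] at t2
    have t3 := hf ⟨_, t1⟩ x
    have t4 := hf ⟨_, t1⟩ b
    rw [t2, one_mul] at t3 t4
    rw [c3_apply_fst h1 h2] at t3
    rw [c3_apply_snd h2 h3] at t4
    simp [t3, t4]
  have hYf : ∀ y ∈ ({x, b, c} : Finset Ω).image r.1, f y = f (r.1 x) := fun y hy => by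
    obtain ⟨z, hz, rfl⟩ := Finset.mem_image.1 hy
    rw [hf, hf, hXf z hz]
  obtain ⟨g, hg, g1, g2⟩ := exists_swap hR.pgrp hX (hX.image r.2) cX
    (by rw [Finset.card_image_of_injective _ r.1.injective, cX])
    fun y hy hy' => hr' x ((hYf y hy').symm.trans (hXf y hy))
  obtain ⟨w, hw, hw'⟩ := Finset.exists_mem_notMem_of_card_lt_card
    (show ({x, b, c} : Finset Ω).card < (fib (f x)).card by have := h4 (f x); omega)
  obtain ⟨D, d1, d2, d3, d4⟩ := (hfull (f x)).exists_block (by have := h4 (f x); omega)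
  have hxD : x ∈ D := d1 ((hfib _ _).2 rfl)
  have e1 : g x ∈ D := (d4 g (hJ _ le_tri (not_alt_le_tri hR h5) hg) w (d1 hw) (by
    rw [g2 w hw' fun h => hr' x ((hYf w h).symm.trans ((hfib _ _).1 hw))]; exact d1 hw) x).2 hxD
  have e2 : r.1 x ∈ D := d3 _ (hfull (f (r.1 x))) (by have := h4 (f (r.1 x)); omega) _
    ((hfib _ _).2 (hYf _ (g1 x (by simp)))) e1 ((hfib _ _).2 rfl)
  have hRJ : R ≤ J := (le_inf hK hR.le).trans hJK
  have e3 : M < (setStab D).comap R.subtype := lt_of_le_of_ne (fun m hm =>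
    d4 _ (hRJ m.2) x hxD (d1 ((hfib _ _).2 (by
      rw [Subgroup.subtype_apply, hf, (QuotientGroup.eq_one_iff m).2 hm, one_mul]))))
    fun e => hr (e ▸ d4 _ (hRJ r.2) x hxD e2)
  refine d2.alternatingGroup_le fun y => ?_
  rw [← hs' y]
  exact (((hM.2 _ e3).ge (mem_top (⟨s y, hs y⟩ : R))) x).2 hxD

theorem alt_le_of_ne (h6 : Fintype.card Ω ≠ 6) (h9 : Fintype.card Ω ≠ 9)
    (hn : ¬ ∃ a, 2 ≤ a ∧ Fintype.card Ω = 3 ^ a + 1) : alternatingGroup Ω ≤ J := by
  set a := Nat.log 3 (Fintype.card Ω)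
  have h1 : 3 ^ a ≤ Fintype.card Ω := Nat.pow_log_le_self 3 (by omega)
  have h2 : Fintype.card Ω < 3 ^ (a + 1) := Nat.lt_pow_succ_log_self (by norm_num) _
  have ha : 1 ≤ a := Nat.le_log_of_pow_le (by norm_num) (by omega)
  have h3 : 3 ^ a = 3 ∨ 3 ^ a = 9 ∨ 27 ≤ 3 ^ a := by
    rcases (show a = 1 ∨ a = 2 ∨ 3 ≤ a by omega) with h | h | h
    · simp [h]
    · simp [h]
    · exact Or.inr (Or.inr (Nat.pow_le_pow_right (n := 3) (by norm_num) h))
  have h4 : 3 ∣ 3 ^ a := dvd_pow_self 3 (by omega)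
  rcases h1.eq_or_lt with h | h
  · exact alt_le_of_trans hR h5 hJ (by omega) (isSyl_trans_of_card le_rfl hR (by omega) h.symm)
  obtain ⟨B, h7, h8⟩ := exists_setStab_of_not_dvd_choose hR.pgrp (m := 3 ^ a) (by
    have := not_dvd_choose (m := Fintype.card Ω - 3 ^ a) (a := a) (by omega)
    rwa [Nat.sub_add_cancel h1] at this)
  have := Finset.card_add_card_compl B
  have : Fintype.card Ω ≠ 3 ^ a + 1 := fun e => hn ⟨a, by
    by_contra e'
    rw [show a = 1 by omega] at e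
    omega, e⟩
  by_cases e : Bᶜ.card = 2
  · exact alt_le_of_two hR h5 hJ h8 (by omega) e.ge (by omega)
  by_cases e' : 4 ≤ B.card
  · exact alt_le_of_stable hR h5 hJ h8 e' (by omega)
  · exact alt_le_of_stable hR h5 hJ (B := Bᶜ) (fun r hr x => by simp [h8 hr x]) (by omega)
      (by rw [compl_compl]; omega)

end Cfsg.Agent.KSG.Syl3
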