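import Mathlib
import Cfsg.Agent.KSG.SLMin
import Cfsg.Agent.KSG.SpSiegel
import Cfsg.Agent.KSG.Weil

/-!
# Representations of symplectic groups all of whose Siegel weights have rank at most one
-/

set_option autoImplicit false

namespace Cfsg.Agent.KSG

open Module Matrix Cfsg Cfsg.Agent.Class.Sp

theorem fnOrbit_rank_two_odd {F : Type*} [Field F] {W : Type*} [AddCommGroup W] [Module F W]
    [Finite F] [Finite W] (h2 : (2 : F) ≠ 0) (Q : QuadraticForm F W) {u v : W}
    (huv : QuadraticMap.polar Q u v ^ 2 ≠ 4 * Q u * Q v) :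
    (Nat.card W - 1) * (Nat.card W - Nat.card F) ≤
      2 * (Nat.card F + 1) * (fnOrbit F Q).ncard := by
  classical
  have : Module.Finite F W := Module.Finite.of_finite
  have := Fintype.ofFinite F
  have := Fintype.ofFinite W
  have hq : 1 < Nat.card F := Finite.one_lt_card
  have hself : ∀ x, QuadraticMap.polar Q x x = 2 * Q x := fun x => by
    rw [QuadraticMap.polar_self, two_smul, two_mul]
  have perp : ∀ x, Q x ≠ 0 → ∃ y, Q y ≠ 0 ∧ QuadraticMap.polar Q x y = 0 := by
    intro x hx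
    by_contra! H
    have key : ∀ y, QuadraticMap.polar Q x y ^ 2 = 4 * Q x * Q y := by
      intro y
      by_contra hy
      refine H (y + (- QuadraticMap.polar Q x y / (2 * Q x)) • x) ?_ ?_
      · rw [quad_add_smul, QuadraticMap.polar_comm Q y x]
        intro e
        apply hy
        field_simp at e
        linear_combination (-1 : F) * e
      · rw [QuadraticMap.polar_add_right, QuadraticMap.polar_smul_right, hself, smul_eq_mul]
        field_simp
        ring
    have k1 := key u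
    have k2 := key v
    have k3 := key (u + v)
    rw [QuadraticMap.polar_add_right, QuadraticMap.map_add Q u v] at k3
    apply huv
    have k4 : QuadraticMap.polar Q x u * QuadraticMap.polar Q x v =
        2 * Q x * QuadraticMap.polar Q u v := by
      apply mul_left_cancel₀ h2
      linear_combination k3 - k1 - k2
    apply mul_left_cancel₀ (pow_ne_zero 2 (mul_ne_zero h2 hx))
    have k5 : (QuadraticMap.polar Q x u * QuadraticMap.polar Q x v) ^ 2 =
        (4 * Q x * Q u) * (4 * Q x * Q v) := by rw [mul_pow, k1, k2]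
    rw [k4] at k5
    linear_combination k5
  obtain ⟨u1, hu1⟩ : ∃ x, Q x ≠ 0 := by
    by_contra! H
    exact huv (by simp [QuadraticMap.polar, H])
  obtain ⟨v1, hv1, h1⟩ := perp u1 hu1
  have hind : LinearIndependent F ![u1, v1] := by
    rw [LinearIndependent.pair_iff]
    intro s t hst
    have e1 := congrArg (QuadraticMap.polar Q u1) hst
    have e2 := congrArg (fun x => QuadraticMap.polar Q x v1) hst
    simp only [QuadraticMap.polar_add_right, QuadraticMap.polar_smul_right, hself, h1,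
      QuadraticMap.polar_add_left, QuadraticMap.polar_smul_left, smul_eq_mul, mul_zero, zero_add,
      add_zero, QuadraticMap.polar_zero_right, QuadraticMap.polar_zero_left] at e1 e2
    exact ⟨(mul_eq_zero.1 e1).resolve_right (mul_ne_zero h2 hu1),
      (mul_eq_zero.1 e2).resolve_right (mul_ne_zero h2 hv1)⟩
  obtain ⟨N, hN⟩ : ∃ N, N * Nat.card F ^ 2 = Nat.card W :=
    ⟨_, by simpa using ncard_ann_mul hind⟩
  have hodd : Fintype.card F % 2 = 1 := FiniteField.odd_card_of_char_ne_two fun e =>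
    h2 (by have := ringChar.Nat.cast_ringChar (R := F); rw [e] at this; exact_mod_cast this)
  have hrep : ∀ (x : W) (c : F), ∃ p : F × F, Q (x + p.2 • v1 + p.1 • u1) = c := by
    intro x c
    obtain ⟨s, t, hst⟩ := FiniteField.exists_root_sum_quadratic
      (f := Polynomial.C (Q u1) * Polynomial.X ^ 2 +
        Polynomial.C (QuadraticMap.polar Q x u1) * Polynomial.X + Polynomial.C (Q x - c))
      (g := Polynomial.C (Q v1) * Polynomial.X ^ 2 +
        Polynomial.C (QuadraticMap.polar Q x v1) * Polynomial.X + Polynomial.C 0)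
      (Polynomial.degree_quadratic hu1) (Polynomial.degree_quadratic hv1) hodd
    refine ⟨(s, t), ?_⟩
    rw [quad_add_smul, quad_add_smul, QuadraticMap.polar_add_left, QuadraticMap.polar_smul_left,
      QuadraticMap.polar_comm Q v1 u1, h1]
    simp at hst ⊢
    linear_combination hst
  have hzero : N ≤ {x | Q x = 0}.ncard := by
    choose p hp using fun x => hrep x 0
    have h1 : (Set.univ : Set W).ncard ≤ ({x | Q x = 0} ×ˢ (Set.univ : Set (F × F))).ncard := by
      refine Set.ncard_le_ncard_of_injOn (fun x => (x + (p x).2 • v1 + (p x).1 • u1, p x))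
        (fun x _ => ⟨hp x, trivial⟩) ?_ (Set.toFinite _)
      intro x _ y _ hxy
      simp only [Prod.mk.injEq] at hxy
      obtain ⟨e1, e2⟩ := hxy
      rw [e2] at e1
      exact add_right_cancel (add_right_cancel e1)
    rw [Set.ncard_prod, Set.ncard_univ, Set.ncard_univ, Nat.card_prod, ← hN, ← sq] at h1
    exact Nat.le_of_mul_le_mul_right h1 (by positivity)
  obtain ⟨c, hc, hlevel⟩ : ∃ c : F, c ≠ 0 ∧ {x | Q x = c}.ncard ≤ (Nat.card F + 1) * N := by
    by_contra! H
    have e1 : Nat.card W = ∑ c : F, {x | Q x = c}.ncard := by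
      rw [Nat.card_eq_fintype_card, ← Finset.card_univ,
        Finset.card_eq_sum_card_fiberwise (f := Q) (t := Finset.univ) (fun _ _ => by simp)]
      exact Finset.sum_congr rfl fun c _ => by rw [← Set.ncard_coe_finset]; simp
    rw [← Finset.add_sum_erase _ _ (Finset.mem_univ 0)] at e1
    have e2 := Finset.card_nsmul_le_sum (Finset.univ.erase (0 : F)) (fun c => {x | Q x = c}.ncard)
      ((Nat.card F + 1) * N + 1) fun c hc => H c (Finset.ne_of_mem_erase hc)
    rw [Finset.card_erase_of_mem (Finset.mem_univ _), Finset.card_univ, ← Nat.card_eq_fintype_card,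
      smul_eq_mul] at e2
    obtain ⟨r, hr⟩ : ∃ r, Nat.card F = r + 2 := ⟨Nat.card F - 2, by omega⟩
    rw [hr] at hN e2
    simp only [show r + 2 - 1 = r + 1 by omega] at e2
    nlinarith
  obtain ⟨u0, hu0⟩ : ∃ x, Q x = c := ⟨_, (hrep 0 c).choose_spec⟩
  obtain ⟨v0, hv0, h0⟩ := perp u0 (hu0 ▸ hc)
  refine fnOrbit_rank_two_aux Q (u0 := u0) (v0 := v0) ?_ N _ hN ?_
  · rw [hself, hself, h0, hu0]
    simp [h2, hc, hv0]
  rw [← hu0] at hlevel
  refine le_trans (ncard_prod_le _ {x | Q x = Q u0} (2 * N) (fun p hp => hp.1) ?_) ?_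
  · intro a ha
    have ha' : Q a = Q u0 := ha
    have hφ : QuadraticMap.polarBilin Q a ≠ 0 := fun e => by
      have := LinearMap.congr_fun e a
      simp only [QuadraticMap.polarBilin_apply_apply, hself, ha', hu0, LinearMap.zero_apply] at this
      exact mul_ne_zero h2 hc this
    rcases Set.eq_empty_or_nonempty {b | (a, b) ∈ {p : W × W | Q p.1 = Q u0 ∧ Q p.2 = Q v0 ∧
          QuadraticMap.polar Q p.1 p.2 = QuadraticMap.polar Q u0 v0}} with e | ⟨b, -, hb1, hb2⟩
    · rw [e]; simp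
    have h1 := ncard_fiber_mul_card hφ 0
    have h3 := ncard_level_le Q (u := b) (hb1 ▸ hv0)
      {x | QuadraticMap.polarBilin Q a x = 0} ?_ (Q v0)
    · have h4 : {x | QuadraticMap.polarBilin Q a x = 0}.ncard = N * Nat.card F := by
        refine Nat.eq_of_mul_eq_mul_right (show 0 < Nat.card F by omega) ?_
        rw [h1, ← hN]; ring
      rw [h4] at h3
      refine le_trans (Set.ncard_le_ncard ?_ (Set.toFinite _))
        (Nat.le_of_mul_le_mul_right (h3.trans (le_of_eq (by ring))) (show 0 < Nat.card F by omega))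
      rintro b ⟨-, hb1, hb2⟩
      exact ⟨hb2.trans h0, hb1⟩
    · intro x hx t
      simp only [Set.mem_ofPred_eq, QuadraticMap.polarBilin_apply_apply] at hx hb2 ⊢
      rw [QuadraticMap.polar_add_right, QuadraticMap.polar_smul_right, hx, hb2, h0]
      simp
  · calc _ ≤ (Nat.card F + 1) * N * (2 * N) := Nat.mul_le_mul_right _ hlevel
      _ = _ := by ring

variable {F : Type*} [Field F] {n : ℕ} {V : Type*} [AddCommGroup V] [Module ℂ V]

local notation "Sp" => symplecticGroup (Fin n) F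
local notation "B" => sympForm n F

theorem form_elim (a b a' b' : Fin n → F) :
    B (Sum.elim a b) (Sum.elim a' b') = b ⬝ᵥ a' - a ⬝ᵥ b' := by
  simp [form_eq, dotProduct]

theorem tv_inl (w : Fin n → F) (c : F) : tv (Sum.elim w 0) c = spUpper (c • symSq w) := by
  refine ext_smul fun x => ?_
  rw [tv_smul, smul_def, coe_spUpper, ← Sum.elim_comp_inl_inr x, form_elim, fromBlocks_mulVec]
  ext (i | i) <;> simp [symSq, Matrix.smul_mulVec, vecMulVec_mulVec, dotProduct_comm]
  ring

theorem exists_smul_inl (hn : 2 ≤ n) {e u : Fin n ⊕ Fin n → F} (h : B e u = 0) :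
    ∃ (g : Sp) (a b : Fin n → F), g • e = Sum.elim a 0 ∧ g • u = Sum.elim b 0 := by
  let i0 : Fin n := ⟨0, by omega⟩
  let i1 : Fin n := ⟨1, by omega⟩
  have s : ∀ (i : Fin n), (Pi.single (.inl i) 1 : Fin n ⊕ Fin n → F) = Sum.elim (Pi.single i 1) 0 := by
    intro i; ext (j | j) <;> simp [Pi.single_apply]
  wlog he : e ≠ 0 generalizing e u
  · by_cases hu : u = 0
    · exact ⟨1, 0, 0, by simpa using he, by simpa using hu⟩
    · obtain ⟨g, a, b, h1, h2⟩ := this (e := u) (u := e) (by rw [form_skew, h, neg_zero]) hu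
      exact ⟨g, b, a, h2, h1⟩
  obtain ⟨g, hg⟩ := exists_smul_eq he (v := Pi.single (.inl i0) 1) (by simp)
  have h1 : (g • u) (.inr i0) = 0 := by
    rw [← form_smul_smul g, hg, form_single_inl_left, neg_eq_zero] at h
    exact h
  set l := (g • u) (.inl i0)
  have h2 : g • u - l • Pi.single (.inl i0) 1 ∈ Wk n F 1 := by
    intro i hi
    obtain rfl : i = i0 := Fin.ext (by simp [i0]; omega)
    simp [l, h1]
  by_cases h3 : g • u - l • Pi.single (.inl i0) 1 = 0
  · refine ⟨g, _, l • Pi.single i0 1, by rw [hg, s], ?_⟩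
    rw [sub_eq_zero.1 h3]
    ext (j | j) <;> simp [Pi.single_apply]
  obtain ⟨k, hk, hk'⟩ := (nondeg_Wk 1).exists_TW_smul_eq h2 (single_inl_mem_Wk (j := i1) le_rfl) h3
    (by simp)
  have h4 : k • (Pi.single (.inl i0) 1 : Fin n ⊕ Fin n → F) = Pi.single (.inl i0) 1 :=
    TW_smul_of_orth hk fun w hw => by
      rw [form_single_inl_left, (hw i0 (by simp [i0])).2, neg_zero]
  refine ⟨k * g, _, Pi.single i1 1 + l • Pi.single i0 1, by rw [mul_smul, hg, h4, s], ?_⟩
  rw [smul_sub, smul_smul_comm, h4, sub_eq_iff_eq_add] at hk'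
  rw [mul_smul, hk']
  ext (j | j) <;> simp [Pi.single_apply]

/-- All weights on totally isotropic planes have rank at most one. -/
def R1 (ψ : AddChar F ℂ) (ρ : Sp →* Module.End ℂ V) : Prop :=
  ∀ e u, B e u = 0 → ∀ v, v ≠ 0 → ∀ α β γ : F, (∀ c, ρ (tv e c) v = ψ (c * α) • v) →
    (∀ c, ρ (tv u c) v = ψ (c * γ) • v) →
    (∀ c, ρ (tv (e + u) c) v = ψ (c * (α + 2 * β + γ)) • v) → β ^ 2 = α * γ

theorem exists_wtP_ne_zero {A : Type*} [AddCommGroup A] [Module F A] [Fintype A] [Finite F]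
    {ψ : AddChar F ℂ} (hψ : ψ ≠ 1) (τ : AddChar A (Module.End ℂ V)) {v : V} (hv : v ≠ 0) :
    ∃ f : Dual F A, wtP ψ τ f v ≠ 0 := by
  by_contra! H
  exact hv (mem_of_wtP_mem (τ := τ) hψ ⊥ fun f hf => absurd (H f) hf)

theorem r1_of_small [Finite F] [FiniteDimensional ℂ V] (h2 : (2 : F) ≠ 0) (hn : 2 ≤ n)
    {ψ : AddChar F ℂ} (hψ : ψ ≠ 1) (ρ : Sp →* Module.End ℂ V)
    (h : 2 * (Nat.card F + 1) * finrank ℂ V <
      (Nat.card F ^ n - 1) * (Nat.card F ^ n - Nat.card F)) : R1 ψ ρ := by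
  intro e u heu v hv α β γ h1 h3 h4
  by_contra hne
  have := Fintype.ofFinite (symMat n F)
  obtain ⟨g, a, b, ha, hb⟩ := exists_smul_inl hn heu
  obtain ⟨f, hf⟩ := exists_wtP_ne_zero hψ (siegelRep ρ) (v := ρ g v)
    (fun e => hv (rep_injective ρ g (by simpa using e)))
  have key : ∀ (x : Fin n ⊕ Fin n → F) w d, g • x = Sum.elim w (0 : Fin n → F) → (∀ c, ρ (tv x c) v = ψ (c * d) • v) →
      quadOf f w = d := fun x w d hx H =>
    SLM.eq_of_wtP_ne_zero hψ hf fun c => by
      rw [siegelRep_apply, ← tv_inl, ← hx, ← Module.End.mul_apply, ← map_mul, ← mul_tv, map_mul,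
        Module.End.mul_apply, H, map_smul]
  have k1 := key _ _ _ ha h1
  have k2 := key _ _ _ hb h3
  have k3 := key _ (a + b) _ (by rw [smul_add, ha, hb]; ext (j | j) <;> simp) h4
  have k4 := fnOrbit_rank_two_odd h2 (quadOf f) (u := a) (v := b) (by
    rw [QuadraticMap.polar, k1, k2, k3]
    intro e
    apply hne
    apply mul_left_cancel₀ (pow_ne_zero 2 h2)
    linear_combination e)
  have k5 := fnOrbit_quadOf_mul_le hψ (Nat.cast_ne_zero.2 Nat.card_pos.ne') ρ f
  have k6 : 1 ≤ finrank ℂ (wtSpace ψ (siegelRep ρ) f) := by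
    rw [Nat.one_le_iff_ne_zero, Ne, Submodule.finrank_eq_zero, Submodule.eq_bot_iff]
    exact fun H => hf (H _ (wtP_mem f _))
  rw [Nat.card_fun, Nat.card_eq_fintype_card (α := Fin n), Fintype.card_fin] at k4
  have := Nat.mul_le_mul_left (2 * (Nat.card F + 1)) ((Nat.le_mul_of_pos_right _ k6).trans k5)
  omega

/-- Three commuting groups of transvections. -/
def tv3 (ρ : Sp →* Module.End ℂ V) {e u : Fin n ⊕ Fin n → F} (h : B e u = 0) :
    AddChar (F × F × F) (Module.End ℂ V) where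
  toFun p := ρ (tv e p.1 * tv u p.2.1 * tv (e + u) p.2.2)
  map_zero_eq_one' := by simp [tv_zero]
  map_add_eq_mul' p q := by
    have h' : B u e = 0 := by rw [form_skew, h, neg_zero]
    rw [← map_mul]
    congr 1
    refine ext_smul fun x => ?_
    simp only [mul_smul, tv_smul, form_add_left, form_add_right, form_smul_left, h, h', form_self,
      Prod.fst_add, Prod.snd_add]
    module

theorem R1.comp [Finite F] (h2 : (2 : F) ≠ 0) {ψ : AddChar F ℂ} (hψ : ψ ≠ 1)
    {ρ : Sp →* Module.End ℂ V} (hρ : R1 ψ ρ) {e u : Fin n ⊕ Fin n → F} (h : B e u = 0) {v : V}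
    {α : F} (hv : ∀ c, ρ (tv e c) v = ψ (c * α) • v) (U : Submodule ℂ V)
    (hU : ∀ w β γ, β ^ 2 = α * γ → (∀ c, ρ (tv u c) w = ψ (c * γ) • w) →
      (∀ c, ρ (tv (e + u) c) w = ψ (c * (α + 2 * β + γ)) • w) →
      (∀ d, (∀ c, ρ (tv (e + u) c * tv u (-c)) v = ψ (c * d) • v) → α + 2 * β = d) → w ∈ U) :
    v ∈ U := by
  have := Fintype.ofFinite F
  refine mem_of_wtP_mem (τ := tv3 ρ h) hψ U fun f hf => ?_
  have m := wtP_mem (ψ := ψ) (τ := tv3 ρ h) f v
  have a1 : f (1, 0, 0) = α := SLM.eq_of_wtP_ne_zero hψ hf fun c => by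
    simpa [tv3, tv_zero] using hv c
  have m1 : ∀ c, ρ (tv e c) (wtP ψ (tv3 ρ h) f v) = ψ (c * α) • wtP ψ (tv3 ρ h) f v := fun c => by
    have := m (c • (1, 0, 0))
    rw [f.map_smul, a1] at this
    simpa [tv3, tv_zero] using this
  have m2 : ∀ c, ρ (tv u c) (wtP ψ (tv3 ρ h) f v) = ψ (c * f (0, 1, 0)) • wtP ψ (tv3 ρ h) f v :=
    fun c => by
      have := m (c • (0, 1, 0))
      rw [f.map_smul] at this
      simpa [tv3, tv_zero] using this
  have e3 : α + 2 * ((f (0, 0, 1) - α - f (0, 1, 0)) / 2) + f (0, 1, 0) = f (0, 0, 1) := by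
    field_simp; ring
  have m3 : ∀ c, ρ (tv (e + u) c) (wtP ψ (tv3 ρ h) f v) =
      ψ (c * (α + 2 * ((f (0, 0, 1) - α - f (0, 1, 0)) / 2) + f (0, 1, 0))) •
        wtP ψ (tv3 ρ h) f v := fun c => by
    have := m (c • (0, 0, 1))
    rw [f.map_smul] at this
    rw [e3]
    simpa [tv3, tv_zero] using this
  refine hU _ _ _ (hρ e u h _ hf _ _ _ m1 m2 m3) m2 m3 fun d hd => ?_
  have a2 : f (0, -1, 1) = d := SLM.eq_of_wtP_ne_zero hψ hf fun c => by
    rw [← hd, tv_commute (by simp [form_add_left, h, form_self])]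
    simp [tv3, tv_zero]
  have : ((0, -1, 1) : F × F × F) = (0, 0, 1) - (0, 1, 0) := by simp
  rw [this, map_sub] at a2
  linear_combination e3 + a2

theorem R1.fix [Finite F] (h2 : (2 : F) ≠ 0) {ψ : AddChar F ℂ} (hψ : ψ ≠ 1)
    {ρ : Sp →* Module.End ℂ V} (hρ : R1 ψ ρ) {e u : Fin n ⊕ Fin n → F} (h : B e u = 0) {v : V}
    (hv : ∀ c, ρ (tv e c) v = v) (c : F) : ρ (tv (e + u) c) v = ρ (tv u c) v :=
  LinearMap.mem_eqLocus.1 (hρ.comp h2 hψ h (α := 0) (by simpa using hv) _ fun w β γ h1 h3 h4 _ => by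
    have : β = 0 := by simpa using h1
    rw [LinearMap.mem_eqLocus, h3, h4, this]
    simp)

theorem R1.eigen [Finite F] (h2 : (2 : F) ≠ 0) {ψ : AddChar F ℂ} (hψ : ψ ≠ 1)
    {ρ : Sp →* Module.End ℂ V} (hρ : R1 ψ ρ) {e u : Fin n ⊕ Fin n → F} (h : B e u = 0) {v : V}
    {r s : F} (hr : r ≠ 0) (hv : ∀ c, ρ (tv e c) v = ψ (c * r ^ 2) • v)
    (hv' : ∀ c, ρ (tv (e + u) c * tv u (-c)) v = ψ (c * ((r + s) ^ 2 - s ^ 2)) • v) (c : F) :
    ρ (tv u c) v = ψ (c * s ^ 2) • v :=
  Module.End.mem_eigenspace_iff.1 (hρ.comp h2 hψ h hv _ fun w β γ h1 h3 _ h5 => by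
    have h6 := h5 _ hv'
    have h7 : β = r * s := mul_left_cancel₀ h2 (by linear_combination h6)
    have h8 : γ = s ^ 2 := mul_left_cancel₀ (pow_ne_zero 2 hr) (by rw [← h1, h7]; ring)
    rw [Module.End.mem_eigenspace_iff, h3, h8])

end Cfsg.Agent.KSG
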