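import Mathlib
import Cfsg.Agent.KSG.WeilR1

/-!
# Transvections in the Weil representation
-/

set_option autoImplicit false

namespace Cfsg.Agent.KSG

open Module Matrix Cfsg Cfsg.Agent.Class.Sp

variable {F : Type*} [Field F] {n : ℕ}

local notation "Sp" => symplecticGroup (Fin n) F
local notation "B" => sympForm n F
local notation "N" => (Fin n ⊕ Fin n → F)
local notation "W" => ((Fin n → F) → ℂ)

/-- The Heisenberg operators along a line. -/
def heisChar (ψ : AddChar F ℂ) (u : N) : AddChar F (Module.End ℂ W) where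
  toFun μ := heis ψ (μ • u)
  map_zero_eq_one' := by simp [heis_zero]
  map_add_eq_mul' a b := by simp [heis_mul, form_smul_left, form_smul_right, form_self, add_smul]

/-- `w` has weight `r` along `u`. -/
def HW (ψ : AddChar F ℂ) (u : N) (r : F) (w : W) : Prop :=
  ∀ μ : F, heis ψ (μ • u) w = ψ (μ * (2 * r)) • w

theorem heis_comm (ψ : AddChar F ℂ) (x y : N) :
    heis ψ x * heis ψ y = ψ (2 * B y x) • (heis ψ y * heis ψ x) := by
  rw [heis_mul, heis_mul, smul_smul, ← AddChar.map_add_eq_mul, add_comm y x, form_skew x y]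
  congr 2; ring

theorem HW.heis {ψ : AddChar F ℂ} {u : N} {r : F} {w : W} (h : HW ψ u r w) (x : N) :
    HW ψ u (r + B x u) (heis ψ x w) := by
  intro μ
  rw [← Module.End.mul_apply, heis_comm, LinearMap.smul_apply, Module.End.mul_apply, h, map_smul,
    smul_smul, ← AddChar.map_add_eq_mul, form_smul_right]
  congr 2; ring

theorem HW.add {ψ : AddChar F ℂ} {e u : N} (h : B e u = 0) {r s : F} {w : W} (h1 : HW ψ e r w)
    (h2 : HW ψ u s w) : HW ψ (e + u) (r + s) w := by
  intro μ
  have := LinearMap.congr_fun (heis_mul ψ (μ • e) (μ • u)) w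
  rw [form_smul_left, form_smul_right, form_skew, h] at this
  simp only [neg_zero, mul_zero, AddChar.map_zero_eq_one, one_smul, Module.End.mul_apply] at this
  rw [smul_add, ← this, h2, map_smul, h1, smul_smul, ← AddChar.map_add_eq_mul]
  congr 2; ring

theorem HW.of_comm {ψ : AddChar F ℂ} {u : N} {r : F} {w : W} (h : HW ψ u r w)
    {T : Module.End ℂ W} (hT : ∀ μ : F, KSG.heis ψ (μ • u) * T = T * KSG.heis ψ (μ • u)) :
    HW ψ u r (T w) := fun μ => by
  rw [← Module.End.mul_apply, hT, Module.End.mul_apply, h, map_smul]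

variable [Fintype F] [DecidableEq F] {ψ : AddChar F ℂ}

omit [DecidableEq F] in
theorem mem_of_HW (h2 : (2 : F) ≠ 0) (hψ : ψ ≠ 1) {e u : N} (h : B e u = 0) {r : F} {w : W}
    (hw : HW ψ e r w) (U : Submodule ℂ W) (hU : ∀ s w', HW ψ e r w' → HW ψ u s w' → w' ∈ U) :
    w ∈ U := by
  refine mem_of_wtP_mem (τ := heisChar ψ u) hψ U fun f _ => hU (f 1 / 2) _
    (hw.of_comm fun μ => wtP_comm (fun a => ?_) f) fun μ => ?_
  · change _ * heis ψ (a • u) = heis ψ (a • u) * _
    rw [heis_comm, form_smul_left, form_smul_right, form_skew, h]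
    simp
  · have := wtP_mem (ψ := ψ) (τ := heisChar ψ u) f w μ
    rw [mul_div_cancel₀ _ h2, ← smul_eq_mul, ← f.map_smul, smul_eq_mul, mul_one]
    exact this

omit [DecidableEq F] in
theorem ext_HW (h2 : (2 : F) ≠ 0) (hψ : ψ ≠ 1) (u : N) {V : Type*} [AddCommGroup V] [Module ℂ V]
    {S T : W →ₗ[ℂ] V} (h : ∀ s w, HW ψ u s w → S w = T w) : S = T :=
  LinearMap.ext fun w => LinearMap.mem_eqLocus.1 (mem_of_HW h2 hψ (e := 0) (u := u)
    (form_zero_left _) (r := 0) (fun μ => by simp [heis_zero]) _ fun s w' _ h' => h s w' h')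

theorem HW.apply_eq_zero (h2 : (2 : F) ≠ 0) (hψ : ψ ≠ 1) {b : Fin n → F} {r : F} {w : W}
    (h : HW ψ (Sum.elim (0 : Fin n → F) b) r w) {z : Fin n → F} (hz : b ⬝ᵥ z ≠ r) : w z = 0 := by
  obtain ⟨c, hc⟩ := addChar_mul_ne hψ (mul_left_injective₀ h2 |>.ne hz)
  have := congrFun (h c) z
  simp only [heis_apply, Pi.smul_apply, smul_eq_mul] at this
  have e1 : (c • Sum.elim (0 : Fin n → F) b : N) ∘ Sum.inl = 0 := by ext; simp
  have e2 : (c • Sum.elim (0 : Fin n → F) b : N) ∘ Sum.inr = c • b := by ext; simp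
  rw [e1, e2, add_zero, add_zero] at this
  by_contra h0
  apply hc
  convert mul_right_cancel₀ h0 this using 2
  · simp; ring
  · ring

theorem hw_single (b y : Fin n → F) : HW ψ (Sum.elim (0 : Fin n → F) b) (b ⬝ᵥ y) (Pi.single y 1) := by
  intro c
  ext z
  have e1 : (c • Sum.elim (0 : Fin n → F) b : N) ∘ Sum.inl = 0 := by ext; simp
  have e2 : (c • Sum.elim (0 : Fin n → F) b : N) ∘ Sum.inr = c • b := by ext; simp
  simp only [heis_apply, Pi.smul_apply, smul_eq_mul, e1, e2, add_zero]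
  by_cases h : z = y
  · subst h
    congr 2
    simp; ring
  · simp [h]

/-- The coefficients of the operator of a transvection. -/
noncomputable def tvCoef (ψ : AddChar F ℂ) (c μ : F) : ℂ :=
  (Fintype.card F : ℂ)⁻¹ * ∑ r, ψ (c * r ^ 2 - μ * (2 * r))

/-- The operator of a transvection. -/
noncomputable def tvOp (ψ : AddChar F ℂ) (u : N) (c : F) : Module.End ℂ W :=
  ∑ μ, tvCoef ψ c μ • heis ψ (μ • u)

theorem sum_addChar_mul (hψ : ψ ≠ 1) (x : F) :
    ∑ μ : F, ψ (μ * x) = if x = 0 then (Fintype.card F : ℂ) else 0 := by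
  split_ifs with h
  · simp [h]
  · exact sum_addChar_dual_eq_zero (A := F) hψ (f := LinearMap.mulRight F x)
      fun e => h (by simpa using LinearMap.congr_fun e 1)

theorem tvOp_apply (h2 : (2 : F) ≠ 0) (hψ : ψ ≠ 1) {u : N} {r : F} {w : W} (h : HW ψ u r w)
    (c : F) : tvOp ψ u c w = ψ (c * r ^ 2) • w := by
  simp only [tvOp, LinearMap.sum_apply, LinearMap.smul_apply, h _, smul_smul, ← Finset.sum_smul,
    tvCoef, mul_assoc, ← Finset.mul_sum, Finset.sum_mul]
  congr 1
  rw [Finset.sum_comm]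
  have : ∀ s : F, ∑ μ : F, ψ (c * s ^ 2 - μ * (2 * s)) * ψ (μ * (2 * r)) =
      if s = r then ψ (c * r ^ 2) * Fintype.card F else 0 := by
    intro s
    have : ∀ μ : F, ψ (c * s ^ 2 - μ * (2 * s)) * ψ (μ * (2 * r)) =
        ψ (c * s ^ 2) * ψ (μ * (2 * (r - s))) := fun μ => by
      rw [← AddChar.map_add_eq_mul, ← AddChar.map_add_eq_mul]; congr 1; ring
    simp only [this, ← Finset.mul_sum, sum_addChar_mul hψ, mul_eq_zero, h2, false_or, sub_eq_zero]
    by_cases e : s = r
    · simp [e]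
    · simp [e, Ne.symm e]
  simp only [this, Finset.sum_ite_eq', Finset.mem_univ, if_true]
  field_simp

theorem heisImpl_tvOp (h2 : (2 : F) ≠ 0) (hψ : ψ ≠ 1) (u : N) (c : F) :
    HeisImpl ψ (tv u c) (tvOp ψ u c) := fun x => ext_HW h2 hψ u fun s w h => by
  have e := LinearMap.congr_fun (heis_mul ψ x ((c * B x u) • u)) w
  have e2 : ψ (-B ((c * B x u) • u) x) * ψ (B ((c * B x u) • u) x) = 1 := by
    rw [← AddChar.map_add_eq_mul]; simp
  rw [Module.End.mul_apply, h, map_smul, LinearMap.smul_apply] at e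
  rw [Module.End.mul_apply, Module.End.mul_apply, tvOp_apply h2 hψ (h.heis x), tvOp_apply h2 hψ h,
    tv_smul, map_smul, ← one_smul ℂ (heis ψ (x + _) w), ← e2, mul_smul, ← e]
  simp only [smul_smul, ← AddChar.map_add_eq_mul, form_smul_left, form_skew u x]
  congr 2; ring

theorem weil_tv_smul (h2 : (2 : F) ≠ 0) (hψ : ψ ≠ 1) (u : N) (c : F) :
    ∃ κ : ℂ, weilRep h2 hψ (tv u c) = κ • tvOp ψ u c := by
  refine (heisImpl_tvOp h2 hψ u c).exists_smul h2 hψ ?_ (heisImpl_weilRep h2 hψ _)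
  refine IsUnit.of_mul_eq_one (tvOp ψ u (-c)) (ext_HW h2 hψ u fun s w h => ?_)
  rw [Module.End.mul_apply, tvOp_apply h2 hψ h, map_smul, tvOp_apply h2 hψ h, smul_smul,
    ← AddChar.map_add_eq_mul]
  simp

theorem HW.weil (h2 : (2 : F) ≠ 0) (hψ : ψ ≠ 1) {u : N} {r : F} {w : W} (h : HW ψ u r w) (g : Sp) :
    HW ψ (g • u) r (weilRep h2 hψ g w) := fun μ => by
  rw [← smul_smul_comm, ← Module.End.mul_apply, ← heisImpl_weilRep h2 hψ g, Module.End.mul_apply, h,
    map_smul]

theorem weil_tv (h2 : (2 : F) ≠ 0) (hψ : ψ ≠ 1) (hn : 2 ≤ n) (u : N) (c : F) :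
    weilRep h2 hψ (tv u c) = tvOp ψ u c := by
  by_cases hu : u = 0
  · subst hu
    rw [tv_zero_vec, map_one]
    exact ext_HW h2 hψ 0 fun s w _ => by
      rw [tvOp_apply h2 hψ (r := 0) (fun μ => by simp [heis_zero])]; simp
  let i0 : Fin n := ⟨0, by omega⟩
  let i1 : Fin n := ⟨1, by omega⟩
  let d : W := Pi.single 0 1
  have hd : d ≠ 0 := by simp [d]
  have hd' : ∀ b, HW ψ (Sum.elim (0 : Fin n → F) b) 0 d := fun b => by simpa using hw_single (ψ := ψ) b 0
  let e0 : N := Sum.elim (0 : Fin n → F) (Pi.single i0 1)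
  have he : ∀ {b : Fin n → F}, b ≠ 0 → (Sum.elim (0 : Fin n → F) b : N) ≠ 0 := fun hb e =>
    hb (funext fun i => congrFun e (.inr i))
  choose κ hκ using weil_tv_smul h2 hψ e0
  have key : ∀ u : N, u ≠ 0 → ∀ c, weilRep h2 hψ (tv u c) = κ c • tvOp ψ u c := by
    intro u hu c
    obtain ⟨g, rfl⟩ := exists_smul_eq (he (b := Pi.single i0 1) (by simp)) hu
    obtain ⟨k, hk⟩ := weil_tv_smul h2 hψ (g • e0) c
    have h1 := LinearMap.congr_fun (congrArg (weilRep h2 hψ) (mul_tv g e0 c)) d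
    simp only [map_mul, Module.End.mul_apply, hκ, hk, LinearMap.smul_apply,
      tvOp_apply h2 hψ (hd' _), tvOp_apply h2 hψ ((hd' _).weil h2 hψ g), map_smul, e0] at h1
    simp only [ne_eq, OfNat.ofNat_ne_zero, not_false_eq_true, zero_pow, mul_zero,
      AddChar.map_zero_eq_one, one_smul] at h1
    rw [smul_left_injective ℂ (fun e => hd (rep_injective (weilRep h2 hψ) g (by simpa using e))) h1]
    exact hk
  have key2 : ∀ b : Fin n → F, b ≠ 0 → ∀ c, weilRep h2 hψ (tv (Sum.elim (0 : Fin n → F) b) c) d = κ c • d :=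
    fun b hb c => by simp [key _ (he hb), tvOp_apply h2 hψ (hd' _)]
  have add : ∀ c c', κ (c + c') = κ c * κ c' := fun c c' => smul_left_injective ℂ hd (by
    have hb : (Pi.single i0 1 : Fin n → F) ≠ 0 := by simp
    simp only
    rw [← key2 _ hb, ← tv_mul_tv, map_mul, Module.End.mul_apply, key2 _ hb, map_smul, key2 _ hb,
      smul_smul, mul_comm])
  have zero : κ 0 = 1 := smul_left_injective ℂ hd (by
    simp only
    rw [← key2 (Pi.single i0 1) (by simp), tv_zero, map_one, one_smul]; rfl)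
  have two : ∀ c, κ (c + c) = 1 := by
    intro c
    have e : tv (Sum.elim (0 : Fin n → F) (Pi.single i0 1 + Pi.single i1 1) : N) c *
        tv (Sum.elim (0 : Fin n → F) (Pi.single i0 1 - Pi.single i1 1)) c =
        tv (Sum.elim (0 : Fin n → F) (Pi.single i0 1)) (c + c) * tv (Sum.elim (0 : Fin n → F) (Pi.single i1 1)) (c + c) := by
      have e1 : (Sum.elim (0 : Fin n → F) (Pi.single i0 1 + Pi.single i1 1) : N) =
        Sum.elim (0 : Fin n → F) (Pi.single i0 1) + Sum.elim (0 : Fin n → F) (Pi.single i1 1) := by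
          ext (j | j) <;> simp [Pi.single_apply]
      have e2 : (Sum.elim (0 : Fin n → F) (Pi.single i0 1 - Pi.single i1 1) : N) =
        Sum.elim (0 : Fin n → F) (Pi.single i0 1) - Sum.elim (0 : Fin n → F) (Pi.single i1 1) := by
          ext (j | j) <;> simp [Pi.single_apply]
      refine ext_smul fun x => ?_
      simp only [e1, e2, mul_smul, tv_smul, form_add_left, form_add_right, form_sub_left,
        form_sub_right, form_smul_left, form_elim, dotProduct_zero, zero_dotProduct]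
      module
    have h1 := LinearMap.congr_fun (congrArg (weilRep h2 hψ) e) d
    have n1 : (Pi.single i0 1 + Pi.single i1 1 : Fin n → F) ≠ 0 := fun e => by
      simpa [i0, i1] using congrFun e i0
    have n2 : (Pi.single i0 1 - Pi.single i1 1 : Fin n → F) ≠ 0 := fun e => by
      simpa [i0, i1] using congrFun e i0
    simp only [map_mul, Module.End.mul_apply, map_smul, key2 _ n1, key2 _ n2,
      key2 (Pi.single i0 1) (by simp), key2 (Pi.single i1 1) (by simp), smul_smul, ← add] at h1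
    have h3 := smul_left_injective ℂ hd h1
    have h4 : κ (c + c) ≠ 0 := fun e => by
      have := add (c + c) (-(c + c))
      rw [add_neg_cancel, zero, e, zero_mul] at this
      exact one_ne_zero this
    simp only [add (c + c)] at h3
    exact mul_left_cancel₀ h4 (h3.symm.trans (mul_one _).symm)
  have := two (c / 2)
  rw [show c / 2 + c / 2 = c by field_simp; ring] at this
  rw [key u hu, this, one_smul]

theorem HW.weil_tv (h2 : (2 : F) ≠ 0) (hψ : ψ ≠ 1) (hn : 2 ≤ n) {u : N} {r : F} {w : W}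
    (h : HW ψ u r w) (c : F) : weilRep h2 hψ (tv u c) w = ψ (c * r ^ 2) • w := by
  rw [KSG.weil_tv h2 hψ hn, tvOp_apply h2 hψ h]

theorem tvCoef_pow_ne_one (h2 : (2 : F) ≠ 0) (hψ : ψ ≠ 1) {k : ℕ} (hk : k ≠ 0) :
    tvCoef ψ 1 0 ^ k ≠ 1 := by
  intro h
  have h1 : ‖tvCoef ψ 1 0‖ = 1 := Complex.norm_eq_one_of_pow_eq_one h hk
  have h3 : tvCoef ψ 1 0 * (starRingEnd ℂ) (tvCoef ψ 1 0) = (Fintype.card F : ℂ)⁻¹ := by
    have : (∑ r : F, ψ (r ^ 2)) * ∑ s : F, ψ (-s ^ 2) = Fintype.card F := by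
      rw [mul_comm, Finset.sum_mul_sum]
      have : ∀ s : F, ∑ r : F, ψ (-s ^ 2) * ψ (r ^ 2) = ∑ d : F, ψ (d ^ 2) * ψ (s * (2 * d)) :=
        fun s => by
          rw [← Equiv.sum_comp (Equiv.addLeft s)]
          refine Finset.sum_congr rfl fun d _ => ?_
          rw [← AddChar.map_add_eq_mul, ← AddChar.map_add_eq_mul]
          congr 1; simp; ring
      simp only [this]
      rw [Finset.sum_comm]
      simp [← Finset.mul_sum, sum_addChar_mul hψ, h2]
    simp only [tvCoef, one_mul, zero_mul, sub_zero, map_mul, map_inv₀, map_natCast, map_sum,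
      ← AddChar.map_neg_eq_conj]
    rw [mul_mul_mul_comm, this]
    field_simp
  rw [Complex.mul_conj, Complex.normSq_eq_norm_sq, h1] at h3
  have : (Fintype.card F : ℂ) = 1 := by simpa using h3.symm
  have : Fintype.card F = 1 := by exact_mod_cast this
  have := Fintype.one_lt_card (α := F)
  omega

end Cfsg.Agent.KSG
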