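import Mathlib
import Cfsg.Agent.KSG.WeilTv
import Cfsg.Agent.S2392
import Cfsg.Agent.Class.LinearBasic

/-!
# Characterisation of the Weil representations
-/

set_option autoImplicit false

namespace Cfsg.Agent.KSG

open Module Matrix Cfsg Cfsg.Agent.Class.Sp

variable {F : Type*} [Field F] {n : ℕ}

local notation "Sp" => symplecticGroup (Fin n) F
local notation "SLn" => SpecialLinearGroup (Fin n) F
local notation "B" => sympForm n F
local notation "N" => (Fin n ⊕ Fin n → F)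
local notation "W" => ((Fin n → F) → ℂ)
local notation "R" b:max => Sum.elim (0 : Fin n → F) b

/-- A transvection of `SL`. -/
def slTr {ι : Type} [Fintype ι] [DecidableEq ι] (a e : ι → F) (h : e ⬝ᵥ a = 0) :
    SpecialLinearGroup ι F :=
  ⟨1 + vecMulVec a e, by rw [Class.GLStab.det_one_add_vecMulVec, h, add_zero]⟩

theorem mem_of_fix {m : ℕ} {ι : Type} [Fintype ι] [DecidableEq ι] (ε : Fin 1 ⊕ Fin m ≃ ι)
    (K : Subgroup (SpecialLinearGroup ι F))
    (hK : ∀ a e h, e ⬝ᵥ Pi.single (ε (.inl 0)) 1 = 0 → slTr a e h ∈ K) {g : SpecialLinearGroup ι F}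
    (hg : g.1 *ᵥ Pi.single (ε (.inl 0)) 1 = Pi.single (ε (.inl 0)) 1) : g ∈ K := by
  have h1 : g.1 = reindex ε ε (fromBlocks 1 (replicateRow (Fin 1) fun j => g.1 (ε (.inl 0)) (ε (.inr j)))
      0 (of fun i j => g.1 (ε (.inr i)) (ε (.inr j)))) := by
    ext i j
    obtain ⟨i, rfl⟩ := ε.surjective i
    obtain ⟨j, rfl⟩ := ε.surjective j
    have : g.1 (ε i) (ε (.inl 0)) = (Pi.single (ε (.inl 0)) 1 : ι → F) (ε i) := by
      simpa using congrFun hg (ε i)
    rcases i with i | i <;> rcases j with j | j <;> simp_all [Fin.eq_zero]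
  have h2 : (of fun i j => g.1 (ε (.inr i)) (ε (.inr j))).det = 1 := by
    have := g.2
    rw [h1, det_reindex_self, det_fromBlocks_zero₂₁] at this
    simpa using this
  let j : SpecialLinearGroup (Fin m) F →* SpecialLinearGroup ι F :=
    { toFun := fun M => S2392.blk ε 0 M.1 M.2
      map_one' := S2392.rowChar F ε |>.map_zero_eq_one
      map_mul' := fun a b => by rw [S2392.blk_mul]; simp }
  have h3 : K.comap j = ⊤ := Class.SL_eq_top_of_transvection_mem _ fun a b hab c => by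
    have := hK (Pi.single (ε (.inr a)) c) (Pi.single (ε (.inr b)) 1) (by simp [hab]) (by simp)
    rw [Subgroup.mem_comap]
    convert this using 1
    apply Subtype.ext
    change (S2392.blk ε 0 _ (SpecialLinearGroup.transvection hab c).2).1 = _
    ext i k
    obtain ⟨i, rfl⟩ := ε.surjective i
    obtain ⟨k, rfl⟩ := ε.surjective k
    rcases i with i | i <;> rcases k with k | k <;>
      simp [S2392.blk, slTr, one_apply, vecMulVec_apply, Pi.single_apply, Matrix.single_apply,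
        SpecialLinearGroup.transvection_coe, Matrix.transvection, eq_comm, ite_and]
    split_ifs <;> rfl
  have h4 : g = j ⟨_, h2⟩ * S2392.blk ε (fun j => g.1 (ε (.inl 0)) (ε (.inr j))) 1 det_one := by
    change g = S2392.blk ε 0 _ h2 * _
    rw [S2392.blk_mul]
    apply Subtype.ext
    simpa [S2392.blk] using h1
  rw [h4]
  refine K.mul_mem (Subgroup.mem_comap.1 (h3 ▸ Subgroup.mem_top _)) ?_
  have := hK (Pi.single (ε (.inl 0)) 1) (Sum.elim 0 (fun j => g.1 (ε (.inl 0)) (ε (.inr j))) ∘ ε.symm)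
    (by simp) (by simp)
  convert this using 1
  apply Subtype.ext
  ext i k
  obtain ⟨i, rfl⟩ := ε.surjective i
  obtain ⟨k, rfl⟩ := ε.surjective k
  rcases i with i | i <;> rcases k with k | k <;>
    simp [S2392.blk, slTr, one_apply, vecMulVec_apply, Pi.single_apply, Fin.eq_zero]

theorem sl_mul_inv (g : SLn) : g.1 * (g⁻¹).1 = 1 :=
  (Matrix.SpecialLinearGroup.coe_mul g g⁻¹).symm.trans (by simp)

theorem sl_inv_mul (g : SLn) : (g⁻¹).1 * g.1 = 1 :=
  (Matrix.SpecialLinearGroup.coe_mul g⁻¹ g).symm.trans (by simp)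

/-- The Levi embedding. -/
def lev : SLn →* Sp where
  toFun g := spLevi g.1 (g⁻¹).1 (sl_mul_inv g)
  map_one' := Subtype.ext (by simp [coe_spLevi, fromBlocks_one])
  map_mul' g h := Subtype.ext (by
    simp only [Submonoid.coe_mul, coe_spLevi, fromBlocks_multiply, _root_.mul_inv_rev,
      SpecialLinearGroup.coe_mul, transpose_mul]
    simp)

theorem lev_smul (g : SLn) (a b : Fin n → F) :
    lev g • (Sum.elim a b : N) = Sum.elim (g.1 *ᵥ a) ((g⁻¹).1ᵀ *ᵥ b) := by
  change fromBlocks g.1 0 0 (g⁻¹).1ᵀ *ᵥ _ = _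
  simp [fromBlocks_mulVec]

theorem lev_smul_R (g : SLn) (b : Fin n → F) : lev g • (R b : N) = R ((g⁻¹).1ᵀ *ᵥ b) := by
  rw [lev_smul, mulVec_zero]

theorem dot_lev (g : SLn) (b y : Fin n → F) : ((g⁻¹).1ᵀ *ᵥ b) ⬝ᵥ (g.1 *ᵥ y) = b ⬝ᵥ y := by
  rw [mulVec_transpose, ← dotProduct_mulVec, mulVec_mulVec, sl_inv_mul]
  simp

/-- A short root element. -/
def sg (E x : N) (c : F) : Sp := tv (E + x) c * tv x (-c) * tv E (-c)

theorem sg_smul {E x : N} (h : B E x = 0) (c : F) (y : N) :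
    sg E x c • y = y + (c * B y E) • x + (c * B y x) • E := by
  have h' : B x E = 0 := by rw [form_skew, h, neg_zero]
  simp only [sg, mul_smul, tv_smul, form_add_left, form_add_right, form_smul_left, h, h', form_self]
  module

theorem lev_slTr (a e : Fin n → F) (h : e ⬝ᵥ a = 0) (c : F) :
    lev (slTr (-c • a) e (by simp [h])) = sg (R e) (Sum.elim a 0) c := by
  have : (slTr (-c • a) e (by simp [h]))⁻¹ = slTr (c • a) e (by simp [h]) := by
    rw [inv_eq_iff_mul_eq_one]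
    refine Subtype.ext (Matrix.toLin'.injective (LinearMap.ext fun x => ?_))
    change ((1 + vecMulVec (-c • a) e) * (1 + vecMulVec (c • a) e)) *ᵥ x = 1 *ᵥ x
    rw [← mulVec_mulVec, Class.GLStab.one_add_vecMulVec_mulVec,
      Class.GLStab.one_add_vecMulVec_mulVec]
    simp [h]
  refine ext_smul fun y => ?_
  rw [← Sum.elim_comp_inl_inr y, lev_smul, this, sg_smul (by simp [form_elim, h]), form_elim,
    form_elim]
  simp only [slTr, transpose_add, transpose_one, transpose_vecMulVec,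
    Class.GLStab.one_add_vecMulVec_mulVec]
  ext (i | i) <;> simp [dotProduct_comm]
  ring

variable [Fintype F] [DecidableEq F] {ψ : AddChar F ℂ} {V : Type*} [AddCommGroup V] [Module ℂ V]

/-- The elements intertwined by `Φ`. -/
def intw (ω : Sp →* Module.End ℂ W) (ρ : Sp →* Module.End ℂ V) (Φ : W →ₗ[ℂ] V) : Subgroup Sp where
  carrier := {g | ∀ w, Φ (ω g w) = ρ g (Φ w)}
  one_mem' w := by simp
  mul_mem' {a b} ha hb w := by simp [ha _, hb _]
  inv_mem' {a} ha w := rep_injective ρ a (by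
    rw [← ha, ← Module.End.mul_apply, ← Module.End.mul_apply, ← map_mul, ← map_mul]; simp)

omit [Fintype F] [DecidableEq F] in
theorem mem_intw {ω : Sp →* Module.End ℂ W} {ρ : Sp →* Module.End ℂ V} {Φ : W →ₗ[ℂ] V} {g : Sp} :
    g ∈ intw ω ρ Φ ↔ ∀ w, Φ (ω g w) = ρ g (Φ w) := Iff.rfl

theorem weil_lev_single (h2 : (2 : F) ≠ 0) (hψ : ψ ≠ 1) (g : SLn) {y z : Fin n → F}
    (h : g.1 *ᵥ y ≠ z) : weilRep h2 hψ (lev g) (Pi.single y 1) z = 0 := by
  obtain ⟨i, hi⟩ := Function.ne_iff.1 h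
  have := (hw_single (ψ := ψ) (g.1ᵀ *ᵥ Pi.single i 1) y).weil h2 hψ (lev g)
  rw [lev_smul_R, mulVec_mulVec, ← transpose_mul, sl_mul_inv] at this
  refine this.apply_eq_zero h2 hψ ?_
  rw [mulVec_transpose, mulVec_transpose, ← dotProduct_mulVec, ← dotProduct_mulVec]
  simpa using hi.symm

theorem exists_levi_intw (h2 : (2 : F) ≠ 0) (hψ : ψ ≠ 1) (hn : 2 ≤ n) {ρ : Sp →* Module.End ℂ V}
    (hρ : R1 ψ ρ) {i0 : Fin n} (hi : i0.1 = 0) {v : V} (hv0 : v ≠ 0)
    (hv : ∀ b c, ρ (tv (R b) c) v = ψ (c * (b ⬝ᵥ Pi.single i0 1) ^ 2) • v) :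
    ∃ Φ : W →ₗ[ℂ] V, Φ (Pi.single (Pi.single i0 1) 1) ≠ 0 ∧
      (∀ g, lev g ∈ intw (weilRep h2 hψ) ρ Φ) ∧ ∀ b c, tv (R b) c ∈ intw (weilRep h2 hψ) ρ Φ := by
  set y0 : Fin n → F := Pi.single i0 1
  set ω := weilRep (n := n) h2 hψ
  let Φ : W →ₗ[ℂ] V := ∑ g : SLn, ρ (lev g) ∘ₗ (LinearMap.proj y0).smulRight v ∘ₗ ω (lev g⁻¹)
  have hΦ : ∀ w, Φ w = ∑ g : SLn, ω (lev g⁻¹) w y0 • ρ (lev g) v := fun w => by simp [Φ]
  refine ⟨Φ, ?_, fun h w => ?_, fun b c w => ?_⟩
  · let K : Subgroup SLn := ((MulAction.stabilizer (Module.End ℂ V)ˣ v).comap ρ.toHomUnits ⊓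
      (MulAction.stabilizer (Module.End ℂ W)ˣ (Pi.single y0 1 : W)).comap ω.toHomUnits).comap lev
    have hK : ∀ g, g ∈ K ↔ ρ (lev g) v = v ∧ ω (lev g) (Pi.single y0 1) = Pi.single y0 1 :=
      fun g => Iff.rfl
    obtain ⟨m, rfl⟩ : ∃ m, n = m + 1 := ⟨n - 1, by omega⟩
    let ε : Fin 1 ⊕ Fin m ≃ Fin (m + 1) := finSumFinEquiv.trans (finCongr (Nat.add_comm 1 m))
    have hε : ε (.inl 0) = i0 := Fin.ext (by simp [ε, hi])
    have key : ∀ g : SpecialLinearGroup (Fin (m + 1)) F, g.1 *ᵥ y0 = y0 → g ∈ K := by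
      intro g hg
      refine mem_of_fix ε K (fun a e h he => ?_) (by rwa [hε])
      rw [hε] at he
      have h1 := lev_slTr a e h (-1)
      simp only [neg_neg, one_smul] at h1
      have hB : sympForm (m + 1) F (Sum.elim 0 e) (Sum.elim a 0) = 0 := by simp [form_elim, h]
      have h3 : ∀ c, ρ (tv (Sum.elim 0 e) c) v = v := fun c => by rw [hv, he]; simp
      have h4 := hw_single (ψ := ψ) e y0
      rw [he] at h4
      rw [hK, h1, sg, tv_commute (by simp [form_add_left, hB, form_self])]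
      simp only [map_mul, Module.End.mul_apply, h3, hρ.fix h2 hψ hB h3]
      refine ⟨by rw [← Module.End.mul_apply, ← map_mul, tv_mul_tv]; simp [tv_zero], ?_⟩
      refine LinearMap.mem_eqLocus.1 (mem_of_HW h2 hψ hB h4 (LinearMap.eqLocus
        (ω _ * ω _ * ω _) LinearMap.id) fun s w h5 h6 => ?_)
      simp only [LinearMap.mem_eqLocus, Module.End.mul_apply, ω, h5.weil_tv h2 hψ hn, map_smul,
        (h5.add hB h6).weil_tv h2 hψ hn, h6.weil_tv h2 hψ hn, smul_smul, ← AddChar.map_add_eq_mul]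
      simp
    rw [hΦ, Finset.sum_congr rfl (g := fun g => if g.1 *ᵥ y0 = y0 then v else 0), ← Finset.sum_filter,
      Finset.sum_const, ← Nat.cast_smul_eq_nsmul ℂ]
    · refine smul_ne_zero (Nat.cast_ne_zero.2 (Finset.card_ne_zero.2 ⟨1, by simp⟩)) hv0
    · intro g _
      split_ifs with hg
      · rw [((hK _).1 (key g hg)).1, ((hK _).1 (K.inv_mem (key g hg))).2]; simp
      · rw [weil_lev_single h2 hψ, zero_smul]
        intro e
        apply hg
        nth_rewrite 1 [← e]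
        rw [mulVec_mulVec, sl_mul_inv]; simp
  · rw [hΦ, hΦ, map_sum, ← Equiv.sum_comp (Equiv.mulLeft h)]
    refine Finset.sum_congr rfl fun g _ => ?_
    rw [← Module.End.mul_apply, ← map_mul, ← map_mul]
    simp
  · rw [hΦ, hΦ, map_sum]
    refine Finset.sum_congr rfl fun g _ => ?_
    have e1 : tv (R b) c * lev g = lev g * tv (lev g⁻¹ • R b) c := by
      rw [mul_tv, map_inv, smul_inv_smul]
    rw [← Module.End.mul_apply, ← map_mul, mul_tv, map_smul, ← Module.End.mul_apply (ρ _), ← map_mul,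
      e1, lev_smul_R, map_mul, map_mul, Module.End.mul_apply, Module.End.mul_apply, hv, map_smul,
      smul_smul]
    congr 1
    generalize ω (lev g⁻¹) w = w'
    generalize (g⁻¹⁻¹).1ᵀ *ᵥ b = b'
    have : (LinearMap.proj y0 : W →ₗ[ℂ] ℂ) ∘ₗ ω (tv (R b') c) =
        ψ (c * (b' ⬝ᵥ y0) ^ 2) • LinearMap.proj y0 := by
      refine LinearMap.pi_ext' fun z => LinearMap.ext_ring ?_
      simp only [LinearMap.comp_apply, LinearMap.coe_single, ω, (hw_single b' z).weil_tv h2 hψ hn]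
      by_cases hz : z = y0
      · simp [hz]
      · simp [Ne.symm hz]
    simpa [mul_comm] using LinearMap.congr_fun this w'

theorem intw_of_HW (h2 : (2 : F) ≠ 0) (hψ : ψ ≠ 1) (hn : 2 ≤ n) {ρ : Sp →* Module.End ℂ V}
    (hρ : R1 ψ ρ) {Φ : W →ₗ[ℂ] V} (h1 : ∀ g, lev g ∈ intw (weilRep h2 hψ) ρ Φ)
    (h3 : ∀ b c, tv (R b) c ∈ intw (weilRep h2 hψ) ρ Φ) {e : Fin n → F} {u : N}
    (hB : B (R e) u = 0) {r : F} (hr : r ≠ 0) {w : W} (hw : HW ψ (R e) r w) (c : F) :
    Φ (weilRep h2 hψ (tv u c) w) = ρ (tv u c) (Φ w) := by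
  obtain ⟨a, b, rfl⟩ : ∃ a b, u = Sum.elim a b := ⟨_, _, (Sum.elim_comp_inl_inr u).symm⟩
  have hea : e ⬝ᵥ a = 0 := by simpa [form_elim] using hB
  have key : ∀ c, tv (R e + Sum.elim a b) c * tv (Sum.elim a b) (-c) ∈ intw (weilRep h2 hψ) ρ Φ := by
    intro c
    have e1 : tv (R e + Sum.elim a b) c * tv (Sum.elim a b) (-c) = sg (R e) (Sum.elim a 0) c *
        sg (R e) (R b) c * tv (R e) (c - c ^ 2 * (b ⬝ᵥ a)) := by
      rw [← mul_inv_eq_iff_eq_mul, tv_inv]
      have e2 : (Sum.elim a b : N) = Sum.elim a 0 + R b := by ext (i | i) <;> simp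
      have b1 : B (R e) (Sum.elim a 0) = 0 := by simp [form_elim, hea]
      have b2 : B (R e) (R b) = 0 := by simp [form_elim]
      have b3 : B (R b) (Sum.elim a 0) = b ⬝ᵥ a := by simp [form_elim]
      have b4 : B (R b) (R e) = 0 := by simp [form_elim]
      have b5 : B (Sum.elim a 0) (R e) = 0 := by rw [form_skew, b1, neg_zero]
      have b6 : B (Sum.elim a 0) (R b) = -(b ⬝ᵥ a) := by rw [form_skew, b3]
      refine ext_smul fun y => ?_
      simp only [e2, mul_smul, sg_smul b1, sg_smul b2, tv_smul, form_add_left, form_add_right,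
        form_smul_left, b1, b2, b3, b4, b5, b6, form_self]
      module
    rw [e1, ← lev_slTr a e hea, sg, show (R e + R b : N) = R (e + b) by ext (i | i) <;> simp]
    exact mul_mem (mul_mem (h1 _) (mul_mem (mul_mem (h3 _ _) (h3 _ _)) (h3 _ _))) (h3 _ _)
  refine LinearMap.mem_eqLocus.1 (mem_of_HW h2 hψ hB hw (LinearMap.eqLocus
    (Φ ∘ₗ weilRep h2 hψ _) (ρ _ ∘ₗ Φ)) fun s w h5 h6 => ?_)
  rw [LinearMap.mem_eqLocus, LinearMap.comp_apply, LinearMap.comp_apply, h6.weil_tv h2 hψ hn,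
    map_smul, hρ.eigen h2 hψ hB hr (s := s) (fun c => by rw [← h3, h5.weil_tv h2 hψ hn, map_smul])]
  intro c
  rw [← key, map_mul, Module.End.mul_apply, h6.weil_tv h2 hψ hn, map_smul,
    (h5.add hB h6).weil_tv h2 hψ hn, smul_smul, ← AddChar.map_add_eq_mul, map_smul]
  congr 2; ring

theorem intw_step [FiniteDimensional ℂ V] (h2 : (2 : F) ≠ 0) (hψ : ψ ≠ 1) (hn : 2 ≤ n)
    {ρ : Sp →* Module.End ℂ V} {Φ : W →ₗ[ℂ] V}
    (h1 : ∀ (a b y : Fin n → F) (c : F), y ∉ Submodule.span F {a} →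
      Φ (weilRep h2 hψ (tv (Sum.elim a b) c) (Pi.single y 1)) =
        ρ (tv (Sum.elim a b) c) (Φ (Pi.single y 1)))
    {a b a' b' : Fin n → F} (ha : a' ∉ Submodule.span F {a})
    (hB : B (Sum.elim a b) (Sum.elim a' b') = 0)
    (h0 : Φ (weilRep h2 hψ (tv (Sum.elim a' b') 1) (Pi.single 0 1)) =
        ρ (tv (Sum.elim a' b') 1) (Φ (Pi.single 0 1))) (c : F) :
    tv (Sum.elim a b) c ∈ intw (weilRep h2 hψ) ρ Φ := by
  classical
  set ω := weilRep (n := n) h2 hψ
  set t : Sp := tv (Sum.elim a b) c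
  set t' : Sp := tv (Sum.elim a' b') 1
  have sp : ∀ (s : Sp) (w : W), (∀ y, w y ≠ 0 → Φ (ω s (Pi.single y 1)) = ρ s (Φ (Pi.single y 1))) →
      Φ (ω s w) = ρ s (Φ w) := by
    intro s w h
    rw [← Finset.univ_sum_single w]
    simp only [map_sum]
    refine Finset.sum_congr rfl fun y _ => ?_
    rw [show (Pi.single y (w y) : W) = w y • Pi.single y 1 by simp [← Pi.single_smul]]
    by_cases hy : w y = 0
    · simp [hy]
    · simp only [map_smul, h y hy]
  have off : ∀ w : W, (∀ y ∈ Submodule.span F {a}, w y = 0) → Φ (ω t w) = ρ t (Φ w) :=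
    fun w hw => sp t w fun y hy => h1 a b y c fun h => hy (hw y h)
  have on : ∀ w : W, (∀ y ∉ Submodule.span F {a}, w y = 0) → Φ (ω t' w) = ρ t' (Φ w) :=
    fun w hw => sp t' w fun y hy => by
      by_cases hy0 : y = 0
      · rw [hy0, h0]
      refine h1 a' b' y 1 fun h => ha ?_
      obtain ⟨l, rfl⟩ := Submodule.mem_span_singleton.1 h
      have hl : l ≠ 0 := by rintro rfl; simp at hy0
      exact (Submodule.smul_mem_iff _ hl).1 (by_contra fun h' => hy (hw _ h'))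
  have app : ∀ (a b : Fin n → F) c (w : W) z, ω (tv (Sum.elim a b) c) w z = ∑ μ, tvCoef ψ c μ *
      (ψ ((μ • b) ⬝ᵥ (z + z + μ • a)) * w (z + μ • a)) := by
    intro a b c w z
    simp only [ω, weil_tv h2 hψ hn, tvOp, LinearMap.sum_apply, LinearMap.smul_apply,
      Finset.sum_apply, Pi.smul_apply, heis_apply, smul_eq_mul]
    rfl
  have on2 : ∀ w : W, (∀ y ∉ Submodule.span F {a}, w y = 0) →
      ∀ y ∉ Submodule.span F {a}, ω t w y = 0 := fun w hw y hy => by
    rw [app]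
    refine Finset.sum_eq_zero fun μ _ => ?_
    rw [hw _ fun h => hy ((Submodule.add_mem_iff_left _
      (Submodule.smul_mem _ _ (Submodule.mem_span_singleton_self a))).1 h)]
    simp
  have off2 : ∀ w : W, (∀ y ∉ Submodule.span F {a}, w y = 0) →
      ∀ y ∈ Submodule.span F {a}, (ω t' w - tvCoef ψ 1 0 • w) y = 0 := fun w hw y hy => by
    rw [Pi.sub_apply, app, Finset.sum_eq_single 0]
    · simp
    · intro μ _ hμ
      rw [hw _ fun h => ha ((Submodule.smul_mem_iff _ hμ).1 ((Submodule.add_mem_iff_right _ hy).1 h))]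
      simp
    · simp
  have hc : t * t' = t' * t := tv_commute hB _ _
  have main : ∀ w : W, (∀ y ∉ Submodule.span F {a}, w y = 0) → Φ (ω t w) = ρ t (Φ w) := by
    intro w hw
    by_contra hne
    have e1 := off _ (off2 w hw)
    have e2 := on _ (on2 w hw)
    rw [map_sub, map_sub, map_sub, map_sub, on w hw, ← Module.End.mul_apply (ω t), ← map_mul, hc,
      map_mul, Module.End.mul_apply, e2, ← Module.End.mul_apply (ρ t), ← map_mul, hc, map_mul,
      Module.End.mul_apply] at e1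
    simp only [map_smul] at e1
    have e3 : ρ t' (Φ (ω t w) - ρ t (Φ w)) = tvCoef ψ 1 0 • (Φ (ω t w) - ρ t (Φ w)) := by
      rw [map_sub, smul_sub]
      linear_combination (norm := module) e1
    have he : Module.End.HasEigenvector (ρ t') (tvCoef ψ 1 0) (Φ (ω t w) - ρ t (Φ w)) :=
      ⟨Module.End.mem_eigenspace_iff.2 e3, sub_ne_zero.2 hne⟩
    have e4 := he.pow_apply (orderOf t')
    rw [← map_pow, pow_orderOf_eq_one, map_one, Module.End.one_apply] at e4
    exact tvCoef_pow_ne_one h2 hψ (orderOf_pos t').ne'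
      (smul_left_injective ℂ he.2 (e4.symm.trans (one_smul _ _).symm))
  intro w
  have : w = (fun y => if y ∈ Submodule.span F {a} then w y else 0) +
      fun y => if y ∈ Submodule.span F {a} then 0 else w y := by
    ext y; by_cases h : y ∈ Submodule.span F {a} <;> simp [h]
  rw [this, map_add, map_add, map_add, map_add, main _ fun y hy => if_neg hy,
    off _ fun y hy => if_pos hy]

theorem exists_intw [FiniteDimensional ℂ V] (h2 : (2 : F) ≠ 0) (hψ : ψ ≠ 1) (hn : 2 ≤ n)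
    {ρ : Sp →* Module.End ℂ V} (hρ : R1 ψ ρ) {i0 : Fin n} (hi : i0.1 = 0) {v : V} (hv0 : v ≠ 0)
    (hv : ∀ b c, ρ (tv (R b) c) v = ψ (c * (b ⬝ᵥ Pi.single i0 1) ^ 2) • v) :
    ∃ Φ : W →ₗ[ℂ] V, Φ ≠ 0 ∧ ∀ g w, Φ (weilRep h2 hψ g w) = ρ g (Φ w) := by
  obtain ⟨Φ, p0, p1, p2⟩ := exists_levi_intw h2 hψ hn hρ hi hv0 hv
  set ω := weilRep (n := n) h2 hψ
  set a0 : Fin n → F := Pi.single i0 1
  have ha0 : a0 ≠ 0 := by simp [a0]
  set t0 : Sp := tv (Sum.elim a0 0) 1
  obtain ⟨ξ, hξ⟩ : ∃ ξ, (ρ t0 - tvCoef ψ 1 0 • 1) ξ =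
      Φ (ω t0 (Pi.single 0 1)) - ρ t0 (Φ (Pi.single 0 1)) := by
    refine LinearMap.surjective_of_injective (f := ρ t0 - tvCoef ψ 1 0 • 1) ?_ _
    rw [injective_iff_map_eq_zero]
    intro x hx
    by_contra hne
    have he : Module.End.HasEigenvector (ρ t0) (tvCoef ψ 1 0) x :=
      ⟨Module.End.mem_eigenspace_iff.2 (by simpa [sub_eq_zero] using hx), hne⟩
    have e4 := he.pow_apply (orderOf t0)
    rw [← map_pow, pow_orderOf_eq_one, map_one, Module.End.one_apply] at e4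
    exact tvCoef_pow_ne_one h2 hψ (orderOf_pos t0).ne'
      (smul_left_injective ℂ he.2 (e4.symm.trans (one_smul _ _).symm))
  let Ψ : W →ₗ[ℂ] V := Φ + (LinearMap.proj 0).smulRight ξ
  have hΨ : ∀ w, Ψ w = Φ w + w 0 • ξ := fun w => rfl
  have h1 : ∀ (a b y : Fin n → F) (c : F), y ∉ Submodule.span F {a} →
      Ψ (ω (tv (Sum.elim a b) c) (Pi.single y 1)) =
        ρ (tv (Sum.elim a b) c) (Ψ (Pi.single y 1)) := by
    intro a b y c hy
    obtain ⟨e, he, he'⟩ := Class.GLStab.exists_dot_eq_of_notMem _ hy 1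
    have hB : B (R e) (Sum.elim a b) = 0 := by
      simp [form_elim, he a (Submodule.mem_span_singleton_self a)]
    have hw := hw_single (ψ := ψ) e y
    rw [he'] at hw
    have hw' := hw.weil h2 hψ (tv (Sum.elim a b) c)
    rw [tv_smul_of_orth _ hB] at hw'
    rw [hΨ, hΨ, hw.apply_eq_zero h2 hψ (by simp), hw'.apply_eq_zero h2 hψ (by simp),
      intw_of_HW h2 hψ hn hρ p1 p2 hB one_ne_zero hw]
    simp
  have h0 : Ψ (ω t0 (Pi.single 0 1)) = ρ t0 (Ψ (Pi.single 0 1)) := by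
    have : ω t0 (Pi.single 0 1) 0 = tvCoef ψ 1 0 := by
      simp only [ω, t0, weil_tv h2 hψ hn, tvOp, LinearMap.sum_apply, LinearMap.smul_apply,
        Finset.sum_apply, Pi.smul_apply, heis_apply, smul_eq_mul]
      rw [Finset.sum_eq_single 0]
      · simp
      · intro μ _ hμ
        rw [Pi.single_eq_of_ne, mul_zero, mul_zero]
        exact fun e => smul_ne_zero hμ ha0 (by rw [zero_add] at e; exact e)
      · simp
    rw [hΨ, hΨ, this, map_add]
    simp only [LinearMap.sub_apply, LinearMap.smul_apply, Module.End.one_apply] at hξ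
    simp only [Pi.single_eq_same, one_smul]
    linear_combination (norm := module) -hξ
  have sp : ∀ {x y : Fin n → F}, x ≠ 0 → x ∈ Submodule.span F {y} → y ∈ Submodule.span F {x} := by
    intro x y hx h
    obtain ⟨l, rfl⟩ := Submodule.mem_span_singleton.1 h
    have hl : l ≠ 0 := by rintro rfl; simp at hx
    exact Submodule.mem_span_singleton.2 ⟨l⁻¹, by simp [smul_smul, hl]⟩
  have ex : ∀ x y : Fin n → F, ∃ z, z ∉ Submodule.span F {x} ∧ z ∉ Submodule.span F {y} := by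
    intro x y
    have : ∀ x : Fin n → F, ∃ z, z ∉ Submodule.span F {x} := fun x => by
      obtain ⟨z, -, hz⟩ := SLM.exists_ker_notMem (ι := Empty) Empty.elim (Submodule.span F {x}) (by
        have := @finrank_span_le_card F _ _ _ _ _ ({x} : Set (Fin n → F)) _
        simp at this ⊢
        omega)
      exact ⟨z, hz⟩
    obtain ⟨z1, h1⟩ := this x
    obtain ⟨z2, h2⟩ := this y
    by_cases h3 : z1 ∈ Submodule.span F {y}
    · by_cases h4 : z2 ∈ Submodule.span F {x}
      · exact ⟨z1 + z2, fun h => h1 ((Submodule.add_mem_iff_left _ h4).1 h),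
          fun h => h2 ((Submodule.add_mem_iff_right _ h3).1 h)⟩
      · exact ⟨z2, h4, h2⟩
    · exact ⟨z1, h1, h3⟩
  have s1 : ∀ a b c, a ∉ Submodule.span F {a0} → tv (Sum.elim a b) c ∈ intw ω ρ Ψ := by
    intro a b c ha
    obtain ⟨a1, h3, h4⟩ := ex a a0
    obtain ⟨b1, h5, h6⟩ := Class.GLStab.exists_dot_eq_of_notMem _ ha (b ⬝ᵥ a1)
    refine intw_step h2 hψ hn h1 (a' := a1) (b' := b1) h3 (by simp [form_elim, ← h6, dotProduct_comm])
      (intw_step h2 hψ hn h1 (fun h => h4 (sp ha0 h)) ?_ h0 1 _) c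
    simp [form_elim, h5 a0 (Submodule.mem_span_singleton_self a0)]
  have s2 : ∀ a b c, a ≠ 0 → tv (Sum.elim a b) c ∈ intw ω ρ Ψ := by
    intro a b c ha
    obtain ⟨a1, h3, h4⟩ := ex a a0
    obtain ⟨b1, -, h6⟩ := Class.GLStab.exists_dot_eq_of_notMem ⊥ (u := a) (by simpa) (b ⬝ᵥ a1)
    exact intw_step h2 hψ hn h1 (a' := a1) (b' := b1) h3 (by simp [form_elim, ← h6, dotProduct_comm])
      (s1 _ _ _ h4 _) c
  have s3 : intw ω ρ Ψ = ⊤ := eq_top_of_tv_mem fun u c => by
    obtain ⟨a, b, rfl⟩ : ∃ a b, u = Sum.elim a b := ⟨_, _, (Sum.elim_comp_inl_inr u).symm⟩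
    by_cases ha : a = 0
    swap
    · exact s2 a b c ha
    subst ha
    obtain ⟨a1, h3, h4⟩ := SLM.exists_ker_notMem ![dotProductBilin F F b] ⊥ (by simp; omega)
    have h5 : b ⬝ᵥ a1 = 0 := h3 0
    exact intw_step h2 hψ hn h1 (a' := a1) (b' := 0) (by simpa using h4) (by simp [form_elim, h5])
      (s2 _ _ _ (by simpa using h4) _) c
  refine ⟨Ψ, fun e => p0 ?_, fun g => mem_intw.1 (s3 ▸ Subgroup.mem_top g)⟩
  have := hΨ (Pi.single a0 1)
  rw [e, Pi.single_eq_of_ne ha0.symm] at this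
  simpa using this.symm

end Cfsg.Agent.KSG
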